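import Cfsg.Agent.Helper16.S4Defs2

/-!
# CALL S3702 (helper16), piece VXW: the counting sets at `g = x w`, `w ∈ W ∖ 1`
-/

set_option autoImplicit false

namespace Cfsg.Agent.Helper42

open Cfsg Cfsg.Agent.Helper16 DihedralGroup

section

variable {G : Type*} [Group G]

theorem s4v_cpow (t g : G) (n : ℕ) : (t⁻¹ * g * t) ^ n = t⁻¹ * g ^ n * t := by
  have := conj_pow (a := t⁻¹) (b := g) (i := n)
  rwa [inv_inv] at this

theorem s4v_eq_one_of_conj {t g : G} (h : t⁻¹ * g * t = 1) : g = 1 := by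
  have : g = t * (t⁻¹ * g * t) * t⁻¹ := by group
  rw [this, h]
  group

theorem s4v_coprime_one [Finite G] {W : Subgroup G} {v : G} (hv : v ∈ W) {k : ℕ}
    (hk : (Nat.card W).Coprime k) (h : v ^ k = 1) : v = 1 := by
  have h1 : orderOf v ∣ Nat.card W := Subgroup.orderOf_dvd_natCard W hv
  have h2 : orderOf v ∣ k := orderOf_dvd_of_pow_eq_one h
  have h3 : orderOf v = 1 := Nat.eq_one_of_dvd_coprimes hk h1 h2
  exact orderOf_eq_one_iff.mp h3

theorem s4v_pow_card [Finite G] {W : Subgroup G} {v : G} (hv : v ∈ W) : v ^ Nat.card W = 1 := by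
  have h1 : orderOf v ∣ Nat.card W := Subgroup.orderOf_dvd_natCard W hv
  exact orderOf_dvd_iff_pow_eq_one.mp h1

/-- the number of `t` conjugating `x` to `x` or `x⁻¹`, when some `b` inverts `x ≠ x⁻¹` -/
theorem s4v_card_M [Finite G] (x b : G) (hb : b * x * b⁻¹ = x⁻¹) (hne : x⁻¹ ≠ x) :
    Nat.card ↥({t : G | t⁻¹ * x * t = x ∨ t⁻¹ * x * t = x⁻¹} : Set G) =
      2 * Nat.card (Subgroup.centralizer ({x} : Set G)) := by
  classical
  have hA : ({t : G | t⁻¹ * x * t = x} : Set G) = (Subgroup.centralizer ({x} : Set G) : Set G) := by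
    ext t
    simp only [Set.mem_ofPred_eq, SetLike.mem_coe, Subgroup.mem_centralizer_iff,
      Set.mem_singleton_iff, forall_eq]
    constructor
    · intro h
      calc x * t = t * (t⁻¹ * x * t) := by group
        _ = t * x := by rw [h]
    · intro h
      calc t⁻¹ * x * t = t⁻¹ * (x * t) := by group
        _ = t⁻¹ * (t * x) := by rw [h]
        _ = x := by group
  have hB : ({t : G | t⁻¹ * x * t = x⁻¹} : Set G) =
      (fun c => c * b⁻¹) '' ({t : G | t⁻¹ * x * t = x} : Set G) := by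
    ext t
    simp only [Set.mem_ofPred_eq, Set.mem_image]
    constructor
    · intro h
      refine ⟨t * b, ?_, by group⟩
      calc (t * b)⁻¹ * x * (t * b) = b⁻¹ * (t⁻¹ * x * t) * b := by group
        _ = b⁻¹ * x⁻¹ * b := by rw [h]
        _ = b⁻¹ * (b * x * b⁻¹) * b := by rw [hb]
        _ = x := by group
    · rintro ⟨c, hc, rfl⟩
      calc (c * b⁻¹)⁻¹ * x * (c * b⁻¹) = b * (c⁻¹ * x * c) * b⁻¹ := by group
        _ = b * x * b⁻¹ := by rw [hc]
        _ = x⁻¹ := hb
  have hU : ({t : G | t⁻¹ * x * t = x ∨ t⁻¹ * x * t = x⁻¹} : Set G) =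
      ({t : G | t⁻¹ * x * t = x} : Set G) ∪ ({t : G | t⁻¹ * x * t = x⁻¹} : Set G) := by
    ext t
    simp
  have hdisj : Disjoint ({t : G | t⁻¹ * x * t = x} : Set G) ({t : G | t⁻¹ * x * t = x⁻¹} : Set G) := by
    rw [Set.disjoint_left]
    intro t h1 h2
    simp only [Set.mem_ofPred_eq] at h1 h2
    exact hne (h2.symm.trans h1)
  rw [Nat.card_coe_set_eq, hU, Set.ncard_union_eq hdisj (Set.toFinite _) (Set.toFinite _), hB,
    Set.ncard_image_of_injective _ (mul_left_injective b⁻¹), hA, ← Nat.card_coe_set_eq]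
  have : Nat.card ↥((Subgroup.centralizer ({x} : Set G) : Set G)) =
      Nat.card ↥(Subgroup.centralizer ({x} : Set G)) := rfl
  rw [this]
  ring

end

/-! ### model facts (proved here by `decide`, independent of the model module) -/

set_option maxRecDepth 100000 in
theorem s4v_m_P_pow3 : ∀ p : SM, sP p → p ^ 3 = 1 := by decide +kernel

set_option maxRecDepth 100000 in
theorem s4v_m_P_cases : ∀ p : SM, sP p → kap p ≠ 0 →
    p = sx ∨ p = sx⁻¹ ∨ p = sx * sz ∨ p = sx * sz⁻¹ ∨ p = sx⁻¹ * sz ∨ p = sx⁻¹ * sz⁻¹ := by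
  decide +kernel

set_option maxRecDepth 100000 in
theorem s4v_m_R_pow9 : ∀ m : SM, sR m → m ^ 9 = 1 := by decide +kernel

theorem s4v_m_x : sx ^ 3 = 1 ∧ sx ≠ 1 ∧ ¬ sJ sx ∧ kap sx = 1 ∧ sP sx ∧ sx⁻¹ ≠ sx := by decide

theorem s4v_m_b : sb ^ 2 = 1 ∧ sb * sx * sb⁻¹ = sx⁻¹ ∧ sb * sz * sb⁻¹ = sz⁻¹ := by decide

theorem s4v_m_P_inv : ∀ p : SM, sP p → sP p⁻¹ := by
  intro p hp
  unfold sP at *
  calc p⁻¹ * sx = p⁻¹ * (sx * p) * p⁻¹ := by group
    _ = p⁻¹ * (p * sx) * p⁻¹ := by rw [hp]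
    _ = sx * p⁻¹ := by group

theorem s4v_kap_sx : kap sx ≠ 0 := by decide

theorem s4v_kap_sx_inv : kap sx⁻¹ ≠ 0 := by decide

theorem s4v_four_aux : (sx * sz ≠ 1 ∧ sx * sz ≠ sx ∧ sx * sz ≠ sx⁻¹) ∧
    (sx * sz⁻¹ ≠ 1 ∧ sx * sz⁻¹ ≠ sx ∧ sx * sz⁻¹ ≠ sx⁻¹) ∧
    (sx⁻¹ * sz ≠ 1 ∧ sx⁻¹ * sz ≠ sx ∧ sx⁻¹ * sz ≠ sx⁻¹) ∧
    (sx⁻¹ * sz⁻¹ ≠ 1 ∧ sx⁻¹ * sz⁻¹ ≠ sx ∧ sx⁻¹ * sz⁻¹ ≠ sx⁻¹) := by
  decide

theorem s4v_four_ne (m : SM)
    (hm : m = sx * sz ∨ m = sx * sz⁻¹ ∨ m = sx⁻¹ * sz ∨ m = sx⁻¹ * sz⁻¹) :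
    m ≠ 1 ∧ m ≠ sx ∧ m ≠ sx⁻¹ := by
  obtain ⟨h1, h2, h3, h4⟩ := s4v_four_aux
  rcases hm with rfl | rfl | rfl | rfl
  · exact h1
  · exact h2
  · exact h3
  · exact h4

section

variable {G : Type*} [Group G] {φ : SM →* G} {W : Subgroup G}

-- VXW
theorem s4_vxw [Finite G] (h : S4Cfg φ) (hW : XData φ W) (hX : XFacts φ W) (w : G) (hw : w ∈ W)
    (hw1 : w ≠ 1) :
    s4N1 φ (φ sx * w) = ∅ ∧ s4NP φ (φ sx * w) = ∅ ∧
      Nat.card (s4NC φ W (φ sx * w)) = 18 * Nat.card W := by
  have hx3 : φ sx ^ 3 = 1 := by rw [← map_pow, s4v_m_x.1, map_one]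
  have hx9 : φ sx ^ 9 = 1 := by
    have : φ sx ^ 9 = (φ sx ^ 3) ^ 3 := by rw [← pow_mul]
    rw [this, hx3, one_pow]
  have hxw : Commute (φ sx) w := (hW.le w hw).symm
  have hcop : (Nat.card W).Coprime 3 := hW.cop
  have hcop9 : (Nat.card W).Coprime 9 := by
    have : (9 : ℕ) = 3 ^ 2 := by norm_num
    rw [this]
    exact Nat.Coprime.pow_right 2 hcop
  have hsPx : sP sx := s4v_m_x.2.2.2.2.1
  have hxne : (φ sx)⁻¹ ≠ φ sx := by
    intro e
    apply s4v_m_x.2.2.2.2.2
    apply h.inj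
    rw [map_inv, e]
  have hb : φ sb * φ sx * (φ sb)⁻¹ = (φ sx)⁻¹ := by
    rw [← map_inv, ← map_mul, ← map_mul, s4v_m_b.2.1, map_inv]
  refine ⟨?_, ?_, ?_⟩
  · rw [Set.eq_empty_iff_forall_notMem]
    rintro t ⟨m, hm, ht⟩
    apply hw1
    have h9 : (t⁻¹ * (φ sx * w) * t) ^ 9 = 1 := by
      rw [ht, ← map_pow, s4v_m_R_pow9 m hm, map_one]
    rw [s4v_cpow] at h9
    have h9' := s4v_eq_one_of_conj h9
    rw [hxw.mul_pow, hx9, one_mul] at h9'
    exact s4v_coprime_one hw hcop9 h9'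
  · rw [Set.eq_empty_iff_forall_notMem]
    rintro t ⟨m, hm, -, ht⟩
    apply hw1
    have h3 : (t⁻¹ * (φ sx * w) * t) ^ 3 = 1 := by
      rw [ht, ← map_pow, s4v_m_P_pow3 m hm, map_one]
    rw [s4v_cpow] at h3
    have h3' := s4v_eq_one_of_conj h3
    rw [hxw.mul_pow, hx3, one_mul] at h3'
    exact s4v_coprime_one hw hcop h3'
  · have hset : s4NC φ W (φ sx * w) =
        ({t : G | t⁻¹ * φ sx * t = φ sx ∨ t⁻¹ * φ sx * t = (φ sx)⁻¹} : Set G) := by
      ext t
      constructor
      · rintro ⟨w', hw', m, hm, hk, ht⟩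
        -- notation
        obtain ⟨x', hx'⟩ : ∃ x' : G, x' = t⁻¹ * φ sx * t := ⟨_, rfl⟩
        obtain ⟨w'', hw''⟩ : ∃ w'' : G, w'' = t⁻¹ * w * t := ⟨_, rfl⟩
        have hy : x' * w'' = w' * φ m := by
          rw [← ht, hx', hw'']
          group
        have hcomm : Commute x' w'' := by
          have e1 : x' * w'' = t⁻¹ * (φ sx * w) * t := by rw [hx', hw'']; group
          have e2 : w'' * x' = t⁻¹ * (w * φ sx) * t := by rw [hx', hw'']; group
          show x' * w'' = w'' * x'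
          rw [e1, e2, hxw.eq]
        have hx'3 : x' ^ 3 = 1 := by
          rw [hx', s4v_cpow, hx3]
          group
        have hw''n : w'' ^ Nat.card W = 1 := by
          rw [hw'', s4v_cpow, s4v_pow_card hw]
          group
        -- `y = w' φ m` commutes with `φ sx`
        have hmx : Commute (φ m) (φ sx) := by
          show φ m * φ sx = φ sx * φ m
          rw [← map_mul, ← map_mul, hm]
        have hw'x : Commute w' (φ sx) := hW.le w' hw'
        have hyx : Commute (w' * φ m) (φ sx) := hw'x.mul_left hmx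
        -- `x'` is a power of `y`
        obtain ⟨k, hk0, hk1⟩ := Nat.chineseRemainder hcop 0 1
        have hx'pow : x' = (w' * φ m) ^ k := by
          rw [← hy, hcomm.mul_pow]
          have e1 : x' ^ k = x' := by
            rw [pow_eq_pow_mod k hx'3]
            have : k % 3 = 1 := by
              have := hk1
              unfold Nat.ModEq at this
              simpa using this
            rw [this, pow_one]
          have e2 : w'' ^ k = 1 := by
            rw [pow_eq_pow_mod k hw''n]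
            have : k % Nat.card W = 0 := by
              have := hk0
              unfold Nat.ModEq at this
              simpa using this
            rw [this, pow_zero]
          rw [e1, e2, mul_one]
        have hx'x : Commute x' (φ sx) := by
          rw [hx'pow]
          exact hyx.pow_left k
        have hw''x : Commute w'' (φ sx) := by
          have e : w'' = x'⁻¹ * (w' * φ m) := by rw [← hy]; group
          rw [e]
          exact hx'x.inv_left.mul_left hyx
        have hw''W : w'' ∈ W := hX.mem w'' hw''x.eq (Nat.card W) hcop hw''n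
        have hw''1 : w'' ≠ 1 := by
          intro e
          apply hw1
          rw [hw''] at e
          exact s4v_eq_one_of_conj e
        -- `x' = w₃ φ m`
        obtain ⟨w₃, hw₃def⟩ : ∃ w₃ : G, w₃ = w' * (φ m * w''⁻¹ * (φ m)⁻¹) := ⟨_, rfl⟩
        have hw₃ : w₃ ∈ W := by
          rw [hw₃def]
          exact mul_mem hw' (hW.norm (φ m) hmx.eq w''⁻¹ (inv_mem hw''W))
        have hx'eq : x' = w₃ * φ m := by
          have e : x' = w' * φ m * w''⁻¹ := by rw [← hy]; group
          rw [e, hw₃def]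
          group
        have hw₃x : Commute w₃ (φ sx) := hW.le w₃ hw₃
        have hfour : ∀ m' : SM, m' = m →
            (m' = sx * sz ∨ m' = sx * sz⁻¹ ∨ m' = sx⁻¹ * sz ∨ m' = sx⁻¹ * sz⁻¹) → False := by
          intro m' hm' h4
          subst hm'
          obtain ⟨n1, n2, n3⟩ := s4v_four_ne m' h4
          obtain ⟨c, hc, hceq⟩ := hX.frob m' hm n1 n2 n3 w₃ hw₃
          apply hw''1
          have hcw : c⁻¹ * w'' * c ∈ W := mul_mem (mul_mem (inv_mem hc) hw''W) hc
          have hcomm2 : c⁻¹ * w'' * c * φ m' = φ m' * (c⁻¹ * w'' * c) := by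
            have e1 : φ m' = c⁻¹ * x' * c := by
              rw [hx'eq, ← hceq]
              group
            rw [e1]
            calc c⁻¹ * w'' * c * (c⁻¹ * x' * c) = c⁻¹ * (w'' * x') * c := by group
              _ = c⁻¹ * (x' * w'') * c := by rw [hcomm.eq]
              _ = c⁻¹ * x' * c * (c⁻¹ * w'' * c) := by group
          have h1 := hX.cent m' hm n1 n2 n3 _ hcw hcomm2
          have : w'' = c * (c⁻¹ * w'' * c) * c⁻¹ := by group
          rw [this, h1]
          group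
        rcases s4v_m_P_cases m hm hk with rfl | rfl | h4 | h4 | h4 | h4
        · left
          show t⁻¹ * φ sx * t = φ sx
          rw [← hx', hx'eq]
          have h3 : (w₃ * φ sx) ^ 3 = 1 := by rw [← hx'eq]; exact hx'3
          rw [hw₃x.mul_pow, hx3, mul_one] at h3
          rw [s4v_coprime_one hw₃ hcop h3, one_mul]
        · right
          show t⁻¹ * φ sx * t = (φ sx)⁻¹
          rw [← hx', hx'eq]
          have h3 : (w₃ * φ sx⁻¹) ^ 3 = 1 := by rw [← hx'eq]; exact hx'3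
          have hc2 : Commute w₃ (φ sx⁻¹) := by
            rw [map_inv]
            exact hw₃x.inv_right
          have hx3' : φ sx⁻¹ ^ 3 = 1 := by
            rw [map_inv, inv_pow, hx3, inv_one]
          rw [hc2.mul_pow, hx3', mul_one] at h3
          rw [s4v_coprime_one hw₃ hcop h3, one_mul, map_inv]
        · exact (hfour m rfl (Or.inl h4)).elim
        · exact (hfour m rfl (Or.inr (Or.inl h4))).elim
        · exact (hfour m rfl (Or.inr (Or.inr (Or.inl h4)))).elim
        · exact (hfour m rfl (Or.inr (Or.inr (Or.inr h4)))).elim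
      · intro ht
        obtain ⟨w'', hw''⟩ : ∃ w'' : G, w'' = t⁻¹ * w * t := ⟨_, rfl⟩
        have hw''n : w'' ^ Nat.card W = 1 := by
          rw [hw'', s4v_cpow, s4v_pow_card hw]
          group
        have hcomm : Commute (t⁻¹ * φ sx * t) w'' := by
          have e1 : t⁻¹ * φ sx * t * w'' = t⁻¹ * (φ sx * w) * t := by rw [hw'']; group
          have e2 : w'' * (t⁻¹ * φ sx * t) = t⁻¹ * (w * φ sx) * t := by rw [hw'']; group
          show t⁻¹ * φ sx * t * w'' = w'' * (t⁻¹ * φ sx * t)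
          rw [e1, e2, hxw.eq]
        have hprod : t⁻¹ * (φ sx * w) * t = w'' * (t⁻¹ * φ sx * t) := by
          rw [← hcomm.eq, hw'']
          group
        rcases ht with ht | ht
        · rw [ht] at hcomm hprod
          have hw''W : w'' ∈ W := hX.mem w'' hcomm.symm.eq (Nat.card W) hcop hw''n
          exact ⟨w'', hw''W, sx, hsPx, s4v_kap_sx, hprod⟩
        · rw [ht] at hcomm hprod
          have hc' : Commute w'' (φ sx) := by
            have := hcomm.symm.inv_right
            rwa [inv_inv] at this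
          have hw''W : w'' ∈ W := hX.mem w'' hc'.eq (Nat.card W) hcop hw''n
          refine ⟨w'', hw''W, sx⁻¹, s4v_m_P_inv sx hsPx, s4v_kap_sx_inv, ?_⟩
          rw [hprod, map_inv]
    rw [hset, s4v_card_M (φ sx) (φ sb) hb hxne, hX.card]
    ring

end

end Cfsg.Agent.Helper42
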