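import Cfsg.Agent.Helper16.S4Defs2
import Cfsg.Agent.Helper16.H3Glue
import Cfsg.Agent.Helper42.S4VXW

/-!
# CALL S3702 (helper16), piece BURN: the normal `3`-complement `W` of `C_G(x)`
(Burnside's transfer theorem for the self-normalizing abelian Sylow `3`-subgroup `φ P₂`).
-/

set_option autoImplicit false

namespace Cfsg.Agent.Helper42

open Cfsg Cfsg.Agent.Helper16 DihedralGroup

/-! ### model facts -/

theorem s4b_P_one : sP 1 := by
  unfold sP
  rw [one_mul, mul_one]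

theorem s4b_P_mul (p q : SM) (hp : sP p) (hq : sP q) : sP (p * q) := by
  unfold sP at *
  rw [mul_assoc, hq, ← mul_assoc, hp, mul_assoc]

set_option maxRecDepth 100000 in
theorem s4b_P_comm : ∀ p : SM, sP p → ∀ q : SM, sP q → p * q = q * p := by decide +kernel

theorem s4b_z : sP sz ∧ sE sz := by decide

section

variable {G : Type*} [Group G] {φ : SM →* G}

-- BURN
theorem s4_xdata [Finite G] (h : S4Cfg φ) (hTI : TICfg φ sE) : ∃ W : Subgroup G, XData φ W := by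
  classical
  haveI : Fact (Nat.Prime 3) := ⟨by norm_num⟩
  obtain ⟨C, hC⟩ : ∃ C : Subgroup G, C = Subgroup.centralizer ({φ sx} : Set G) := ⟨_, rfl⟩
  have hCmem : ∀ c : G, c ∈ C ↔ c * φ sx = φ sx * c := by
    intro c
    rw [hC, Subgroup.mem_centralizer_iff]
    simp only [Set.mem_singleton_iff, forall_eq]
    exact eq_comm
  -- the subgroup `P₀ = φ P₂` of `↥C`
  let P₀ : Subgroup ↥C :=
    { carrier := {c | ∃ p : SM, sP p ∧ (c : G) = φ p}
      one_mem' := ⟨1, s4b_P_one, by rw [Subgroup.coe_one, map_one]⟩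
      mul_mem' := by
        rintro a b ⟨p, hp, ha⟩ ⟨q, hq, hb⟩
        exact ⟨p * q, s4b_P_mul p q hp hq, by rw [Subgroup.coe_mul, ha, hb, map_mul]⟩
      inv_mem' := by
        rintro a ⟨p, hp, ha⟩
        exact ⟨p⁻¹, s4v_m_P_inv p hp, by rw [Subgroup.coe_inv, ha, map_inv]⟩ }
  have hP₀mem : ∀ c : ↥C, c ∈ P₀ ↔ ∃ p : SM, sP p ∧ (c : G) = φ p := fun c => Iff.rfl
  have hP₀pg : IsPGroup 3 ↥P₀ := by
    rintro ⟨c, hc⟩
    obtain ⟨p, hp, hcp⟩ := (hP₀mem c).mp hc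
    have hc3 : c ^ 3 = 1 := by
      apply Subtype.ext
      rw [Subgroup.coe_pow, hcp, ← map_pow, s4v_m_P_pow3 p hp, map_one]
      rfl
    refine ⟨1, ?_⟩
    apply Subtype.ext
    rw [pow_one, Subgroup.coe_pow]
    exact hc3
  have hzC : φ sz ∈ C := by
    have hzx : sz * sx = sx * sz := s4b_z.1
    rw [hCmem, ← map_mul, ← map_mul, hzx]
  -- `N_C(P₀) ≤ P₀`
  have hnorm : Subgroup.normalizer (P₀ : Set ↥C) ≤ P₀ := by
    intro q hq
    rw [Subgroup.mem_normalizer_iff] at hq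
    have hz : (⟨φ sz, hzC⟩ : ↥C) ∈ P₀ := (hP₀mem _).mpr ⟨sz, s4b_z.1, rfl⟩
    obtain ⟨p, hp, hqp⟩ := (hP₀mem _).mp ((hq _).mp hz)
    have hr : (q : G) * φ sz * (q : G)⁻¹ ∈ φ.range := by
      refine ⟨p, ?_⟩
      rw [← hqp]
      rfl
    obtain ⟨q₀, hq₀⟩ := hTI.ti sz s4b_z.2 (q : G) hr
    refine (hP₀mem q).mpr ⟨q₀, ?_, hq₀.symm⟩
    apply h.inj
    rw [map_mul, map_mul, hq₀]
    exact (hCmem _).mp q.2
  -- `P₀` is a Sylow `3`-subgroup of `↥C`
  obtain ⟨Q, hQ⟩ := hP₀pg.exists_le_sylow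
  have hQeq : (Q : Subgroup ↥C) = P₀ := by
    refine le_antisymm ?_ hQ
    by_contra hnot
    have hQpg : IsPGroup 3 ↥(Q : Subgroup ↥C) := Q.isPGroup'
    haveI := hQpg.isNilpotent
    obtain ⟨H, hH⟩ : ∃ H : Subgroup ↥(Q : Subgroup ↥C), H = P₀.subgroupOf (Q : Subgroup ↥C) :=
      ⟨_, rfl⟩
    have hHmem : ∀ c : ↥(Q : Subgroup ↥C), c ∈ H ↔ (c : ↥C) ∈ P₀ := by
      intro c
      rw [hH, Subgroup.mem_subgroupOf]
    have hlt : H < ⊤ := by
      rw [lt_top_iff_ne_top]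
      intro e
      apply hnot
      intro c hc
      have h1 : (⟨c, hc⟩ : ↥(Q : Subgroup ↥C)) ∈ H := by rw [e]; trivial
      exact (hHmem _).mp h1
    have hnc := Group.normalizerCondition_of_isNilpotent (G := ↥(Q : Subgroup ↥C)) H hlt
    obtain ⟨q, hqN, hqH⟩ := SetLike.exists_of_lt hnc
    apply hqH
    rw [Subgroup.mem_normalizer_iff] at hqN
    have hqn : (q : ↥C) ∈ Subgroup.normalizer (P₀ : Set ↥C) := by
      rw [Subgroup.mem_normalizer_iff]
      intro c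
      constructor
      · intro hc
        have hcQ : c ∈ (Q : Subgroup ↥C) := hQ hc
        have h1 := (hqN ⟨c, hcQ⟩).mp ((hHmem _).mpr hc)
        exact (hHmem _).mp h1
      · intro hc
        have hcQ : c ∈ (Q : Subgroup ↥C) := by
          have h1 : (q : ↥C) * c * (q : ↥C)⁻¹ ∈ (Q : Subgroup ↥C) := hQ hc
          have h2 : c = (q : ↥C)⁻¹ * ((q : ↥C) * c * (q : ↥C)⁻¹) * (q : ↥C) := by group
          rw [h2]
          exact mul_mem (mul_mem (inv_mem q.2) h1) q.2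
        have h1 := (hqN ⟨c, hcQ⟩).mpr ((hHmem _).mpr hc)
        exact (hHmem _).mp h1
    exact (hHmem q).mpr (hnorm hqn)
  -- Burnside
  have hP : Subgroup.normalizer (Q : Set ↥C) ≤ Subgroup.centralizer (Q : Set ↥C) := by
    intro q hq
    have hq' : q ∈ Subgroup.normalizer (((Q : Subgroup ↥C)) : Set ↥C) := hq
    rw [hQeq] at hq'
    obtain ⟨p, hp, hqp⟩ := (hP₀mem q).mp (hnorm hq')
    rw [Subgroup.mem_centralizer_iff]
    intro c hc
    have hc' : c ∈ (Q : Subgroup ↥C) := hc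
    rw [hQeq] at hc'
    obtain ⟨p', hp', hcp⟩ := (hP₀mem c).mp hc'
    apply Subtype.ext
    rw [Subgroup.coe_mul, Subgroup.coe_mul, hqp, hcp, ← map_mul, ← map_mul,
      s4b_P_comm p' hp' p hp]
  have hcompl := MonoidHom.ker_transferSylow_isComplement' Q hP
  have hnd := MonoidHom.not_dvd_card_ker_transferSylow Q hP
  obtain ⟨K, hK⟩ : ∃ K : Subgroup ↥C, K = (MonoidHom.transferSylow Q hP).ker := ⟨_, rfl⟩
  rw [← hK] at hcompl hnd
  have hKn : K.Normal := by rw [hK]; exact MonoidHom.normal_ker _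
  refine ⟨K.map C.subtype, ?_⟩
  constructor
  · rintro w ⟨k, -, rfl⟩
    exact (hCmem _).mp k.2
  · rintro c hc w ⟨k, hk, rfl⟩
    exact ⟨⟨c, (hCmem c).mpr hc⟩ * k * ⟨c, (hCmem c).mpr hc⟩⁻¹, hKn.conj_mem k hk _, rfl⟩
  · rw [Subgroup.card_map_of_injective C.subtype_injective]
    exact ((Nat.Prime.coprime_iff_not_dvd (by norm_num)).mpr hnd).symm
  · intro c hc
    obtain ⟨⟨k, q⟩, hkq⟩ := hcompl.2 ⟨c, (hCmem c).mpr hc⟩
    have hqP : (q : ↥C) ∈ P₀ := by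
      have hqQ : (q : ↥C) ∈ (Q : Subgroup ↥C) := q.2
      exact hQeq.le hqQ
    obtain ⟨p, hp, hqp⟩ := (hP₀mem _).mp hqP
    refine ⟨((k : ↥C) : G), ⟨(k : ↥C), k.2, rfl⟩, p, hp, ?_⟩
    have h1 := congrArg (Subtype.val) hkq
    rw [← hqp]
    exact h1.symm

end

end Cfsg.Agent.Helper42
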