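import Mathlib

/-!
Abelian subgroups of symmetric and alternating groups: the orbit-product bound and the
maximal products of partitions (helper library of helper42; used for S2504, S2505).
-/

set_option autoImplicit false

namespace Cfsg.Agent.Helper42

/-! ### Maximal products of partitions -/

/-- the largest product of a partition of `n` -/
def gmax : ℕ → ℕ
  | 0 => 1
  | 1 => 1
  | 2 => 2
  | 3 => 3
  | 4 => 4
  | (n + 5) => 3 * gmax (n + 2)

theorem gmax_add_five (n : ℕ) : gmax (n + 5) = 3 * gmax (n + 2) := by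
  rw [gmax]

theorem le_gmax (a : ℕ) : a ≤ gmax a := by
  induction a using Nat.strong_induction_on with
  | _ a ih =>
    rcases Nat.lt_or_ge a 5 with h | h
    · interval_cases a <;> decide
    · obtain ⟨b, rfl⟩ : ∃ b, a = b + 5 := ⟨a - 5, by omega⟩
      rw [gmax_add_five]
      have := ih (b + 2) (by omega)
      omega

theorem gmax_mul_le (n : ℕ) : ∀ a b, a + b = n → gmax a * gmax b ≤ gmax n := by
  induction n using Nat.strong_induction_on with
  | _ n ih =>
    intro a b hab
    rcases Nat.lt_or_ge a 5 with ha | ha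
    · rcases Nat.lt_or_ge b 5 with hb | hb
      · subst hab
        interval_cases a <;> interval_cases b <;> decide
      · obtain ⟨b', rfl⟩ : ∃ b', b = b' + 5 := ⟨b - 5, by omega⟩
        have h1 := ih (a + (b' + 2)) (by omega) a (b' + 2) rfl
        subst hab
        rw [gmax_add_five, show a + (b' + 5) = (a + b') + 5 by ring, gmax_add_five,
          show a + b' + 2 = a + (b' + 2) by ring]
        calc gmax a * (3 * gmax (b' + 2)) = 3 * (gmax a * gmax (b' + 2)) := by ring
          _ ≤ 3 * gmax (a + (b' + 2)) := Nat.mul_le_mul_left 3 h1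
    · obtain ⟨a', rfl⟩ : ∃ a', a = a' + 5 := ⟨a - 5, by omega⟩
      have h1 := ih ((a' + 2) + b) (by omega) (a' + 2) b rfl
      subst hab
      rw [gmax_add_five, show a' + 5 + b = (a' + b) + 5 by ring, gmax_add_five,
        show a' + b + 2 = (a' + 2) + b by ring]
      calc 3 * gmax (a' + 2) * gmax b = 3 * (gmax (a' + 2) * gmax b) := by ring
        _ ≤ 3 * gmax ((a' + 2) + b) := Nat.mul_le_mul_left 3 h1

theorem prod_le_gmax {Ω : Type*} (T : Finset Ω) (s : Ω → ℕ) :
    ∏ ω ∈ T, s ω ≤ gmax (∑ ω ∈ T, s ω) := by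
  classical
  induction T using Finset.induction_on with
  | empty => simp [gmax]
  | insert a T ha ih =>
    rw [Finset.prod_insert ha, Finset.sum_insert ha]
    calc s a * ∏ ω ∈ T, s ω ≤ gmax (s a) * gmax (∑ ω ∈ T, s ω) :=
          Nat.mul_le_mul (le_gmax _) ih
      _ ≤ gmax (s a + ∑ ω ∈ T, s ω) := gmax_mul_le _ _ _ rfl

theorem gmax_three_mul (k : ℕ) : gmax (3 * k) = 3 ^ k := by
  induction k with
  | zero => rfl
  | succ k ih =>
    rcases k with _ | k
    · rfl
    · rw [show 3 * (k + 1 + 1) = (3 * k + 1) + 5 by ring, gmax_add_five,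
        show 3 * k + 1 + 2 = 3 * (k + 1) by ring, ih, pow_succ 3 (k + 1)]
      ring

theorem gmax_three_mul_add_one (k : ℕ) : gmax (3 * (k + 1) + 1) = 4 * 3 ^ k := by
  induction k with
  | zero => rfl
  | succ k ih =>
    rw [show 3 * (k + 1 + 1) + 1 = (3 * k + 2) + 5 by ring, gmax_add_five,
      show 3 * k + 2 + 2 = 3 * (k + 1) + 1 by ring, ih, pow_succ]
    ring

theorem gmax_three_mul_add_two (k : ℕ) : gmax (3 * k + 2) = 2 * 3 ^ k := by
  induction k with
  | zero => rfl
  | succ k ih =>
    rw [show 3 * (k + 1) + 2 = (3 * k) + 5 by ring, gmax_add_five, ih, pow_succ]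
    ring

/-- the largest product of a partition of `n` without parts equal to `2` -/
def gmax2 : ℕ → ℕ
  | 0 => 1
  | 1 => 1
  | 2 => 1
  | 3 => 3
  | 4 => 4
  | 5 => 5
  | 6 => 9
  | 7 => 12
  | 8 => 16
  | (n + 9) => 3 * gmax2 (n + 6)

theorem gmax2_add_nine (n : ℕ) : gmax2 (n + 9) = 3 * gmax2 (n + 6) := by
  rw [gmax2]

theorem le_gmax2 (a : ℕ) (ha : a ≠ 2) : a ≤ gmax2 a := by
  induction a using Nat.strong_induction_on with
  | _ a ih =>
    rcases Nat.lt_or_ge a 9 with h | h
    · interval_cases a <;> first | decide | exact absurd rfl ha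
    · obtain ⟨b, rfl⟩ : ∃ b, a = b + 9 := ⟨a - 9, by omega⟩
      rw [gmax2_add_nine]
      have := ih (b + 6) (by omega) (by omega)
      omega

theorem gmax2_mul_le (n : ℕ) : ∀ a b, a + b = n → gmax2 a * gmax2 b ≤ gmax2 n := by
  induction n using Nat.strong_induction_on with
  | _ n ih =>
    intro a b hab
    rcases Nat.lt_or_ge a 9 with ha | ha
    · rcases Nat.lt_or_ge b 9 with hb | hb
      · subst hab
        interval_cases a <;> interval_cases b <;> decide
      · obtain ⟨b', rfl⟩ : ∃ b', b = b' + 9 := ⟨b - 9, by omega⟩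
        have h1 := ih (a + (b' + 6)) (by omega) a (b' + 6) rfl
        subst hab
        rw [gmax2_add_nine, show a + (b' + 9) = (a + b') + 9 by ring, gmax2_add_nine,
          show a + b' + 6 = a + (b' + 6) by ring]
        calc gmax2 a * (3 * gmax2 (b' + 6)) = 3 * (gmax2 a * gmax2 (b' + 6)) := by ring
          _ ≤ 3 * gmax2 (a + (b' + 6)) := Nat.mul_le_mul_left 3 h1
    · obtain ⟨a', rfl⟩ : ∃ a', a = a' + 9 := ⟨a - 9, by omega⟩
      have h1 := ih ((a' + 6) + b) (by omega) (a' + 6) b rfl
      subst hab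
      rw [gmax2_add_nine, show a' + 9 + b = (a' + b) + 9 by ring, gmax2_add_nine,
        show a' + b + 6 = (a' + 6) + b by ring]
      calc 3 * gmax2 (a' + 6) * gmax2 b = 3 * (gmax2 (a' + 6) * gmax2 b) := by ring
        _ ≤ 3 * gmax2 ((a' + 6) + b) := Nat.mul_le_mul_left 3 h1

theorem prod_le_gmax2 {Ω : Type*} (T : Finset Ω) (s : Ω → ℕ) (hs : ∀ ω ∈ T, s ω ≠ 2) :
    ∏ ω ∈ T, s ω ≤ gmax2 (∑ ω ∈ T, s ω) := by
  classical
  induction T using Finset.induction_on with
  | empty => simp [gmax2]
  | insert a T ha ih =>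
    rw [Finset.prod_insert ha, Finset.sum_insert ha]
    calc s a * ∏ ω ∈ T, s ω ≤ gmax2 (s a) * gmax2 (∑ ω ∈ T, s ω) :=
          Nat.mul_le_mul (le_gmax2 _ (hs a (Finset.mem_insert_self a T)))
            (ih fun ω hω => hs ω (Finset.mem_insert_of_mem hω))
      _ ≤ gmax2 (s a + ∑ ω ∈ T, s ω) := gmax2_mul_le _ _ _ rfl

theorem gmax2_three_mul_add_two (k : ℕ) : gmax2 (3 * (k + 2) + 2) = 16 * 3 ^ k := by
  induction k with
  | zero => rfl
  | succ k ih =>
    rw [show 3 * (k + 1 + 2) + 2 = (3 * k + 2) + 9 by ring, gmax2_add_nine,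
      show 3 * k + 2 + 6 = 3 * (k + 2) + 2 by ring, ih, pow_succ]
    ring

/-! ### The orbit-product bound -/

section orbits

open MulAction

/-- the size of an orbit -/
noncomputable def osz (A : Type*) [Group A] {X : Type*} [MulAction A X]
    (ω : orbitRel.Quotient A X) : ℕ := Nat.card (orbit A ω.out)

variable {A : Type*} [Group A] {X : Type*} [MulAction A X]

theorem sum_osz [Fintype X] [Fintype (orbitRel.Quotient A X)] :
    ∑ ω : orbitRel.Quotient A X, osz A ω = Fintype.card X := by
  classical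
  rw [← Nat.card_eq_fintype_card, Nat.card_congr (selfEquivSigmaOrbits A X), Nat.card_sigma]
  rfl

theorem mem_orbit_out_iff (ω : orbitRel.Quotient A X) (x : X) :
    x ∈ orbit A ω.out ↔ (Quotient.mk'' x : orbitRel.Quotient A X) = ω := by
  rw [← orbitRel.Quotient.orbit_eq_orbit_out ω Quotient.out_eq', orbitRel.Quotient.mem_orbit]

theorem card_le_prod_osz [Finite A] [Fintype (orbitRel.Quotient A X)] (T : Finset (orbitRel.Quotient A X))
    (hT : ∀ a : A, (∀ ω ∈ T, a • ω.out = ω.out) → a = 1) : Nat.card A ≤ ∏ ω ∈ T, osz A ω := by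
  classical
  let φ : A → (∀ ω : T, A ⧸ stabilizer A (ω : orbitRel.Quotient A X).out) :=
    fun a ω => (a : A ⧸ _)
  have hφ : Function.Injective φ := by
    intro a b hab
    have h1 : a⁻¹ * b = 1 := by
      apply hT
      intro ω hω
      have h2 := congrFun hab ⟨ω, hω⟩
      exact QuotientGroup.eq.mp h2
    exact inv_mul_eq_one.mp h1
  calc Nat.card A
      ≤ Nat.card (∀ ω : T, A ⧸ stabilizer A (ω : orbitRel.Quotient A X).out) :=
        Nat.card_le_card_of_injective φ hφ
    _ = ∏ ω : T, Nat.card (A ⧸ stabilizer A (ω : orbitRel.Quotient A X).out) := Nat.card_pi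
    _ = ∏ ω : T, osz A (ω : orbitRel.Quotient A X) := by
        refine Finset.prod_congr rfl fun ω _ => ?_
        exact (Nat.card_congr (orbitEquivQuotientStabilizer A _)).symm
    _ = ∏ ω ∈ T, osz A ω := Finset.prod_coe_sort T (osz A)

theorem smul_eq_of_smul_out_eq (hc : ∀ a b : A, a * b = b * a) (a : A) (x : X)
    (h : a • (Quotient.mk'' x : orbitRel.Quotient A X).out =
      (Quotient.mk'' x : orbitRel.Quotient A X).out) : a • x = x := by
  have h1 : x ∈ orbit A (Quotient.mk'' x : orbitRel.Quotient A X).out :=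
    (mem_orbit_out_iff _ x).mpr rfl
  obtain ⟨c, hc'⟩ := h1
  have hc'' : c • (Quotient.mk'' x : orbitRel.Quotient A X).out = x := hc'
  rw [← hc'', smul_smul, hc a c, mul_smul, h]

theorem card_le_gmax_of_faithful [Finite A] [Fintype X] (hc : ∀ a b : A, a * b = b * a)
    [FaithfulSMul A X] :
    Nat.card A ≤ gmax (Fintype.card X) := by
  classical
  have : Fintype (orbitRel.Quotient A X) := Fintype.ofFinite _
  have h1 : Nat.card A ≤ ∏ ω : orbitRel.Quotient A X, osz A ω := by
    apply card_le_prod_osz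
    intro a ha
    apply FaithfulSMul.eq_of_smul_eq_smul (α := X)
    intro x
    rw [one_smul]
    exact smul_eq_of_smul_out_eq hc a x (ha _ (Finset.mem_univ _))
  calc Nat.card A ≤ ∏ ω : orbitRel.Quotient A X, osz A ω := h1
    _ ≤ gmax (∑ ω : orbitRel.Quotient A X, osz A ω) := prod_le_gmax _ _
    _ = gmax (Fintype.card X) := by rw [sum_osz]

end orbits

/-- abelian subgroups of `Sym(n)` have order at most `gmax n` -/
theorem card_le_gmax (n : ℕ) (A : Subgroup (Equiv.Perm (Fin n))) (hA : IsMulCommutative A) :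
    Nat.card A ≤ gmax n := by
  have h := card_le_gmax_of_faithful (A := A) (X := Fin n) (fun a b => mul_comm' a b)
  rwa [Fintype.card_fin] at h

/-- abelian subgroups of `Alt(n)` -/
theorem card_le_of_even (n : ℕ) (A : Subgroup (Equiv.Perm (Fin n))) (hA : IsMulCommutative A)
    (hev : A ≤ alternatingGroup (Fin n)) :
    Nat.card A ≤ gmax2 n ∨ Nat.card A ≤ gmax (n - 2) := by
  classical
  have : Fintype (MulAction.orbitRel.Quotient A (Fin n)) := Fintype.ofFinite _
  have hc : ∀ a b : A, a * b = b * a := fun a b => mul_comm' a b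
  have hsum : ∑ ω : MulAction.orbitRel.Quotient A (Fin n), osz A ω = n := by
    rw [sum_osz, Fintype.card_fin]
  by_cases h2 : ∃ ω : MulAction.orbitRel.Quotient A (Fin n), osz A ω = 2
  · right
    obtain ⟨ω₀, hω₀⟩ := h2
    have h1 : Nat.card A ≤ ∏ ω ∈ Finset.univ.erase ω₀, osz A ω := by
      apply card_le_prod_osz
      intro a ha
      -- a moves at most the two points of the orbit ω₀
      have hfix : ∀ x : Fin n, (Quotient.mk'' x : MulAction.orbitRel.Quotient A (Fin n)) ≠ ω₀ →
          (a : Equiv.Perm (Fin n)) x = x := by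
        intro x hx
        exact smul_eq_of_smul_out_eq hc a x (ha _ (Finset.mem_erase.mpr ⟨hx, Finset.mem_univ _⟩))
      have hsupp : (a : Equiv.Perm (Fin n)).support ⊆ (MulAction.orbit A ω₀.out).toFinset := by
        intro x hx
        rw [Equiv.Perm.mem_support] at hx
        rw [Set.mem_toFinset, mem_orbit_out_iff]
        by_contra hne
        exact hx (hfix x hne)
      have hcard : (a : Equiv.Perm (Fin n)).support.card ≤ 2 := by
        calc (a : Equiv.Perm (Fin n)).support.card ≤ (MulAction.orbit A ω₀.out).toFinset.card :=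
              Finset.card_le_card hsupp
          _ = 2 := by
              rw [Set.toFinset_card, ← Nat.card_eq_fintype_card]
              exact hω₀
      have hsign : Equiv.Perm.sign (a : Equiv.Perm (Fin n)) = 1 :=
        Equiv.Perm.mem_alternatingGroup.mp (hev a.2)
      have h0 : (a : Equiv.Perm (Fin n)).support.card = 0 := by
        have hne1 := Equiv.Perm.card_support_ne_one (a : Equiv.Perm (Fin n))
        have hne2 : (a : Equiv.Perm (Fin n)).support.card ≠ 2 := by
          intro h
          have hsw := Equiv.Perm.card_support_eq_two.mp h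
          rw [hsw.sign_eq] at hsign
          exact absurd hsign (by decide)
        omega
      have h1 : (a : Equiv.Perm (Fin n)) = 1 := Equiv.Perm.card_support_eq_zero.mp h0
      exact Subtype.ext h1
    have hsum' : ∑ ω ∈ Finset.univ.erase ω₀, osz A ω = n - 2 := by
      have := Finset.sum_erase_add Finset.univ (osz A) (Finset.mem_univ ω₀)
      rw [hsum, hω₀] at this
      omega
    calc Nat.card A ≤ ∏ ω ∈ Finset.univ.erase ω₀, osz A ω := h1
      _ ≤ gmax (∑ ω ∈ Finset.univ.erase ω₀, osz A ω) := prod_le_gmax _ _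
      _ = gmax (n - 2) := by rw [hsum']
  · left
    push Not at h2
    have h1 : Nat.card A ≤ ∏ ω : MulAction.orbitRel.Quotient A (Fin n), osz A ω := by
      apply card_le_prod_osz
      intro a ha
      apply FaithfulSMul.eq_of_smul_eq_smul (α := Fin n)
      intro x
      rw [one_smul]
      exact smul_eq_of_smul_out_eq hc a x (ha _ (Finset.mem_univ _))
    calc Nat.card A ≤ ∏ ω : MulAction.orbitRel.Quotient A (Fin n), osz A ω := h1
      _ ≤ gmax2 (∑ ω : MulAction.orbitRel.Quotient A (Fin n), osz A ω) :=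
          prod_le_gmax2 _ _ (fun ω _ => h2 ω)
      _ = gmax2 n := by rw [hsum]

/-! ### Constructions -/

/-- `Sym(n)` has an abelian subgroup of order `c` (inside `Alt(n)` if `e = true`) -/
def HasAb (e : Bool) (n c : ℕ) : Prop :=
  ∃ A : Subgroup (Equiv.Perm (Fin n)), IsMulCommutative A ∧
    (e = true → A ≤ alternatingGroup (Fin n)) ∧ Nat.card A = c

theorem HasAb.weaken {e : Bool} {n c : ℕ} (h : HasAb true n c) : HasAb e n c := by
  obtain ⟨A, h1, h2, h3⟩ := h
  exact ⟨A, h1, fun _ => h2 rfl, h3⟩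

theorem HasAb.add {e : Bool} {n m c d : ℕ} (h₁ : HasAb e n c) (h₂ : HasAb e m d) :
    HasAb e (n + m) (c * d) := by
  obtain ⟨A, hA, hAe, rfl⟩ := h₁
  obtain ⟨B, hB, hBe, rfl⟩ := h₂
  let f : Equiv.Perm (Fin n) × Equiv.Perm (Fin m) →* Equiv.Perm (Fin (n + m)) :=
    (finSumFinEquiv.permCongrHom : Equiv.Perm (Fin n ⊕ Fin m) ≃* Equiv.Perm (Fin (n + m))).toMonoidHom.comp
      (Equiv.Perm.sumCongrHom (Fin n) (Fin m))
  have hf : Function.Injective f := by
    intro x y h
    apply Equiv.Perm.sumCongrHom_injective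
    exact (finSumFinEquiv.permCongrHom :
      Equiv.Perm (Fin n ⊕ Fin m) ≃* Equiv.Perm (Fin (n + m))).injective h
  have hcomm : IsMulCommutative (A.prod B) := by
    rw [isMulCommutative_iff]
    rintro ⟨⟨a, b⟩, ha, hb⟩ ⟨⟨a', b'⟩, ha', hb'⟩
    apply Subtype.ext
    apply Prod.ext
    · exact setLike_mul_comm ha ha'
    · exact setLike_mul_comm hb hb'
  refine ⟨(A.prod B).map f, Subgroup.map_isMulCommutative _ _, ?_, ?_⟩
  · intro he
    rintro _ ⟨⟨a, b⟩, ⟨ha, hb⟩, rfl⟩
    have h1 : Equiv.Perm.sign a = 1 := Equiv.Perm.mem_alternatingGroup.mp (hAe he ha)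
    have h2 : Equiv.Perm.sign b = 1 := Equiv.Perm.mem_alternatingGroup.mp (hBe he hb)
    rw [Equiv.Perm.mem_alternatingGroup]
    show Equiv.Perm.sign (finSumFinEquiv.permCongr (Equiv.sumCongr a b)) = 1
    rw [Equiv.Perm.sign_permCongr, Equiv.Perm.sign_sumCongr, h1, h2, mul_one]
  · rw [Subgroup.card_map_of_injective hf, Nat.card_congr (Subgroup.prodEquiv A B).toEquiv,
      Nat.card_prod]

theorem hasAb_zero : HasAb true 0 1 := by
  refine ⟨⊥, ?_, fun _ => bot_le, ?_⟩
  · rw [isMulCommutative_iff]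
    intro a b
    exact Subsingleton.elim _ _
  · simp

theorem hasAb_three : HasAb true 3 3 := by
  refine ⟨Subgroup.zpowers (finRotate 3), inferInstance, fun _ => ?_, ?_⟩
  · rw [Subgroup.zpowers_le, Equiv.Perm.mem_alternatingGroup, sign_finRotate]
    decide
  · rw [Nat.card_zpowers, ← Equiv.Perm.lcm_cycleType, cycleType_finRotate]
    simp

theorem hasAb_four : HasAb true 4 4 := by
  have h4 : Nat.card (Fin 4) = 4 := by simp
  refine ⟨(alternatingGroup.kleinFour (Fin 4)).map (alternatingGroup (Fin 4)).subtype, ?_,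
    fun _ => ?_, ?_⟩
  · have : IsMulCommutative (alternatingGroup.kleinFour (Fin 4)) := by
      rw [isMulCommutative_iff]
      exact mul_comm_of_exponent_two (alternatingGroup.exponent_kleinFour_of_card_eq_four h4)
    exact Subgroup.map_isMulCommutative _ _
  · rintro _ ⟨a, _, rfl⟩
    exact a.2
  · rw [Subgroup.card_map_of_injective (Subgroup.subtype_injective _),
      alternatingGroup.kleinFour_card_of_card_eq_four h4]

theorem hasAb_two : HasAb false 2 2 := by
  refine ⟨Subgroup.zpowers (Equiv.swap (0 : Fin 2) 1), inferInstance, fun h => absurd h (by decide), ?_⟩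
  rw [Nat.card_zpowers]
  exact orderOf_eq_prime (by decide) (by decide)

theorem hasAb_three_mul (k : ℕ) : HasAb true (3 * k) (3 ^ k) := by
  induction k with
  | zero => exact hasAb_zero
  | succ k ih =>
    have := ih.add hasAb_three
    rwa [show 3 * k + 3 = 3 * (k + 1) by ring, ← pow_succ] at this

theorem hasAb_three_mul_add_one (k : ℕ) : HasAb true (3 * (k + 1) + 1) (4 * 3 ^ k) := by
  have := hasAb_four.add (hasAb_three_mul k)
  rwa [show 4 + 3 * k = 3 * (k + 1) + 1 by ring] at this

theorem hasAb_three_mul_add_two_even (k : ℕ) : HasAb true (3 * (k + 2) + 2) (16 * 3 ^ k) := by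
  have := (hasAb_four.add hasAb_four).add (hasAb_three_mul k)
  rwa [show 4 + 4 + 3 * k = 3 * (k + 2) + 2 by ring, show 4 * 4 * 3 ^ k = 16 * 3 ^ k by ring]
    at this

theorem hasAb_three_mul_add_two (k : ℕ) : HasAb false (3 * k + 2) (2 * 3 ^ k) := by
  have := hasAb_two.add (hasAb_three_mul k).weaken
  rwa [show 2 + 3 * k = 3 * k + 2 by ring] at this

/-! ### Transfer to subgroups of the alternating group -/

theorem exists_alt_of_hasAb {n c : ℕ} (h : HasAb true n c) :
    ∃ A : Subgroup (alternatingGroup (Fin n)), IsMulCommutative A ∧ Nat.card A = c := by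
  obtain ⟨A, hA, hAe, rfl⟩ := h
  refine ⟨A.subgroupOf (alternatingGroup (Fin n)), inferInstance, ?_⟩
  exact Nat.card_congr (Subgroup.subgroupOfEquivOfLe (hAe rfl)).toEquiv

theorem alt_card_le (n : ℕ) (A : Subgroup (alternatingGroup (Fin n))) (hA : IsMulCommutative A) :
    Nat.card A ≤ gmax n ∧ (Nat.card A ≤ gmax2 n ∨ Nat.card A ≤ gmax (n - 2)) := by
  have h1 : Nat.card (A.map (alternatingGroup (Fin n)).subtype) = Nat.card A :=
    Subgroup.card_map_of_injective (Subgroup.subtype_injective _)
  have h2 : IsMulCommutative (A.map (alternatingGroup (Fin n)).subtype) :=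
    Subgroup.map_isMulCommutative _ _
  have h3 : A.map (alternatingGroup (Fin n)).subtype ≤ alternatingGroup (Fin n) := by
    rintro _ ⟨a, _, rfl⟩
    exact a.2
  rw [← h1]
  exact ⟨card_le_gmax n _ h2, card_le_of_even n _ h2 h3⟩

end Cfsg.Agent.Helper42
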