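import Mathlib
import Cfsg.Agent.Helper42.PGraphS2

set_option autoImplicit false

/-!
# Prime graphs of `B_n(q)` and `C_n(q)`: linear algebra of isometries of symmetric forms (helper42)

* `alt_part` : the alternating form `B(Z x, y)`, `Z = S - S⁻¹`, attached to an isometry `S` of odd
  order of a symmetric form;
* `unip_dim3` : a nontrivial unipotent isometry of a symmetric form needs dimension `≥ 3`;
* `o_bound_rs`, `o_bound_rp` : the bounds for isometries of order `r s` and `r p` in odd dimension;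
* `not_orthDec_of_eta`, `invol_scalar`, `o_two_s` : the structure used for elements of order `2 s`.
-/

namespace Cfsg.Agent.Helper42.BC

open Polynomial SpForm SpGroup SpModels SpStruct PGraphL PGraphL2 PGraphS PGraphS2

universe u v

section alt

variable {F : Type u} [Field F] {V : Type v} [AddCommGroup V] [Module F V] [FiniteDimensional F V]

omit [FiniteDimensional F V] in
theorem pow_apply_of_fixed (T : Module.End F V) (x : V) (hx : T x = x) (j : ℕ) : (T ^ j) x = x := by
  induction j with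
  | zero => rfl
  | succ j ih => rw [pow_succ, Module.End.mul_apply, hx, ih]

/-- The alternating form attached to an isometry of odd order of a symmetric form. -/
theorem alt_part (h2 : (2 : F) ≠ 0) (B : LinearMap.BilinForm F V) (hsym : ∀ x y, B x y = B y x)
    (hnd : ∀ v, (∀ w, B v w = 0) → v = 0) (S : Module.End F V) (hS : Preserves B S) (N : ℕ)
    (hN : Odd N) (hNF : (N : F) ≠ 0) (hSN : S ^ N = 1) :
    ∃ (K W : Submodule F V) (B' : LinearMap.BilinForm F V), IsCompl K W ∧
      (∀ x, x ∈ K ↔ S x = x) ∧ (∀ x, B' x x = 0) ∧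
      (∀ w ∈ W, (∀ w' ∈ W, B' w w' = 0) → w = 0) ∧
      (∀ a ∈ K, ∀ w ∈ W, B a w = 0) ∧
      (∀ T : Module.End F V, Commute T S → Preserves B T →
        Preserves B' T ∧ (∀ w ∈ W, T w ∈ W) ∧ (∀ a ∈ K, T a ∈ K)) := by
  classical
  obtain ⟨j, hj⟩ := hN
  obtain ⟨M', hM'⟩ : ∃ M', N = M' + 1 := ⟨2 * j, hj⟩
  obtain ⟨Sinv, hSinv⟩ : ∃ Sinv, Sinv = S ^ M' := ⟨_, rfl⟩
  have hs1 : S * Sinv = 1 := by rw [hSinv, ← pow_succ', ← hM', hSN]
  have hs2 : Sinv * S = 1 := by rw [hSinv, ← pow_succ, ← hM', hSN]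
  have hs1' : ∀ x, S (Sinv x) = x := fun x => by
    rw [← Module.End.mul_apply, hs1, Module.End.one_apply]
  have hs2' : ∀ x, Sinv (S x) = x := fun x => by
    rw [← Module.End.mul_apply, hs2, Module.End.one_apply]
  have hSss : S.IsSemisimple := by
    have hsep : (X ^ N - C (1 : F) : F[X]).Separable := separable_X_pow_sub_C 1 hNF one_ne_zero
    apply Module.End.isSemisimple_of_squarefree_aeval_eq_zero hsep.squarefree
    rw [map_sub, map_pow, aeval_X, aeval_C, hSN, map_one, sub_self]
  obtain ⟨Z, hZ⟩ : ∃ Z, Z = S - Sinv := ⟨_, rfl⟩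
  have hZss : Z.IsSemisimple := by
    have h1 := hSss.aeval (X - X ^ M' : F[X])
    rw [map_sub, aeval_X, map_pow, aeval_X, ← hSinv, ← hZ] at h1
    exact h1
  have hZapp : ∀ x, Z x = S x - Sinv x := fun x => by rw [hZ]; rfl
  have hadj1 : ∀ x y, B (S x) y = B x (Sinv y) := by
    intro x y
    have := hS x (Sinv y)
    rw [hs1'] at this
    exact this
  have hadj2 : ∀ x y, B (Sinv x) y = B x (S y) := by
    intro x y
    have := hS (Sinv x) y
    rw [hs1'] at this
    exact this.symm
  have hZadj : ∀ x y, B (Z x) y = -B x (Z y) := by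
    intro x y
    rw [hZapp, hZapp, map_sub, LinearMap.sub_apply, hadj1, hadj2, map_sub]
    ring
  obtain ⟨B', hB'⟩ : ∃ B' : LinearMap.BilinForm F V, B' = B.comp Z LinearMap.id := ⟨_, rfl⟩
  have hB'app : ∀ x y, B' x y = B (Z x) y := fun x y => by
    rw [hB']
    rfl
  have hcompl := isCompl_ker_range Z hZss
  have hK : ∀ x, x ∈ LinearMap.ker Z ↔ S x = x := by
    intro x
    rw [LinearMap.mem_ker, hZapp, sub_eq_zero]
    constructor
    · intro h
      have h1 : S (S x) = x := by rw [h, hs1']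
      have h3 : ∀ i : ℕ, (S ^ (2 * i)) (S x) = S x := by
        intro i
        induction i with
        | zero => rfl
        | succ i ih =>
          have e : 2 * (i + 1) = 2 * i + 1 + 1 := by ring
          rw [e, pow_succ, pow_succ, Module.End.mul_apply, Module.End.mul_apply, h1, ih]
      have h4 : (S ^ N) x = x := by rw [hSN, Module.End.one_apply]
      rw [hj, pow_succ, Module.End.mul_apply, h3] at h4
      exact h4
    · intro h
      have h1 : Sinv x = x := by
        rw [hSinv]
        exact pow_apply_of_fixed S x h M'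
      rw [h, h1]
  refine ⟨LinearMap.ker Z, LinearMap.range Z, B', hcompl, hK, ?_, ?_, ?_, ?_⟩
  · intro x
    have h1 : B (Z x) x = -B (Z x) x := by
      have := hZadj x x
      rw [hsym x (Z x)] at this
      exact this
    rw [hB'app]
    have h3 : (2 : F) * B (Z x) x = 0 := by linear_combination h1
    exact (mul_eq_zero.mp h3).resolve_left h2
  · intro w hw hw'
    have hZw : Z w = 0 := by
      apply hnd
      intro v
      obtain ⟨a, ha, w', hw'', rfl⟩ := U3Lemmas.exists_decomp _ _ hcompl v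
      rw [map_add, ← hB'app w w', hw' w' hw'', add_zero, hZadj, LinearMap.mem_ker.mp ha, map_zero,
        neg_zero]
    have := hcompl.disjoint.le_bot (Submodule.mem_inf.mpr ⟨LinearMap.mem_ker.mpr hZw, hw⟩)
    exact this
  · rintro a ha _ ⟨v, rfl⟩
    have h1 := hZadj a v
    rw [LinearMap.mem_ker.mp ha, map_zero, LinearMap.zero_apply] at h1
    exact neg_eq_zero.mp h1.symm
  · intro T hTS hT
    have hTSinv : Commute T Sinv := by rw [hSinv]; exact hTS.pow_right M'
    have hTZ : Commute T Z := by rw [hZ]; exact hTS.sub_right hTSinv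
    have hTZ' : ∀ x, Z (T x) = T (Z x) := by
      intro x
      have := congrArg (fun g : Module.End F V => g x) hTZ.eq
      simp only [Module.End.mul_apply] at this
      exact this.symm
    refine ⟨?_, ?_, ?_⟩
    · intro x y
      rw [hB'app, hB'app, hTZ', hT]
    · rintro _ ⟨v, rfl⟩
      exact ⟨T v, hTZ' v⟩
    · intro a ha
      rw [LinearMap.mem_ker] at *
      rw [hTZ', ha, map_zero]

/-- A nontrivial unipotent isometry of a nondegenerate symmetric form lives in dimension at
least three. -/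
theorem unip_dim3 (p : ℕ) [Fact p.Prime] [CharP F p] (h2 : (2 : F) ≠ 0)
    (B : LinearMap.BilinForm F V) (hsym : ∀ x y, B x y = B y x)
    (hnd : ∀ v, (∀ w, B v w = 0) → v = 0) (u : Module.End F V) (hu : Preserves B u)
    (hup : u ^ p = 1) (hu1 : u ≠ 1) : 3 ≤ Module.finrank F V := by
  classical
  haveI : Nontrivial V := by
    by_contra h
    rw [not_nontrivial_iff_subsingleton] at h
    exact hu1 (LinearMap.ext fun x => Subsingleton.elim _ _)
  have hnil : IsNilpotent (u - 1) := nilpotent_sub_one p u 1 (by rw [pow_one]; exact hup)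
  obtain ⟨N, hNdef⟩ : ∃ N, N = u - 1 := ⟨_, rfl⟩
  rw [← hNdef] at hnil
  have hN0 : N ≠ 0 := by
    rw [hNdef]
    intro h
    exact hu1 (sub_eq_zero.mp h)
  have hex : ∃ j, N ^ j = 0 := hnil
  obtain ⟨j₀, hj₀⟩ : ∃ j₀, j₀ = Nat.find hex := ⟨_, rfl⟩
  have hj₀z : N ^ j₀ = 0 := by rw [hj₀]; exact Nat.find_spec hex
  have hmin : ∀ i, i < j₀ → N ^ i ≠ 0 := by
    intro i hi
    rw [hj₀] at hi
    exact Nat.find_min hex hi
  have hj2 : 2 ≤ j₀ := by
    by_contra hlt
    have h01 : j₀ = 0 ∨ j₀ = 1 := by omega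
    rcases h01 with h | h
    · rw [h, pow_zero] at hj₀z
      exact one_ne_zero hj₀z
    · rw [h, pow_one] at hj₀z
      exact hN0 hj₀z
  obtain ⟨i, hi⟩ : ∃ i, j₀ = i + 2 := ⟨j₀ - 2, by omega⟩
  have hne := hmin (i + 1) (by omega)
  obtain ⟨x, hx⟩ : ∃ x, (N ^ (i + 1)) x ≠ 0 := by
    by_contra hcon
    push Not at hcon
    exact hne (LinearMap.ext hcon)
  obtain ⟨w, hw⟩ : ∃ w, w = (N ^ i) x := ⟨_, rfl⟩
  obtain ⟨v, hv⟩ : ∃ v, v = N w := ⟨_, rfl⟩
  have hv0 : v ≠ 0 := by
    rw [hv, hw, ← Module.End.mul_apply, ← pow_succ']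
    exact hx
  have hNv : N v = 0 := by
    have e : N (N ((N ^ i) x)) = (N ^ (i + 2)) x := by
      rw [pow_succ', pow_succ', Module.End.mul_apply, Module.End.mul_apply]
    rw [hv, hw, e, ← hi, hj₀z]
    rfl
  have huapp : ∀ y, u y = N y + y := by
    intro y
    rw [hNdef]
    simp
  have huv : u v = v := by rw [huapp, hNv, zero_add]
  have huw : u w = v + w := by rw [huapp, ← hv]
  have hvv : B v v = 0 := by
    have h1 := hu v w
    rw [huv, huw, map_add] at h1
    linear_combination h1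
  have hvw : B v w = 0 := by
    have h1 := hu w w
    rw [huw, map_add, map_add, LinearMap.add_apply, LinearMap.add_apply, hvv, hsym w v] at h1
    have h3 : (2 : F) * B v w = 0 := by linear_combination h1
    exact (mul_eq_zero.mp h3).resolve_left h2
  obtain ⟨φ, hφ⟩ : ∃ φ : V →ₗ[F] F, φ = B v := ⟨_, rfl⟩
  have hφ0 : LinearMap.range φ ≠ ⊥ := by
    intro h
    rw [LinearMap.range_eq_bot] at h
    apply hv0
    apply hnd
    intro y
    rw [← hφ, h]
    rfl
  have h1 : 1 ≤ Module.finrank F (LinearMap.range φ) := Submodule.one_le_finrank_iff.mpr hφ0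
  have h3 := LinearMap.finrank_range_add_finrank_ker φ
  have hvk : v ∈ LinearMap.ker φ := by rw [LinearMap.mem_ker, hφ]; exact hvv
  have hwk : w ∈ LinearMap.ker φ := by rw [LinearMap.mem_ker, hφ]; exact hvw
  have hli : LinearIndependent F ![(⟨v, hvk⟩ : LinearMap.ker φ), ⟨w, hwk⟩] := by
    rw [LinearIndependent.pair_iff]
    intro a b hab
    have hab' : a • v + b • w = 0 := by
      have := congrArg (fun z : LinearMap.ker φ => (z : V)) hab
      simpa using this
    have h4 : b • v = 0 := by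
      have := congrArg N hab'
      rw [map_add, map_smul, map_smul, hNv, smul_zero, zero_add, ← hv, map_zero] at this
      exact this
    have hb : b = 0 := (smul_eq_zero.mp h4).resolve_right hv0
    rw [hb, zero_smul, add_zero] at hab'
    exact ⟨(smul_eq_zero.mp hab').resolve_right hv0, hb⟩
  have h5 := hli.fintype_card_le_finrank
  rw [Fintype.card_fin] at h5
  omega

end alt

section bounds

variable {F : Type u} [Field F] [Fintype F] {V : Type v} [AddCommGroup V] [Module F V]
  [FiniteDimensional F V]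

omit [Fintype F] in
theorem restrict_ne_of_fixed (T : Module.End F V) (K W : Submodule F V) (hc : IsCompl K W)
    (hTK : ∀ a ∈ K, T a ∈ K) (hTW : ∀ w ∈ W, T w ∈ W) (j : ℕ) (hfix : ∀ a ∈ K, (T ^ j) a = a)
    (hne : T ^ j ≠ 1) : aeval (T.restrict hTW) (X ^ j - 1 : F[X]) ≠ 0 := by
  have h1 : aeval T (X ^ j - 1 : F[X]) ≠ 0 := by
    rw [map_sub, map_pow, aeval_X, map_one]
    intro h
    exact hne (sub_eq_zero.mp h)
  rcases aeval_ne_zero_split T K W hc hTK hTW _ h1 with h | h
  · exfalso
    apply h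
    apply LinearMap.ext
    intro a
    apply Subtype.ext
    rw [SpStruct.aeval_restrict, map_sub, map_pow, aeval_X, map_one, LinearMap.sub_apply,
      hfix a a.2, Module.End.one_apply, sub_self]
    rfl
  · exact h

/-- Isometries of order `r s` of a symmetric form in dimension `2n + 1`. -/
theorem o_bound_rs (p : ℕ) [Fact p.Prime] [CharP F p] (h2 : (2 : F) ≠ 0) (r s : ℕ)
    (hr : r.Prime) (hs : s.Prime) (hr2 : r ≠ 2) (hs2 : s ≠ 2) (hrp : r ≠ p) (hsp : s ≠ p)
    (hrs : r ≠ s) (k l ηk ηl : ℕ) (hk : k = orderOf ((Fintype.card F : ℕ) : ZMod r))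
    (hl : l = orderOf ((Fintype.card F : ℕ) : ZMod s))
    (hηk : (Odd k ∧ ηk = k) ∨ (Even k ∧ 2 * ηk = k))
    (hηl : (Odd l ∧ ηl = l) ∨ (Even l ∧ 2 * ηl = l)) (hkl : ηk ≤ ηl) (n : ℕ)
    (B : LinearMap.BilinForm F V) (hsym : ∀ x y, B x y = B y x)
    (hnd : ∀ v, (∀ w, B v w = 0) → v = 0) (hdim : Module.finrank F V = 2 * n + 1)
    (T : Module.End F V) (hT : Preserves B T) (hTrs : T ^ (r * s) = 1) :
    (T ^ s ≠ 1 → ηk ≤ n) ∧ (T ^ r ≠ 1 → ηl ≤ n) ∧
      (T ^ s ≠ 1 → T ^ r ≠ 1 → ηk + ηl ≤ n ∨ ∃ t, Odd t ∧ l = k * t) := by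
  classical
  have hp : p.Prime := Fact.out
  have hrF : (r : F) ≠ 0 := by
    intro h
    rw [CharP.cast_eq_zero_iff F p r] at h
    exact hrp ((Nat.prime_dvd_prime_iff_eq hp hr).mp h).symm
  have hsF : (s : F) ≠ 0 := by
    intro h
    rw [CharP.cast_eq_zero_iff F p s] at h
    exact hsp ((Nat.prime_dvd_prime_iff_eq hp hs).mp h).symm
  have hl1 : 1 ≤ l := by
    rw [hl]
    exact order_pos p s hs hsp
  obtain ⟨K, W, B', hc, hK, halt, hndW, horth, hT'⟩ := alt_part h2 B hsym hnd T hT (r * s)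
    ((hr.odd_of_ne_two hr2).mul (hs.odd_of_ne_two hs2))
    (by rw [Nat.cast_mul]; exact mul_ne_zero hrF hsF) hTrs
  obtain ⟨hpres, hTW, hTK⟩ := hT' T (Commute.refl T) hT
  have haltW : ∀ x : W, B'.restrict W x x = 0 := fun x => halt _
  have hndW' : ∀ x : W, (∀ y : W, B'.restrict W x y = 0) → x = 0 := by
    intro x hx
    apply Subtype.ext
    exact hndW x x.2 (fun w' hw' => hx ⟨w', hw'⟩)
  obtain ⟨m, hm⟩ := even_finrank _ W (B'.restrict W) haltW hndW' rfl
  have hmle := Submodule.finrank_le W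
  have hmn : m ≤ n := by omega
  have hpresW : Preserves (B'.restrict W) (T.restrict hTW) := fun x y => hpres x y
  have hA : aeval (T.restrict hTW) (X ^ (r * s) - 1 : F[X]) = 0 := by
    apply aeval_restrict_eq_zero
    rw [map_sub, map_pow, aeval_X, map_one, hTrs, sub_self]
  obtain ⟨k1, k2, k3⟩ := struct_bound2 p r s hr hs hr2 hs2 hrp hsp hrs k l ηk ηl hk hl hl1 hηk
    hηl hkl m W (B'.restrict W) (T.restrict hTW) haltW hndW' (by omega) hA hpresW
  have hfix : ∀ j : ℕ, ∀ a ∈ K, (T ^ j) a = a := fun j a ha =>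
    pow_apply_of_fixed T a ((hK a).mp ha) j
  refine ⟨fun h => ?_, fun h => ?_, fun h h' => ?_⟩
  · have := k1 (restrict_ne_of_fixed T K W hc hTK hTW s (hfix s) h)
    omega
  · have := k2 (restrict_ne_of_fixed T K W hc hTK hTW r (hfix r) h)
    omega
  · rcases k3 (restrict_ne_of_fixed T K W hc hTK hTW s (hfix s) h)
      (restrict_ne_of_fixed T K W hc hTK hTW r (hfix r) h') with h3 | h3
    · left
      omega
    · exact Or.inr h3

/-- Isometries of order `r p` of a symmetric form in dimension `2n + 1`. -/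
theorem o_bound_rp (p : ℕ) [Fact p.Prime] [CharP F p] (h2 : (2 : F) ≠ 0) (r : ℕ)
    (hr : r.Prime) (hr2 : r ≠ 2) (hrp : r ≠ p) (k ηk : ℕ)
    (hk : k = orderOf ((Fintype.card F : ℕ) : ZMod r))
    (hηk : (Odd k ∧ ηk = k) ∨ (Even k ∧ 2 * ηk = k)) (n : ℕ)
    (B : LinearMap.BilinForm F V) (hsym : ∀ x y, B x y = B y x)
    (hnd : ∀ v, (∀ w, B v w = 0) → v = 0) (hdim : Module.finrank F V = 2 * n + 1)
    (T : Module.End F V) (hT : Preserves B T) (hTrp : T ^ (r * p) = 1) :
    (T ^ p ≠ 1 → ηk ≤ n) ∧ (T ^ p ≠ 1 → T ^ r ≠ 1 → ηk + 1 ≤ n) := by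
  classical
  have hp : p.Prime := Fact.out
  have hrF : (r : F) ≠ 0 := by
    intro h
    rw [CharP.cast_eq_zero_iff F p r] at h
    exact hrp ((Nat.prime_dvd_prime_iff_eq hp hr).mp h).symm
  have hk1 : 1 ≤ k := by
    rw [hk]
    exact order_pos p r hr hrp
  have hSr : (T ^ p) ^ r = 1 := by rw [← pow_mul, mul_comm, hTrp]
  obtain ⟨K, W, B', hc, hK, halt, hndW, horth, hT'⟩ := alt_part h2 B hsym hnd (T ^ p)
    (hT.pow p) r (hr.odd_of_ne_two hr2) hrF hSr
  obtain ⟨hpres, hTW, hTK⟩ := hT' T ((Commute.refl T).pow_right p) hT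
  have haltW : ∀ x : W, B'.restrict W x x = 0 := fun x => halt _
  have hndW' : ∀ x : W, (∀ y : W, B'.restrict W x y = 0) → x = 0 := by
    intro x hx
    apply Subtype.ext
    exact hndW x x.2 (fun w' hw' => hx ⟨w', hw'⟩)
  obtain ⟨m, hm⟩ := even_finrank _ W (B'.restrict W) haltW hndW' rfl
  have hsum := Submodule.finrank_add_eq_of_isCompl hc
  have hmn : m ≤ n := by omega
  have hpresW : Preserves (B'.restrict W) (T.restrict hTW) := fun x y => hpres x y
  have hA : aeval (T.restrict hTW) ((X ^ p) ^ r - 1 : F[X]) = 0 := by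
    apply aeval_restrict_eq_zero
    rw [map_sub, map_pow, map_pow, aeval_X, map_one, hSr, sub_self]
  have hA' : aeval (T.restrict hTW) ((X ^ r) ^ p - 1 : F[X]) = 0 := by
    apply aeval_restrict_eq_zero
    rw [map_sub, map_pow, map_pow, aeval_X, map_one, ← pow_mul, hTrp, sub_self]
  have hpresA : Preserves (B'.restrict W) (aeval (T.restrict hTW) (X ^ p : F[X])) := by
    rw [map_pow, aeval_X]
    exact hpresW.pow p
  obtain ⟨k1, k2⟩ := struct_bound p r hr hr2 hrp k ηk hk hk1 hηk (X ^ p) (X ^ r) m W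
    (B'.restrict W) (T.restrict hTW) haltW hndW' (by omega) hA hA' hpresA
  have hfix : ∀ a ∈ K, (T ^ p) a = a := fun a ha => (hK a).mp ha
  have ha : T ^ p ≠ 1 → ηk ≤ m := by
    intro h
    exact k1 (restrict_ne_of_fixed T K W hc hTK hTW p hfix h)
  refine ⟨fun h => ?_, fun h h' => ?_⟩
  · have := ha h
    omega
  · have h3 := ha h
    by_cases hWr : aeval (T.restrict hTW) (X ^ r - 1 : F[X]) = 0
    · -- the unipotent part lives on the fixed space
      have h1 : aeval T (X ^ r - 1 : F[X]) ≠ 0 := by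
        rw [map_sub, map_pow, aeval_X, map_one]
        intro h
        exact h' (sub_eq_zero.mp h)
      have hKr : aeval (T.restrict hTK) (X ^ r - 1 : F[X]) ≠ 0 := by
        rcases aeval_ne_zero_split T K W hc hTK hTW _ h1 with h | h
        · exact h
        · exact absurd hWr h
      obtain ⟨u, hu⟩ : ∃ u : Module.End F K, u = (T.restrict hTK) ^ r := ⟨_, rfl⟩
      have hu1 : u ≠ 1 := by
        intro h
        apply hKr
        rw [map_sub, map_pow, aeval_X, map_one, ← hu, h, sub_self]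
      have hucoe : ∀ a : K, ((u a : K) : V) = (T ^ r) (a : V) := by
        intro a
        rw [hu, Module.End.pow_restrict, LinearMap.restrict_apply]
      have hup : u ^ p = 1 := by
        apply LinearMap.ext
        intro a
        apply Subtype.ext
        rw [hu, ← pow_mul, Module.End.pow_restrict]
        show (T ^ (r * p)) (a : V) = a
        rw [hTrp]
        rfl
      have hupres : Preserves (B.restrict K) u := by
        intro x y
        show B ((u x : K) : V) ((u y : K) : V) = B x y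
        rw [hucoe, hucoe]
        exact hT.pow r x y
      have hndK : ∀ x : K, (∀ y : K, B.restrict K x y = 0) → x = 0 := by
        intro x hx
        apply Subtype.ext
        apply hnd
        intro v
        obtain ⟨a, ha', w, hw, rfl⟩ := U3Lemmas.exists_decomp K W hc v
        rw [map_add, horth x x.2 w hw, add_zero]
        exact hx ⟨a, ha'⟩
      have h3K := unip_dim3 p h2 (B.restrict K) (fun x y => hsym x y) hndK u hupres hup hu1
      omega
    · have := k2 (restrict_ne_of_fixed T K W hc hTK hTW p hfix h) hWr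
      omega

/-- An isometry of prime order `s` of an alternating space of rank `η(e(s, q))` is orthogonally
indecomposable. -/
theorem not_orthDec_of_eta (p : ℕ) [Fact p.Prime] [CharP F p] (r : ℕ)
    (hr : r.Prime) (hr2 : r ≠ 2) (hrp : r ≠ p) (k ηk : ℕ)
    (hk : k = orderOf ((Fintype.card F : ℕ) : ZMod r))
    (hηk : (Odd k ∧ ηk = k) ∨ (Even k ∧ 2 * ηk = k))
    (B : LinearMap.BilinForm F V) (halt : ∀ v, B v v = 0)
    (hnd : ∀ v, (∀ w, B v w = 0) → v = 0) (hdim : Module.finrank F V = 2 * ηk)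
    (S : Module.End F V) (hS : Preserves B S) (hSr : S ^ r = 1) (hS1 : S ≠ 1)
    (T : Module.End F V)
    (hinv : ∀ U : Submodule F V, (∀ v ∈ U, T v ∈ U) → ∀ v ∈ U, S v ∈ U) : ¬ OrthDec B T := by
  classical
  have hk1 : 1 ≤ k := by
    rw [hk]
    exact order_pos p r hr hrp
  rintro ⟨V₁, V₂, hc, h1, h2, hi1, hi2, horth⟩
  have hS1' := hinv V₁ hi1
  have hS2' := hinv V₂ hi2
  obtain ⟨hnd₁, hnd₂⟩ := nondeg_restrict_bil B halt hnd V₁ V₂ hc horth
  have halt₁ : ∀ x : V₁, B.restrict V₁ x x = 0 := fun x => halt _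
  have halt₂ : ∀ x : V₂, B.restrict V₂ x x = 0 := fun x => halt _
  obtain ⟨m₁, hm₁⟩ := even_finrank _ V₁ (B.restrict V₁) halt₁ hnd₁ rfl
  obtain ⟨m₂, hm₂⟩ := even_finrank _ V₂ (B.restrict V₂) halt₂ hnd₂ rfl
  have hsum := Submodule.finrank_add_eq_of_isCompl hc
  have hpos₁ : 0 < Module.finrank F V₁ := by
    rcases Nat.eq_zero_or_pos (Module.finrank F V₁) with h | h
    · exact absurd (Submodule.finrank_eq_zero.mp h) h1
    · exact h
  have hpos₂ : 0 < Module.finrank F V₂ := by
    rcases Nat.eq_zero_or_pos (Module.finrank F V₂) with h | h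
    · exact absurd (Submodule.finrank_eq_zero.mp h) h2
    · exact h
  have hgen : ∀ (U : Submodule F V) (hU : ∀ v ∈ U, S v ∈ U) (m : ℕ),
      (∀ x : U, B.restrict U x x = 0) → (∀ x : U, (∀ y : U, B.restrict U x y = 0) → x = 0) →
      Module.finrank F U = 2 * m → aeval (S.restrict hU) (X - 1 : F[X]) ≠ 0 → ηk ≤ m := by
    intro U hU m haltU hndU hdimU hne
    have hpresU : Preserves (B.restrict U) (aeval (S.restrict hU) (X : F[X])) := by
      rw [aeval_X]
      exact fun x y => hS x y
    have hA : aeval (S.restrict hU) ((X : F[X]) ^ r - 1) = 0 := by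
      apply aeval_restrict_eq_zero
      rw [map_sub, map_pow, aeval_X, map_one, hSr, sub_self]
    have hA' : aeval (S.restrict hU) ((1 : F[X]) ^ p - 1) = 0 := by
      rw [one_pow, sub_self, map_zero]
    exact (struct_bound p r hr hr2 hrp k ηk hk hk1 hηk X 1 m U (B.restrict U) (S.restrict hU)
      haltU hndU hdimU hA hA' hpresU).1 hne
  have hne : aeval S (X - 1 : F[X]) ≠ 0 := by
    rw [map_sub, aeval_X, map_one]
    intro h
    exact hS1 (sub_eq_zero.mp h)
  rcases aeval_ne_zero_split S V₁ V₂ hc hS1' hS2' _ hne with h | h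
  · have := hgen V₁ hS1' m₁ halt₁ hnd₁ (by omega) h
    omega
  · have := hgen V₂ hS2' m₂ halt₂ hnd₂ (by omega) h
    omega

omit [Fintype F] [FiniteDimensional F V] in
/-- An involutory isometry commuting with an orthogonally indecomposable map is `± 1`. -/
theorem invol_scalar (h2 : (2 : F) ≠ 0) (B : LinearMap.BilinForm F V) (T : Module.End F V)
    (hT : ¬ OrthDec B T) (y : Module.End F V) (hyT : Commute y T) (hy : Preserves B y)
    (hy2 : y * y = 1) : y = 1 ∨ y = -1 := by
  have hyy : ∀ v, y (y v) = v := fun v => by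
    rw [← Module.End.mul_apply, hy2, Module.End.one_apply]
  have hcomm : ∀ v, y (T v) = T (y v) := fun v => by
    have := congrArg (fun g : Module.End F V => g v) hyT.eq
    simpa [Module.End.mul_apply] using this
  obtain ⟨Vp, hVp⟩ : ∃ Vp : Submodule F V, Vp = LinearMap.ker (y - 1) := ⟨_, rfl⟩
  obtain ⟨Vm, hVm⟩ : ∃ Vm : Submodule F V, Vm = LinearMap.ker (y + 1) := ⟨_, rfl⟩
  have hp : ∀ v, v ∈ Vp ↔ y v = v := by
    intro v
    rw [hVp, LinearMap.mem_ker, LinearMap.sub_apply, Module.End.one_apply, sub_eq_zero]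
  have hm : ∀ v, v ∈ Vm ↔ y v = -v := by
    intro v
    rw [hVm, LinearMap.mem_ker, LinearMap.add_apply, Module.End.one_apply,
      add_eq_zero_iff_eq_neg]
  have hdisj : Disjoint Vp Vm := by
    rw [Submodule.disjoint_def]
    intro v hv1 hv2
    have h1 := (hp v).mp hv1
    have h3 := (hm v).mp hv2
    have h4 : (2 : F) • v = 0 := by
      rw [two_smul]
      nth_rewrite 1 [← h1]
      rw [h3, neg_add_cancel]
    exact (smul_eq_zero.mp h4).resolve_left h2
  have hcod : Codisjoint Vp Vm := by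
    rw [codisjoint_iff, eq_top_iff]
    intro v _
    have e : v = (2 : F)⁻¹ • (v + y v) + (2 : F)⁻¹ • (v - y v) := by
      rw [← smul_add]
      have : v + y v + (v - y v) = (2 : F) • v := by rw [two_smul]; abel
      rw [this, smul_smul, inv_mul_cancel₀ h2, one_smul]
    rw [e]
    apply Submodule.add_mem_sup
    · apply Submodule.smul_mem
      rw [hp, map_add, hyy, add_comm]
    · apply Submodule.smul_mem
      rw [hm, map_sub, hyy]
      abel
  have hc : IsCompl Vp Vm := ⟨hdisj, hcod⟩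
  by_cases hpb : Vp = ⊥
  · right
    have htop : Vm = ⊤ := by
      have := hc.sup_eq_top
      rwa [hpb, bot_sup_eq] at this
    apply LinearMap.ext
    intro v
    have hv : v ∈ Vm := by rw [htop]; trivial
    rw [(hm v).mp hv]
    rfl
  · by_cases hmb : Vm = ⊥
    · left
      have htop : Vp = ⊤ := by
        have := hc.sup_eq_top
        rwa [hmb, sup_bot_eq] at this
      apply LinearMap.ext
      intro v
      have hv : v ∈ Vp := by rw [htop]; trivial
      rw [(hp v).mp hv]
      rfl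
    · exfalso
      apply hT
      refine ⟨Vp, Vm, hc, hpb, hmb, ?_, ?_, ?_⟩
      · intro v hv
        rw [hp] at *
        rw [hcomm, hv]
      · intro v hv
        rw [hm] at *
        rw [hcomm, hv, map_neg]
      · intro x hx z hz
        have h1 := hy x z
        rw [(hp x).mp hx, (hm z).mp hz, map_neg] at h1
        have h3 : (2 : F) * B x z = 0 := by linear_combination -h1
        exact (mul_eq_zero.mp h3).resolve_left h2

/-- Structure of a commuting pair: an isometry `S` of prime order `s` with `η(e(s, q)) = n` and an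
involutory isometry `t`, in a symmetric space of dimension `2n + 1`. -/
theorem o_two_s (p : ℕ) [Fact p.Prime] [CharP F p] (h2 : (2 : F) ≠ 0) (s : ℕ)
    (hs : s.Prime) (hs2 : s ≠ 2) (hsp : s ≠ p) (k ηk : ℕ)
    (hk : k = orderOf ((Fintype.card F : ℕ) : ZMod s))
    (hηk : (Odd k ∧ ηk = k) ∨ (Even k ∧ 2 * ηk = k)) (n : ℕ) (hηn : n ≤ ηk)
    (B : LinearMap.BilinForm F V) (hsym : ∀ x y, B x y = B y x)
    (hnd : ∀ v, (∀ w, B v w = 0) → v = 0) (hdim : Module.finrank F V = 2 * n + 1)
    (S t : Module.End F V) (hS : Preserves B S) (ht : Preserves B t) (hSs : S ^ s = 1)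
    (hS1 : S ≠ 1) (hcomm : Commute t S) (ht2 : t * t = 1) :
    ∃ w₀ : V, B w₀ w₀ ≠ 0 ∧ (∀ x, S x = x ↔ ∃ a : F, x = a • w₀) ∧
      (t w₀ = w₀ ∨ t w₀ = -w₀) ∧
      ((∀ x, B w₀ x = 0 → t x = x) ∨ (∀ x, B w₀ x = 0 → t x = -x)) := by
  classical
  have hp : p.Prime := Fact.out
  have hsF : (s : F) ≠ 0 := by
    intro h
    rw [CharP.cast_eq_zero_iff F p s] at h
    exact hsp ((Nat.prime_dvd_prime_iff_eq hp hs).mp h).symm
  have hk1 : 1 ≤ k := by
    rw [hk]
    exact order_pos p s hs hsp
  obtain ⟨K, W, B', hc, hK, halt, hndW, horth, hT'⟩ := alt_part h2 B hsym hnd S hS s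
    (hs.odd_of_ne_two hs2) hsF hSs
  obtain ⟨hpresS, hSW, hSK⟩ := hT' S (Commute.refl S) hS
  obtain ⟨hprest, htW, htK⟩ := hT' t hcomm ht
  have haltW : ∀ x : W, B'.restrict W x x = 0 := fun x => halt _
  have hndW' : ∀ x : W, (∀ y : W, B'.restrict W x y = 0) → x = 0 := by
    intro x hx
    apply Subtype.ext
    exact hndW x x.2 (fun w' hw' => hx ⟨w', hw'⟩)
  obtain ⟨m, hm⟩ := even_finrank _ W (B'.restrict W) haltW hndW' rfl
  have hsum := Submodule.finrank_add_eq_of_isCompl hc
  have hmn : m ≤ n := by omega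
  have hpresW : Preserves (B'.restrict W) (S.restrict hSW) := fun x y => hpresS x y
  have hSWs : (S.restrict hSW) ^ s = 1 := by
    apply LinearMap.ext
    intro a
    apply Subtype.ext
    rw [Module.End.pow_restrict]
    show (S ^ s) (a : V) = a
    rw [hSs]
    rfl
  have hne : aeval (S.restrict hSW) (X ^ 1 - 1 : F[X]) ≠ 0 :=
    restrict_ne_of_fixed S K W hc hSK hSW 1
      (fun a ha => by rw [pow_one]; exact (hK a).mp ha) (by rw [pow_one]; exact hS1)
  rw [pow_one] at hne
  have hSW1 : S.restrict hSW ≠ 1 := by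
    intro h
    apply hne
    rw [map_sub, aeval_X, map_one, h, sub_self]
  have hηm : ηk ≤ m := by
    have hpresU : Preserves (B'.restrict W) (aeval (S.restrict hSW) (X : F[X])) := by
      rw [aeval_X]
      exact hpresW
    have hA : aeval (S.restrict hSW) ((X : F[X]) ^ s - 1) = 0 := by
      rw [map_sub, map_pow, aeval_X, map_one, hSWs, sub_self]
    have hA' : aeval (S.restrict hSW) ((1 : F[X]) ^ p - 1) = 0 := by
      rw [one_pow, sub_self, map_zero]
    exact (struct_bound p s hs hs2 hsp k ηk hk hk1 hηk X 1 m W (B'.restrict W) (S.restrict hSW)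
      haltW hndW' (by omega) hA hA' hpresU).1 hne
  have hmeq : m = ηk := by omega
  have hK1 : Module.finrank F K = 1 := by omega
  obtain ⟨⟨w₀, hw₀K⟩, hw₀ne, hspan⟩ := finrank_eq_one_iff'.mp hK1
  have hw₀0 : w₀ ≠ 0 := by
    intro h
    apply hw₀ne
    exact Subtype.ext h
  have hKmem : ∀ x, x ∈ K ↔ ∃ a : F, x = a • w₀ := by
    intro x
    constructor
    · intro hx
      obtain ⟨a, ha⟩ := hspan ⟨x, hx⟩
      exact ⟨a, by
        have := congrArg (fun z : K => (z : V)) ha
        simpa using this.symm⟩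
    · rintro ⟨a, rfl⟩
      exact K.smul_mem a hw₀K
  have hw₀w₀ : B w₀ w₀ ≠ 0 := by
    intro h
    apply hw₀0
    apply hnd
    intro v
    obtain ⟨a, ha, w, hw, rfl⟩ := U3Lemmas.exists_decomp K W hc v
    obtain ⟨c, rfl⟩ := (hKmem a).mp ha
    rw [map_add, map_smul, smul_eq_mul, h, mul_zero, zero_add]
    exact horth w₀ hw₀K w hw
  have hWmem : ∀ x, B w₀ x = 0 → x ∈ W := by
    intro x hx
    obtain ⟨a, ha, w, hw, rfl⟩ := U3Lemmas.exists_decomp K W hc x
    obtain ⟨c, rfl⟩ := (hKmem a).mp ha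
    rw [map_add, map_smul, smul_eq_mul, horth w₀ hw₀K w hw, add_zero] at hx
    have hc0 : c = 0 := (mul_eq_zero.mp hx).resolve_right hw₀w₀
    rw [hc0, zero_smul, zero_add]
    exact hw
  have htt : ∀ v, t (t v) = v := fun v => by
    rw [← Module.End.mul_apply, ht2, Module.End.one_apply]
  refine ⟨w₀, hw₀w₀, fun x => ?_, ?_, ?_⟩
  · rw [← hK, hKmem]
  · obtain ⟨c, hc'⟩ := (hKmem _).mp (htK w₀ hw₀K)
    have h1 := htt w₀
    rw [hc', map_smul, hc', smul_smul] at h1
    have h3 : (c * c - 1) • w₀ = 0 := by rw [sub_smul, h1, one_smul, sub_self]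
    have h4 : c * c - 1 = 0 := (smul_eq_zero.mp h3).resolve_right hw₀0
    have h5 : (c - 1) * (c + 1) = 0 := by linear_combination h4
    rcases mul_eq_zero.mp h5 with h | h
    · left
      rw [hc', sub_eq_zero.mp h, one_smul]
    · right
      rw [hc', eq_neg_of_add_eq_zero_left h, neg_smul, one_smul]
  · have hdec : ¬ OrthDec (B'.restrict W) (S.restrict hSW) :=
      not_orthDec_of_eta p s hs hs2 hsp k ηk hk hηk (B'.restrict W) haltW hndW' (by omega)
        (S.restrict hSW) hpresW hSWs hSW1 (S.restrict hSW) (fun U hU => hU)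
    have htWc : Commute (t.restrict htW) (S.restrict hSW) := by
      apply LinearMap.ext
      intro a
      apply Subtype.ext
      have := congrArg (fun g : Module.End F V => g (a : V)) hcomm.eq
      simpa [Module.End.mul_apply] using this
    have htW2 : (t.restrict htW) * (t.restrict htW) = 1 := by
      apply LinearMap.ext
      intro a
      apply Subtype.ext
      exact htt a
    rcases invol_scalar h2 (B'.restrict W) (S.restrict hSW) hdec (t.restrict htW) htWc
      (fun x y => hprest x y) htW2 with h | h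
    · left
      intro x hx
      have := congrArg (fun g : Module.End F W => ((g ⟨x, hWmem x hx⟩ : W) : V)) h
      simpa using this
    · right
      intro x hx
      have := congrArg (fun g : Module.End F W => ((g ⟨x, hWmem x hx⟩ : W) : V)) h
      simpa using this

end bounds

end Cfsg.Agent.Helper42.BC
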