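import Mathlib
import Cfsg.Agent.Helper42.BCa

set_option autoImplicit false

/-!
# Prime graph of `PSp_{2n}(q)`, `q` odd: the four adjacency criteria (helper42)

* `sp_rs_iff` : two odd primes different from the characteristic;
* `sp_rp_iff` : an odd prime and the characteristic;
* `sp_2s_iff` : the prime `2` and an odd prime different from the characteristic;
* `sp_2p` : the prime `2` and the characteristic.
-/

namespace Cfsg.Agent.Helper42.BC

open Polynomial SpForm SpGroup SpModels SpStruct PGraphL PGraphL2 PGraphS PGraphS2 PGraphSM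

universe u

section psp

variable {F : Type u} [Field F]

theorem order_data {n : ℕ} (g : Matrix.symplecticGroup (Fin n) F) (N : ℕ)
    (hx : orderOf (QuotientGroup.mk g : Matrix.symplecticGroup (Fin n) F ⧸
      Subgroup.center (Matrix.symplecticGroup (Fin n) F)) = N) :
    (toEnd g ^ N = 1 ∨ toEnd g ^ N = -1) ∧
      ∀ i : ℕ, (toEnd g ^ i = 1 ∨ toEnd g ^ i = -1) → N ∣ i := by
  constructor
  · rw [← mk_pow_eq_one_iff, ← hx]
    exact pow_orderOf_eq_one _
  · intro i hi
    rw [← mk_pow_eq_one_iff] at hi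
    rw [← hx]
    exact orderOf_dvd_of_pow_eq_one hi

theorem end_neg_one_pow_even {V : Type*} [AddCommGroup V] [Module F V] (i : ℕ) (hi : Even i) :
    (-1 : Module.End F V) ^ i = 1 := hi.neg_one_pow

theorem end_neg_one_pow_odd {V : Type*} [AddCommGroup V] [Module F V] (i : ℕ) (hi : Odd i) :
    (-1 : Module.End F V) ^ i = -1 := hi.neg_one_pow

theorem end_neg_one_mul_eq_one {V : Type*} [AddCommGroup V] [Module F V] (A : Module.End F V)
    (h : (-1 : Module.End F V) * A = 1) : A = -1 := by
  apply LinearMap.ext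
  intro x
  have h1 := congrArg (fun f : Module.End F V => f x) h
  simp only [Module.End.mul_apply, LinearMap.neg_apply, Module.End.one_apply] at h1 ⊢
  exact neg_eq_iff_eq_neg.mp h1

theorem one_ne_neg_one_std (h2 : (2 : F) ≠ 0) (n : ℕ) (hn : 1 ≤ n) :
    (1 : Module.End F (Fin n ⊕ Fin n → F)) ≠ -1 := by
  intro h
  have h1 := congrArg (fun f : Module.End F (Fin n ⊕ Fin n → F) =>
    f (Pi.single (Sum.inl ⟨0, hn⟩) 1) (Sum.inl ⟨0, hn⟩)) h
  simp at h1
  apply h2
  linear_combination h1

theorem neg_one_ne_one_pair (h2 : (2 : F) ≠ 0) : (-1 : Module.End F (F × F)) ≠ 1 := by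
  intro h
  have h1 := congrArg (fun f : Module.End F (F × F) => (f (1, 0)).1) h
  simp at h1
  apply h2
  linear_combination -h1

theorem gcd_aux (N s : ℕ) (h4 : ¬ 4 ∣ N) : Nat.gcd N (4 * s) ∣ 2 * s := by
  obtain ⟨a, b, ha, hb, hab⟩ := Nat.dvd_mul.mp (Nat.gcd_dvd_right N (4 * s))
  have ha4 : a ≤ 4 := Nat.le_of_dvd (by norm_num) ha
  have ha2 : a ∣ 2 := by
    interval_cases a
    · simp at ha
    · exact one_dvd 2
    · exact dvd_refl 2
    · norm_num at ha
    · exfalso
      apply h4
      have h1 : 4 ∣ Nat.gcd N (4 * s) := by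
        rw [← hab]
        exact dvd_mul_right 4 b
      exact h1.trans (Nat.gcd_dvd_left N (4 * s))
  rw [← hab]
  exact mul_dvd_mul ha2 hb

variable [Fintype F]

/-- An odd prime and the characteristic in `PSp_{2n}(q)`. -/
theorem sp_rp_iff (p : ℕ) [Fact p.Prime] [CharP F p] (n : ℕ) (r : ℕ) (hr : r.Prime)
    (hr2 : r ≠ 2) (hrp : r ≠ p) (k ηk : ℕ) (hk : k = orderOf ((Fintype.card F : ℕ) : ZMod r))
    (hηk : (Odd k ∧ ηk = k) ∨ (Even k ∧ 2 * ηk = k)) :
    (r * p ∈ Set.range (orderOf : (Matrix.symplecticGroup (Fin n) F ⧸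
      Subgroup.center (Matrix.symplecticGroup (Fin n) F)) → ℕ)) ↔ ηk + 1 ≤ n := by
  classical
  have hpp : p.Prime := Fact.out
  have hq1 : 1 ≤ Fintype.card F := Fintype.card_pos
  have hk1 : 1 ≤ k := by
    rw [hk]
    exact order_pos p r hr hrp
  have hrk : r ∣ Fintype.card F ^ k - 1 := by
    rw [hk]
    exact dvd_pow_order_sub_one r (Fintype.card F)
  constructor
  · rintro ⟨x, hx⟩
    obtain ⟨g, rfl⟩ := QuotientGroup.mk_surjective x
    obtain ⟨h1, hmin⟩ := order_data g (r * p) hx
    have hTr : ¬ (toEnd g ^ r = 1 ∨ toEnd g ^ r = -1) := by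
      intro h
      have h4 := Nat.le_of_dvd hr.pos (hmin r h)
      have h5 : r * 2 ≤ r * p := Nat.mul_le_mul_left r hpp.two_le
      have h6 := hr.pos
      omega
    have hTp : ¬ (toEnd g ^ p = 1 ∨ toEnd g ^ p = -1) := by
      intro h
      have h4 := Nat.le_of_dvd hpp.pos (hmin p h)
      have h5 : 2 * p ≤ r * p := Nat.mul_le_mul_right p hr.two_le
      have h6 := hpp.pos
      omega
    exact bound_sp p r hr hr2 hrp k ηk hk hηk n (stdForm (F := F) n) (stdForm_self n)
      (stdForm_nondeg n) (SpecPSp.finrank_std n) (toEnd g) (preserves_toEnd g) h1 hTr hTp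
  · intro hn'
    rcases hηk with ⟨hodd, hη⟩ | ⟨heven, hη⟩
    · haveI : NeZero k := ⟨by omega⟩
      exact model_odd (F := F) p n k r hr hr2 hrp hrk (by omega)
    · have he1 : 1 ≤ ηk := by omega
      exact model_even (F := F) p n ηk r he1 hr hr2 hrp
        (dvd_plus r _ k ηk hr hq1 hk hη he1) hn'

/-- Two odd primes different from the characteristic in `PSp_{2n}(q)`. -/
theorem sp_rs_iff (p : ℕ) [Fact p.Prime] [CharP F p] (n : ℕ) (r s : ℕ) (hr : r.Prime)
    (hs : s.Prime) (hr2 : r ≠ 2) (hs2 : s ≠ 2) (hrp : r ≠ p) (hsp : s ≠ p) (hrs : r ≠ s)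
    (k l ηk ηl : ℕ) (hk : k = orderOf ((Fintype.card F : ℕ) : ZMod r))
    (hl : l = orderOf ((Fintype.card F : ℕ) : ZMod s))
    (hηk : (Odd k ∧ ηk = k) ∨ (Even k ∧ 2 * ηk = k))
    (hηl : (Odd l ∧ ηl = l) ∨ (Even l ∧ 2 * ηl = l)) (hkl : ηk ≤ ηl) :
    (r * s ∈ Set.range (orderOf : (Matrix.symplecticGroup (Fin n) F ⧸
      Subgroup.center (Matrix.symplecticGroup (Fin n) F)) → ℕ)) ↔
      (ηl ≤ n ∧ (ηk + ηl ≤ n ∨ ∃ t, Odd t ∧ l = k * t)) := by
  classical
  have hpp : p.Prime := Fact.out
  have hq1 : 1 ≤ Fintype.card F := Fintype.card_pos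
  have hk1 : 1 ≤ k := by
    rw [hk]
    exact order_pos p r hr hrp
  have hl1 : 1 ≤ l := by
    rw [hl]
    exact order_pos p s hs hsp
  have hcop : Nat.Coprime r s := (Nat.coprime_primes hr hs).mpr hrs
  constructor
  · rintro ⟨x, hx⟩
    have hsG : s ∣ Nat.card (Matrix.symplecticGroup (Fin n) F ⧸
        Subgroup.center (Matrix.symplecticGroup (Fin n) F)) := by
      have h1 := orderOf_dvd_natCard x
      rw [hx] at h1
      exact (dvd_mul_left s r).trans h1
    obtain ⟨g, rfl⟩ := QuotientGroup.mk_surjective x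
    obtain ⟨h1, hmin⟩ := order_data g (r * s) hx
    have hTr : ¬ (toEnd g ^ r = 1 ∨ toEnd g ^ r = -1) := by
      intro h
      have h4 := Nat.le_of_dvd hr.pos (hmin r h)
      have h5 : r * 2 ≤ r * s := Nat.mul_le_mul_left r hs.two_le
      have h6 := hr.pos
      omega
    have hTs : ¬ (toEnd g ^ s = 1 ∨ toEnd g ^ s = -1) := by
      intro h
      have h4 := Nat.le_of_dvd hs.pos (hmin s h)
      have h5 : 2 * s ≤ r * s := Nat.mul_le_mul_right s hr.two_le
      have h6 := hs.pos
      omega
    refine ⟨eta_le_of_dvd_card p r s hr hs hr2 hs2 hrp hsp hrs k l ηk ηl hk hl hηk hηl hkl n hsG,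
      bound_sp2 p r s hr hs hr2 hs2 hrp hsp hrs k l ηk ηl hk hl hηk hηl
        hkl n (stdForm (F := F) n) (stdForm_self n) (stdForm_nondeg n) (SpecPSp.finrank_std n)
        (toEnd g) (preserves_toEnd g) h1 hTr hTs⟩
  · rintro ⟨hln, hor⟩
    by_cases hodd : ∃ t : ℕ, Odd t ∧ l = k * t
    · obtain ⟨t, ht, hlk⟩ := hodd
      have hrs_odd : Odd (r * s) := (hr.odd_of_ne_two hr2).mul (hs.odd_of_ne_two hs2)
      rcases hηl with ⟨hlodd, hηl'⟩ | ⟨hleven, hηl'⟩
      · have hrl : r ∣ Fintype.card F ^ l - 1 :=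
          dvd_pow_sub_one_of_order_dvd r _ l (by rw [← hk, hlk]; exact dvd_mul_right k t)
        have hsl : s ∣ Fintype.card F ^ l - 1 := by
          have := dvd_pow_order_sub_one s (Fintype.card F)
          rwa [← hl] at this
        haveI : NeZero l := ⟨by omega⟩
        obtain ⟨g, hg1, hg2⟩ := exists_block_minus (F := F) p l (r * s)
          (hcop.mul_dvd_of_dvd_of_dvd hrl hsl) hrs_odd
        obtain ⟨x, hx⟩ := two_blocks n l 0 (r * s) 1 (by omega)
          (Nat.coprime_one_right _) g 1 hg1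
          (by rw [pow_one, toEnd_one]) hg2 (fun i _ => one_dvd i)
        exact ⟨x, by rw [hx, mul_one]⟩
      · have hkeven : Even k := by
          rw [hlk] at hleven
          rcases Nat.even_mul.mp hleven with h | h
          · exact h
          · exact absurd h (Nat.not_even_iff_odd.mpr ht)
        rcases hηk with ⟨hkodd, -⟩ | ⟨-, hηk'⟩
        · exact absurd hkeven (Nat.not_even_iff_odd.mpr hkodd)
        · have hηlt : ηl = ηk * t := by
            have h2 : 2 * ηl = 2 * (ηk * t) := by
              rw [hηl', hlk, ← hηk']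
              ring
            omega
          have hηk1 : 1 ≤ ηk := by omega
          have hηl1 : 1 ≤ ηl := by omega
          have hr1 : r ∣ Fintype.card F ^ ηk + 1 := dvd_plus r _ k ηk hr hq1 hk hηk' hηk1
          have hrl : r ∣ Fintype.card F ^ ηl + 1 := by
            rw [hηlt, pow_mul]
            have h := Odd.nat_add_dvd_pow_add_pow (Fintype.card F ^ ηk) 1 ht
            rw [one_pow] at h
            exact hr1.trans h
          have hsl : s ∣ Fintype.card F ^ ηl + 1 := dvd_plus s _ l ηl hs hq1 hl hηl' hηl1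
          obtain ⟨g, hg1, hg2⟩ := exists_block_plus (F := F) p ηl hηl1 (r * s)
            (hcop.mul_dvd_of_dvd_of_dvd hrl hsl) hrs_odd
          obtain ⟨x, hx⟩ := two_blocks n ηl 0 (r * s) 1 (by omega)
            (Nat.coprime_one_right _) g 1 hg1
            (by rw [pow_one, toEnd_one]) hg2 (fun i _ => one_dvd i)
          exact ⟨x, by rw [hx, mul_one]⟩
    · have hn' : ηk + ηl ≤ n := by
        rcases hor with h | h
        · exact h
        · exact absurd h hodd
      obtain ⟨g₁, hg₁, hmin₁⟩ := exists_prime_block (F := F) p r hr hr2 k ηk hk hk1 hηk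
      obtain ⟨g₂, hg₂, hmin₂⟩ := exists_prime_block (F := F) p s hs hs2 l ηl hl hl1 hηl
      obtain ⟨x, hx⟩ := two_blocks n ηk ηl r s hn' hcop g₁ g₂ hg₁ hg₂ hmin₁ hmin₂
      exact ⟨x, hx⟩

/-- The prime `2` and the characteristic in `PSp_{2n}(q)`, `q` odd, `n ≥ 2`. -/
theorem sp_2p (p : ℕ) [Fact p.Prime] [CharP F p] (h2 : (2 : F) ≠ 0) (n : ℕ) (hn : 2 ≤ n) :
    2 * p ∈ Set.range (orderOf : (Matrix.symplecticGroup (Fin n) F ⧸
      Subgroup.center (Matrix.symplecticGroup (Fin n) F)) → ℕ) := by
  classical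
  have hp : p.Prime := Fact.out
  have hp2 : p ≠ 2 := by
    rintro rfl
    exact h2 (by exact_mod_cast CharP.cast_eq_zero F 2)
  obtain ⟨hUp, hUord⟩ := unip2_facts (F := F) p
  obtain ⟨d, hd⟩ := Nat.exists_eq_add_of_le hn
  have hneg := neg_one_ne_one_pair h2
  apply exists_psp_of_model n (((F × F) × (F × F)) × (Fin d ⊕ Fin d → F))
    (sumForm (sumForm (hypForm F F) (hypForm F F)) (stdForm d))
    (sumForm_alt _ _ (sumForm_alt _ _ (hypForm_alt F F) (hypForm_alt F F)) (stdForm_self d))
    (sumForm_nondeg _ _ (sumForm_nondeg _ _ (hypForm_nondeg F F) (hypForm_nondeg F F))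
      (stdForm_nondeg d))
    (by
      rw [Module.finrank_prod, Module.finrank_prod, Module.finrank_prod, Module.finrank_self,
        SpecPSp.finrank_std, hd]
      ring)
    (((-1 : Module.End F (F × F)).prodMap unip2).prodMap 1)
    (preserves_prodMap (preserves_prodMap (preserves_neg_one _) preserves_unip2)
      (preserves_one _))
    (2 * p)
  · left
    rw [prodMap_pow', prodMap_pow', prodMap_eq_one_iff, prodMap_eq_one_iff]
    refine ⟨⟨?_, ?_⟩, one_pow _⟩
    · exact end_neg_one_pow_even _ (even_two_mul p)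
    · rw [mul_comm, pow_mul, hUp, one_pow]
  · intro i hi
    rw [prodMap_pow', prodMap_pow', prodMap_eq_one_iff, prodMap_eq_one_iff,
      prodMap_eq_neg_one_iff, prodMap_eq_neg_one_iff] at hi
    have hpi : p ∣ i := by
      apply hUord
      rcases hi with ⟨⟨-, h⟩, -⟩ | ⟨⟨-, h⟩, -⟩
      · exact Or.inl h
      · exact Or.inr h
    have h2i : 2 ∣ i := by
      rcases hi with ⟨⟨h, -⟩, -⟩ | ⟨⟨-, h⟩, -⟩
      · by_contra hodd
        rw [← even_iff_two_dvd, Nat.not_even_iff_odd] at hodd
        rw [end_neg_one_pow_odd i hodd] at h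
        exact hneg h
      · exfalso
        obtain ⟨c, rfl⟩ := hpi
        rw [pow_mul, hUp, one_pow] at h
        exact hneg h.symm
    exact Nat.Coprime.mul_dvd_of_dvd_of_dvd
      ((Nat.coprime_primes Nat.prime_two hp).mpr (Ne.symm hp2)) h2i hpi

/-- The prime `2` and an odd prime `s` different from the characteristic in `PSp_{2n}(q)`. -/
theorem sp_2s_iff (p : ℕ) [Fact p.Prime] [CharP F p]
    (h2 : (2 : F) ≠ 0) (n : ℕ) (hn : 1 ≤ n) (s : ℕ) (hs : s.Prime) (hs2 : s ≠ 2) (hsp : s ≠ p)
    (k ηk : ℕ) (hk : k = orderOf ((Fintype.card F : ℕ) : ZMod s))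
    (hηk : (Odd k ∧ ηk = k) ∨ (Even k ∧ 2 * ηk = k)) :
    (2 * s ∈ Set.range (orderOf : (Matrix.symplecticGroup (Fin n) F ⧸
      Subgroup.center (Matrix.symplecticGroup (Fin n) F)) → ℕ)) ↔
      (ηk + 1 ≤ n ∨ (ηk = n ∧ ((Even k ∧ 4 ∣ Fintype.card F ^ n + 1) ∨
        (Odd k ∧ 4 ∣ Fintype.card F ^ n - 1)))) := by
  classical
  have hp : p.Prime := Fact.out
  have hq1 : 1 ≤ Fintype.card F := Fintype.card_pos
  have hk1 : 1 ≤ k := by
    rw [hk]
    exact order_pos p s hs hsp
  have hη1 : 1 ≤ ηk := by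
    rcases hηk with ⟨-, h⟩ | ⟨-, h⟩ <;> omega
  have hs3 : 3 ≤ s := by
    have := hs.two_le
    omega
  have hsodd : Odd s := hs.odd_of_ne_two hs2
  have hcop4 : Nat.Coprime 4 s := by
    have : Nat.Coprime 2 s := (Nat.coprime_primes Nat.prime_two hs).mpr (Ne.symm hs2)
    exact Nat.Coprime.pow_left 2 this
  have hsF : (s : F) ≠ 0 := by
    intro h
    rw [CharP.cast_eq_zero_iff F p s] at h
    exact hsp ((Nat.prime_dvd_prime_iff_eq hp hs).mp h).symm
  constructor
  · rintro ⟨x, hx⟩
    obtain ⟨g, rfl⟩ := QuotientGroup.mk_surjective x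
    obtain ⟨hN, hmin⟩ := order_data g (2 * s) hx
    by_cases hsmall : ηk + 1 ≤ n
    · exact Or.inl hsmall
    right
    obtain ⟨T, hTdef⟩ : ∃ T, T = toEnd g := ⟨_, rfl⟩
    rw [← hTdef] at hN hmin
    have hT : Preserves (stdForm (F := F) n) T := by rw [hTdef]; exact preserves_toEnd g
    have hno : ∀ j : ℕ, 0 < j → j < 2 * s → ¬ (T ^ j = 1 ∨ T ^ j = -1) := by
      intro j hj hj2 h
      have := Nat.le_of_dvd hj (hmin j h)
      omega
    have hT4 : T ^ (4 * s) = 1 := by
      rw [show 4 * s = 2 * s * 2 by ring, pow_mul]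
      rcases hN with h | h
      · rw [h, one_pow]
      · rw [h]
        exact end_neg_one_pow_even 2 even_two
    obtain ⟨S₀, hS₀⟩ : ∃ S₀, S₀ = T ^ (2 * s + 2) := ⟨_, rfl⟩
    have hS₀s : S₀ ^ s = 1 := by
      rw [hS₀, ← pow_mul, show (2 * s + 2) * s = 2 * s * (s + 1) by ring, pow_mul]
      rcases hN with h | h
      · rw [h, one_pow]
      · rw [h]
        exact end_neg_one_pow_even _ hsodd.add_one
    have hS₀1 : S₀ ≠ 1 := by
      intro h
      rw [hS₀, pow_add] at h
      rcases hN with h' | h'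
      · rw [h', one_mul] at h
        exact hno 2 (by norm_num) (by omega) (Or.inl h)
      · rw [h'] at h
        exact hno 2 (by norm_num) (by omega) (Or.inr (end_neg_one_mul_eq_one _ h))
    have hS₀pres : Preserves (stdForm (F := F) n) S₀ := by rw [hS₀]; exact hT.pow _
    have hsdvd : ∀ N : ℕ, S₀ ^ N = 1 → s ∣ N := by
      intro N hN'
      by_contra hnd'
      have hcop : Nat.Coprime s N := (Nat.Prime.coprime_iff_not_dvd hs).mpr hnd'
      have h1 : S₀ ^ Nat.gcd s N = 1 := pow_gcd_eq_one.mpr ⟨hS₀s, hN'⟩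
      rw [hcop.gcd_eq_one, pow_one] at h1
      exact hS₀1 h1
    have hηn : ηk ≤ n := by
      have hpresU : Preserves (stdForm (F := F) n) (aeval S₀ (X : F[X])) := by
        rw [aeval_X]
        exact hS₀pres
      have hA : aeval S₀ ((X : F[X]) ^ s - 1) = 0 := by
        rw [map_sub, map_pow, aeval_X, map_one, hS₀s, sub_self]
      have hA' : aeval S₀ ((1 : F[X]) ^ p - 1) = 0 := by
        rw [one_pow, sub_self, map_zero]
      have hne : aeval S₀ (X - 1 : F[X]) ≠ 0 := by
        rw [map_sub, aeval_X, map_one]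
        intro h
        exact hS₀1 (sub_eq_zero.mp h)
      exact (struct_bound p s hs hs2 hsp k ηk hk hk1 hηk X 1 n (Fin n ⊕ Fin n → F)
        (stdForm n) S₀ (stdForm_self n) (stdForm_nondeg n) (SpecPSp.finrank_std n) hA hA'
        hpresU).1 hne
    have hηeq : ηk = n := by omega
    have hdec : ¬ OrthDec (stdForm (F := F) n) T := by
      apply not_orthDec_of_eta p s hs hs2 hsp k ηk hk hηk (stdForm n) (stdForm_self n)
        (stdForm_nondeg n) (by rw [SpecPSp.finrank_std, hηeq]) S₀ hS₀pres hS₀s hS₀1 T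
      intro U hU v hv
      rw [hS₀]
      exact Module.End.pow_apply_mem_of_forall_mem _ hU v hv
    have hneg1 : (1 : Module.End F (Fin n ⊕ Fin n → F)) ≠ -1 := one_ne_neg_one_std h2 n hn
    have hy : T ^ (2 * s) = -1 := by
      rcases hN with h | h
      · exfalso
        have hyy : T ^ s * T ^ s = 1 := by rw [← pow_add, ← two_mul, h]
        rcases invol_scalar h2 (stdForm n) T hdec (T ^ s) ((Commute.refl T).pow_left s)
          (hT.pow s) hyy with h' | h'
        · exact hno s (by omega) (by omega) (Or.inl h')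
        · exact hno s (by omega) (by omega) (Or.inr h')
      · exact h
    have hss : T.IsSemisimple := by
      have h4F : ((4 * s : ℕ) : F) ≠ 0 := by
        rw [Nat.cast_mul]
        refine mul_ne_zero ?_ hsF
        have : ((4 : ℕ) : F) = 2 * 2 := by norm_num
        rw [this]
        exact mul_ne_zero h2 h2
      have hsep : (X ^ (4 * s) - C (1 : F) : F[X]).Separable :=
        separable_X_pow_sub_C 1 h4F one_ne_zero
      apply Module.End.isSemisimple_of_squarefree_aeval_eq_zero hsep.squarefree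
      rw [map_sub, map_pow, aeval_X, aeval_C, hT4, map_one, sub_self]
    have hfin : ∀ N : ℕ, T ^ N = 1 → 4 ∣ N := by
      intro N hN'
      by_contra h4
      have h1 : T ^ Nat.gcd N (4 * s) = 1 := pow_gcd_eq_one.mpr ⟨hN', hT4⟩
      obtain ⟨c, hc⟩ := gcd_aux N s h4
      have h3 : T ^ (2 * s) = 1 := by rw [hc, pow_mul, h1, one_pow]
      rw [hy] at h3
      exact hneg1 h3.symm
    have key := struct p (stdForm (F := F) n) n hn (stdForm_nondeg n) (SpecPSp.finrank_std n) T
      hdec T (Commute.refl T) hT (4 * s) (by omega) hT4 hss 1 (Commute.one_left T) 0 (by simp)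
    rcases key with h | ⟨e, he1, hen, hTe, -⟩ | ⟨d, hd1, hdn, hTd, -⟩
    · exact absurd (Or.inl h) (hno 2 (by norm_num) (by omega))
    · have hS₀e : S₀ ^ (Fintype.card F ^ e + 1) = 1 := by
        rw [hS₀, ← pow_mul, mul_comm, pow_mul, hTe, one_pow]
      obtain ⟨hk2, t, ht, het⟩ := plus_data s (Fintype.card F) k ηk e hs hq1 hk hηk
        (hsdvd _ hS₀e) hs2
      have hen' := Nat.le_of_dvd hn hen
      have ht1 : 1 ≤ t := by
        obtain ⟨c, hc⟩ := ht
        omega
      have hle : ηk * 1 ≤ ηk * t := Nat.mul_le_mul_left ηk ht1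
      have heq : e = n := by omega
      rw [heq] at hTe
      exact ⟨hηeq, Or.inl ⟨⟨ηk, by omega⟩, hfin _ hTe⟩⟩
    · have hS₀d : S₀ ^ (Fintype.card F ^ d - 1) = 1 := by
        rw [hS₀, ← pow_mul, mul_comm, pow_mul, hTd, one_pow]
      have hkd : k ∣ d := by
        rw [hk]
        exact order_dvd_of_dvd s (Fintype.card F) d hq1 (hsdvd _ hS₀d)
      have hkd' := Nat.le_of_dvd hd1 hkd
      have hdn' := Nat.le_of_dvd hn hdn
      rcases hηk with ⟨hkodd, hη⟩ | ⟨hkeven, hη⟩
      · have heq : d = n := by omega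
        rw [heq] at hTd
        exact ⟨hηeq, Or.inr ⟨hkodd, hfin _ hTd⟩⟩
      · omega
  · rintro (hsmall | ⟨hηeq, hcase⟩)
    · obtain ⟨g, hg1, hg2⟩ := exists_prime_block (F := F) p s hs hs2 k ηk hk hk1 hηk
      obtain ⟨d, hd⟩ := Nat.exists_eq_add_of_le hsmall
      have hneg := neg_one_ne_one_pair h2
      have hnegW := one_ne_neg_one_std h2 ηk hη1
      apply exists_psp_of_model n (((Fin ηk ⊕ Fin ηk → F) × (F × F)) × (Fin d ⊕ Fin d → F))
        (sumForm (sumForm (stdForm ηk) (hypForm F F)) (stdForm d))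
        (sumForm_alt _ _ (sumForm_alt _ _ (stdForm_self ηk) (hypForm_alt F F)) (stdForm_self d))
        (sumForm_nondeg _ _ (sumForm_nondeg _ _ (stdForm_nondeg ηk) (hypForm_nondeg F F))
          (stdForm_nondeg d))
        (by
          rw [Module.finrank_prod, Module.finrank_prod, Module.finrank_prod, Module.finrank_self,
            SpecPSp.finrank_std, SpecPSp.finrank_std, hd]
          ring)
        (((toEnd g).prodMap (-1 : Module.End F (F × F))).prodMap 1)
        (preserves_prodMap (preserves_prodMap (preserves_toEnd g) (preserves_neg_one _))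
          (preserves_one _))
        (2 * s)
      · left
        rw [prodMap_pow', prodMap_pow', prodMap_eq_one_iff, prodMap_eq_one_iff]
        refine ⟨⟨?_, ?_⟩, one_pow _⟩
        · rw [mul_comm, pow_mul, hg1, one_pow]
        · exact end_neg_one_pow_even _ (even_two_mul s)
      · intro i hi
        rw [prodMap_pow', prodMap_pow', prodMap_eq_one_iff, prodMap_eq_one_iff,
          prodMap_eq_neg_one_iff, prodMap_eq_neg_one_iff] at hi
        have hsi : s ∣ i := by
          apply hg2
          rcases hi with ⟨⟨h, -⟩, -⟩ | ⟨⟨h, -⟩, -⟩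
          · exact Or.inl h
          · exact Or.inr h
        have h2i : 2 ∣ i := by
          rcases hi with ⟨⟨-, h⟩, -⟩ | ⟨⟨h, -⟩, -⟩
          · by_contra hodd'
            rw [← even_iff_two_dvd, Nat.not_even_iff_odd] at hodd'
            rw [end_neg_one_pow_odd i hodd'] at h
            exact hneg h
          · exfalso
            obtain ⟨c, rfl⟩ := hsi
            rw [pow_mul, hg1, one_pow] at h
            exact hnegW h
        exact Nat.Coprime.mul_dvd_of_dvd_of_dvd
          ((Nat.coprime_primes Nat.prime_two hs).mpr (Ne.symm hs2)) h2i hsi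
    · rcases hcase with ⟨hkeven, h4⟩ | ⟨hkodd, h4⟩
      · have hk2 : 2 * ηk = k := by
          rcases hηk with ⟨h, -⟩ | ⟨-, h⟩
          · exact absurd hkeven (Nat.not_even_iff_odd.mpr h)
          · exact h
        haveI : NeZero (2 * n) := ⟨by omega⟩
        have hs_dvd : s ∣ Fintype.card F ^ n + 1 := by
          have := dvd_plus s (Fintype.card F) k ηk hs hq1 hk hk2 hη1
          rwa [hηeq] at this
        have h4s : 4 * s ∣ Fintype.card F ^ n + 1 :=
          Nat.Coprime.mul_dvd_of_dvd_of_dvd hcop4 h4 hs_dvd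
        obtain ⟨σ, c, γ, hσ, hσσ, hc, hc0, hγ, hγr, hγord⟩ :=
          exists_unit_elt (F := F) p n hn (4 * s) h4s
        have hγ2 : γ ^ (2 * s) = -1 := by
          have hsq : γ ^ (2 * s) * γ ^ (2 * s) = 1 := by
            rw [← pow_add, show 2 * s + 2 * s = 4 * s by ring, hγr]
          rcases mul_self_eq_one_iff.mp hsq with h | h
          · exfalso
            have := Nat.le_of_dvd (by omega) (hγord _ h)
            omega
          · exact h
        apply exists_psp_of_model n (FiniteField.Extension F p (2 * n))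
          (unitForm F _ σ c) (unitForm_alt' p n σ c hσ hσσ hc) (unitForm_nondeg F _ σ c hσσ hc0)
          (FiniteField.finrank_extension F p (2 * n))
          (LinearMap.mulLeft F γ) (preserves_mulLeft F _ σ c γ hγ) (2 * s)
        · right
          rw [mulLeft_pow', mulLeft_eq_neg_one_iff]
          exact hγ2
        · intro i hi
          rw [mulLeft_pow', mulLeft_eq_one_iff, mulLeft_eq_neg_one_iff] at hi
          have hz2 : γ ^ (2 * i) = 1 := by
            rw [mul_comm 2 i, pow_mul]
            rcases hi with h | h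
            · rw [h, one_pow]
            · rw [h, neg_one_sq]
          have h5 := hγord _ hz2
          rw [show 4 * s = 2 * (2 * s) by ring] at h5
          exact Nat.dvd_of_mul_dvd_mul_left (by norm_num) h5
      · have hkn : k = n := by
          rcases hηk with ⟨-, h⟩ | ⟨h, -⟩
          · omega
          · exact absurd h (Nat.not_even_iff_odd.mpr hkodd)
        haveI : NeZero n := ⟨by omega⟩
        have hs_dvd : s ∣ Fintype.card F ^ n - 1 := by
          have := dvd_pow_order_sub_one s (Fintype.card F)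
          rwa [← hk, hkn] at this
        have h4s : 4 * s ∣ Fintype.card F ^ n - 1 :=
          Nat.Coprime.mul_dvd_of_dvd_of_dvd hcop4 h4 hs_dvd
        obtain ⟨z, hz0, hzm, hzord⟩ := exists_elt_order (F := F) p n (4 * s) h4s
        have hz2' : z ^ (2 * s) = -1 := by
          have hsq : z ^ (2 * s) * z ^ (2 * s) = 1 := by
            rw [← pow_add, show 2 * s + 2 * s = 4 * s by ring, hzm]
          rcases mul_self_eq_one_iff.mp hsq with h | h
          · exfalso
            have := Nat.le_of_dvd (by omega) (hzord _ h)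
            omega
          · exact h
        apply exists_psp_of_model n
          (FiniteField.Extension F p n × FiniteField.Extension F p n)
          (hypForm F _) (hypForm_alt F _) (hypForm_nondeg F _)
          (by rw [Module.finrank_prod, FiniteField.finrank_extension]; ring)
          (hypMap F _ z) (preserves_hypMap F _ z hz0) (2 * s)
        · right
          rw [hypMap_pow, hypMap_eq_neg_one_iff]
          exact hz2'
        · intro i hi
          rw [hypMap_pow, hypMap_eq_one_iff, hypMap_eq_neg_one_iff] at hi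
          have hz2 : z ^ (2 * i) = 1 := by
            rw [mul_comm 2 i, pow_mul]
            rcases hi with h | h
            · rw [h, one_pow]
            · rw [h, neg_one_sq]
          have h5 := hzord _ hz2
          rw [show 4 * s = 2 * (2 * s) by ring] at h5
          exact Nat.dvd_of_mul_dvd_mul_left (by norm_num) h5

end psp

end Cfsg.Agent.Helper42.BC
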