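import Mathlib
import Cfsg.Agent.Helper42.SpStruct

set_option autoImplicit false

/-!
# Spectra of `B_n(q)` and `C_n(q)`: general lemmas (helper42)

* `sign_semiregular` : the sign of a permutation all of whose nontrivial cycles have the same
  even length `A`.
* `exists_fixed` : a `p`-element fixes a nonzero vector of every nonzero invariant subspace.
* `dvd_pow_finrank_sub_one` : an element of prime order `r` without nonzero fixed vectors on an
  invariant subspace `X` gives `r ∣ q ^ dim X - 1`.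
* `card_three` : the number of vectors of norm `c ≠ 0` in an isotropic quadratic space of
  dimension three is `q^2 - q` or `q^2 + q`.
-/

namespace Cfsg.Agent.Helper42.BnCn

universe u v

section perm

/-- The sign of a permutation whose nontrivial cycles all have the same even length `A`. -/
theorem sign_semiregular {α : Type*} [Fintype α] [DecidableEq α] (σ : Equiv.Perm α) (A : ℕ)
    (hA : Even A) (hσ : σ ^ A = 1)
    (hfree : ∀ x, σ x ≠ x → ∀ j : ℕ, (σ ^ j) x = x → A ∣ j) :
    ∃ k : ℕ, σ.support.card = A * k ∧ Equiv.Perm.sign σ = (-1) ^ k := by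
  have hall : ∀ n ∈ σ.cycleType, n = A := by
    intro n hn
    have h1 : n ∣ A := (Equiv.Perm.dvd_of_mem_cycleType hn).trans (orderOf_dvd_of_pow_eq_one hσ)
    obtain ⟨c, τ, hστ, hd, hc, hcn⟩ := Equiv.Perm.mem_cycleType_iff.mp hn
    have hcc := hc
    obtain ⟨x, hx, -⟩ := hc
    have hτx : τ x = x := (hd x).resolve_left hx
    have hτj : ∀ j : ℕ, (τ ^ j) x = x := fun j => by
      induction j with
      | zero => rfl
      | succ j ih => rw [pow_succ, Equiv.Perm.mul_apply, hτx, ih]
    have hσj : ∀ j : ℕ, (σ ^ j) x = (c ^ j) x := fun j => by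
      rw [hστ, hd.commute.mul_pow, Equiv.Perm.mul_apply, hτj]
    have hσx : σ x ≠ x := by
      have h3 := hσj 1
      rw [pow_one, pow_one] at h3
      rw [h3]
      exact hx
    have h2 : A ∣ n := by
      apply hfree x hσx
      rw [hσj, ← hcn, ← hcc.orderOf, pow_orderOf_eq_one]
      rfl
    exact Nat.dvd_antisymm h1 h2
  have hrep : σ.cycleType = Multiset.replicate (Multiset.card σ.cycleType) A :=
    Multiset.eq_replicate.mpr ⟨rfl, hall⟩
  refine ⟨Multiset.card σ.cycleType, ?_, ?_⟩
  · rw [← Equiv.Perm.sum_cycleType]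
    conv_lhs => rw [hrep]
    rw [Multiset.sum_replicate, smul_eq_mul, mul_comm]
  · rw [Equiv.Perm.sign_of_cycleType]
    have h1 : σ.cycleType.sum = A * Multiset.card σ.cycleType := by
      conv_lhs => rw [hrep]
      rw [Multiset.sum_replicate, smul_eq_mul, mul_comm]
    rw [h1, pow_add, pow_mul, hA.neg_one_pow, one_pow, one_mul]

end perm

section lin

variable {F : Type u} [Field F] {V : Type v} [AddCommGroup V] [Module F V]

/-- A `p`-element fixes a nonzero vector of every nonzero invariant subspace. -/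
theorem exists_fixed (p : ℕ) [Fact p.Prime] [CharP F p] (T : Module.End F V) (k : ℕ)
    (hT : T ^ (p ^ k) = 1) (X : Submodule F V) (hX : ∀ x ∈ X, T x ∈ X) (hX0 : X ≠ ⊥) :
    ∃ x ∈ X, x ≠ 0 ∧ T x = x := by
  classical
  obtain ⟨x, hxX, hx0⟩ := (Submodule.ne_bot_iff X).mp hX0
  haveI : Nontrivial V := ⟨⟨x, 0, hx0⟩⟩
  haveI := SpStruct.charP_end' (F := F) (V := V) p
  have hN : (T - 1) ^ (p ^ k) = 0 := by
    rw [sub_pow_char_pow_of_commute p k (Commute.one_right T), hT, one_pow, sub_self]
  have hex : ∃ i : ℕ, ((T - 1) ^ i) x = 0 := ⟨p ^ k, by rw [hN]; rfl⟩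
  obtain ⟨i₀, hi₀, hmin⟩ : ∃ i₀, ((T - 1) ^ i₀) x = 0 ∧ ∀ j < i₀, ((T - 1) ^ j) x ≠ 0 :=
    ⟨Nat.find hex, Nat.find_spec hex, fun j hj => Nat.find_min hex hj⟩
  have hi0 : i₀ ≠ 0 := by
    rintro rfl
    exact hx0 (by simpa using hi₀)
  obtain ⟨j, rfl⟩ := Nat.exists_eq_succ_of_ne_zero hi0
  have hinv : ∀ (i : ℕ), ((T - 1) ^ i) x ∈ X := by
    intro i
    induction i with
    | zero => simpa using hxX
    | succ i ih =>
      rw [pow_succ', Module.End.mul_apply, LinearMap.sub_apply, Module.End.one_apply]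
      exact X.sub_mem (hX _ ih) ih
  refine ⟨((T - 1) ^ j) x, hinv j, hmin j (Nat.lt_succ_self j), ?_⟩
  have h1 : (T - 1) (((T - 1) ^ j) x) = 0 := by
    rw [← Module.End.mul_apply, ← pow_succ']
    exact hi₀
  rw [LinearMap.sub_apply, Module.End.one_apply] at h1
  exact sub_eq_zero.mp h1

/-- An element of prime order `r` acting without nonzero fixed vectors on an invariant subspace
`X`: `r ∣ q ^ dim X - 1`. -/
theorem dvd_pow_finrank_sub_one [Fintype F] [FiniteDimensional F V] (r : ℕ) [Fact r.Prime]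
    (T : Module.End F V) (hT : T ^ r = 1) (X : Submodule F V) (hX : ∀ x ∈ X, T x ∈ X)
    (hfix : ∀ x ∈ X, T x = x → x = 0) : r ∣ Fintype.card F ^ Module.finrank F X - 1 := by
  classical
  haveI : Finite V := Module.finite_of_finite F
  haveI : Fintype X := Fintype.ofFinite X
  obtain ⟨f, hf⟩ : ∃ f : Function.End X, ∀ x : X, ((f x : X) : V) = T x.1 :=
    ⟨fun x => ⟨T x.1, hX x.1 x.2⟩, fun x => rfl⟩
  have hpow : ∀ (i : ℕ) (x : X), (((f ^ i) x : X) : V) = (T ^ i) x.1 := by
    intro i
    induction i with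
    | zero => intro x; rfl
    | succ i ih =>
      intro x
      rw [pow_succ', pow_succ', Function.End.mul_def]
      show ((f ((f ^ i) x) : X) : V) = _
      rw [hf, ih, Module.End.mul_apply]
  have hfr : f ^ r ^ 1 = 1 := by
    rw [pow_one]
    funext x
    apply Subtype.ext
    rw [hpow, hT]
    rfl
  have h1 := Equiv.Perm.card_fixedPoints_modEq (p := r) (n := 1) hfr
  have h2 : ∀ inst : Fintype (Function.fixedPoints f), @Fintype.card _ inst = 1 := by
    intro inst
    rw [Fintype.card_eq_one_iff]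
    refine ⟨⟨0, ?_⟩, ?_⟩
    · show f 0 = 0
      apply Subtype.ext
      rw [hf]
      simp
    · rintro ⟨x, hx⟩
      apply Subtype.ext
      apply Subtype.ext
      have h3 : f x = x := hx
      have h4 := congrArg Subtype.val h3
      rw [hf] at h4
      exact hfix x.1 x.2 h4
  have h3 : Fintype.card X = Fintype.card F ^ Module.finrank F X := Module.card_eq_pow_finrank
  rw [h2, h3] at h1
  exact (Nat.modEq_iff_dvd' (Nat.one_le_pow _ _ Fintype.card_pos)).mp h1.symm

end lin

section count

variable {F : Type u} [Field F] [Fintype F] {V : Type v} [AddCommGroup V] [Module F V]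

/-- Solutions of `b^2 α = c`. -/
theorem card_sq_mul (h2 : (2 : F) ≠ 0) (α c : F) (hc : c ≠ 0) :
    Nat.card {b : F // b ^ 2 * α = c} = 0 ∨ Nat.card {b : F // b ^ 2 * α = c} = 2 := by
  by_cases hex : ∃ b₀ : F, b₀ ^ 2 * α = c
  · right
    obtain ⟨b₀, hb₀⟩ := hex
    have hb0 : b₀ ≠ 0 := by
      rintro rfl
      apply hc
      rw [← hb₀]
      ring
    have hα : α ≠ 0 := by
      rintro rfl
      apply hc
      rw [← hb₀]
      ring
    rw [Nat.card_eq_two_iff]
    refine ⟨⟨b₀, hb₀⟩, ⟨-b₀, by rw [← hb₀]; ring⟩, ?_, ?_⟩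
    · intro h
      have h3 : b₀ = -b₀ := congrArg Subtype.val h
      have h4 : (2 : F) * b₀ = 0 := by linear_combination h3
      rcases mul_eq_zero.mp h4 with h5 | h5
      · exact h2 h5
      · exact hb0 h5
    · rw [Set.eq_univ_iff_forall]
      rintro ⟨b, hb⟩
      rw [Set.mem_insert_iff, Set.mem_singleton_iff]
      have h3 : (b - b₀) * (b + b₀) = 0 := by
        have h4 : (b ^ 2 - b₀ ^ 2) * α = 0 := by linear_combination hb - hb₀
        rcases mul_eq_zero.mp h4 with h5 | h5
        · linear_combination h5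
        · exact absurd h5 hα
      rcases mul_eq_zero.mp h3 with h5 | h5
      · left
        apply Subtype.ext
        exact sub_eq_zero.mp h5
      · right
        apply Subtype.ext
        show b = -b₀
        linear_combination h5
  · left
    rw [Nat.card_eq_zero]
    left
    exact ⟨fun ⟨b, hb⟩ => hex ⟨b, hb⟩⟩

/-- Solutions of `b^2 α + c'^2 β + a c' + b c' δ = c` in `(b, c', a)`. -/
theorem card_triples (α β δ c : F) :
    Nat.card {t : (F × F) × F //
      t.1.1 ^ 2 * α + t.1.2 ^ 2 * β + t.2 * t.1.2 + t.1.1 * t.1.2 * δ = c} =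
      (Fintype.card F - 1) * Fintype.card F +
        Fintype.card F * Nat.card {b : F // b ^ 2 * α = c} := by
  classical
  have e : {t : (F × F) × F //
      t.1.1 ^ 2 * α + t.1.2 ^ 2 * β + t.2 * t.1.2 + t.1.1 * t.1.2 * δ = c} ≃
      (Fˣ × F) ⊕ (F × {b : F // b ^ 2 * α = c}) :=
    { toFun := fun t =>
        if hc' : t.1.1.2 = 0 then
          Sum.inr (t.1.2, ⟨t.1.1.1, by
            have h := t.2
            rw [hc'] at h
            linear_combination h⟩)
        else Sum.inl (Units.mk0 t.1.1.2 hc', t.1.1.1)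
      invFun := fun s =>
        match s with
        | Sum.inl p =>
          ⟨((p.2, (p.1 : F)),
            (c - p.2 ^ 2 * α - (p.1 : F) ^ 2 * β - p.2 * (p.1 : F) * δ) / (p.1 : F)), by
            have h := p.1.ne_zero
            show p.2 ^ 2 * α + (p.1 : F) ^ 2 * β +
              (c - p.2 ^ 2 * α - (p.1 : F) ^ 2 * β - p.2 * (p.1 : F) * δ) / (p.1 : F) * (p.1 : F) +
              p.2 * (p.1 : F) * δ = c
            rw [div_mul_cancel₀ _ h]
            ring⟩
        | Sum.inr p =>
          ⟨((p.2.1, 0), p.1), by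
            have h := p.2.2
            show p.2.1 ^ 2 * α + (0 : F) ^ 2 * β + p.1 * 0 + p.2.1 * 0 * δ = c
            linear_combination h⟩
      left_inv := by
        rintro ⟨⟨⟨b, c'⟩, a⟩, h⟩
        by_cases hc' : c' = 0
        · subst hc'
          simp
        · simp only [dif_neg hc']
          apply Subtype.ext
          simp only [Units.val_mk0]
          refine Prod.ext rfl ?_
          show (c - b ^ 2 * α - c' ^ 2 * β - b * c' * δ) / c' = a
          rw [div_eq_iff hc']
          simp only [] at h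
          linear_combination -h
      right_inv := by
        rintro (⟨u, b⟩ | ⟨a, b, hb⟩)
        · simp
        · simp }
  rw [Nat.card_congr e, Nat.card_sum, Nat.card_prod, Nat.card_prod, Nat.card_eq_fintype_card,
    Nat.card_eq_fintype_card, Fintype.card_units]

/-- Three independent vectors of a three-dimensional subspace span it. -/
theorem exists_coords [FiniteDimensional F V] (W : Submodule F V)
    (hW : Module.finrank F W = 3) (z y w : V) (hz : z ∈ W) (hy : y ∈ W) (hw : w ∈ W)
    (hind : ∀ a b c : F, a • z + b • y + c • w = 0 → a = 0 ∧ b = 0 ∧ c = 0) :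
    ∀ v ∈ W, ∃ a b c : F, v = a • z + b • y + c • w := by
  classical
  haveI : Finite V := Module.finite_of_finite F
  obtain ⟨φ, hφ⟩ : ∃ φ : (F × F) × F → W,
      ∀ t, ((φ t : W) : V) = t.2 • z + t.1.1 • y + t.1.2 • w :=
    ⟨fun t => ⟨t.2 • z + t.1.1 • y + t.1.2 • w,
      W.add_mem (W.add_mem (W.smul_mem _ hz) (W.smul_mem _ hy)) (W.smul_mem _ hw)⟩, fun t => rfl⟩
  have hφinj : Function.Injective φ := by
    rintro ⟨⟨b, c'⟩, a⟩ ⟨⟨b', c''⟩, a'⟩ h
    have h1 := congrArg Subtype.val h
    rw [hφ, hφ] at h1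
    simp only at h1
    have h3 : (a - a') • z + (b - b') • y + (c' - c'') • w =
        (a • z + b • y + c' • w) - (a' • z + b' • y + c'' • w) := by
      simp only [sub_smul]
      abel
    obtain ⟨e1, e2, e3⟩ := hind (a - a') (b - b') (c' - c'') (by rw [h3, h1, sub_self])
    rw [sub_eq_zero] at e1 e2 e3
    subst e1 e2 e3
    rfl
  have hφbij : Function.Bijective φ := by
    haveI : Fintype W := Fintype.ofFinite W
    rw [Fintype.bijective_iff_injective_and_card]
    refine ⟨hφinj, ?_⟩
    rw [Fintype.card_prod, Fintype.card_prod, Module.card_eq_pow_finrank (K := F) (V := W), hW]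
    ring
  intro v hv
  obtain ⟨t, ht⟩ := hφbij.2 ⟨v, hv⟩
  have h1 : ((φ t : W) : V) = v := congrArg Subtype.val ht
  rw [hφ] at h1
  exact ⟨t.2, t.1.1, t.1.2, h1.symm⟩

/-- Vectors of norm `c ≠ 0` in an isotropic quadratic space of dimension three. -/
theorem card_three [FiniteDimensional F V] (h2 : (2 : F) ≠ 0) (Q : QuadraticForm F V)
    (W : Submodule F V) (hW : Module.finrank F W = 3) (z y w : V) (hz : z ∈ W) (hy : y ∈ W)
    (hw : w ∈ W) (hQz : Q z = 0) (hzy : QuadraticMap.polar Q z y = 0)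
    (hzw : QuadraticMap.polar Q z w = 1)
    (hind : ∀ a b c : F, a • z + b • y + c • w = 0 → a = 0 ∧ b = 0 ∧ c = 0)
    (c : F) (hc : c ≠ 0) :
    Nat.card {v : V // v ∈ W ∧ Q v = c} = Fintype.card F ^ 2 - Fintype.card F ∨
    Nat.card {v : V // v ∈ W ∧ Q v = c} = Fintype.card F ^ 2 + Fintype.card F := by
  classical
  obtain ⟨α, hα⟩ : ∃ α, α = Q y := ⟨_, rfl⟩
  obtain ⟨β, hβ⟩ : ∃ β, β = Q w := ⟨_, rfl⟩
  obtain ⟨δ, hδ⟩ : ∃ δ, δ = QuadraticMap.polar Q y w := ⟨_, rfl⟩
  have hQ : ∀ a b c' : F, Q (a • z + b • y + c' • w) =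
      b ^ 2 * α + c' ^ 2 * β + a * c' + b * c' * δ := by
    intro a b c'
    have e1 : Q (a • z + b • y + c' • w) = Q (a • z + b • y) + Q (c' • w) +
        QuadraticMap.polar Q (a • z + b • y) (c' • w) := by
      rw [QuadraticMap.polar]
      ring
    have e2 : Q (a • z + b • y) = Q (a • z) + Q (b • y) +
        QuadraticMap.polar Q (a • z) (b • y) := by
      rw [QuadraticMap.polar]
      ring
    rw [e1, e2, QuadraticMap.map_smul, QuadraticMap.map_smul, QuadraticMap.map_smul,
      QuadraticMap.polar_add_left, QuadraticMap.polar_smul_left, QuadraticMap.polar_smul_left,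
      QuadraticMap.polar_smul_right, QuadraticMap.polar_smul_right, QuadraticMap.polar_smul_left,
      QuadraticMap.polar_smul_right, hQz, hzy, hzw, ← hα, ← hβ, ← hδ]
    simp only [smul_eq_mul]
    ring
  have hcoord := exists_coords W hW z y w hz hy hw hind
  have hcard : Nat.card {v : V // v ∈ W ∧ Q v = c} = Nat.card {t : (F × F) × F //
      t.1.1 ^ 2 * α + t.1.2 ^ 2 * β + t.2 * t.1.2 + t.1.1 * t.1.2 * δ = c} := by
    symm
    apply Nat.card_congr
    refine Equiv.ofBijective (fun t => ⟨t.1.2 • z + t.1.1.1 • y + t.1.1.2 • w,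
      W.add_mem (W.add_mem (W.smul_mem _ hz) (W.smul_mem _ hy)) (W.smul_mem _ hw),
      by rw [hQ]; exact t.2⟩) ⟨?_, ?_⟩
    · rintro ⟨⟨⟨b, c'⟩, a⟩, ht⟩ ⟨⟨⟨b', c''⟩, a'⟩, ht'⟩ h
      have h1 : a • z + b • y + c' • w = a' • z + b' • y + c'' • w := congrArg Subtype.val h
      have h3 : (a - a') • z + (b - b') • y + (c' - c'') • w =
          (a • z + b • y + c' • w) - (a' • z + b' • y + c'' • w) := by
        simp only [sub_smul]
        abel
      obtain ⟨e1, e2, e3⟩ := hind (a - a') (b - b') (c' - c'') (by rw [h3, h1, sub_self])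
      rw [sub_eq_zero] at e1 e2 e3
      subst e1 e2 e3
      rfl
    · rintro ⟨v, hvW, hvQ⟩
      obtain ⟨a, b, c', hv⟩ := hcoord v hvW
      refine ⟨⟨((b, c'), a), ?_⟩, Subtype.ext hv.symm⟩
      show b ^ 2 * α + c' ^ 2 * β + a * c' + b * c' * δ = c
      rw [← hQ, ← hv]
      exact hvQ
  rw [hcard, card_triples]
  have hq : 1 ≤ Fintype.card F := Fintype.card_pos
  obtain ⟨k, hk⟩ : ∃ k, Fintype.card F = k + 1 := ⟨Fintype.card F - 1, by omega⟩
  rcases card_sq_mul h2 α c hc with h | h
  · left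
    have h5 : (k + 1) ^ 2 = k * (k + 1) + (k + 1) := by ring
    rw [h, hk, mul_zero, add_zero, Nat.add_sub_cancel, h5, Nat.add_sub_cancel]
  · right
    rw [h, hk]
    simp
    ring

end count

end Cfsg.Agent.Helper42.BnCn
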