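import Mathlib
import Cfsg.Agent.Helper42.BnCnA
import Cfsg.Agent.Helper42.PGraphL2
import Cfsg.Agent.Helper42.PGraphS

set_option autoImplicit false

/-!
# Spectra of `B_n(q)` and `C_n(q)`: the structure of an element of order `p (q^m + 1)` (helper42)

`struct` : in an orthogonal space of dimension `2m + 3` over a field with `q` elements (`q` odd),
let `S` be an isometry of order `q^m + 1` commuting with an isometry `U` of order `p`, and assume
that `S` fixes a nonzero vector.  Then there is a subspace `V₀` (of dimension three) fixed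
pointwise by `S`, outside of which `S` acts semiregularly, and the level sets of `Q` on `V₀` have
`q^2 ± q` points.
-/

namespace Cfsg.Agent.Helper42.BnCn

universe u v

variable {F : Type u} [Field F] [Fintype F] {V : Type v} [AddCommGroup V] [Module F V]
  [FiniteDimensional F V]

set_option maxHeartbeats 1600000 in
theorem struct (p : ℕ) [Fact p.Prime] [CharP F p] (h2 : (2 : F) ≠ 0)
    (Q : QuadraticForm F V) (hQ : ∀ x : V, (∀ y, QuadraticMap.polar Q x y = 0) → x = 0)
    (m : ℕ) (hm : 2 ≤ m) (hdim : Module.finrank F V = 2 * m + 3)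
    (r : ℕ) (hr : r.Prime) (hrdvd : r ∣ Fintype.card F ^ (2 * m) - 1)
    (hrprim : ∀ k : ℕ, 0 < k → k < 2 * m → ¬ r ∣ Fintype.card F ^ k - 1)
    (S U : Module.End F V) (hSQ : ∀ x, Q (S x) = Q x) (hUQ : ∀ x, Q (U x) = Q x)
    (hSU : Commute S U)
    (hSA : S ^ (Fintype.card F ^ m + 1) = 1)
    (hSord : ∀ j : ℕ, S ^ j = 1 → (Fintype.card F ^ m + 1) ∣ j)
    (hUp : U ^ p = 1) (hU1 : U ≠ 1)
    (hfix : ∃ v : V, v ≠ 0 ∧ S v = v) :
    ∃ V₀ : Submodule F V, (∀ x ∈ V₀, S x = x) ∧
      (∀ x, x ∉ V₀ → ∀ j : ℕ, (S ^ j) x = x → (Fintype.card F ^ m + 1) ∣ j) ∧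
      ∀ c : F, c ≠ 0 →
        (Nat.card {v : V // v ∈ V₀ ∧ Q v = c} = Fintype.card F ^ 2 - Fintype.card F ∨
        Nat.card {v : V // v ∈ V₀ ∧ Q v = c} = Fintype.card F ^ 2 + Fintype.card F) := by
  classical
  have hp : p.Prime := Fact.out
  haveI : Fact r.Prime := ⟨hr⟩
  obtain ⟨q, hq⟩ : ∃ q, q = Fintype.card F := ⟨_, rfl⟩
  rw [← hq] at hrdvd hrprim hSA hSord
  have hq2 : 2 ≤ q := by
    rw [hq]
    exact Fintype.one_lt_card
  have hqpow : ∀ e, 1 ≤ q ^ e := fun e => Nat.one_le_pow _ _ (by omega)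
  obtain ⟨A, hA⟩ : ∃ A, A = q ^ m + 1 := ⟨_, rfl⟩
  rw [← hA] at hSA hSord
  -- arithmetic of r
  have hr_ord : ∀ d : ℕ, r ∣ q ^ d - 1 → 2 * m ∣ d := by
    intro d hd
    have h1 := PGraphL.order_dvd_of_dvd r q (2 * m) (by omega) hrdvd
    have h3 : orderOf ((q : ℕ) : ZMod r) = 2 * m := by
      have h4 : 0 < orderOf ((q : ℕ) : ZMod r) := Nat.pos_of_ne_zero (by
        intro h0
        rw [h0, zero_dvd_iff] at h1
        omega)
      have h5 := Nat.le_of_dvd (by omega) h1
      by_contra hne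
      exact hrprim _ h4 (by omega) (PGraphL2.dvd_pow_sub_one_of_order_dvd r q _ dvd_rfl)
    rw [← h3]
    exact PGraphL.order_dvd_of_dvd r q d (by omega) hd
  have hrA : r ∣ A := by
    have h1 : q ^ (2 * m) - 1 = (q ^ m - 1) * (q ^ m + 1) := PGraphS.q2e_sub_one q m (by omega)
    rw [h1] at hrdvd
    rcases (Nat.Prime.dvd_mul hr).mp hrdvd with h | h
    · exact absurd h (hrprim m (by omega) (by omega))
    · rw [hA]
      exact h
  have hpq : p ∣ q := by
    obtain ⟨e, -, he⟩ := FiniteField.card F p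
    rw [hq, he]
    exact dvd_pow_self p e.ne_zero
  have hrF : ((r : ℕ) : F) ≠ 0 := by
    intro h0
    have h1 : p ∣ r := (CharP.cast_eq_zero_iff F p r).mp h0
    have h3 : r ∣ q := by
      rw [(Nat.prime_dvd_prime_iff_eq hp hr).mp h1] at hpq
      exact hpq
    have h4 : r ∣ q ^ (2 * m) := dvd_pow h3 (by omega)
    have h5 := hqpow (2 * m)
    have h6 : r ∣ 1 := by
      have h7 : q ^ (2 * m) = (q ^ (2 * m) - 1) + 1 := by omega
      rw [h7] at h4
      exact (Nat.dvd_add_right hrdvd).mp h4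
    exact hr.one_lt.ne' (Nat.dvd_one.mp h6)
  have hAF : ((A : ℕ) : F) ≠ 0 := by
    intro h0
    have h1 : p ∣ A := (CharP.cast_eq_zero_iff F p A).mp h0
    have h3 : p ∣ q ^ m := dvd_pow hpq (by omega)
    rw [hA] at h1
    exact hp.one_lt.ne' (Nat.dvd_one.mp ((Nat.dvd_add_right h3).mp h1))
  -- polar forms
  have hSB : ∀ x y, QuadraticMap.polar Q (S x) (S y) = QuadraticMap.polar Q x y := by
    intro x y
    simp only [QuadraticMap.polar, ← map_add, hSQ]
  have hUB : ∀ x y, QuadraticMap.polar Q (U x) (U y) = QuadraticMap.polar Q x y := by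
    intro x y
    simp only [QuadraticMap.polar, ← map_add, hUQ]
  -- the element t of order r
  obtain ⟨e, he⟩ : ∃ e, A = r * e := hrA
  obtain ⟨t, ht⟩ : ∃ t : Module.End F V, t = S ^ e := ⟨_, rfl⟩
  have htr : t ^ r = 1 := by rw [ht, ← pow_mul, mul_comm, ← he, hSA]
  have ht1 : t ≠ 1 := by
    intro h
    rw [ht] at h
    have h1 := hSord e h
    have he0 : 0 < e := by
      rcases Nat.eq_zero_or_pos e with h0 | h0
      · rw [h0, mul_zero] at he
        rw [hA] at he
        omega
      · exact h0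
    have h3 := Nat.le_of_dvd he0 h1
    have h4 : 2 * e ≤ r * e := Nat.mul_le_mul_right _ hr.two_le
    omega
  have htS : Commute t S := by
    rw [ht]
    exact (Commute.refl S).pow_left e
  have htU : Commute t U := by
    rw [ht]
    exact hSU.pow_left e
  have htB : ∀ x y, QuadraticMap.polar Q (t x) (t y) = QuadraticMap.polar Q x y := by
    have h1 : ∀ (i : ℕ) x y,
        QuadraticMap.polar Q ((S ^ i) x) ((S ^ i) y) = QuadraticMap.polar Q x y := by
      intro i
      induction i with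
      | zero => intro x y; rfl
      | succ i ih =>
        intro x y
        rw [pow_succ', Module.End.mul_apply, Module.End.mul_apply, hSB, ih]
    intro x y
    rw [ht]
    exact h1 e x y
  obtain ⟨V₀, hV₀⟩ : ∃ V₀ : Submodule F V, V₀ = LinearMap.ker (t - 1) := ⟨_, rfl⟩
  obtain ⟨V₁, hV₁⟩ : ∃ V₁ : Submodule F V, V₁ = LinearMap.range (t - 1) := ⟨_, rfl⟩
  have hmem0 : ∀ x, x ∈ V₀ ↔ t x = x := by
    intro x
    rw [hV₀, LinearMap.mem_ker, LinearMap.sub_apply, Module.End.one_apply, sub_eq_zero]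
  have hmem1 : ∀ x, x ∈ V₁ ↔ ∃ y, t y - y = x := by
    intro x
    rw [hV₁, LinearMap.mem_range]
    simp only [LinearMap.sub_apply, Module.End.one_apply]
  -- invariance under commuting maps
  have hinv0 : ∀ c : Module.End F V, Commute t c → ∀ x ∈ V₀, c x ∈ V₀ := by
    intro c hc x hx
    rw [hmem0] at hx ⊢
    have h1 : t (c x) = c (t x) := by
      rw [← Module.End.mul_apply, ← Module.End.mul_apply, hc.eq]
    rw [h1, hx]
  have hinv1 : ∀ c : Module.End F V, Commute t c → ∀ x ∈ V₁, c x ∈ V₁ := by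
    intro c hc x hx
    rw [hmem1] at hx ⊢
    obtain ⟨y, rfl⟩ := hx
    refine ⟨c y, ?_⟩
    have h1 : t (c y) = c (t y) := by
      rw [← Module.End.mul_apply, ← Module.End.mul_apply, hc.eq]
    rw [h1, map_sub]
  -- disjointness
  have hdisj : ∀ x, x ∈ V₀ → x ∈ V₁ → x = 0 := by
    intro x h0 h1
    rw [hmem0] at h0
    rw [hmem1] at h1
    obtain ⟨y, hy⟩ := h1
    have h3 : ∀ i : ℕ, (t ^ i) x = x := by
      intro i
      induction i with
      | zero => rfl
      | succ i ih => rw [pow_succ, Module.End.mul_apply, h0, ih]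
    have h4 : (∑ i ∈ Finset.range r, t ^ i) x = (r : F) • x := by
      rw [LinearMap.sum_apply, Finset.sum_congr rfl (fun i _ => h3 i), Finset.sum_const,
        Finset.card_range, Nat.cast_smul_eq_nsmul]
    have h5 : (∑ i ∈ Finset.range r, t ^ i) x = 0 := by
      have h6 : (∑ i ∈ Finset.range r, t ^ i) * (t - 1) = 0 := by
        rw [geom_sum_mul, htr, sub_self]
      have h7 : x = (t - 1) y := by
        rw [LinearMap.sub_apply, Module.End.one_apply, hy]
      rw [h7, ← Module.End.mul_apply, h6]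
      rfl
    rw [h4] at h5
    exact (smul_eq_zero.mp h5).resolve_left hrF
  have hrank := LinearMap.finrank_range_add_finrank_ker (t - 1)
  rw [← hV₀, ← hV₁, hdim] at hrank
  -- decomposition
  have hsup : V₀ ⊔ V₁ = ⊤ := by
    apply Submodule.eq_top_of_finrank_eq
    have h1 := Submodule.finrank_sup_add_finrank_inf_eq V₀ V₁
    have h3 : V₀ ⊓ V₁ = ⊥ := by
      rw [eq_bot_iff]
      intro x hx
      rw [Submodule.mem_inf] at hx
      rw [Submodule.mem_bot]
      exact hdisj x hx.1 hx.2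
    rw [h3, finrank_bot, add_zero] at h1
    rw [h1, hdim]
    omega
  have hdec : ∀ x : V, ∃ a ∈ V₀, ∃ b ∈ V₁, x = a + b := by
    intro x
    have h1 : x ∈ V₀ ⊔ V₁ := by
      rw [hsup]
      trivial
    obtain ⟨a, ha, b, hb, hab⟩ := Submodule.mem_sup.mp h1
    exact ⟨a, ha, b, hb, hab.symm⟩
  have horth : ∀ x ∈ V₀, ∀ y ∈ V₁, QuadraticMap.polar Q x y = 0 := by
    intro x hx y hy
    rw [hmem0] at hx
    rw [hmem1] at hy
    obtain ⟨y', rfl⟩ := hy
    rw [QuadraticMap.polar_sub_right]
    nth_rewrite 1 [← hx]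
    rw [htB, sub_self]
  -- V₁ is nonzero
  have hV₁ne : V₁ ≠ ⊥ := by
    intro h
    apply ht1
    apply LinearMap.ext
    intro x
    have h1 : t x - x ∈ V₁ := (hmem1 _).mpr ⟨x, rfl⟩
    rw [h, Submodule.mem_bot] at h1
    rw [Module.End.one_apply]
    exact sub_eq_zero.mp h1
  -- invariant subspaces of V₁
  have hdiv : ∀ X : Submodule F V, X ≤ V₁ → (∀ x ∈ X, t x ∈ X) →
      2 * m ∣ Module.finrank F X := by
    intro X hX hXt
    apply hr_ord
    rw [hq]
    exact dvd_pow_finrank_sub_one r t htr X hXt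
      (fun x hx hfx => hdisj x ((hmem0 x).mpr hfx) (hX hx))
  have hfr1 : Module.finrank F V₁ = 2 * m := by
    have h1 := hdiv V₁ le_rfl (fun x hx => hinv1 t (Commute.refl t) x hx)
    have h3 : 0 < Module.finrank F V₁ := by
      rw [Module.finrank_pos_iff]
      exact Submodule.nontrivial_iff_ne_bot.mpr hV₁ne
    obtain ⟨k, hk⟩ := h1
    have hk1 : 1 ≤ k := by
      rcases Nat.eq_zero_or_pos k with h0 | h0
      · rw [h0, mul_zero] at hk
        omega
      · exact h0
    have hk2 : k < 2 := by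
      by_contra hcon
      have h4 : 2 * m * 2 ≤ 2 * m * k := Nat.mul_le_mul_left _ (by omega)
      omega
    have h5 : k = 1 := by omega
    rw [hk, h5, mul_one]
  have hfr0 : Module.finrank F V₀ = 3 := by omega
  have hmin : ∀ X : Submodule F V, X ≤ V₁ → X ≠ ⊥ → (∀ x ∈ X, t x ∈ X) → X = V₁ := by
    intro X hX hX0 hXt
    apply Submodule.eq_of_le_of_finrank_le hX
    obtain ⟨k, hk⟩ := hdiv X hX hXt
    have h3 : 0 < Module.finrank F X := by
      rw [Module.finrank_pos_iff]
      exact Submodule.nontrivial_iff_ne_bot.mpr hX0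
    rw [hfr1, hk]
    rcases Nat.eq_zero_or_pos k with h0 | h0
    · rw [h0, mul_zero] at hk
      omega
    · exact Nat.le_mul_of_pos_right _ h0
  -- a commuting map fixing a nonzero vector of V₁ fixes V₁ pointwise
  have hprin : ∀ c : Module.End F V, Commute t c → (∃ b ∈ V₁, b ≠ 0 ∧ c b = b) →
      ∀ x ∈ V₁, c x = x := by
    intro c hc ⟨b, hb, hb0, hcb⟩ x hx
    obtain ⟨X, hXdef⟩ : ∃ X : Submodule F V, X = V₁ ⊓ LinearMap.ker (c - 1) := ⟨_, rfl⟩
    have hXmem : ∀ v, v ∈ X ↔ v ∈ V₁ ∧ c v = v := by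
      intro v
      rw [hXdef, Submodule.mem_inf, LinearMap.mem_ker, LinearMap.sub_apply, Module.End.one_apply,
        sub_eq_zero]
    have h1 : X = V₁ := by
      apply hmin X
      · intro v hv
        exact ((hXmem v).mp hv).1
      · intro h0
        have h3 : b ∈ X := (hXmem b).mpr ⟨hb, hcb⟩
        rw [h0, Submodule.mem_bot] at h3
        exact hb0 h3
      · intro v hv
        rw [hXmem] at hv ⊢
        refine ⟨hinv1 t (Commute.refl t) v hv.1, ?_⟩
        have h3 : c (t v) = t (c v) := by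
          rw [← Module.End.mul_apply, ← Module.End.mul_apply, hc.eq]
        rw [h3, hv.2]
    rw [← h1] at hx
    exact ((hXmem x).mp hx).2
  -- U is trivial on V₁
  have hU1' : ∀ x ∈ V₁, U x = x := by
    apply hprin U htU
    obtain ⟨x, hx, hx0, hUx⟩ := exists_fixed p U 1 (by rw [pow_one]; exact hUp) V₁
      (fun x hx => hinv1 U htU x hx) hV₁ne
    exact ⟨x, hx, hx0, hUx⟩
  obtain ⟨x₀, hx₀, hUx₀⟩ : ∃ x₀ ∈ V₀, U x₀ ≠ x₀ := by
    by_contra hcon
    push Not at hcon
    apply hU1
    apply LinearMap.ext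
    intro x
    obtain ⟨a, ha, b, hb, rfl⟩ := hdec x
    rw [map_add, hcon a ha, hU1' b hb]
    rfl
  -- the singular vector z
  obtain ⟨R, hR⟩ : ∃ R : Submodule F V, R = Submodule.map (U - 1) V₀ := ⟨_, rfl⟩
  have hRmem : ∀ x, x ∈ R ↔ ∃ a ∈ V₀, U a - a = x := by
    intro x
    rw [hR, Submodule.mem_map]
    simp only [LinearMap.sub_apply, Module.End.one_apply]
  have hRne : R ≠ ⊥ := by
    intro h
    have h1 : U x₀ - x₀ ∈ R := (hRmem _).mpr ⟨x₀, hx₀, rfl⟩
    rw [h, Submodule.mem_bot] at h1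
    exact hUx₀ (sub_eq_zero.mp h1)
  have hRU : ∀ x ∈ R, U x ∈ R := by
    intro x hx
    rw [hRmem] at hx ⊢
    obtain ⟨a, ha, rfl⟩ := hx
    exact ⟨U a, hinv0 U htU a ha, by rw [map_sub]⟩
  obtain ⟨z, hzR, hz0, hUz⟩ := exists_fixed p U 1 (by rw [pow_one]; exact hUp) R hRU hRne
  obtain ⟨y, hyV, hyz⟩ := (hRmem z).mp hzR
  have hUy : U y = y + z := by
    rw [← hyz]
    abel
  have hzV : z ∈ V₀ := by
    rw [← hyz]
    exact V₀.sub_mem (hinv0 U htU y hyV) hyV
  have hzperp : ∀ x, U x = x → QuadraticMap.polar Q z x = 0 := by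
    intro x hx
    rw [← hyz, QuadraticMap.polar_sub_left]
    nth_rewrite 1 [← hx]
    rw [hUB, sub_self]
  have hzz : QuadraticMap.polar Q z z = 0 := hzperp z hUz
  have hQz : Q z = 0 := by
    have h1 := hzz
    rw [QuadraticMap.polar_self, two_smul] at h1
    have h3 : (2 : F) * Q z = 0 := by linear_combination h1
    exact (mul_eq_zero.mp h3).resolve_left h2
  have hzy : QuadraticMap.polar Q z y = 0 := by
    have h1 := hUQ y
    rw [hUy] at h1
    have h3 : Q (y + z) = Q y + Q z + QuadraticMap.polar Q y z := by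
      rw [QuadraticMap.polar]
      ring
    rw [h3, hQz] at h1
    rw [QuadraticMap.polar_comm]
    linear_combination h1
  obtain ⟨w, hwV, hzw⟩ : ∃ w ∈ V₀, QuadraticMap.polar Q z w = 1 := by
    have h1 : ∃ v, QuadraticMap.polar Q z v ≠ 0 := by
      by_contra hcon
      push Not at hcon
      exact hz0 (hQ z hcon)
    obtain ⟨v, hv⟩ := h1
    obtain ⟨a, ha, b, hb, rfl⟩ := hdec v
    rw [QuadraticMap.polar_add_right, horth z hzV b hb, add_zero] at hv
    refine ⟨(QuadraticMap.polar Q z a)⁻¹ • a, V₀.smul_mem _ ha, ?_⟩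
    rw [QuadraticMap.polar_smul_right, smul_eq_mul, inv_mul_cancel₀ hv]
  have hpol : ∀ a b c : F, QuadraticMap.polar Q z (a • z + b • y + c • w) = c := by
    intro a b c
    rw [QuadraticMap.polar_add_right, QuadraticMap.polar_add_right,
      QuadraticMap.polar_smul_right, QuadraticMap.polar_smul_right,
      QuadraticMap.polar_smul_right, hzz, hzy, hzw]
    simp
  have hUcomb : ∀ a b : F, U (a • z + b • y) - (a • z + b • y) = b • z := by
    intro a b
    rw [map_add, map_smul, map_smul, hUz, hUy, smul_add]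
    abel
  have hind : ∀ a b c : F, a • z + b • y + c • w = 0 → a = 0 ∧ b = 0 ∧ c = 0 := by
    intro a b c h
    have hc0 : c = 0 := by
      have h1 := hpol a b c
      rw [h, QuadraticMap.polar_zero_right] at h1
      exact h1.symm
    subst hc0
    rw [zero_smul, add_zero] at h
    have hb0 : b = 0 := by
      have h1 := hUcomb a b
      rw [h, map_zero, sub_zero] at h1
      exact (smul_eq_zero.mp h1.symm).resolve_right hz0
    subst hb0
    rw [zero_smul, add_zero] at h
    exact ⟨(smul_eq_zero.mp h).resolve_right hz0, rfl, rfl⟩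
  have hcoord := exists_coords V₀ hfr0 z y w hzV hyV hwV hind
  have hF₀ : ∀ x ∈ V₀, U x = x → ∃ a : F, x = a • z := by
    intro x hx hUx
    obtain ⟨a, b, c, rfl⟩ := hcoord x hx
    have hc0 : c = 0 := by
      have h1 := hzperp _ hUx
      rw [hpol] at h1
      exact h1
    subst hc0
    rw [zero_smul, add_zero] at hUx ⊢
    have hb0 : b = 0 := by
      have h1 := hUcomb a b
      rw [hUx, sub_self] at h1
      exact (smul_eq_zero.mp h1.symm).resolve_right hz0
    subst hb0
    exact ⟨a, by rw [zero_smul, add_zero]⟩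
  -- S is scalar on V₀
  obtain ⟨α, hα⟩ : ∃ α : F, S z = α • z := by
    apply hF₀ (S z) (hinv0 S htS z hzV)
    have h1 : U (S z) = S (U z) := by
      rw [← Module.End.mul_apply, ← Module.End.mul_apply, hSU.eq]
    rw [h1, hUz]
  have hSpow_z : ∀ j : ℕ, (S ^ j) z = α ^ j • z := by
    intro j
    induction j with
    | zero => simp
    | succ j ih => rw [pow_succ', Module.End.mul_apply, ih, map_smul, hα, smul_smul, pow_succ]
  have hαA : α ^ A = 1 := by
    have h1 := hSpow_z A
    rw [hSA, Module.End.one_apply] at h1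
    have h3 : (α ^ A - 1) • z = 0 := by rw [sub_smul, one_smul, ← h1, sub_self]
    exact sub_eq_zero.mp ((smul_eq_zero.mp h3).resolve_right hz0)
  have hα0 : α ≠ 0 := by
    rintro rfl
    rw [zero_pow (by rw [hA]; omega)] at hαA
    exact zero_ne_one hαA
  have hSV₀ : ∀ x ∈ V₀, S x = α • x := by
    by_contra hcon
    push Not at hcon
    obtain ⟨x₁, hx₁, hSx₁⟩ := hcon
    obtain ⟨R', hR'⟩ : ∃ R' : Submodule F V, R' = Submodule.map (S - α • 1) V₀ := ⟨_, rfl⟩
    have hR'mem : ∀ x, x ∈ R' ↔ ∃ a ∈ V₀, S a - α • a = x := by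
      intro x
      rw [hR', Submodule.mem_map]
      simp only [LinearMap.sub_apply, LinearMap.smul_apply, Module.End.one_apply]
    have hR'ne : R' ≠ ⊥ := by
      intro h
      have h1 : S x₁ - α • x₁ ∈ R' := (hR'mem _).mpr ⟨x₁, hx₁, rfl⟩
      rw [h, Submodule.mem_bot] at h1
      exact hSx₁ (sub_eq_zero.mp h1)
    have hR'U : ∀ x ∈ R', U x ∈ R' := by
      intro x hx
      rw [hR'mem] at hx ⊢
      obtain ⟨a, ha, rfl⟩ := hx
      refine ⟨U a, hinv0 U htU a ha, ?_⟩
      have h1 : S (U a) = U (S a) := by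
        rw [← Module.End.mul_apply, ← Module.End.mul_apply, hSU.eq]
      rw [h1, map_sub, map_smul]
    obtain ⟨z', hz'R, hz'0, hUz'⟩ := exists_fixed p U 1 (by rw [pow_one]; exact hUp) R' hR'U
      hR'ne
    obtain ⟨y', hy'V, hy'z⟩ := (hR'mem z').mp hz'R
    have hz'V : z' ∈ V₀ := by
      rw [← hy'z]
      exact V₀.sub_mem (hinv0 S htS y' hy'V) (V₀.smul_mem _ hy'V)
    obtain ⟨a, ha⟩ := hF₀ z' hz'V hUz'
    have ha0 : a ≠ 0 := by
      rintro rfl
      rw [zero_smul] at ha
      exact hz'0 ha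
    obtain ⟨y'', hy''⟩ : ∃ y'' : V, y'' = a⁻¹ • y' := ⟨_, rfl⟩
    have hSy'' : S y'' = α • y'' + z := by
      have h1 : S y' = α • y' + a • z := by
        rw [← ha, ← hy'z]
        abel
      rw [hy'', map_smul, h1, smul_add, smul_smul, smul_smul, smul_smul, inv_mul_cancel₀ ha0,
        one_smul, mul_comm]
    have hpow : ∀ j : ℕ, (S ^ (j + 1)) y'' =
        α ^ (j + 1) • y'' + (((j + 1 : ℕ) : F) * α ^ j) • z := by
      intro j
      induction j with
      | zero => simp [hSy'']
      | succ j ih =>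
        rw [pow_succ', Module.End.mul_apply, ih, map_add, map_smul, map_smul, hSy'', hα]
        simp only [smul_add, smul_smul]
        rw [add_assoc, ← add_smul]
        congr 1
        · congr 1
          ring
        · congr 1
          push_cast
          ring
    obtain ⟨A', hA'⟩ : ∃ A', A = A' + 1 := ⟨A - 1, by rw [hA]; omega⟩
    have h1 := hpow A'
    rw [← hA', hSA, Module.End.one_apply, hαA, one_smul] at h1
    have h3 : (((A : ℕ) : F) * α ^ A') • z = 0 := by
      have h4 : y'' + (((A : ℕ) : F) * α ^ A') • z = y'' + 0 := by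
        rw [add_zero]
        exact h1.symm
      exact add_left_cancel h4
    rcases smul_eq_zero.mp h3 with h4 | h4
    · rcases mul_eq_zero.mp h4 with h5 | h5
      · exact hAF h5
      · exact pow_ne_zero A' hα0 h5
    · exact hz0 h4
  obtain ⟨x₂, hx₂V, hQx₂⟩ : ∃ x₂ ∈ V₀, Q x₂ ≠ 0 := by
    by_cases hQw : Q w = 0
    · refine ⟨w + z, V₀.add_mem hwV hzV, ?_⟩
      have h3 : Q (w + z) = Q w + Q z + QuadraticMap.polar Q w z := by
        rw [QuadraticMap.polar]
        ring
      rw [h3, hQw, hQz, QuadraticMap.polar_comm, hzw]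
      simp
    · exact ⟨w, hwV, hQw⟩
  have hα2 : α = 1 ∨ α = -1 := by
    have h1 := hSQ x₂
    rw [hSV₀ x₂ hx₂V, QuadraticMap.map_smul, smul_eq_mul] at h1
    have h3 : (α * α - 1) * Q x₂ = 0 := by linear_combination h1
    rcases mul_eq_zero.mp h3 with h4 | h4
    · exact mul_self_eq_one_iff.mp (sub_eq_zero.mp h4)
    · exact absurd h4 hQx₂
  rcases hα2 with hα1 | hα1
  · -- α = 1
    have hS0 : ∀ x ∈ V₀, S x = x := by
      intro x hx
      rw [hSV₀ x hx, hα1, one_smul]
    have hpow0 : ∀ (i : ℕ) (x : V), x ∈ V₀ → (S ^ i) x = x := by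
      intro i x hx
      induction i with
      | zero => rfl
      | succ i ih => rw [pow_succ, Module.End.mul_apply, hS0 x hx, ih]
    subst hq
    subst hA
    refine ⟨V₀, hS0, ?_, ?_⟩
    · intro x hx j hj
      obtain ⟨a, ha, b, hb, rfl⟩ := hdec x
      have hb0 : b ≠ 0 := by
        rintro rfl
        rw [add_zero] at hx
        exact hx ha
      rw [map_add, hpow0 j a ha] at hj
      have hSjb : (S ^ j) b = b := add_left_cancel hj
      have h1 := hprin (S ^ j) (htS.pow_right j) ⟨b, hb, hb0, hSjb⟩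
      apply hSord
      apply LinearMap.ext
      intro v
      obtain ⟨a', ha', b', hb', rfl⟩ := hdec v
      rw [map_add, hpow0 j a' ha', h1 b' hb']
      rfl
    · intro c hc
      exact card_three h2 Q V₀ hfr0 z y w hzV hyV hwV hQz hzy hzw hind c hc
  · -- α = -1: impossible
    exfalso
    obtain ⟨v, hv0, hSv⟩ := hfix
    obtain ⟨a, ha, b, hb, rfl⟩ := hdec v
    rw [map_add, hSV₀ a ha, hα1, neg_one_smul] at hSv
    have h1 : S b - b = a + a := by
      have h3 : S b - b = (-a + S b) + a - b := by abel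
      rw [h3, hSv]
      abel
    have h3 : a + a ∈ V₁ := by
      rw [← h1]
      exact V₁.sub_mem (hinv1 S htS b hb) hb
    have h4 : a + a = 0 := hdisj _ (V₀.add_mem ha ha) h3
    have ha0 : a = 0 := by
      have h5 : (2 : F) • a = 0 := by
        rw [two_smul]
        exact h4
      exact (smul_eq_zero.mp h5).resolve_left h2
    subst ha0
    rw [zero_add] at hv0
    have hSb : S b = b := by
      rw [h4] at h1
      exact sub_eq_zero.mp h1
    have h6 := hprin S htS ⟨b, hb, hv0, hSb⟩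
    have h7 : ∀ x ∈ V₁, t x = x := by
      intro x hx
      rw [ht]
      have h8 : ∀ i : ℕ, (S ^ i) x = x := by
        intro i
        induction i with
        | zero => rfl
        | succ i ih => rw [pow_succ, Module.End.mul_apply, h6 x hx, ih]
      exact h8 e
    apply hV₁ne
    rw [eq_bot_iff]
    intro x hx
    rw [Submodule.mem_bot]
    exact hdisj x ((hmem0 x).mpr (h7 x hx)) hx

end Cfsg.Agent.Helper42.BnCn
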