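import Mathlib
import Cfsg.Agent.Helper95.G2SylDefs
import Cfsg.Agent.Helper5.SLCard

/-! Piece ARITH of CALL S4632 (helper42): the 2-part of `(q^6 + q^3) |SL_3(q)|`. -/

set_option autoImplicit false

open Matrix Cfsg.Agent.Helper95.G2Syl

namespace Cfsg.Agent.Helper42

variable {F : Type*} [Field F]

theorem g2_v2 [Fintype F] (hF : Odd (Fintype.card F)) :
    ((Fintype.card F ^ 6 + Fintype.card F ^ 3) *
        Nat.card (Matrix.SpecialLinearGroup (Fin 3) F)).factorization 2 =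
      2 * padicValNat 2 (Fintype.card F ^ 2 - 1) := by
  classical
  have hq1 : 1 < Fintype.card F := Fintype.one_lt_card
  obtain ⟨a, ha⟩ : ∃ a, Fintype.card F = a + 1 := ⟨Fintype.card F - 1, by omega⟩
  have hGL := Cfsg.Agent.Helper5.card_SL_mul (F := F) (Fin 3)
  rw [Matrix.card_GL_field] at hGL
  simp only [Fin.prod_univ_three, Fin.val_zero, Fin.val_one, Fin.val_two, pow_zero, pow_one] at hGL
  rw [ha] at hGL hF ⊢
  have ha_even : Even a := by
    rcases hF with ⟨j, hj⟩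
    exact ⟨j, by omega⟩
  have ha_pos : 0 < a := by omega
  have e1 : (a + 1) ^ 3 - 1 = a * (a ^ 2 + 3 * a + 3) := by
    apply Nat.sub_eq_of_eq_add; ring
  have e2 : (a + 1) ^ 3 - (a + 1) = (a + 1) * a * (a + 2) := by
    apply Nat.sub_eq_of_eq_add; ring
  have e3 : (a + 1) ^ 3 - (a + 1) ^ 2 = (a + 1) ^ 2 * a := by
    apply Nat.sub_eq_of_eq_add; ring
  have e0 : a + 1 - 1 = a := by omega
  rw [e0, e1, e2, e3] at hGL
  have hN : Nat.card (Matrix.SpecialLinearGroup (Fin 3) F) =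
      a ^ 2 * (a + 1) ^ 3 * (a + 2) * (a ^ 2 + 3 * a + 3) := by
    apply Nat.eq_of_mul_eq_mul_right ha_pos
    rw [hGL]; ring
  rw [hN]
  have e4 : (a + 1) ^ 2 - 1 = a * (a + 2) := by
    apply Nat.sub_eq_of_eq_add; ring
  rw [e4]
  have hT : ((a + 1) ^ 6 + (a + 1) ^ 3) * (a ^ 2 * (a + 1) ^ 3 * (a + 2) * (a ^ 2 + 3 * a + 3)) =
      (a * (a + 2)) ^ 2 * ((a + 1) ^ 6 * (a ^ 2 + a + 1) * (a ^ 2 + 3 * a + 3)) := by ring
  rw [hT, Nat.factorization_def _ Nat.prime_two]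
  haveI : Fact (Nat.Prime 2) := ⟨Nat.prime_two⟩
  have hodd : ¬ 2 ∣ (a + 1) ^ 6 * (a ^ 2 + a + 1) * (a ^ 2 + 3 * a + 3) := by
    obtain ⟨r, hr⟩ := ha_even
    rw [Nat.Prime.dvd_mul Nat.prime_two, Nat.Prime.dvd_mul Nat.prime_two]
    rintro ((h | h) | h)
    · have := Nat.Prime.dvd_of_dvd_pow Nat.prime_two h
      omega
    · subst hr
      have : (r + r) ^ 2 + (r + r) + 1 = 2 * (2 * r ^ 2 + r) + 1 := by ring
      omega
    · subst hr
      have : (r + r) ^ 2 + 3 * (r + r) + 3 = 2 * (2 * r ^ 2 + 3 * r + 1) + 1 := by ring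
      omega
  have hne1 : a * (a + 2) ≠ 0 := (Nat.mul_pos ha_pos (by omega)).ne'
  have hne2 : (a + 1) ^ 6 * (a ^ 2 + a + 1) * (a ^ 2 + 3 * a + 3) ≠ 0 := by
    intro h0
    rw [h0] at hodd
    exact hodd (dvd_zero 2)
  rw [padicValNat.mul (pow_ne_zero 2 hne1) hne2, padicValNat.eq_zero_of_not_dvd hodd, add_zero,
    padicValNat.pow]

end Cfsg.Agent.Helper42
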