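import Mathlib
import Cfsg.Agent.Helper95.G2SylDefs

/-! Piece CARDA of CALL S4632 (helper42): `|D| |Q| ≤ |ι(D) φ(Q)| · |Z|`. -/

set_option autoImplicit false

open Matrix Cfsg.Agent.Helper95.G2Syl

namespace Cfsg.Agent.Helper42

variable {F : Type*} [Field F]

theorem g2s_card_mul {G : Type*} [Group G] [Finite G] [Finite F] (ι : GL (Fin 2) F →* G)
    (φ : Matrix.SpecialLinearGroup (Fin 2) F →* G)
    (hι : Function.Injective ι) (hφ : Function.Injective φ)
    (hint : ∀ h c, ι h = φ c → ∃ t : Fˣ, h = gdiag t t)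
    (D : Subgroup (GL (Fin 2) F)) :
    Nat.card D * Nat.card (D.comap Matrix.SpecialLinearGroup.toGL) ≤
      Nat.card ↥(D.map ι ⊔ (D.comap Matrix.SpecialLinearGroup.toGL).map φ) *
        Nat.card {t : Fˣ // gdiag t t ∈ D} := by
  classical
  obtain ⟨f, hf⟩ : ∃ f : D × (D.comap Matrix.SpecialLinearGroup.toGL) → G,
      ∀ x, f x = ι (x.1 : GL (Fin 2) F) * φ (x.2 : Matrix.SpecialLinearGroup (Fin 2) F) :=
    ⟨_, fun _ => rfl⟩
  have hfS : ∀ x, f x ∈ D.map ι ⊔ (D.comap Matrix.SpecialLinearGroup.toGL).map φ := by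
    intro x
    rw [hf]
    exact Subgroup.mul_mem _ (Subgroup.mem_sup_left (Subgroup.mem_map_of_mem ι x.1.2))
      (Subgroup.mem_sup_right (Subgroup.mem_map_of_mem φ x.2.2))
  obtain ⟨rep, hrep⟩ : ∃ rep : G → D × (D.comap Matrix.SpecialLinearGroup.toGL),
      ∀ x, f (rep (f x)) = f x := by
    refine ⟨fun s => if h : ∃ y, f y = s then Classical.choose h else (1, 1), fun x => ?_⟩
    have h : ∃ y, f y = f x := ⟨x, rfl⟩
    simp only [dif_pos h]
    exact Classical.choose_spec h
  have ht : ∀ x : D × (D.comap Matrix.SpecialLinearGroup.toGL), ∃ t : Fˣ,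
      ((rep (f x)).1 : GL (Fin 2) F)⁻¹ * (x.1 : GL (Fin 2) F) = gdiag t t := by
    intro x
    have h : ι ((rep (f x)).1 : GL (Fin 2) F) *
        φ ((rep (f x)).2 : Matrix.SpecialLinearGroup (Fin 2) F) =
        ι (x.1 : GL (Fin 2) F) * φ (x.2 : Matrix.SpecialLinearGroup (Fin 2) F) := by
      rw [← hf, ← hf]
      exact hrep x
    apply hint _ (((rep (f x)).2 : Matrix.SpecialLinearGroup (Fin 2) F) *
      (x.2 : Matrix.SpecialLinearGroup (Fin 2) F)⁻¹)
    rw [map_mul, map_mul, map_inv, map_inv, inv_mul_eq_iff_eq_mul, ← mul_assoc, h, mul_assoc,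
      mul_inv_cancel, mul_one]
  choose t ht using ht
  have htD : ∀ x, gdiag (t x) (t x) ∈ D := by
    intro x
    rw [← ht x]
    exact D.mul_mem (D.inv_mem (rep (f x)).1.2) x.1.2
  have hΨ : Function.Injective
      (fun x : D × (D.comap Matrix.SpecialLinearGroup.toGL) =>
        ((⟨f x, hfS x⟩, ⟨t x, htD x⟩) :
          ↥(D.map ι ⊔ (D.comap Matrix.SpecialLinearGroup.toGL).map φ) ×
            {t : Fˣ // gdiag t t ∈ D})) := by
    intro x y hxy
    have h1 : f x = f y := congrArg (fun z => (z.1 : G)) hxy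
    have h2 : t x = t y := congrArg (fun z => (z.2 : Fˣ)) hxy
    have h3 : (x.1 : GL (Fin 2) F) = y.1 := by
      have hx := ht x
      have hy := ht y
      rw [h1, h2, ← hy] at hx
      exact mul_left_cancel hx
    have h4 : φ (x.2 : Matrix.SpecialLinearGroup (Fin 2) F) = φ y.2 := by
      have h5 := h1
      rw [hf, hf, h3] at h5
      exact mul_left_cancel h5
    exact Prod.ext (Subtype.ext h3) (Subtype.ext (hφ h4))
  have hfin : Finite (GL (Fin 2) F) := inferInstance
  have := Nat.card_le_card_of_injective _ hΨ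
  rwa [Nat.card_prod, Nat.card_prod] at this

end Cfsg.Agent.Helper42
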