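import Mathlib
import Cfsg.Agent.Helper95.G2SylDefs

/-! Piece PG of CALL S4632 (helper42): `hat(D) · phi2(D ∩ SL_2)` is a 2-group. -/

set_option autoImplicit false

open Matrix Cfsg.Agent.Helper95.G2Syl

namespace Cfsg.Agent.Helper42

variable {F : Type*} [Field F]

/-- `tw d c` is the conjugate of `c` by `diag(1, d)` -/
theorem g2s_tw_conj (d : Fˣ) (c : Matrix.SpecialLinearGroup (Fin 2) F) :
    Matrix.SpecialLinearGroup.toGL (tw d c) * gdiag 1 d =
      gdiag 1 d * Matrix.SpecialLinearGroup.toGL c := by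
  apply Units.ext
  show ((tw d c : Matrix.SpecialLinearGroup (Fin 2) F) : Matrix (Fin 2) (Fin 2) F) *
      ((gdiag 1 d : GL (Fin 2) F) : Matrix (Fin 2) (Fin 2) F) =
    ((gdiag 1 d : GL (Fin 2) F) : Matrix (Fin 2) (Fin 2) F) * (c : Matrix (Fin 2) (Fin 2) F)
  rw [tw_coe, gdiag_coe]
  ext i j
  fin_cases i <;> fin_cases j <;> simp [Matrix.mul_apply, Fin.sum_univ_two] <;>
    exact mul_comm _ _

theorem g2s_isPGroup {G : Type*} [Group G] (ι : GL (Fin 2) F →* G)
    (φ : Matrix.SpecialLinearGroup (Fin 2) F →* G)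
    (hR1 : ∀ h c, ι h * φ c * (ι h)⁻¹ = φ (tw (Matrix.GeneralLinearGroup.det h) c))
    (D : Subgroup (GL (Fin 2) F)) (hD : IsPGroup 2 D)
    (hT : ∀ h ∈ D, gdiag 1 (Matrix.GeneralLinearGroup.det h) ∈ D) :
    IsPGroup 2 ↥(D.map ι ⊔ (D.comap Matrix.SpecialLinearGroup.toGL).map φ) := by
  have K1 : ∀ h ∈ D, ∀ c ∈ D.comap Matrix.SpecialLinearGroup.toGL,
      tw (Matrix.GeneralLinearGroup.det h) c ∈ D.comap Matrix.SpecialLinearGroup.toGL := by
    intro h hh c hc
    rw [Subgroup.mem_comap] at hc ⊢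
    have e : Matrix.SpecialLinearGroup.toGL (tw (Matrix.GeneralLinearGroup.det h) c) =
        gdiag 1 (Matrix.GeneralLinearGroup.det h) * Matrix.SpecialLinearGroup.toGL c *
          (gdiag 1 (Matrix.GeneralLinearGroup.det h))⁻¹ :=
      eq_mul_inv_of_mul_eq (g2s_tw_conj _ c)
    rw [e]
    exact D.mul_mem (D.mul_mem (hT h hh) hc) (D.inv_mem (hT h hh))
  have hN : D.map ι ≤ Subgroup.normalizer
      (((D.comap Matrix.SpecialLinearGroup.toGL).map φ : Subgroup G) : Set G) := by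
    rintro x ⟨h, hh, rfl⟩
    rw [Subgroup.mem_normalizer_iff]
    intro y
    constructor
    · rintro ⟨c, hc, rfl⟩
      rw [hR1]
      exact Subgroup.mem_map_of_mem φ (K1 h hh c hc)
    · rintro ⟨c', hc', he⟩
      have hy : y = ι h⁻¹ * φ c' * (ι h⁻¹)⁻¹ := by
        rw [he, map_inv, inv_inv]; group
      rw [hy, hR1]
      exact Subgroup.mem_map_of_mem φ (K1 h⁻¹ (D.inv_mem hh) c' hc')
  exact IsPGroup.to_sup_of_normal_right' (hD.map ι)
    ((hD.comap_of_injective _ Matrix.SpecialLinearGroup.toGL_injective).map φ) hN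

end Cfsg.Agent.Helper42
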