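import Mathlib
import Cfsg.Agent.Helper95.G2SylDefs

/-! Piece XCARD of CALL S4632 (helper42): the number of idempotents `≠ 0, 1` of the Zorn algebra. -/

set_option autoImplicit false

open Matrix Cfsg.Agent.Helper95.G2Syl

namespace Cfsg.Agent.Helper42

variable {F : Type*} [Field F]

theorem g2_card_idem [Fintype F]
    (hmem : ∀ x : Fin 8 → F,
      x ∈ idem F ↔ x 0 + x 7 = 1 ∧ x 1 * x 4 + x 2 * x 5 + x 3 * x 6 = x 0 * x 7)
    (hpairs : ∀ c : F,
      (c = 0 → Nat.card {p : (Fin 3 → F) × (Fin 3 → F) //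
          p.1 0 * p.2 0 + p.1 1 * p.2 1 + p.1 2 * p.2 2 = c} =
        Fintype.card F ^ 5 + Fintype.card F ^ 3 - Fintype.card F ^ 2) ∧
      (c ≠ 0 → Nat.card {p : (Fin 3 → F) × (Fin 3 → F) //
          p.1 0 * p.2 0 + p.1 1 * p.2 1 + p.1 2 * p.2 2 = c} =
        Fintype.card F ^ 5 - Fintype.card F ^ 2)) :
    Nat.card (idem F) = Fintype.card F ^ 6 + Fintype.card F ^ 3 := by
  classical
  have e : idem F ≃ {s : F × ((Fin 3 → F) × (Fin 3 → F)) //
      s.2.1 0 * s.2.2 0 + s.2.1 1 * s.2.2 1 + s.2.1 2 * s.2.2 2 = s.1 * (1 - s.1)} :=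
    { toFun := fun x => ⟨(x.1 0, (![x.1 1, x.1 2, x.1 3], ![x.1 4, x.1 5, x.1 6])), by
        have h := (hmem x.1).mp x.2
        have h7 : x.1 7 = 1 - x.1 0 := by linear_combination h.1
        show x.1 1 * x.1 4 + x.1 2 * x.1 5 + x.1 3 * x.1 6 = x.1 0 * (1 - x.1 0)
        rw [← h7]
        exact h.2⟩
      invFun := fun s => ⟨![s.1.1, s.1.2.1 0, s.1.2.1 1, s.1.2.1 2, s.1.2.2 0, s.1.2.2 1,
          s.1.2.2 2, 1 - s.1.1], by
        rw [hmem]
        refine ⟨?_, ?_⟩
        · show s.1.1 + (1 - s.1.1) = 1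
          ring
        · show s.1.2.1 0 * s.1.2.2 0 + s.1.2.1 1 * s.1.2.2 1 + s.1.2.1 2 * s.1.2.2 2 =
            s.1.1 * (1 - s.1.1)
          exact s.2⟩
      left_inv := fun x => by
        apply Subtype.ext
        have h := (hmem x.1).mp x.2
        have h7 : 1 - x.1 0 = x.1 7 := by linear_combination -h.1
        funext i
        fin_cases i
        · rfl
        · rfl
        · rfl
        · rfl
        · rfl
        · rfl
        · rfl
        · exact h7
      right_inv := fun s => by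
        apply Subtype.ext
        apply Prod.ext
        · rfl
        · apply Prod.ext
          · funext i
            fin_cases i <;> rfl
          · funext i
            fin_cases i <;> rfl }
  have hcard : Nat.card (idem F) = ∑ α : F, Nat.card {b : (Fin 3 → F) × (Fin 3 → F) //
      b.1 0 * b.2 0 + b.1 1 * b.2 1 + b.1 2 * b.2 2 = α * (1 - α)} := by
    rw [Nat.card_congr (e.trans (Equiv.subtypeProdEquivSigmaSubtype
      (fun (α : F) (b : (Fin 3 → F) × (Fin 3 → F)) =>
        b.1 0 * b.2 0 + b.1 1 * b.2 1 + b.1 2 * b.2 2 = α * (1 - α)))), Nat.card_sigma]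
  generalize hq : Fintype.card F = q at hpairs ⊢
  have hq2 : 2 ≤ q := by rw [← hq]; exact Fintype.one_lt_card
  have hterm : ∀ α : F, Nat.card {b : (Fin 3 → F) × (Fin 3 → F) //
      b.1 0 * b.2 0 + b.1 1 * b.2 1 + b.1 2 * b.2 2 = α * (1 - α)} =
      if (α = 0 ∨ α = 1) then q ^ 5 + q ^ 3 - q ^ 2 else q ^ 5 - q ^ 2 := by
    intro α
    by_cases h : α = 0 ∨ α = 1
    · rw [if_pos h]
      apply (hpairs _).1
      rcases h with rfl | rfl <;> ring
    · rw [if_neg h]
      apply (hpairs _).2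
      intro h0
      apply h
      rcases mul_eq_zero.mp h0 with h1 | h1
      · left; exact h1
      · right; exact (sub_eq_zero.mp h1).symm
  rw [hcard, Finset.sum_congr rfl (fun α _ => hterm α), Finset.sum_ite, Finset.sum_const,
    Finset.sum_const, smul_eq_mul, smul_eq_mul]
  have hc2 : (Finset.univ.filter (fun α : F => α = 0 ∨ α = 1)).card = 2 := by
    have : Finset.univ.filter (fun α : F => α = 0 ∨ α = 1) = {0, 1} := by
      ext α; simp
    rw [this, Finset.card_pair zero_ne_one]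
  have hc := Finset.card_filter_add_card_filter_not (s := (Finset.univ : Finset F))
    (p := fun α : F => α = 0 ∨ α = 1)
  rw [hc2, Finset.card_univ, hq] at hc
  rw [hc2]
  generalize (Finset.univ.filter (fun α : F => ¬ (α = 0 ∨ α = 1))).card = m at hc ⊢
  have hle : q ^ 2 ≤ q ^ 5 := Nat.pow_le_pow_right (by omega) (by norm_num)
  obtain ⟨B, hB⟩ : ∃ B, q ^ 5 = B + q ^ 2 := ⟨q ^ 5 - q ^ 2, by omega⟩
  have h1 : q ^ 5 + q ^ 3 - q ^ 2 = B + q ^ 3 := by omega
  have h2 : q ^ 5 - q ^ 2 = B := by omega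
  rw [h1, h2]
  have h3 : q ^ 6 = q * B + q ^ 3 := by
    calc q ^ 6 = q * q ^ 5 := by ring
      _ = q * (B + q ^ 2) := by rw [hB]
      _ = q * B + q ^ 3 := by ring
  rw [h3, ← hc]
  ring

end Cfsg.Agent.Helper42
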