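import Cfsg.Agent.Helper42.GSOMb
import Cfsg.Agent.Helper17.GoodSyl
import Cfsg.Agent.Helper5.OrthMinus

set_option autoImplicit false

/-!
Helper library (helper42), piece OM of CALL S4625: in characteristic two a Sylow 2-subgroup of
`PΩ^-_{2m}(q)` is generated by involutions (Eichler transformations), so squares lie in its
derived subgroup.
-/

namespace Cfsg.Agent.Helper42

open Cfsg Matrix Cfsg.Agent.Helper45 Cfsg.Agent.Helper17 Cfsg.Agent.Helper42.GSOM

section Final

variable {F : Type} [Field F] [Fintype F] [CharP F 2]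

theorem gsom_card_Ug {n : ℕ} (a b : F) (t : ℕ) (ht : t ≤ n) :
    Nat.card ↥(Ug (n := n) a b (n - t)) = Fintype.card F ^ (t * (t + 1)) := by
  induction t with
  | zero =>
    rw [Nat.sub_zero, Ug_top_eq_bot]
    simp
  | succ t ih =>
    have hk : n - (t + 1) < n := by omega
    have h1 := card_Ug_step a b (⟨n - (t + 1), hk⟩ : Fin n)
    have h2 : n - (t + 1) + 1 = n - t := by omega
    simp only [h2] at h1
    rw [ih (by omega), card_Wsub _ hk] at h1
    rw [h1, ← pow_add]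
    congr 1
    have : n - (n - (t + 1)) = t + 1 := by omega
    rw [this]
    ring

theorem gsom_odd_prod (q n : ℕ) (hq : Even q) (hq0 : 0 < q) :
    Odd ((q ^ (n + 1) + 1) * ∏ i ∈ Finset.range n, (q ^ (2 * (i + 1)) - 1)) := by
  apply Odd.mul
  · exact Even.add_one ((Nat.even_pow' (by omega)).mpr hq)
  · apply Finset.prod_induction _ Odd (fun _ _ => Odd.mul) odd_one
    intro i _
    have h1 : Even (q ^ (2 * (i + 1))) := (Nat.even_pow' (by omega)).mpr hq
    have h2 : 1 ≤ q ^ (2 * (i + 1)) := Nat.pow_pos hq0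
    exact Nat.Even.sub_odd h2 h1 odd_one

theorem goodSyl2_OmegaMinus (n : ℕ) (hn : 3 ≤ n) (a b : F)
    (hab : ∀ z₁ z₂ : F, z₁ ^ 2 + a * z₁ * z₂ + b * z₂ ^ 2 = 0 → z₁ = 0 ∧ z₂ = 0) :
    GoodSyl2 ↥(Omega F ⇑(Helper43.minusQF n F a b)) := by
  obtain ⟨f, -, hq⟩ := FiniteField.card F 2
  have hQ : (QuadraticMap.polarBilin (Helper43.minusQF n F a b)).Nondegenerate :=
    Helper45.minusQF_nondeg' n a b hab
  have hcardι : Fintype.card (MI n) = 2 * n + 2 := by
    simp only [MI, Fintype.card_sum, Fintype.card_fin]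
    ring
  have hex : (∃ t : F, t ≠ 0 ∧ t ≠ 1) ∨ Fintype.card (MI n) ≠ 4 :=
    Or.inr (by rw [hcardι]; omega)
  haveI : Nonempty (MI n) := ⟨Sum.inr 0⟩
  have hidx := Helper45.omega_index_two_char2 (Helper43.minusQF n F a b) hQ hex
  have hO : Nat.card ↥(isometryGroup F ⇑(Helper43.minusQF n F a b)) =
      2 * Fintype.card F ^ ((n + 1) * n) * (Fintype.card F ^ (n + 1) + 1) *
        ∏ i ∈ Finset.range n, (Fintype.card F ^ (2 * (i + 1)) - 1) :=
    Helper5.card_GO_minus a b hab (n + 1) (by omega)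
  have hΩ : Nat.card ↥(Omega F ⇑(Helper43.minusQF n F a b)) * 2 =
      Nat.card ↥(isometryGroup F ⇑(Helper43.minusQF n F a b)) := by
    have h0 := Subgroup.card_mul_index (Omega F ⇑(Helper43.minusQF n F a b))
    rw [hidx] at h0
    exact h0
  have hU : Nat.card ↥(Ug (n := n) a b 0) = 2 ^ ((f : ℕ) * (n * (n + 1))) := by
    have h1 := gsom_card_Ug (n := n) a b n le_rfl
    rw [Nat.sub_self] at h1
    rw [h1, hq, ← pow_mul]
  have hqe : Even (Fintype.card F) := by
    rw [hq]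
    exact (Nat.even_pow' f.ne_zero).mpr even_two
  have hG : 1 * Nat.card ↥(Omega F ⇑(Helper43.minusQF n F a b)) =
      2 ^ ((f : ℕ) * (n * (n + 1))) * ((Fintype.card F ^ (n + 1) + 1) *
        ∏ i ∈ Finset.range n, (Fintype.card F ^ (2 * (i + 1)) - 1)) := by
    rw [hO] at hΩ
    rw [one_mul, pow_mul, ← hq]
    have h3 : (n + 1) * n = n * (n + 1) := by ring
    rw [h3] at hΩ
    have h4 : Nat.card ↥(Omega F ⇑(Helper43.minusQF n F a b)) * 2 =
        (Fintype.card F ^ (n * (n + 1)) * ((Fintype.card F ^ (n + 1) + 1) *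
          ∏ i ∈ Finset.range n, (Fintype.card F ^ (2 * (i + 1)) - 1))) * 2 := by
      rw [hΩ]; ring
    exact Nat.eq_of_mul_eq_mul_right (by norm_num) h4
  have hUG : Ug (n := n) a b 0 ≤ Omega F ⇑(Helper43.minusQF n F a b) := by
    unfold Ug
    rw [Subgroup.closure_le]
    rintro g ⟨k, w, -, rfl⟩
    exact eichO_mem_omega (Helper43.minusQF n F a b) hQ (by rw [hcardι]; omega) _ _ _ _
  exact goodSyl2_subgroupOf (Omega F ⇑(Helper43.minusQF n F a b)) (Ug (n := n) a b 0) hUG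
    ((f : ℕ) * (n * (n + 1))) 1 _ hU hG (gsom_odd_prod _ n hqe Fintype.card_pos) (Sg a b 0) rfl
    (by
      rintro s ⟨k, w, -, rfl⟩
      rw [pow_two, Eg_sq]
      exact one_mem _)

/-- PIECE OM of CALL S4625 -/
theorem goodSyl2_POmegaMinus (F : Type) [Field F] [Fintype F] [CharP F 2] (m : ℕ) (a b : F)
    (hm : 4 ≤ m)
    (hab : ∀ z₁ z₂ : F, z₁ ^ 2 + a * z₁ * z₂ + b * z₂ ^ 2 = 0 → z₁ = 0 ∧ z₂ = 0) :
    GoodSyl2 (POmega F (quadFormMinus (m - 1) F a b)) := by
  have hn : 3 ≤ m - 1 := by omega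
  generalize m - 1 = n at hn ⊢
  exact (goodSyl2_OmegaMinus n hn a b hab).of_surjective (QuotientGroup.mk' _)
    (QuotientGroup.mk'_surjective _)

end Final

end Cfsg.Agent.Helper42
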