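import Mathlib

/-!
# Pieces AR2 and ARSP of CALL S2332 (helper42)
-/

set_option autoImplicit false

namespace Cfsg.Agent.Helper42

/-- the geometric-series quotient: `q ^ k = (q - 1) * s + 1`. -/
theorem md_geom (m k : ℕ) (hm : 1 ≤ m) :
    ∃ s, (m + 1) ^ k = m * s + 1 ∧ ((m + 1) ^ k - 1) / m = s := by
  have hsdvd : m ∣ (m + 1) ^ k - 1 := by
    have := Nat.sub_one_dvd_pow_sub_one (m + 1) k
    simpa using this
  obtain ⟨s, hs⟩ := hsdvd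
  have hpow1 : 1 ≤ (m + 1) ^ k := Nat.one_le_pow _ _ (by omega)
  refine ⟨s, by omega, ?_⟩
  rw [hs]; exact Nat.mul_div_cancel_left _ (by omega)

/-- m ≥ 2 case. -/
theorem arith_two (q n : ℕ) (hq : 2 ≤ q) (hn : 2 ≤ n) :
    (q ^ n - q) / (q - 1) ≤ 2 * (q ^ (n - 1) - 1) := by
  obtain ⟨m, rfl⟩ : ∃ m, q = m + 1 := ⟨q - 1, by omega⟩
  have hm : 1 ≤ m := by omega
  obtain ⟨k, rfl⟩ : ∃ k, n = k + 2 := ⟨n - 2, by omega⟩
  have hn1 : k + 2 - 1 = k + 1 := by omega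
  have h1 : (m + 1) - 1 = m := by omega
  rw [hn1, h1]
  obtain ⟨s, hP, -⟩ := md_geom m (k + 1) hm
  have hnum : (m + 1) ^ (k + 2) - (m + 1) = m * ((m + 1) * s) := by
    rw [pow_succ, hP]
    apply Nat.sub_eq_of_eq_add; ring
  rw [hnum, Nat.mul_div_cancel_left _ (by omega : 0 < m), hP]
  simp only [Nat.add_sub_cancel]
  -- (m+1) s ≤ 2 m s
  nlinarith [Nat.zero_le s, Nat.zero_le (m * s)]

/-- final bound from `a ≥ s_n`. -/
theorem arith_fin (q n a : ℕ) (hq : 2 ≤ q) (hn : 2 ≤ n) (ha : (q ^ (n - 1) - 1) / (q - 1) ≤ a) :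
    (q ^ n - q) / (q - 1) ≤ a + q ^ (n - 1) - 1 := by
  obtain ⟨m, rfl⟩ : ∃ m, q = m + 1 := ⟨q - 1, by omega⟩
  have hm : 1 ≤ m := by omega
  obtain ⟨k, rfl⟩ : ∃ k, n = k + 2 := ⟨n - 2, by omega⟩
  have hn1 : k + 2 - 1 = k + 1 := by omega
  have h1 : (m + 1) - 1 = m := by omega
  rw [hn1, h1] at ha ⊢
  obtain ⟨s, hP, hsdiv⟩ := md_geom m (k + 1) hm
  rw [hsdiv] at ha
  have hnum : (m + 1) ^ (k + 2) - (m + 1) = m * ((m + 1) * s) := by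
    rw [pow_succ, hP]
    apply Nat.sub_eq_of_eq_add; ring
  rw [hnum, Nat.mul_div_cancel_left _ (by omega : 0 < m), hP]
  have : (m + 1) * s = s + m * s := by ring
  omega

/-- the three special cases `(n, q) = (4,4), (5,2), (5,3)`. -/
theorem arith_special (q n a : ℕ) (h : (n = 4 ∧ q = 4) ∨ (n = 5 ∧ q = 2) ∨ (n = 5 ∧ q = 3))
    (ha : q ^ (n - 2) + q ^ (n - 3) ≤ a + 2)
    (hdvd : ((a + q ^ (n - 1) - 1 : ℕ) : ℤ) ∣
      (((q ^ n - 1) * (q ^ (n - 1) - 1) / (q - 1) : ℕ) : ℤ) * ((a : ℤ) - 1)) :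
    (q ^ (n - 1) - 1) / (q - 1) ≤ a := by
  rcases h with ⟨rfl, rfl⟩ | ⟨rfl, rfl⟩ | ⟨rfl, rfl⟩
  · -- n = 4, q = 4: a ≥ 18, need a ≥ 21
    norm_num at ha hdvd ⊢
    by_contra hcon
    have : a = 18 ∨ a = 19 ∨ a = 20 := by omega
    rcases this with rfl | rfl | rfl <;> norm_num at hdvd
  · -- n = 5, q = 2: a ≥ 10, need a ≥ 15
    norm_num at ha hdvd ⊢
    by_contra hcon
    have : a = 10 ∨ a = 11 ∨ a = 12 ∨ a = 13 ∨ a = 14 := by omega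
    rcases this with rfl | rfl | rfl | rfl | rfl <;> norm_num at hdvd
  · -- n = 5, q = 3: a ≥ 34, need a ≥ 40
    norm_num at ha hdvd ⊢
    by_contra hcon
    have : a = 34 ∨ a = 35 ∨ a = 36 ∨ a = 37 ∨ a = 38 ∨ a = 39 := by omega
    rcases this with rfl | rfl | rfl | rfl | rfl | rfl <;> norm_num at hdvd

end Cfsg.Agent.Helper42
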