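import Mathlib

/-!
# Piece AR3 of CALL S2332 (helper42): the arithmetic of the case `n = 3`
-/

set_option autoImplicit false

namespace Cfsg.Agent.Helper42

/-- `10` is not a prime power -/
theorem not_isPrimePow_ten : ¬ IsPrimePow 10 := by
  rw [isPrimePow_nat_iff]
  rintro ⟨p, k, hp, hk, h⟩
  have h2 : 2 ∣ p ^ k := by rw [h]; norm_num
  have h5 : 5 ∣ p ^ k := by rw [h]; norm_num
  have e2 := (Nat.prime_dvd_prime_iff_eq Nat.prime_two hp).mp (Nat.prime_two.dvd_of_dvd_pow h2)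
  have e5 := (Nat.prime_dvd_prime_iff_eq Nat.prime_five hp).mp (Nat.prime_five.dvd_of_dvd_pow h5)
  omega

/-- `n = 3`. -/
theorem arith_three (q a : ℕ) (hq : IsPrimePow q) (hq2 : q ≠ 2) (hq4 : q ≠ 4) (ha : q ≤ a + 1)
    (hdvd : ((a + q ^ 2 - 1 : ℕ) : ℤ) ∣
      (((q ^ 3 - 1) * (q ^ 2 - 1) / (q - 1) : ℕ) : ℤ) * ((a : ℤ) - 1)) :
    q + 1 ≤ a := by
  have hq3 : 3 ≤ q := by
    have := hq.two_le
    omega
  obtain ⟨m, rfl⟩ : ∃ m, q = m + 1 := ⟨q - 1, by omega⟩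
  have hm : 2 ≤ m := by omega
  -- the natural-number quotient
  have h1 : (m + 1) - 1 = m := by omega
  have h2 : (m + 1) ^ 2 - 1 = m * (m + 2) := by
    apply Nat.sub_eq_of_eq_add; ring
  have h3 : (m + 1) ^ 3 - 1 = m * (m ^ 2 + 3 * m + 3) := by
    apply Nat.sub_eq_of_eq_add; ring
  have hT : ((m + 1) ^ 3 - 1) * ((m + 1) ^ 2 - 1) / ((m + 1) - 1) =
      m * (m ^ 2 + 3 * m + 3) * (m + 2) := by
    rw [h1, h2, h3]
    apply Nat.div_eq_of_eq_mul_left (by omega)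
    ring
  rw [hT] at hdvd
  have hd : ((a + (m + 1) ^ 2 - 1 : ℕ) : ℤ) = (a : ℤ) + ((m : ℤ) + 1) ^ 2 - 1 := by
    have : 1 ≤ a + (m + 1) ^ 2 := by
      have : 1 ≤ (m + 1) ^ 2 := Nat.one_le_pow _ _ (by omega)
      omega
    push_cast [Nat.cast_sub this]
    ring
  rw [hd] at hdvd
  push_cast at hdvd
  by_contra hcon
  have hcases : a = m ∨ a = m + 1 := by omega
  have hM2 : (2 : ℤ) ≤ (m : ℤ) := by exact_mod_cast hm
  generalize hM : (m : ℤ) = M at hdvd hM2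
  have hA : (a : ℤ) = M ∨ (a : ℤ) = M + 1 := by
    rcases hcases with h | h
    · left; rw [h, hM]
    · right; rw [h]; push_cast; rw [hM]
  generalize (a : ℤ) = A at hdvd hA
  rcases hA with rfl | rfl
  · -- a = q - 1 : d = (q + 2)(q - 1)
    have e1 : (A : ℤ) + (A + 1) ^ 2 - 1 = (A + 3) * A := by ring
    have e2 : A * (A ^ 2 + 3 * A + 3) * (A + 2) * (A - 1) =
        ((A ^ 2 + 3 * A + 3) * (A + 2) * (A - 1)) * A := by ring
    rw [e1, e2] at hdvd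
    have hM0 : A ≠ 0 := by omega
    have h4 : (A + 3) ∣ (A ^ 2 + 3 * A + 3) * (A + 2) * (A - 1) :=
      (mul_dvd_mul_iff_right hM0).mp hdvd
    have h5 : (A + 3) ∣ 12 := by
      have e3 : (A ^ 2 + 3 * A + 3) * (A + 2) * (A - 1) =
          (A + 3) * (A ^ 3 + A ^ 2 + A - 6) + 12 := by ring
      rw [e3] at h4
      exact (Int.dvd_add_right (Dvd.intro _ rfl)).mp h4
    have h6 : A + 3 ≤ 12 := Int.le_of_dvd (by norm_num) h5
    have hm9 : m ≤ 9 := by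
      have : (m : ℤ) ≤ 9 := by omega
      exact_mod_cast this
    have h5' : ((m + 3 : ℕ) : ℤ) ∣ ((12 : ℕ) : ℤ) := by
      push_cast
      rw [hM]
      exact h5
    have h7 : m + 3 ∣ 12 := Int.natCast_dvd_natCast.mp h5'
    interval_cases m
    · omega
    · omega
    · norm_num at h7
    · norm_num at h7
    · norm_num at h7
    · norm_num at h7
    · norm_num at h7
    · exact not_isPrimePow_ten hq
  · -- a = q : d = q² + q - 1
    have e1 : (M + 1) + (M + 1) ^ 2 - 1 = M ^ 2 + 3 * M + 1 := by ring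
    have e2 : M * (M ^ 2 + 3 * M + 3) * (M + 2) * ((M + 1) - 1) =
        (M ^ 2 + 3 * M + 1) * (M ^ 3 + 2 * M ^ 2 + 2 * M - 2) + (4 * M + 2) := by ring
    rw [e1, e2] at hdvd
    have h4 : (M ^ 2 + 3 * M + 1) ∣ (4 * M + 2) :=
      (Int.dvd_add_right (Dvd.intro _ rfl)).mp hdvd
    have h5 : M ^ 2 + 3 * M + 1 ≤ 4 * M + 2 := Int.le_of_dvd (by omega) h4
    nlinarith

end Cfsg.Agent.Helper42
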