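import Mathlib

/-!
# Piece ARGEN of CALL S2332 (helper42): the arithmetic of the case `n ≥ 4`
-/

set_option autoImplicit false

namespace Cfsg.Agent.Helper42

/-- the integer identity behind `arith_gen` -/
theorem arith_gen_identity (Q S : ℤ) :
    Q ^ 2 * (((Q - 1) * (Q * S + 1)) * S * (S - 2)) + 2 * (Q - 1) * (2 * Q - 1) =
      (Q * S - 1) * ((Q - 1) * ((Q * S) ^ 2 + (2 - 2 * Q) * (Q * S) + 2 - 4 * Q)) := by
  ring

/-- `n ≥ 4`. -/
theorem arith_gen (q n a : ℕ) (hq : 2 ≤ q) (hn : 4 ≤ n)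
    (ha : (q ^ (n - 1) - q) / (q - 1) ≤ a)
    (hdvd : ((a + q ^ (n - 1) - 1 : ℕ) : ℤ) ∣
      (((q ^ n - 1) * (q ^ (n - 1) - 1) / (q - 1) : ℕ) : ℤ) * ((a : ℤ) - 1)) :
    (q ^ (n - 1) - 1) / (q - 1) ≤ a := by
  obtain ⟨m, rfl⟩ : ∃ m, q = m + 1 := ⟨q - 1, by omega⟩
  have hm : 1 ≤ m := by omega
  obtain ⟨k, rfl⟩ : ∃ k, n = k + 4 := ⟨n - 4, by omega⟩
  have hn1 : k + 4 - 1 = k + 3 := by omega
  rw [hn1] at ha hdvd ⊢
  have h1 : (m + 1) - 1 = m := by omega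
  rw [h1] at ha hdvd ⊢
  -- s
  have hsdvd : m ∣ (m + 1) ^ (k + 3) - 1 := by
    have := Nat.sub_one_dvd_pow_sub_one (m + 1) (k + 3)
    simpa using this
  obtain ⟨s, hs⟩ := hsdvd
  have hpow1 : 1 ≤ (m + 1) ^ (k + 3) := Nat.one_le_pow _ _ (by omega)
  have hP : (m + 1) ^ (k + 3) = m * s + 1 := by omega
  have hsdiv : ((m + 1) ^ (k + 3) - 1) / m = s := by
    rw [hs]; exact Nat.mul_div_cancel_left _ (by omega)
  rw [hsdiv]
  -- s ≥ q^2+q+1
  have hs3 : (m + 1) ^ 2 + (m + 1) + 1 ≤ s := by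
    have h3 : (m + 1) ^ 3 ≤ (m + 1) ^ (k + 3) := Nat.pow_le_pow_right (by omega) (by omega)
    have h4 : (m + 1) ^ 3 = m * ((m + 1) ^ 2 + (m + 1) + 1) + 1 := by ring
    have h5 : m * ((m + 1) ^ 2 + (m + 1) + 1) ≤ m * s := by omega
    exact Nat.le_of_mul_le_mul_left h5 (by omega)
  -- (q^(n-1) - q)/(q-1) = s - 1
  have hs1 : 1 ≤ s := by nlinarith
  have hqdiv : ((m + 1) ^ (k + 3) - (m + 1)) / m = s - 1 := by
    have : (m + 1) ^ (k + 3) - (m + 1) = m * (s - 1) := by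
      rw [hP]
      obtain ⟨t, rfl⟩ : ∃ t, s = t + 1 := ⟨s - 1, by omega⟩
      simp only [Nat.add_sub_cancel]
      apply Nat.sub_eq_of_eq_add; ring
    rw [this]; exact Nat.mul_div_cancel_left _ (by omega)
  rw [hqdiv] at ha
  by_contra hcon
  have hae : a + 1 = s := by omega
  -- the quotient T
  have hPn : (m + 1) ^ (k + 4) = (m + 1) * (m * s + 1) := by
    rw [pow_succ, hP]; ring
  have hPn1 : (m + 1) ^ (k + 4) - 1 = m * ((m + 1) * s + 1) := by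
    rw [hPn]; apply Nat.sub_eq_of_eq_add; ring
  have hT : ((m + 1) ^ (k + 4) - 1) * ((m + 1) ^ (k + 3) - 1) / m =
      m * ((m + 1) * s + 1) * s := by
    rw [hPn1, hs]
    apply Nat.div_eq_of_eq_mul_left (by omega)
    ring
  rw [hT] at hdvd
  have hd : ((a + (m + 1) ^ (k + 3) - 1 : ℕ) : ℤ) = ((m : ℤ) + 1) * (s : ℤ) - 1 := by
    have e : a + (m + 1) ^ (k + 3) - 1 = (m + 1) * s - 1 := by
      rw [hP, ← hae]; 
      have : (m + 1) * (a + 1) = a + (m * (a + 1) + 1) := by ring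
      rw [this]
    rw [e]
    have : 1 ≤ (m + 1) * s := by nlinarith
    push_cast [Nat.cast_sub this]
    ring
  rw [hd] at hdvd
  have haZ : (a : ℤ) = (s : ℤ) - 1 := by
    have : ((a + 1 : ℕ) : ℤ) = (s : ℤ) := by exact_mod_cast hae
    push_cast at this; linarith
  rw [haZ] at hdvd
  push_cast at hdvd
  have hmZ : (1 : ℤ) ≤ (m : ℤ) := by exact_mod_cast hm
  have hsZ : ((m : ℤ) + 1) ^ 2 + ((m : ℤ) + 1) + 1 ≤ (s : ℤ) := by exact_mod_cast hs3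
  generalize (m : ℤ) = M at hdvd hmZ hsZ
  generalize (s : ℤ) = S at hdvd hsZ
  -- d ∣ 2 (Q-1)(2Q-1)
  have hid := arith_gen_identity (M + 1) S
  have hdd : ((M + 1) * S - 1) ∣ 2 * ((M + 1) - 1) * (2 * (M + 1) - 1) := by
    have h1 : ((M + 1) * S - 1) ∣ (M + 1) ^ 2 * ((((M + 1) - 1) * ((M + 1) * S + 1)) * S * (S - 2)) := by
      apply Dvd.dvd.mul_left
      have : (((M + 1) - 1) * ((M + 1) * S + 1)) * S * (S - 2) =
          M * ((M + 1) * S + 1) * S * (S - 1 - 1) := by ring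
      rw [this]; exact hdvd
    have h2 : ((M + 1) * S - 1) ∣ (M + 1) ^ 2 * ((((M + 1) - 1) * ((M + 1) * S + 1)) * S * (S - 2)) +
        2 * ((M + 1) - 1) * (2 * (M + 1) - 1) := by
      rw [hid]; exact Dvd.intro _ rfl
    exact (Int.dvd_add_right h1).mp h2
  have hpos : 0 < 2 * ((M + 1) - 1) * (2 * (M + 1) - 1) := by
    have : 0 < M := by linarith
    nlinarith
  have hle := Int.le_of_dvd hpos hdd
  nlinarith
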