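import Mathlib
import Cfsg.Agent.Helper90.MDDefs
import Cfsg.Agent.S0141

/-!
# Piece INT of CALL S2332 (helper42): `finrank ∣ index * character` for integer values
-/

set_option autoImplicit false

namespace Cfsg.Agent.Helper42

/-- a rational number `a / d` that is an algebraic integer is an integer -/
theorem int_dvd_aux (a d : ℤ) (hd : d ≠ 0) (h : IsIntegral ℤ ((a : ℂ) / (d : ℂ))) : d ∣ a := by
  have h1 : IsIntegral ℤ ((a : ℚ) / (d : ℚ)) := by
    have : ((a : ℂ) / (d : ℂ)) = algebraMap ℚ ℂ ((a : ℚ) / (d : ℚ)) := by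
      simp
    rw [this] at h
    exact (isIntegral_algebraMap_iff (algebraMap ℚ ℂ).injective).mp h
  obtain ⟨z, hz⟩ := IsIntegrallyClosed.isIntegral_iff.mp h1
  refine ⟨z, ?_⟩
  have hd' : (d : ℚ) ≠ 0 := by exact_mod_cast hd
  have : (a : ℚ) = (d : ℚ) * (z : ℚ) := by
    have hz' : (z : ℚ) = (a : ℚ) / (d : ℚ) := by simpa using hz
    rw [hz']; field_simp
  exact_mod_cast this

section
variable {G : Type*} [Group G] {V : Type*} [AddCommGroup V] [Module ℂ V]

theorem int_dvd [Finite G] [FiniteDimensional ℂ V] (ρ : Representation ℂ G V)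
    [ρ.IsIrreducible] (g : G) (T : ℕ)
    (hT : (Subgroup.centralizer ({g} : Set G)).index = T) (t : ℤ)
    (ht : ρ.character g = (t : ℂ)) :
    (Module.finrank ℂ V : ℤ) ∣ (T : ℤ) * t := by
  have h := Cfsg.Agent.S0141.result ρ g
  rw [hT, ht] at h
  by_cases hd : Module.finrank ℂ V = 0
  · have hV : Subsingleton V := Module.finrank_zero_iff.mp hd
    have ht0 : t = 0 := by
      have h0 : ρ.character g = 0 := by
        have : ρ g = 0 := Subsingleton.elim _ _
        simp [Representation.character, this]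
      rw [h0] at ht; exact_mod_cast ht.symm
    rw [hd, ht0]; simp
  · apply int_dvd_aux
    · exact_mod_cast hd
    · push_cast; exact h

end

end Cfsg.Agent.Helper42
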