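import Cfsg.Agent.Helper55.N9Defs

/-!
# CALL S4409 (helper55), piece C1c: in the core setting, if `K` centralizes `X` then `X` is
abelian (`K = 1` by faithfulness, so `X` itself is the noncyclic abelian subgroup of order 8).
-/

set_option autoImplicit false

namespace Cfsg.Agent.Helper42.N9

open Subgroup Cfsg.Agent.Helper55.N9

variable {G : Type*} [Group G] [Finite G]

-- C1c
theorem n9_case_triv (X K : Subgroup G) (c : Core X K) (h : X ≤ centralizer (K : Set G)) :
    ∀ a ∈ X, ∀ b ∈ X, a * b = b * a := by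
  have hK : ∀ k ∈ K, k = 1 := by
    intro k hk
    apply c.faith k hk
    intro x hx
    exact (mem_centralizer_iff.mp (h hx)) k hk
  have hnorm : ∀ Y : Subgroup G, K ≤ normalizer (Y : Set G) := by
    intro Y k hk
    rw [hK k hk]
    exact one_mem _
  have ha8 := c.a8
  unfold NoA8 at ha8
  obtain ⟨A, hAX, hcomm, hnc, h8⟩ := not_not.mp ha8
  have hAeq : A = X := by
    by_contra hne
    exact c.hyp A hAX hne (hnorm A) ⟨A, le_refl A, hcomm, hnc, h8⟩
  subst hAeq
  intro a ha b hb
  have h1 := hcomm.is_comm.comm ⟨a, ha⟩ ⟨b, hb⟩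
  exact congrArg Subtype.val h1

end Cfsg.Agent.Helper42.N9
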