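import Cfsg.Agent.Helper55.N9Defs

/-!
# CALL S4409 (helper55), piece Q1: a 2-group normalizing a four-group `D` induces at most
two automorphisms of `D`.
-/

set_option autoImplicit false

namespace Cfsg.Agent.Helper42.N9

open Subgroup Cfsg.Agent.Helper55.N9

variable {G : Type*} [Group G] [Finite G]

/-- the conjugation action of `N ≤ N_G(D)` on the non-identity elements of `D` -/
noncomputable def q1Hom (D N : Subgroup G) (hn : N ≤ normalizer (D : Set G)) :
    ↥N →* Equiv.Perm {d : ↥D // d ≠ 1} where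
  toFun n :=
    { toFun := fun d => ⟨⟨(n : G) * (d.1 : G) * (n : G)⁻¹,
          ((mem_normalizer_iff.mp (hn n.2)) d.1.1).mp d.1.2⟩, by
        intro h
        apply d.2
        apply Subtype.ext
        have h1 : (n : G) * (d.1 : G) * (n : G)⁻¹ = 1 := congrArg Subtype.val h
        have h2 : (d.1 : G) = (n : G)⁻¹ * ((n : G) * (d.1 : G) * (n : G)⁻¹) * (n : G) := by group
        rw [h2, h1]
        simp⟩
      invFun := fun d => ⟨⟨(n : G)⁻¹ * (d.1 : G) * (n : G), by
          have := ((mem_normalizer_iff.mp (hn (N.inv_mem n.2))) d.1.1).mp d.1.2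
          simpa using this⟩, by
        intro h
        apply d.2
        apply Subtype.ext
        have h1 : (n : G)⁻¹ * (d.1 : G) * (n : G) = 1 := congrArg Subtype.val h
        have h2 : (d.1 : G) = (n : G) * ((n : G)⁻¹ * (d.1 : G) * (n : G)) * (n : G)⁻¹ := by group
        rw [h2, h1]
        simp⟩
      left_inv := by
        intro d
        apply Subtype.ext
        apply Subtype.ext
        show (n : G)⁻¹ * ((n : G) * (d.1 : G) * (n : G)⁻¹) * (n : G) = (d.1 : G)
        group
      right_inv := by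
        intro d
        apply Subtype.ext
        apply Subtype.ext
        show (n : G) * ((n : G)⁻¹ * (d.1 : G) * (n : G)) * (n : G)⁻¹ = (d.1 : G)
        group }
  map_one' := by
    apply Equiv.ext
    intro d
    apply Subtype.ext
    apply Subtype.ext
    show ((1 : ↥N) : G) * (d.1 : G) * ((1 : ↥N) : G)⁻¹ = (d.1 : G)
    simp
  map_mul' := by
    intro a b
    apply Equiv.ext
    intro d
    apply Subtype.ext
    apply Subtype.ext
    show ((a * b : ↥N) : G) * (d.1 : G) * ((a * b : ↥N) : G)⁻¹ =
      (a : G) * ((b : G) * (d.1 : G) * (b : G)⁻¹) * (a : G)⁻¹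
    rw [Subgroup.coe_mul]
    group

theorem q1Hom_apply (D N : Subgroup G) (hn : N ≤ normalizer (D : Set G)) (n : ↥N)
    (d : {d : ↥D // d ≠ 1}) :
    ((q1Hom D N hn n d : {d : ↥D // d ≠ 1}).1 : G) = (n : G) * (d.1 : G) * (n : G)⁻¹ := rfl

-- Q1
theorem n9_autV4 (D N : Subgroup G) (hN : IsPGroup 2 N) (hD : IsV4 D)
    (hn : N ≤ normalizer (D : Set G)) :
    (N ⊓ centralizer (D : Set G)).relIndex N ≤ 2 := by
  classical
  have hker : (N ⊓ centralizer (D : Set G)).subgroupOf N = (q1Hom D N hn).ker := by
    ext n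
    rw [mem_subgroupOf, MonoidHom.mem_ker]
    constructor
    · rintro ⟨_, hc⟩
      apply Equiv.ext
      intro d
      apply Subtype.ext
      apply Subtype.ext
      rw [q1Hom_apply]
      have h1 := hc (d.1 : G) d.1.2
      show (n : G) * (d.1 : G) * (n : G)⁻¹ = (d.1 : G)
      rw [← h1]
      group
    · intro h
      refine ⟨n.2, ?_⟩
      intro d hd
      by_cases hd1 : d = 1
      · rw [hd1]
        simp
      · have h1 := congrArg (fun e : Equiv.Perm {d : ↥D // d ≠ 1} =>
          ((e ⟨⟨d, hd⟩, fun hh => hd1 (congrArg Subtype.val hh)⟩ : {d : ↥D // d ≠ 1}).1 : G)) h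
        have h2 : (n : G) * d * (n : G)⁻¹ = d := h1
        calc d * (n : G) = (n : G) * d * (n : G)⁻¹ * (n : G) := by rw [h2]
          _ = (n : G) * d := by group
  have hcardS : Nat.card {d : ↥D // d ≠ 1} = 3 := by
    haveI : Fintype ↥D := Fintype.ofFinite _
    rw [Nat.card_eq_fintype_card, Fintype.card_subtype, Finset.filter_ne' Finset.univ (1 : ↥D),
      Finset.card_erase_of_mem (Finset.mem_univ _), Finset.card_univ, ← Nat.card_eq_fintype_card,
      hD.1]
  have hperm : Nat.card (Equiv.Perm {d : ↥D // d ≠ 1}) = 6 := by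
    rw [Nat.card_perm, hcardS]
    rfl
  have hdvd : Nat.card (q1Hom D N hn).range ∣ 6 := by
    rw [← hperm]
    exact Subgroup.card_subgroup_dvd_card _
  have hp : IsPGroup 2 (q1Hom D N hn).range :=
    IsPGroup.of_surjective hN (q1Hom D N hn).rangeRestrict (q1Hom D N hn).rangeRestrict_surjective
  obtain ⟨k, hk⟩ := IsPGroup.iff_card.mp hp
  have hle : Nat.card (q1Hom D N hn).range ≤ 2 := by
    rw [hk] at hdvd ⊢
    rcases k with _ | _ | k
    · norm_num
    · norm_num
    · exfalso
      have h4 : 4 ∣ 6 := by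
        refine dvd_trans ?_ hdvd
        rw [pow_succ, pow_succ]
        exact ⟨2 ^ k, by ring⟩
      omega
  have hrel : (N ⊓ centralizer (D : Set G)).relIndex N = Nat.card (q1Hom D N hn).range := by
    rw [← Subgroup.index_ker, ← hker]
    rfl
  rw [hrel]
  exact hle

end Cfsg.Agent.Helper42.N9
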