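import Mathlib
import Cfsg.Agent.Helper9.BRDefs
import Cfsg.Agent.Helper81.CharBasic

/-!
# Piece AR5 of CALL S0978 (helper42): the arithmetic of the principal 5-block
-/

set_option autoImplicit false
set_option linter.style.haveILetI false
set_option maxHeartbeats 1000000
open Cfsg
open scoped ComplexConjugate

universe u

namespace Cfsg.Agent.Helper42

/-- PIECE AR5. -/
theorem o5040_five_arith {G : Type u} [Group G] [Fintype G] {M : Ideal Cfsg.AlgInt}
    (Q : Sylow 5 G) (q : ℕ) (hq : q = 2 ∨ q = 4) (T : Cfsg.Agent.Helper9.BRTab 5 M Q q)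
    (hD : ∀ χ : Cfsg.IrrCharacter G, χ ≠ Helper81.trivIrr G →
      Cfsg.charDegree (χ : G → ℂ) ∈
        ({6, 7, 8, 14, 15, 20, 21, 28, 35, 36, 42, 48, 56, 63, 70} : Finset ℕ)) :
    (∃ β ∈ T.X1, Cfsg.charDegree (β : G → ℂ) = 6) ∨
      (T.ε = -1 ∧ ∃ θ : Cfsg.IrrCharacter G, T.Y = {θ} ∧ Cfsg.charDegree (θ : G → ℂ) = 6) := by
  classical
  by_cases h6 : ∃ β ∈ T.X1, Cfsg.charDegree (β : G → ℂ) = 6
  · exact Or.inl h6
  right
  simp only [not_exists, not_and] at h6
  -- degrees in X1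
  have hX1d : ∀ χ ∈ T.X1, Cfsg.charDegree (χ : G → ℂ) = 21 ∨
      Cfsg.charDegree (χ : G → ℂ) = 36 ∨ Cfsg.charDegree (χ : G → ℂ) = 56 := by
    intro χ hχ
    have hne : χ ≠ Helper81.trivIrr G := fun e => T.h1X1 (e ▸ hχ)
    have hmem := hD χ hne
    have hmod := (T.hX1 χ hχ).1
    have h6' := h6 χ hχ
    simp only [Finset.mem_insert, Finset.mem_singleton] at hmem
    unfold Int.ModEq at hmod
    omega
  have hX2d : ∀ χ ∈ T.X2, Cfsg.charDegree (χ : G → ℂ) = 14 := by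
    intro χ hχ
    have hne : χ ≠ Helper81.trivIrr G := fun e => T.h1X2 (e ▸ hχ)
    have hmem := hD χ hne
    have hmod := (T.hX2 χ hχ).1
    simp only [Finset.mem_insert, Finset.mem_singleton] at hmem
    unfold Int.ModEq at hmod
    omega
  have hrelZ : ∀ θ ∈ T.Y, T.ε * (Cfsg.charDegree (θ : G → ℂ) : ℤ) =
      1 + ((∑ χ ∈ T.X1, Cfsg.charDegree (χ : G → ℂ) : ℕ) : ℤ)
        - ((∑ χ ∈ T.X2, Cfsg.charDegree (χ : G → ℂ) : ℕ) : ℤ) := by
    intro θ hθ
    have h := T.hrel θ hθ 1 (by rw [orderOf_one]; norm_num)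
    simp only [Helper81.irr_one_eq_charDegree] at h
    have h' : ((T.ε * (Cfsg.charDegree (θ : G → ℂ) : ℤ) : ℤ) : ℂ) =
        ((1 + ((∑ χ ∈ T.X1, Cfsg.charDegree (χ : G → ℂ) : ℕ) : ℤ)
        - ((∑ χ ∈ T.X2, Cfsg.charDegree (χ : G → ℂ) : ℕ) : ℤ) : ℤ) : ℂ) := by
      push_cast; exact h
    exact_mod_cast h'
  generalize hS1 : ∑ χ ∈ T.X1, Cfsg.charDegree (χ : G → ℂ) = S1 at hrelZ
  generalize hS2 : ∑ χ ∈ T.X2, Cfsg.charDegree (χ : G → ℂ) = S2 at hrelZ
  have hS2v : S2 = 14 * T.X2.card := by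
    rw [← hS2, Finset.sum_congr rfl hX2d, Finset.sum_const, smul_eq_mul, mul_comm]
  have hS1lo : 21 * T.X1.card ≤ S1 := by
    have := Finset.card_nsmul_le_sum T.X1 (fun χ => Cfsg.charDegree (χ : G → ℂ)) 21
      (fun χ hχ => by rcases hX1d χ hχ with h | h | h <;> omega)
    rw [hS1, smul_eq_mul] at this
    omega
  have hS1hi : S1 ≤ 56 * T.X1.card := by
    have := Finset.sum_le_card_nsmul T.X1 (fun χ => Cfsg.charDegree (χ : G → ℂ)) 56
      (fun χ hχ => by rcases hX1d χ hχ with h | h | h <;> omega)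
    rw [hS1, smul_eq_mul] at this
    omega
  have hS1one : T.X1.card = 1 → S1 = 21 ∨ S1 = 36 ∨ S1 = 56 := by
    intro h1
    obtain ⟨a, ha⟩ := Finset.card_eq_one.mp h1
    rw [← hS1, ha, Finset.sum_singleton]
    exact hX1d a (by rw [ha]; exact Finset.mem_singleton_self a)
  have hYD : ∀ θ ∈ T.Y, Cfsg.charDegree (θ : G → ℂ) ∈
      ({6, 7, 8, 14, 15, 20, 21, 28, 35, 36, 42, 48, 56, 63, 70} : Finset ℕ) :=
    fun θ hθ => hD θ (fun e => T.h1Y (e ▸ hθ))
  have hcard := T.hcard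
  have hcardY := T.hcardY
  rcases hq with rfl | rfl
  · -- q = 2
    exfalso
    have hY2 : T.Y.card = 2 := by rw [hcardY]
    obtain ⟨θ, hθ⟩ : T.Y.Nonempty := Finset.card_pos.mp (by omega)
    have hr := hrelZ θ hθ
    have hm := hYD θ hθ
    simp only [Finset.mem_insert, Finset.mem_singleton] at hm
    rcases T.hε with he | he
    · rw [he] at hr
      omega
    · rw [he] at hr
      omega
  · -- q = 4
    have hY1 : T.Y.card = 1 := by rw [hcardY]
    obtain ⟨θ, hθY⟩ := Finset.card_eq_one.mp hY1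
    have hθ : θ ∈ T.Y := by rw [hθY]; exact Finset.mem_singleton_self θ
    have hr := hrelZ θ hθ
    have hm := hYD θ hθ
    have hmod := T.hYdeg θ hθ
    simp only [Finset.mem_insert, Finset.mem_singleton] at hm
    unfold Int.ModEq at hmod
    rcases T.hε with he | he
    · exfalso
      rw [he] at hr hmod
      push_cast at hmod
      omega
    · refine ⟨he, θ, hθY, ?_⟩
      rw [he] at hr hmod
      push_cast at hmod
      omega

end Cfsg.Agent.Helper42
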