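import Mathlib
import Cfsg.Agent.Helper9.BRDefs
import Cfsg.Agent.Helper75.BRT1
import Cfsg.Agent.Helper75.BRSplit
import Cfsg.Agent.Helper82.ExcBlock
import Cfsg.Agent.Helper42.O5040AR5

/-!
# Piece BL5 of CALL S0978 (helper42): a character of degree six in the principal 5-block
-/

set_option autoImplicit false
set_option linter.style.haveILetI false
set_option maxHeartbeats 1000000
open Cfsg
open scoped ComplexConjugate

universe u

namespace Cfsg.Agent.Helper42

/-- PIECE BL5. -/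
theorem o5040_five_block {G : Type u} [Group G] [Fintype G] {M : Ideal Cfsg.AlgInt}
    (hM : Cfsg.IsPModular 5 M) (Q : Sylow 5 G) (hQ : Nat.card (Q : Subgroup G) = 5)
    (q : ℕ) (hq : q = 2 ∨ q = 4) (T : Cfsg.Agent.Helper9.BRTab 5 M Q q)
    (hD : ∀ χ : Cfsg.IrrCharacter G, χ ≠ Helper81.trivIrr G →
      Cfsg.charDegree (χ : G → ℂ) ∈
        ({6, 7, 8, 14, 15, 20, 21, 28, 35, 36, 42, 48, 56, 63, 70} : Finset ℕ)) :
    ∃ β : Cfsg.IrrCharacter G, Cfsg.charDegree (β : G → ℂ) = 6 ∧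
      ∀ y : G, y ∈ (Q : Subgroup G) → y ≠ 1 → ∀ w : G,
        w ∈ Subgroup.centralizer ((Q : Subgroup G) : Set G) → ¬ 5 ∣ orderOf w →
        (β : G → ℂ) (y * w) = 1 := by
  haveI : Fact (Nat.Prime 5) := ⟨by norm_num⟩
  rcases o5040_five_arith Q q hq T hD with ⟨β, hβ, hdeg⟩ | ⟨hε, θ, hY, hdeg⟩
  · exact ⟨β, hdeg, fun y hy hy1 w hw hw5 => (T.hX1 β hβ).2 y hy hy1 w hw hw5⟩
  · refine ⟨θ, hdeg, fun y hy hy1 w hw hw5 => ?_⟩
    have hθY : θ ∈ T.Y := by rw [hY]; exact Finset.mem_singleton_self θ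
    have hsum := Helper75.br_theta_sum hM T ⟨θ, hθY⟩ y hy hy1
    rw [hY, Finset.sum_singleton, hε] at hsum
    have hθy : (θ : G → ℂ) y = 1 := by rw [hsum]; push_cast; ring
    have hblock : θ ∈ Cfsg.principalBlock M G := (T.hB θ).mpr (Or.inr (Or.inr (Or.inr hθY)))
    have hord : orderOf y = 5 := by
      have h1 : orderOf y ∣ 5 := by
        rw [← hQ]
        have := orderOf_dvd_natCard (⟨y, hy⟩ : (Q : Subgroup G))
        rwa [Subgroup.orderOf_mk] at this
      rcases (Nat.dvd_prime (by norm_num : Nat.Prime 5)).mp h1 with h | h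
      · exact absurd (orderOf_eq_one_iff.mp h) hy1
      · exact h
    have hcommute : Commute y w := by
      have := Subgroup.mem_centralizer_iff.mp hw y hy
      exact this
    have hpp : Cfsg.IsPPart 5 (y * w) y := ⟨w, rfl, hcommute, ⟨1, by rw [hord]; norm_num⟩, hw5⟩
    have := Helper82.excBlock_const hM Q (Helper75.br_hab Q hQ) (Helper75.br_hfrob Q hQ) θ hblock
      (y * w) y hpp hy hy1
    rw [this, hθy]

end Cfsg.Agent.Helper42
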