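import Mathlib
import Cfsg.Agent.Helper95.OTSDefs

/-!
# CALL S5972 (helper95), piece CNTA: the number of independent totally singular `m`-families of
the standard odd orthogonal space, given the count of singular vectors orthogonal to such a
family (`hperp`).  Port of `cnt_a` (`Cfsg/Agent/Helper61/TICNTA.lean`).
-/

set_option autoImplicit false

namespace Cfsg.Agent.Helper42.OTS

open Module Polynomial
open Cfsg.Agent.Helper13.TIsp Cfsg.Agent.Helper42.SpGroup Cfsg.Agent.Helper42.SpModels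
open Cfsg.Agent.Helper95.OTS

theorem ocnta_span_ti {F : Type*} [Field F] (d m : ℕ)
    (v : Fin m → (Unit ⊕ (Fin d ⊕ Fin d) → F))
    (hti : ∀ a b, oB d F (v a) (v b) = 0) :
    TI (oB d F) (Submodule.span F (Set.range v)) := by
  intro x hx y hy
  induction hx using Submodule.span_induction with
  | mem x hx =>
    obtain ⟨a, rfl⟩ := hx
    induction hy using Submodule.span_induction with
    | mem y hy =>
      obtain ⟨b, rfl⟩ := hy
      exact hti a b
    | zero => simp
    | add y z _ _ hy hz => rw [map_add, hy, hz, add_zero]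
    | smul c y _ hy => rw [map_smul, hy, smul_zero]
  | zero => simp
  | add x z _ _ hx hz => rw [map_add, LinearMap.add_apply, hx, hz, add_zero]
  | smul c x _ hx => rw [map_smul, LinearMap.smul_apply, hx, smul_zero]

theorem ocnta_perp_count {F : Type*} [Field F] [Fintype F] (h2 : (2 : F) ≠ 0) (d j : ℕ)
    (hj : j ≤ d)
    (hperp : ∀ j, j ≤ d → ∀ v : Fin j → (Unit ⊕ (Fin d ⊕ Fin d) → F), LinearIndependent F v →
      (∀ a, Cfsg.quadFormOdd d F (v a) = 0) → (∀ a b, oB d F (v a) (v b) = 0) →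
      Nat.card {x : Unit ⊕ (Fin d ⊕ Fin d) → F //
        Cfsg.quadFormOdd d F x = 0 ∧ ∀ a, oB d F x (v a) = 0} = Fintype.card F ^ (2 * d - j))
    (v : Fin j → (Unit ⊕ (Fin d ⊕ Fin d) → F)) (hli : LinearIndependent F v)
    (hs : ∀ a, Cfsg.quadFormOdd d F (v a) = 0)
    (hti : ∀ a b, oB d F (v a) (v b) = 0) :
    Nat.card {x : Unit ⊕ (Fin d ⊕ Fin d) → F // x ∉ Submodule.span F (Set.range v) ∧
      Cfsg.quadFormOdd d F x = 0 ∧ ∀ a, oB d F x (v a) = 0} =
      Fintype.card F ^ (2 * d - j) - Fintype.card F ^ j := by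
  classical
  obtain ⟨W, hW⟩ : ∃ W : Submodule F (Unit ⊕ (Fin d ⊕ Fin d) → F),
      W = Submodule.span F (Set.range v) := ⟨_, rfl⟩
  have hWti : TI (oB d F) W := by
    rw [hW]
    exact ocnta_span_ti d j v hti
  have hWs : ∀ w ∈ W, Cfsg.quadFormOdd d F w = 0 := (ots_iff_ti d F h2 W).mpr hWti
  have hvW : ∀ a, v a ∈ W := fun a => by rw [hW]; exact Submodule.subset_span ⟨a, rfl⟩
  have hfW : finrank F W = j := by
    rw [hW, finrank_span_eq_card hli, Fintype.card_fin]
  have hcW : Nat.card W = Fintype.card F ^ j := by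
    rw [Module.natCard_eq_pow_finrank (K := F), hfW, Nat.card_eq_fintype_card]
  have hsub : (W : Set (Unit ⊕ (Fin d ⊕ Fin d) → F)) ⊆
      {x : Unit ⊕ (Fin d ⊕ Fin d) → F | Cfsg.quadFormOdd d F x = 0 ∧ ∀ a, oB d F x (v a) = 0} := by
    intro x hx
    exact ⟨hWs x hx, fun a => hWti x hx (v a) (hvW a)⟩
  have hset : {x : Unit ⊕ (Fin d ⊕ Fin d) → F | x ∉ Submodule.span F (Set.range v) ∧
      Cfsg.quadFormOdd d F x = 0 ∧ ∀ a, oB d F x (v a) = 0} =
      {x : Unit ⊕ (Fin d ⊕ Fin d) → F | Cfsg.quadFormOdd d F x = 0 ∧ ∀ a, oB d F x (v a) = 0} \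
        (W : Set (Unit ⊕ (Fin d ⊕ Fin d) → F)) := by
    ext x
    simp only [Set.mem_ofPred_eq, Set.mem_sdiff, SetLike.mem_coe]
    rw [hW]
    tauto
  have h1 : Nat.card {x : Unit ⊕ (Fin d ⊕ Fin d) → F // x ∉ Submodule.span F (Set.range v) ∧
      Cfsg.quadFormOdd d F x = 0 ∧ ∀ a, oB d F x (v a) = 0} =
      Set.ncard {x : Unit ⊕ (Fin d ⊕ Fin d) → F | x ∉ Submodule.span F (Set.range v) ∧
      Cfsg.quadFormOdd d F x = 0 ∧ ∀ a, oB d F x (v a) = 0} := Nat.card_coe_set_eq _
  rw [h1, hset, Set.ncard_sdiff hsub (Set.toFinite _),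
    ← Nat.card_coe_set_eq, ← Nat.card_coe_set_eq]
  exact congrArg₂ (· - ·) (hperp j hj v hli hs hti) hcW

/-- Splitting off the last vector of a totally singular independent family. -/
noncomputable def ocntaEquiv (F : Type*) [Field F] (d m : ℕ) : OTSFam F d (m + 1) ≃
    Σ s : OTSFam F d m, {x : Unit ⊕ (Fin d ⊕ Fin d) → F //
      x ∉ Submodule.span F (Set.range s.1) ∧
      Cfsg.quadFormOdd d F x = 0 ∧ ∀ a, oB d F x (s.1 a) = 0} where
  toFun u :=
    ⟨⟨Fin.init u.1,
        (linearIndependent_finSnoc.mp (by rw [Fin.snoc_init_self]; exact u.2.1)).1,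
        fun a => u.2.2.1 _, fun a b => u.2.2.2 _ _⟩,
      ⟨u.1 (Fin.last m),
        (linearIndependent_finSnoc.mp (by rw [Fin.snoc_init_self]; exact u.2.1)).2,
        u.2.2.1 _, fun a => u.2.2.2 _ _⟩⟩
  invFun p :=
    ⟨Fin.snoc p.1.1 p.2.1, linearIndependent_finSnoc.mpr ⟨p.1.2.1, p.2.2.1⟩, by
      intro a
      induction a using Fin.lastCases with
      | last =>
        rw [Fin.snoc_last]
        exact p.2.2.2.1
      | cast a =>
        rw [Fin.snoc_castSucc]
        exact p.1.2.2.1 a, by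
      intro a b
      induction a using Fin.lastCases with
      | last =>
        induction b using Fin.lastCases with
        | last =>
          rw [Fin.snoc_last, oB_self, p.2.2.2.1, mul_zero]
        | cast b =>
          rw [Fin.snoc_last, Fin.snoc_castSucc]
          exact p.2.2.2.2 b
      | cast a =>
        induction b using Fin.lastCases with
        | last =>
          rw [Fin.snoc_last, Fin.snoc_castSucc, oB_symm]
          exact p.2.2.2.2 a
        | cast b =>
          rw [Fin.snoc_castSucc, Fin.snoc_castSucc]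
          exact p.1.2.2.2 a b⟩
  left_inv u := Subtype.ext (Fin.snoc_init_self _)
  right_inv p := by
    apply Sigma.subtype_ext
    · apply Subtype.ext
      show Fin.init (Fin.snoc (α := fun _ => Unit ⊕ (Fin d ⊕ Fin d) → F) p.1.1 p.2.1) = p.1.1
      exact Fin.init_snoc _ _
    · show Fin.snoc (α := fun _ => Unit ⊕ (Fin d ⊕ Fin d) → F) p.1.1 p.2.1 (Fin.last m) = p.2.1
      exact Fin.snoc_last _ _

/-- PIECE CNTA (port of `cnt_a` in `Cfsg/Agent/Helper61/TICNTA.lean`; the perp-count is the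
hypothesis `hperp`). -/
theorem ocnt_a (F : Type*) [Field F] [Fintype F] (h2 : (2 : F) ≠ 0) (d m : ℕ) (hmd : m ≤ d)
    (hperp : ∀ j, j ≤ d → ∀ v : Fin j → (Unit ⊕ (Fin d ⊕ Fin d) → F), LinearIndependent F v →
      (∀ a, Cfsg.quadFormOdd d F (v a) = 0) → (∀ a b, oB d F (v a) (v b) = 0) →
      Nat.card {x : Unit ⊕ (Fin d ⊕ Fin d) → F //
        Cfsg.quadFormOdd d F x = 0 ∧ ∀ a, oB d F x (v a) = 0} = Fintype.card F ^ (2 * d - j)) :
    Nat.card (OTSFam F d m) =
      ∏ j ∈ Finset.range m, (Fintype.card F ^ (2 * d - j) - Fintype.card F ^ j) := by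
  classical
  induction m with
  | zero =>
    rw [Finset.prod_range_zero]
    have : Subsingleton (OTSFam F d 0) := ⟨fun a b => Subtype.ext (Subsingleton.elim _ _)⟩
    have : Nonempty (OTSFam F d 0) :=
      ⟨⟨fun a => Fin.elim0 a, linearIndependent_empty_type, fun a => Fin.elim0 a,
        fun a => Fin.elim0 a⟩⟩
    exact Nat.card_unique
  | succ m ih =>
    have : Finite (OTSFam F d m) := by
      unfold OTSFam
      infer_instance
    have : Fintype (OTSFam F d m) := Fintype.ofFinite _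
    rw [Finset.prod_range_succ, ← ih (by omega), Nat.card_congr (ocntaEquiv F d m),
      Nat.card_sigma,
      Finset.sum_congr rfl (fun s _ => ocnta_perp_count h2 d m (by omega) hperp s.1 s.2.1
        s.2.2.1 s.2.2.2),
      Finset.sum_const, Finset.card_univ, smul_eq_mul, Nat.card_eq_fintype_card]

end Cfsg.Agent.Helper42.OTS
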