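import Mathlib
import Cfsg.Agent.Helper95.OTSDefs

/-!
# CALL S5972 (helper95), piece XFER: transport of an isometry of an abstract nondegenerate
symmetric space of dimension `2d+1` to the standard odd orthogonal group (via the similarity
`sim_of_odd` and `iso_of_model`, `pow_of_model` of `Cfsg.Agent.Helper42.BCc`).
-/

set_option autoImplicit false

namespace Cfsg.Agent.Helper42.OTS

open Module Polynomial
open Cfsg.Agent.Helper13.TIsp Cfsg.Agent.Helper42.SpGroup Cfsg.Agent.Helper42.SpModels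
open Cfsg.Agent.Helper95.OTS

/-- PIECE XFER: transport of an abstract isometry to the standard odd orthogonal group. -/
theorem oxfer {F : Type*} [Field F] [Fintype F] (h2 : (2 : F) ≠ 0) (d : ℕ) (V : Type*)
    [AddCommGroup V] [Module F V] [FiniteDimensional F V] (B : LinearMap.BilinForm F V)
    (hsym : ∀ u v, B u v = B v u) (hnd : ∀ v, (∀ w, B v w = 0) → v = 0)
    (hdim : finrank F V = 2 * d + 1) (T : Module.End F V) (hT : Preserves B T) :
    ∃ g : ↥(Cfsg.isometryGroup F (Cfsg.quadFormOdd d F)),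
      (∀ k : ℕ, g ^ k = 1 ↔ T ^ k = 1) ∧
      ∀ W' : Submodule F (Unit ⊕ (Fin d ⊕ Fin d) → F), TI (oB d F) W' →
        W'.map (oEnd g) ≤ W' →
        ∃ W : Submodule F V, TI B W ∧ W.map T ≤ W ∧ finrank F W = finrank F W' := by
  classical
  have hstd_s : LinearMap.BilinForm.IsSymm
      (QuadraticMap.polarBilin (Cfsg.Agent.Helper43.oddQF d F)) :=
    ⟨fun x y => by
      rw [QuadraticMap.polarBilin_apply_apply, QuadraticMap.polarBilin_apply_apply,
        QuadraticMap.polar_comm]⟩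
  obtain ⟨φ, c, hc, hφ⟩ := Cfsg.Agent.Helper42.BC.sim_of_odd h2 d B
    (QuadraticMap.polarBilin (Cfsg.Agent.Helper43.oddQF d F))
    ⟨fun v hv => hnd v hv, fun v hv => hnd v (fun w => by rw [hsym]; exact hv w)⟩
    ⟨fun x y => hsym x y⟩ (Cfsg.Agent.Helper14.oddQF_nondeg d h2) hstd_s hdim (finrank_oV d F)
  have hφ' : ∀ x y,
      QuadraticMap.polar ⇑(Cfsg.Agent.Helper43.oddQF d F) (φ x) (φ y) = c * B x y := by
    intro x y
    rw [← hφ x y, QuadraticMap.polarBilin_apply_apply]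
  obtain ⟨g, hg⟩ := Cfsg.Agent.Helper42.BC.iso_of_model h2 d B φ c hφ' T hT
  have hpow := Cfsg.Agent.Helper42.BC.pow_of_model d φ T g hg
  refine ⟨g, fun k => (hpow k).2, ?_⟩
  intro W' hW' hinv
  refine ⟨W'.map φ.symm.toLinearMap, ?_, ?_, ?_⟩
  · rintro _ ⟨u, hu, rfl⟩ _ ⟨v, hv, rfl⟩
    have h1 : oB d F u v = 0 := hW' _ hu _ hv
    have h3 : c * B (φ.symm u) (φ.symm v) = 0 := by
      rw [← hφ' (φ.symm u) (φ.symm v), φ.apply_symm_apply, φ.apply_symm_apply]
      exact h1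
    exact (mul_eq_zero.mp h3).resolve_left hc
  · rintro _ ⟨_, ⟨u, hu, rfl⟩, rfl⟩
    refine ⟨φ (T (φ.symm u)), ?_, ?_⟩
    · rw [← hg (φ.symm u), φ.apply_symm_apply]
      apply hinv
      exact ⟨u, hu, by rw [Matrix.toLin'_apply]⟩
    · show φ.symm (φ (T (φ.symm u))) = T (φ.symm u)
      rw [φ.symm_apply_apply]
  · exact LinearEquiv.finrank_map_eq φ.symm W'

end Cfsg.Agent.Helper42.OTS
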