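import Cfsg.Agent.Helper42.SL2Odd

/-!
# `SL₂(F)`, `q` odd: an explicit Sylow 2-subgroup (generalised quaternion) and its normaliser

Preparation for the simplicity of the 2-fusion system of `PSp₄(q)`, `q` odd.
-/

set_option autoImplicit false

namespace Cfsg.Agent.Helper42.PS4

open Matrix Cfsg.Agent.Helper42.SL2

variable {F : Type*} [Field F]

/-- `SL₂(F)` -/
abbrev L2 (F : Type*) [Field F] := Matrix.SpecialLinearGroup (Fin 2) F

theorem m00 (g h : L2 F) : (g * h).1 0 0 = g.1 0 0 * h.1 0 0 + g.1 0 1 * h.1 1 0 := by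
  rw [Matrix.SpecialLinearGroup.coe_mul, Matrix.mul_apply, Fin.sum_univ_two]

theorem m01 (g h : L2 F) : (g * h).1 0 1 = g.1 0 0 * h.1 0 1 + g.1 0 1 * h.1 1 1 := by
  rw [Matrix.SpecialLinearGroup.coe_mul, Matrix.mul_apply, Fin.sum_univ_two]

theorem m10 (g h : L2 F) : (g * h).1 1 0 = g.1 1 0 * h.1 0 0 + g.1 1 1 * h.1 1 0 := by
  rw [Matrix.SpecialLinearGroup.coe_mul, Matrix.mul_apply, Fin.sum_univ_two]

theorem m11 (g h : L2 F) : (g * h).1 1 1 = g.1 1 0 * h.1 0 1 + g.1 1 1 * h.1 1 1 := by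
  rw [Matrix.SpecialLinearGroup.coe_mul, Matrix.mul_apply, Fin.sum_univ_two]

theorem v00 (g : L2 F) : (g⁻¹).1 0 0 = g.1 1 1 := by
  rw [Matrix.SpecialLinearGroup.coe_inv, Matrix.adjugate_fin_two]; simp

theorem v01 (g : L2 F) : (g⁻¹).1 0 1 = - g.1 0 1 := by
  rw [Matrix.SpecialLinearGroup.coe_inv, Matrix.adjugate_fin_two]; simp

theorem v10 (g : L2 F) : (g⁻¹).1 1 0 = - g.1 1 0 := by
  rw [Matrix.SpecialLinearGroup.coe_inv, Matrix.adjugate_fin_two]; simp

theorem v11 (g : L2 F) : (g⁻¹).1 1 1 = g.1 0 0 := by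
  rw [Matrix.SpecialLinearGroup.coe_inv, Matrix.adjugate_fin_two]; simp

theorem o00 : (1 : L2 F).1 0 0 = 1 := by simp
theorem o01 : (1 : L2 F).1 0 1 = 0 := by simp
theorem o10 : (1 : L2 F).1 1 0 = 0 := by simp
theorem o11 : (1 : L2 F).1 1 1 = 1 := by simp

theorem k00 (a b c d : F) (h : a * d - b * c = 1) : (mkSL a b c d h).1 0 0 = a :=
  (mkSL_apply a b c d h).1
theorem k01 (a b c d : F) (h : a * d - b * c = 1) : (mkSL a b c d h).1 0 1 = b :=
  (mkSL_apply a b c d h).2.1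
theorem k10 (a b c d : F) (h : a * d - b * c = 1) : (mkSL a b c d h).1 1 0 = c :=
  (mkSL_apply a b c d h).2.2.1
theorem k11 (a b c d : F) (h : a * d - b * c = 1) : (mkSL a b c d h).1 1 1 = d :=
  (mkSL_apply a b c d h).2.2.2

/-- `-1 ∈ SL₂(F)` -/
def nI : L2 F := mkSL (-1) 0 0 (-1) (by ring)

/-- the element `i = [0,-1;1,0]` -/
def iE : L2 F := mkSL 0 (-1) 1 0 (by ring)

/-- the element `j = [x,y;y,-x]` for `x² + y² = -1` -/
def jE {x y : F} (hxy : x ^ 2 + y ^ 2 = -1) : L2 F := mkSL x y y (-x) (by linear_combination -hxy)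

theorem nI_mul_nI : (nI : L2 F) * nI = 1 := by
  apply sl_ext <;> simp only [m00, m01, m10, m11, o00, o01, o10, o11, nI, k00, k01, k10, k11] <;> ring

theorem nI_comm (g : L2 F) : nI * g = g * nI := by
  apply sl_ext <;> simp only [m00, m01, m10, m11, nI, k00, k01, k10, k11] <;> ring

theorem nI_inv : (nI : L2 F)⁻¹ = nI := inv_eq_of_mul_eq_one_right nI_mul_nI

theorem nI_ne_one (h2 : (2 : F) ≠ 0) : (nI : L2 F) ≠ 1 := by
  intro h
  have := congrArg (fun g : L2 F => g.1 0 0) h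
  simp only [nI, k00, o00] at this
  apply h2
  linear_combination -this

/-- rotation-type matrices (commuting with `i`) -/
def RotM (g : Matrix (Fin 2) (Fin 2) F) : Prop := g 0 0 = g 1 1 ∧ g 0 1 = - g 1 0

/-- reflection-type matrices (anticommuting with `i`) -/
def RefM (g : Matrix (Fin 2) (Fin 2) F) : Prop := g 0 0 = - g 1 1 ∧ g 0 1 = g 1 0

theorem rot_one : RotM (1 : L2 F).1 := by
  refine ⟨?_, ?_⟩
  · rw [o00, o11]
  · rw [o01, o10, neg_zero]

theorem rot_nI : RotM (nI : L2 F).1 := by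
  refine ⟨?_, ?_⟩ <;> simp only [nI, k00, k01, k10, k11, neg_zero]

theorem rot_iE : RotM (iE : L2 F).1 := by
  refine ⟨?_, ?_⟩ <;> simp only [iE, k00, k01, k10, k11]

theorem ref_jE {x y : F} (hxy : x ^ 2 + y ^ 2 = -1) : RefM (jE hxy).1 := by
  refine ⟨?_, ?_⟩ <;> simp only [jE, k00, k01, k10, k11, neg_neg]

theorem rot_mul {g h : L2 F} (hg : RotM g.1) (hh : RotM h.1) : RotM (g * h).1 := by
  obtain ⟨g1, g2⟩ := hg
  obtain ⟨h1, h2⟩ := hh
  refine ⟨?_, ?_⟩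
  · rw [m00, m11, g1, g2, h1, h2]; ring
  · rw [m01, m10, g1, g2, h1, h2]; ring

theorem rot_inv {g : L2 F} (hg : RotM g.1) : RotM (g⁻¹).1 := by
  obtain ⟨g1, g2⟩ := hg
  refine ⟨?_, ?_⟩
  · rw [v00, v11, g1]
  · rw [v01, v10, g2]

theorem rot_comm {g h : L2 F} (hg : RotM g.1) (hh : RotM h.1) : g * h = h * g := by
  obtain ⟨g1, g2⟩ := hg
  obtain ⟨h1, h2⟩ := hh
  apply sl_ext <;> simp only [m00, m01, m10, m11, g1, g2, h1, h2] <;> ring

theorem rot_ref {r f : L2 F} (hr : RotM r.1) (hf : RefM f.1) : RefM (r * f).1 := by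
  obtain ⟨g1, g2⟩ := hr
  obtain ⟨h1, h2⟩ := hf
  refine ⟨?_, ?_⟩
  · rw [m00, m11, g1, g2, h1, h2]; ring
  · rw [m01, m10, g1, g2, h1, h2]; ring

theorem ref_rot {r f : L2 F} (hf : RefM f.1) (hr : RotM r.1) : RefM (f * r).1 := by
  obtain ⟨g1, g2⟩ := hr
  obtain ⟨h1, h2⟩ := hf
  refine ⟨?_, ?_⟩
  · rw [m00, m11, g1, g2, h1, h2]; ring
  · rw [m01, m10, g1, g2, h1, h2]; ring

theorem ref_ref {f f' : L2 F} (hf : RefM f.1) (hf' : RefM f'.1) : RotM (f * f').1 := by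
  obtain ⟨g1, g2⟩ := hf
  obtain ⟨h1, h2⟩ := hf'
  refine ⟨?_, ?_⟩
  · rw [m00, m11, g1, g2, h1, h2]; ring
  · rw [m01, m10, g1, g2, h1, h2]; ring

theorem ref_sq {f : L2 F} (hf : RefM f.1) : f * f = nI := by
  obtain ⟨g1, g2⟩ := hf
  have hd := det_eq f
  rw [g1, g2] at hd
  apply sl_ext <;> simp only [m00, m01, m10, m11, g1, g2, nI, k00, k01, k10, k11]
  · linear_combination -hd
  · ring
  · ring
  · linear_combination -hd

theorem ref_conj {f r : L2 F} (hf : RefM f.1) (hr : RotM r.1) : f * r = r⁻¹ * f := by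
  obtain ⟨g1, g2⟩ := hr
  obtain ⟨h1, h2⟩ := hf
  apply sl_ext <;> simp only [m00, m01, m10, m11, v00, v01, v10, v11, g1, g2, h1, h2] <;> ring

theorem ref_inv {f : L2 F} (hf : RefM f.1) : f⁻¹ = nI * f := by
  apply inv_eq_of_mul_eq_one_right
  rw [← mul_assoc, ← nI_comm, mul_assoc, ref_sq hf, nI_mul_nI]

theorem rot_ref_false (h2 : (2 : F) ≠ 0) {g : L2 F} (hr : RotM g.1) (hf : RefM g.1) : False := by
  obtain ⟨g1, g2⟩ := hr
  obtain ⟨h1, h2'⟩ := hf
  have hd := det_eq g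
  have e1 : g.1 1 1 = 0 := by
    have : 2 * g.1 1 1 = 0 := by linear_combination h1 - g1
    exact (mul_eq_zero.mp this).resolve_left h2
  have e2 : g.1 1 0 = 0 := by
    have : 2 * g.1 1 0 = 0 := by linear_combination g2 - h2'
    exact (mul_eq_zero.mp this).resolve_left h2
  rw [e1, e2] at hd
  simp at hd

theorem iE_sq : (iE : L2 F) * iE = nI := by
  apply sl_ext <;> simp only [m00, m01, m10, m11, iE, nI, k00, k01, k10, k11] <;> ring

theorem rot_sq_one (h2 : (2 : F) ≠ 0) {r : L2 F} (hr : RotM r.1) (h : r * r = 1) : r = 1 ∨ r = nI := by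
  obtain ⟨g1, g2⟩ := hr
  have hd := det_eq r
  rw [g1, g2] at hd
  have e10 := congrArg (fun g : L2 F => g.1 1 0) h
  have e00 := congrArg (fun g : L2 F => g.1 0 0) h
  simp only [m00, m10, o00, o10, g1, g2] at e10 e00
  have hb : r.1 1 0 = 0 := by
    have h3 : r.1 1 0 * r.1 1 0 = 0 := by
      have : 2 * (r.1 1 0 * r.1 1 0) = 0 := by linear_combination hd - e00
      exact (mul_eq_zero.mp this).resolve_left h2
    exact mul_self_eq_zero.mp h3
  rw [hb] at hd e00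
  have ha : (r.1 1 1 - 1) * (r.1 1 1 + 1) = 0 := by linear_combination hd
  rcases mul_eq_zero.mp ha with h1 | h1
  · left
    apply sl_ext <;> simp only [o00, o01, o10, o11, g1, g2, hb]
    · linear_combination h1
    · ring
    · linear_combination h1
  · right
    apply sl_ext <;> simp only [nI, k00, k01, k10, k11, g1, g2, hb]
    · linear_combination h1
    · ring
    · linear_combination h1

theorem pow4 {G : Type*} [Monoid G] (g : G) : g ^ 4 = g * g * (g * g) := by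
  rw [show (4 : ℕ) = 2 + 2 from rfl, pow_add, pow_two]

theorem nI_mul_nI_mul (g : L2 F) : nI * (nI * g) = g := by
  rw [← mul_assoc, nI_mul_nI, one_mul]

theorem iE_ne_one : (iE : L2 F) ≠ 1 := by
  intro h
  have := congrArg (fun g : L2 F => g.1 1 0) h
  simp only [iE, k10, o10] at this
  exact one_ne_zero this

theorem iE_ne_nI : (iE : L2 F) ≠ nI := by
  intro h
  have := congrArg (fun g : L2 F => g.1 1 0) h
  simp only [iE, nI, k10] at this
  exact one_ne_zero this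

theorem ref_anticomm {f : L2 F} (hf : RefM f.1) : iE * f = nI * (f * iE) := by
  obtain ⟨h1, h2⟩ := hf
  apply sl_ext <;> simp only [m00, m01, m10, m11, iE, nI, k00, k01, k10, k11, h1, h2] <;> ring

theorem rot_of_comm_iE {a : L2 F} (h : a * iE = iE * a) : RotM a.1 := by
  have e00 := congrArg (fun g : L2 F => g.1 0 0) h
  have e01 := congrArg (fun g : L2 F => g.1 0 1) h
  simp only [m00, m01, iE, k00, k01, k10, k11] at e00 e01
  exact ⟨by linear_combination -e01, by linear_combination e00⟩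

/-- the 2-part of the rotation group -/
def AS (F : Type*) [Field F] : Subgroup (L2 F) where
  carrier := {g | RotM g.1 ∧ ∃ k : ℕ, g ^ 2 ^ k = 1}
  mul_mem' := by
    rintro a b ⟨ha, k, hk⟩ ⟨hb, l, hl⟩
    refine ⟨rot_mul ha hb, k + l, ?_⟩
    have hc : Commute a b := rot_comm ha hb
    rw [hc.mul_pow, pow_add, pow_mul, hk, one_pow, mul_comm (2 ^ k) (2 ^ l), pow_mul, hl, one_pow,
      mul_one]
  one_mem' := ⟨rot_one, 0, by simp⟩
  inv_mem' := by
    rintro a ⟨ha, k, hk⟩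
    exact ⟨rot_inv ha, k, by rw [inv_pow, hk, inv_one]⟩

theorem nI_mem_AS : (nI : L2 F) ∈ AS F := ⟨rot_nI, 1, by rw [pow_one, pow_two, nI_mul_nI]⟩

theorem iE_mem_AS : (iE : L2 F) ∈ AS F := ⟨rot_iE, 2, by
  rw [show (2 : ℕ) ^ 2 = 4 from rfl, pow4, iE_sq, nI_mul_nI]⟩

/-- the generalised quaternion group `A ∪ A j` -/
def QS (j : L2 F) (hj : RefM j.1) : Subgroup (L2 F) where
  carrier := {g | ∃ r ∈ AS F, g = r ∨ g = r * j}
  mul_mem' := by
    rintro a b ⟨r, hr, ha | ha⟩ ⟨r', hr', hb | hb⟩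
    · exact ⟨r * r', mul_mem hr hr', Or.inl (by rw [ha, hb])⟩
    · exact ⟨r * r', mul_mem hr hr', Or.inr (by rw [ha, hb, mul_assoc])⟩
    · refine ⟨r * r'⁻¹, mul_mem hr (inv_mem hr'), Or.inr ?_⟩
      rw [ha, hb, mul_assoc, ref_conj hj hr'.1, ← mul_assoc]
    · refine ⟨r * r'⁻¹ * nI, mul_mem (mul_mem hr (inv_mem hr')) nI_mem_AS, Or.inl ?_⟩
      rw [ha, hb, ← ref_sq hj]
      calc r * j * (r' * j) = r * (j * r') * j := by group
        _ = r * (r'⁻¹ * j) * j := by rw [ref_conj hj hr'.1]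
        _ = r * r'⁻¹ * (j * j) := by group
  one_mem' := ⟨1, one_mem _, Or.inl rfl⟩
  inv_mem' := by
    rintro a ⟨r, hr, ha | ha⟩
    · exact ⟨r⁻¹, inv_mem hr, Or.inl (by rw [ha])⟩
    · refine ⟨nI * r, mul_mem nI_mem_AS hr, Or.inr ?_⟩
      rw [ha, _root_.mul_inv_rev, ref_inv hj, mul_assoc nI j, ref_conj hj (rot_inv hr.1), inv_inv,
        ← mul_assoc]

section QSfacts

variable {j : L2 F} {hj : RefM j.1}

theorem AS_le_QS (j : L2 F) (hj : RefM j.1) : AS F ≤ QS j hj := fun r hr => ⟨r, hr, Or.inl rfl⟩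

theorem j_mem_QS (j : L2 F) (hj : RefM j.1) : j ∈ QS j hj := ⟨1, one_mem _, Or.inr (one_mul _).symm⟩

theorem nI_mem_QS (j : L2 F) (hj : RefM j.1) : nI ∈ QS j hj := AS_le_QS j hj nI_mem_AS

theorem iE_mem_QS (j : L2 F) (hj : RefM j.1) : iE ∈ QS j hj := AS_le_QS j hj iE_mem_AS

theorem rot_or_ref_of_mem {g : L2 F} (hg : g ∈ QS j hj) : RotM g.1 ∨ RefM g.1 := by
  obtain ⟨r, hr, e | e⟩ := hg
  · rw [e]; exact Or.inl hr.1
  · rw [e]; exact Or.inr (rot_ref hr.1 hj)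

theorem mem_AS_of_rot (h2 : (2 : F) ≠ 0) {g : L2 F} (hg : g ∈ QS j hj) (hr : RotM g.1) : g ∈ AS F := by
  obtain ⟨r, hr', e | e⟩ := hg
  · rw [e]; exact hr'
  · rw [e] at hr
    exact (rot_ref_false h2 hr (rot_ref hr'.1 hj)).elim

theorem pow_of_mem_QS {g : L2 F} (hg : g ∈ QS j hj) : ∃ k : ℕ, g ^ 2 ^ k = 1 := by
  obtain ⟨r, hr, e | e⟩ := hg
  · rw [e]; exact hr.2
  · refine ⟨2, ?_⟩
    rw [e, show (2 : ℕ) ^ 2 = 4 from rfl, pow4, ref_sq (rot_ref hr.1 hj), nI_mul_nI]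

theorem exists_sq_decomp {g : L2 F} (hg : g ∈ QS j hj) :
    ∃ a ∈ QS j hj, ∃ a' ∈ QS j hj, a * a = nI ∧ a' * a' = nI ∧ g = a * a'⁻¹ := by
  obtain ⟨r, hr, e | e⟩ := hg
  · refine ⟨r * j, ⟨r, hr, Or.inr rfl⟩, j, j_mem_QS j hj, ref_sq (rot_ref hr.1 hj), ref_sq hj, ?_⟩
    rw [e, mul_inv_cancel_right]
  · have h1 : RotM (r * iE⁻¹).1 := rot_mul hr.1 (rot_inv rot_iE)
    refine ⟨r * iE⁻¹ * j, ⟨r * iE⁻¹, mul_mem hr (inv_mem iE_mem_AS), Or.inr rfl⟩, iE, iE_mem_QS j hj,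
      ref_sq (rot_ref h1 hj), iE_sq, ?_⟩
    rw [e, mul_assoc r, ← ref_conj hj rot_iE, ← mul_assoc, mul_inv_cancel_right]

/-- a rotation-type element normalising `Q` lies in `A` -/
theorem rot_normalizer (h2 : (2 : F) ≠ 0) {n : L2 F} (hn : RotM n.1)
    (hjn : n * j * n⁻¹ ∈ QS j hj) : n ∈ AS F := by
  have e : n * j * n⁻¹ = n * n * j := by
    rw [mul_assoc, ref_conj hj (rot_inv hn), inv_inv, ← mul_assoc]
  rw [e] at hjn
  have h3 : n * n ∈ QS j hj := by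
    have := mul_mem hjn (inv_mem (j_mem_QS j hj))
    rwa [mul_inv_cancel_right] at this
  obtain ⟨-, k, hk⟩ := mem_AS_of_rot h2 h3 (rot_mul hn hn)
  refine ⟨hn, k + 1, ?_⟩
  rw [pow_succ', pow_mul, pow_two]
  exact hk

theorem mem_of_rot_or_ref (h2 : (2 : F) ≠ 0) {n : L2 F} (hn : RotM n.1 ∨ RefM n.1)
    (hN : ∀ g ∈ QS j hj, n * g * n⁻¹ ∈ QS j hj) : n ∈ QS j hj := by
  rcases hn with hn | hn
  · exact AS_le_QS _ _ (rot_normalizer h2 hn (hN j (j_mem_QS j hj)))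
  · have hj' : RefM (j⁻¹).1 := by rw [ref_inv hj]; exact rot_ref rot_nI hj
    have hn' : RotM (n * j⁻¹).1 := ref_ref hn hj'
    have h3 : (n * j⁻¹) * j * (n * j⁻¹)⁻¹ ∈ QS j hj := by
      have : (n * j⁻¹) * j * (n * j⁻¹)⁻¹ = n * j * n⁻¹ := by group
      rw [this]; exact hN j (j_mem_QS j hj)
    have := mul_mem (AS_le_QS j hj (rot_normalizer h2 hn' h3)) (j_mem_QS j hj)
    rwa [inv_mul_cancel_right] at this

end QSfacts

theorem rot_or_ref_of_conj (h2 : (2 : F) ≠ 0) {n r r' : L2 F} (hr : RotM r.1) (hr' : RotM r'.1)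
    (hb : r.1 1 0 ≠ 0) (h : n * r = r' * n) : RotM n.1 ∨ RefM n.1 := by
  obtain ⟨r1, r2⟩ := hr
  obtain ⟨s1, s2⟩ := hr'
  have hdet := det_eq n
  have h00 := congrArg (fun g : L2 F => g.1 0 0) h
  have h01 := congrArg (fun g : L2 F => g.1 0 1) h
  have h10 := congrArg (fun g : L2 F => g.1 1 0) h
  have h11 := congrArg (fun g : L2 F => g.1 1 1) h
  simp only [m00, m01, m10, m11, r1, r2, s1, s2] at h00 h01 h10 h11
  have E1 : n.1 0 1 * n.1 1 1 + n.1 0 0 * n.1 1 0 = 0 := by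
    have : 2 * r.1 1 0 * (n.1 0 1 * n.1 1 1 + n.1 0 0 * n.1 1 0) = 0 := by
      linear_combination n.1 1 1 * h00 - n.1 1 0 * h01 - n.1 0 0 * h11 + n.1 0 1 * h10
    exact (mul_eq_zero.mp this).resolve_left (mul_ne_zero h2 hb)
  have hE : n.1 1 1 ^ 2 + n.1 1 0 ^ 2 = n.1 0 0 ^ 2 + n.1 0 1 ^ 2 := by
    have : r.1 1 0 * (n.1 1 1 ^ 2 + n.1 1 0 ^ 2 - (n.1 0 0 ^ 2 + n.1 0 1 ^ 2)) = 0 := by
      linear_combination n.1 1 1 * h10 - n.1 1 0 * h11 - n.1 0 1 * h00 + n.1 0 0 * h01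
    exact sub_eq_zero.mp ((mul_eq_zero.mp this).resolve_left hb)
  have hu : n.1 0 0 * (n.1 1 1 ^ 2 + n.1 1 0 ^ 2) = n.1 1 1 := by
    linear_combination n.1 1 1 * hdet + n.1 1 0 * E1
  have hs : - n.1 0 1 * (n.1 1 1 ^ 2 + n.1 1 0 ^ 2) = n.1 1 0 := by
    linear_combination n.1 1 0 * hdet - n.1 1 1 * E1
  have hNN : (n.1 1 1 ^ 2 + n.1 1 0 ^ 2 - 1) * (n.1 1 1 ^ 2 + n.1 1 0 ^ 2 + 1) = 0 := by
    linear_combination (n.1 1 1 ^ 2 + n.1 1 0 ^ 2) * hE + n.1 0 0 * hu - n.1 0 1 * hs + hdet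
  rcases mul_eq_zero.mp hNN with hN | hN
  · left
    have hN' : n.1 1 1 ^ 2 + n.1 1 0 ^ 2 = 1 := by linear_combination hN
    rw [hN'] at hu hs
    exact ⟨by linear_combination hu, by linear_combination -hs⟩
  · right
    have hN' : n.1 1 1 ^ 2 + n.1 1 0 ^ 2 = -1 := by linear_combination hN
    rw [hN'] at hu hs
    exact ⟨by linear_combination -hu, by linear_combination hs⟩

theorem rot_sq_of_b_zero {r : L2 F} (hr : RotM r.1) (hb : r.1 1 0 = 0) : r * r = 1 := by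
  obtain ⟨g1, g2⟩ := hr
  have hd := det_eq r
  rw [g1, g2, hb] at hd
  apply sl_ext <;> simp only [m00, m01, m10, m11, o00, o01, o10, o11, g1, g2, hb]
  · linear_combination hd
  · ring
  · ring
  · linear_combination hd

/-- if `A` has an element of order `≥ 8`, then `Q` is self-normalising in `SL₂(F)` -/
theorem normalizer_big (h2 : (2 : F) ≠ 0) {j : L2 F} {hj : RefM j.1} {r₀ : L2 F} (hr₀ : r₀ ∈ AS F)
    (h4 : r₀ ^ 4 ≠ 1) {n : L2 F} (hN : ∀ g ∈ QS j hj, n * g * n⁻¹ ∈ QS j hj) : n ∈ QS j hj := by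
  apply mem_of_rot_or_ref h2 _ hN
  have hb : r₀.1 1 0 ≠ 0 := by
    intro hb
    apply h4
    rw [pow4, rot_sq_of_b_zero hr₀.1 hb, one_mul]
  obtain ⟨r', hr', e | e⟩ := hN r₀ (AS_le_QS j hj hr₀)
  · exact rot_or_ref_of_conj h2 hr₀.1 hr'.1 hb (by rw [← e]; group)
  · exfalso
    apply h4
    have h5 : (n * r₀ * n⁻¹) ^ 4 = 1 := by
      rw [e, pow4, ref_sq (rot_ref hr'.1 hj), nI_mul_nI]
    rw [conj_pow] at h5
    exact conj_eq_one_iff.mp h5

/-- all elements of order 4 of `SL₂(F)` are conjugate to `i` -/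
theorem exists_conj_iE [Fintype F] (hodd : Fintype.card F % 2 = 1) (h2 : (2 : F) ≠ 0) (a : L2 F)
    (ha : a * a = nI) : ∃ g : L2 F, g * iE * g⁻¹ = a := by
  have hd := det_eq a
  have e00 := congrArg (fun g : L2 F => g.1 0 0) ha
  have e11 := congrArg (fun g : L2 F => g.1 1 1) ha
  simp only [m00, m11, nI, k00, k11] at e00 e11
  have hw : a.1 1 1 = - a.1 0 0 := by
    have h3 : (a.1 0 0 + a.1 1 1) ^ 2 = 0 := by linear_combination e00 + e11 + 2 * hd
    have h4 := (pow_eq_zero_iff (two_ne_zero)).mp h3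
    linear_combination h4
  have key : ∀ w₁ w₂ : F,
      w₁ * (a.1 1 0 * w₁ - a.1 0 0 * w₂) - (a.1 0 0 * w₁ + a.1 0 1 * w₂) * w₂ = 1 →
      ∃ g : L2 F, g * iE * g⁻¹ = a := by
    intro w₁ w₂ hdet'
    refine ⟨mkSL w₁ (a.1 0 0 * w₁ + a.1 0 1 * w₂) w₂ (a.1 1 0 * w₁ - a.1 0 0 * w₂) hdet', ?_⟩
    rw [mul_inv_eq_iff_eq_mul]
    apply sl_ext <;> simp only [m00, m01, m10, m11, iE, k00, k01, k10, k11, hw]
    · ring
    · linear_combination (-w₁) * e00
    · ring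
    · linear_combination (-w₂) * e00
  by_cases hv : a.1 1 0 = 0
  · have hp : a.1 0 0 ≠ 0 := by
      intro hp
      rw [hp, hv] at e00
      simp at e00
    apply key (-(1 + a.1 0 1) / (2 * a.1 0 0)) 1
    rw [hv]
    field_simp
    ring
  · obtain ⟨X, Y, hXY⟩ := exists_sum_sq hodd (a.1 1 0)
    have hw1 : a.1 1 0 * ((X + a.1 0 0 * Y) / a.1 1 0) = X + a.1 0 0 * Y := by field_simp
    generalize (X + a.1 0 0 * Y) / a.1 1 0 = w₁ at hw1
    apply key w₁ Y
    apply mul_left_cancel₀ hv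
    linear_combination (a.1 1 0 * w₁ + X + a.1 0 0 * Y - 2 * a.1 0 0 * Y) * hw1 + hXY - Y ^ 2 * e00

theorem iE_ref_iE {f : L2 F} (hf : RefM f.1) : iE * f * iE = f := by
  obtain ⟨h1, h2⟩ := hf
  apply sl_ext <;> simp only [m00, m01, m10, m11, iE, k00, k01, k10, k11, h1, h2] <;> ring

theorem central_of_comm (h2 : (2 : F) ≠ 0) {j : L2 F} (hj : RefM j.1) {a : L2 F}
    (hi : a * iE = iE * a) (hja : a * j = j * a) : a = 1 ∨ a = nI := by
  have hr := rot_of_comm_iE hi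
  apply rot_sq_one h2 hr
  have h3 : a * j = a⁻¹ * j := by rw [hja, ref_conj hj hr]
  have h4 : a = a⁻¹ := mul_right_cancel h3
  calc a * a = a * a⁻¹ := by rw [← h4]
    _ = 1 := mul_inv_cancel a

/-! ### The small case `Q ≅ Q₈` -/

/-- the "small" case: every element of `A` squares to `±1` (then `Q ≅ Q₈`) -/
def Small (F : Type*) [Field F] : Prop := ∀ r ∈ AS F, r * r = 1 ∨ r * r = nI

theorem small_of_pow_four (h2 : (2 : F) ≠ 0) (h : ∀ r ∈ AS F, r ^ 4 = 1) : Small F := by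
  intro r hr
  have h4 := h r hr
  rw [pow4] at h4
  exact rot_sq_one h2 (rot_mul hr.1 hr.1) h4

theorem rot_sq_nI (h2 : (2 : F) ≠ 0) {r : L2 F} (hr : RotM r.1) (h : r * r = nI) :
    r = iE ∨ r = nI * iE := by
  obtain ⟨g1, g2⟩ := hr
  have hd := det_eq r
  rw [g1, g2] at hd
  have e00 := congrArg (fun g : L2 F => g.1 0 0) h
  simp only [m00, nI, k00, g1, g2] at e00
  have ha : r.1 1 1 = 0 := by
    have h3 : r.1 1 1 * r.1 1 1 = 0 := by
      have : 2 * (r.1 1 1 * r.1 1 1) = 0 := by linear_combination hd + e00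
      exact (mul_eq_zero.mp this).resolve_left h2
    exact mul_self_eq_zero.mp h3
  rw [ha] at hd
  have hb : (r.1 1 0 - 1) * (r.1 1 0 + 1) = 0 := by linear_combination hd
  rcases mul_eq_zero.mp hb with h1 | h1
  · left
    apply sl_ext <;> simp only [iE, k00, k01, k10, k11, g1, g2, ha] <;>
      first | ring1 | linear_combination h1 | linear_combination -h1
  · right
    apply sl_ext <;> simp only [m00, m01, m10, m11, nI, iE, k00, k01, k10, k11, g1, g2, ha] <;>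
      first | ring1 | linear_combination h1 | linear_combination -h1

theorem small_AS_cases (h2 : (2 : F) ≠ 0) (hs : Small F) {r : L2 F} (hr : r ∈ AS F) :
    r = 1 ∨ r = nI ∨ r = iE ∨ r = nI * iE := by
  rcases hs r hr with h | h
  · rcases rot_sq_one h2 hr.1 h with h1 | h1
    · exact Or.inl h1
    · exact Or.inr (Or.inl h1)
  · rcases rot_sq_nI h2 hr.1 h with h1 | h1
    · exact Or.inr (Or.inr (Or.inl h1))
    · exact Or.inr (Or.inr (Or.inr h1))

theorem small_sq (hs : Small F) {j : L2 F} {hj : RefM j.1} {u : L2 F} (hu : u ∈ QS j hj) :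
    u * u = 1 ∨ u * u = nI := by
  obtain ⟨r, hr, e | e⟩ := hu
  · rw [e]; exact hs r hr
  · rw [e]; exact Or.inr (ref_sq (rot_ref hr.1 hj))

theorem sgn_lemma (z1 z2 z3 a : L2 F) (h1 : z1 = 1 ∨ z1 = nI) (h2 : z2 = 1 ∨ z2 = nI)
    (h3 : z3 = 1 ∨ z3 = nI) :
    z3 * z2⁻¹ * a * z1⁻¹ = a ∨ z3 * z2⁻¹ * a * z1⁻¹ = nI * a := by
  rcases h1 with rfl | rfl <;> rcases h2 with rfl | rfl <;> rcases h3 with rfl | rfl <;>
  first
  | (left; apply sl_ext <;>
      simp only [m00, m01, m10, m11, v00, v01, v10, v11, o00, o01, o10, o11, nI, k00, k01, k10, k11] <;>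
      ring1)
  | (right; apply sl_ext <;>
      simp only [m00, m01, m10, m11, v00, v01, v10, v11, o00, o01, o10, o11, nI, k00, k01, k10, k11] <;>
      ring1)

theorem small_conj (hs : Small F) {j : L2 F} {hj : RefM j.1} {u a : L2 F} (hu : u ∈ QS j hj)
    (ha : a ∈ QS j hj) : u * a * u⁻¹ = a ∨ u * a * u⁻¹ = nI * a := by
  have key : u * a * u⁻¹ = (u * a * (u * a)) * (a * a)⁻¹ * a * (u * u)⁻¹ := by group
  rw [key]
  exact sgn_lemma _ _ _ _ (small_sq hs hu) (small_sq hs ha) (small_sq hs (mul_mem hu ha))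

theorem conj_nI (n : L2 F) : n * nI * n⁻¹ = nI := by
  rw [← nI_comm, mul_assoc, mul_inv_cancel, mul_one]

theorem conj_mem_of_gens (h2 : (2 : F) ≠ 0) (hs : Small F) {j : L2 F} {hj : RefM j.1} (n : L2 F)
    (hi : n * iE * n⁻¹ ∈ QS j hj) (hjm : n * j * n⁻¹ ∈ QS j hj) :
    ∀ g ∈ QS j hj, n * g * n⁻¹ ∈ QS j hj := by
  have hnI : n * nI * n⁻¹ ∈ QS j hj := by
    rw [conj_nI]; exact nI_mem_QS j hj
  have hA : ∀ r ∈ AS F, n * r * n⁻¹ ∈ QS j hj := by
    intro r hr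
    rcases small_AS_cases h2 hs hr with e | e | e | e
    · rw [e, mul_one, mul_inv_cancel]; exact one_mem _
    · rw [e]; exact hnI
    · rw [e]; exact hi
    · rw [e, ← conj_mul]; exact mul_mem hnI hi
  intro g hg
  obtain ⟨r, hr, e | e⟩ := hg
  · rw [e]; exact hA r hr
  · rw [e, ← conj_mul]; exact mul_mem (hA r hr) hjm

theorem two_ne_zero_of {e : F} (he : 2 * e = 1) : (2 : F) ≠ 0 := by
  intro h
  rw [h, zero_mul] at he
  exact zero_ne_one he

/-- the element `c = (-1 + i + j + k)/2` of order 3 -/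
def cE {e x y : F} (he : 2 * e = 1) (hxy : x ^ 2 + y ^ 2 = -1) : L2 F :=
  mkSL (e * (-1 + x - y)) (e * (-1 + y + x)) (e * (1 + y + x)) (e * (-1 - x + y))
    (by linear_combination (-2 * e ^ 2) * hxy + (2 * e + 1) * he)

section cEfacts

variable {e x y : F} (he : 2 * e = 1) (hxy : x ^ 2 + y ^ 2 = -1)

theorem cE_iE : cE he hxy * iE = iE * jE hxy * cE he hxy := by
  apply sl_ext <;> simp only [m00, m01, m10, m11, cE, iE, jE, k00, k01, k10, k11]
  · linear_combination (-e) * hxy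
  · linear_combination (e) * hxy
  · linear_combination (-e) * hxy
  · linear_combination (-e) * hxy

theorem cE_jE : cE he hxy * jE hxy = iE * cE he hxy := by
  apply sl_ext <;> simp only [m00, m01, m10, m11, cE, iE, jE, k00, k01, k10, k11]
  · linear_combination (e) * hxy
  · linear_combination (-e) * hxy
  · linear_combination (e) * hxy
  · linear_combination (e) * hxy

theorem cE_sq : cE he hxy * cE he hxy = (cE he hxy)⁻¹ := by
  apply sl_ext <;> simp only [m00, m01, m10, m11, v00, v01, v10, v11, cE, k00, k01, k10, k11]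
  · linear_combination (2 * e ^ 2) * hxy - e * (1 + x - y) * he
  · linear_combination - e * (-1 + y + x) * he
  · linear_combination - e * (1 + y + x) * he
  · linear_combination (2 * e ^ 2) * hxy - e * (1 - x + y) * he

theorem cE_pow3 : cE he hxy ^ 3 = 1 := by
  rw [pow_succ, pow_two, cE_sq, inv_mul_cancel]

theorem cE_ne_one : cE he hxy ≠ 1 := by
  intro h
  have h1 := cE_iE he hxy
  rw [h, one_mul, mul_one] at h1
  have h2 : jE hxy = 1 := by
    have := mul_left_cancel (a := iE) (b := 1) (c := jE hxy) (by rw [mul_one]; exact h1)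
    exact this.symm
  have h3 := ref_jE hxy
  rw [h2] at h3
  exact rot_ref_false (two_ne_zero_of he) rot_one h3

theorem cE_not_two (k : ℕ) : cE he hxy ^ 2 ^ k ≠ 1 := by
  intro hk
  apply cE_ne_one he hxy
  have d1 := orderOf_dvd_of_pow_eq_one (cE_pow3 he hxy)
  have d2 := orderOf_dvd_of_pow_eq_one hk
  have d3 : orderOf (cE he hxy) ∣ Nat.gcd 3 (2 ^ k) := Nat.dvd_gcd d1 d2
  have hg : Nat.gcd 3 (2 ^ k) = 1 := Nat.Coprime.pow_right k (by norm_num)
  rw [hg] at d3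
  exact orderOf_eq_one_iff.mp (Nat.dvd_one.mp d3)

theorem cE_kE : cE he hxy * (iE * jE hxy) = jE hxy * cE he hxy := by
  calc cE he hxy * (iE * jE hxy) = (cE he hxy * iE) * jE hxy := by group
    _ = iE * jE hxy * (cE he hxy * jE hxy) := by rw [cE_iE]; group
    _ = (iE * jE hxy * iE) * cE he hxy := by rw [cE_jE]; group
    _ = jE hxy * cE he hxy := by rw [iE_ref_iE (ref_jE hxy)]

/-- in the small case the normaliser of `Q ≅ Q₈` in `SL₂(F)` is `Q ∪ cQ ∪ c⁻¹Q` -/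
theorem normalizer_small (hs : Small F) {n : L2 F}
    (hN : ∀ g ∈ QS (jE hxy) (ref_jE hxy), n * g * n⁻¹ ∈ QS (jE hxy) (ref_jE hxy)) :
    n ∈ QS (jE hxy) (ref_jE hxy) ∨ cE he hxy * n ∈ QS (jE hxy) (ref_jE hxy) ∨
      (cE he hxy)⁻¹ * n ∈ QS (jE hxy) (ref_jE hxy) := by
  have h2 := two_ne_zero_of he
  have hj : RefM (jE hxy).1 := ref_jE hxy
  have hiQ := iE_mem_QS (jE hxy) hj
  have hjQ := j_mem_QS (jE hxy) hj
  have hcN : ∀ g ∈ QS (jE hxy) hj, cE he hxy * g * (cE he hxy)⁻¹ ∈ QS (jE hxy) hj :=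
    conj_mem_of_gens h2 hs _
      (by rw [mul_inv_eq_iff_eq_mul.mpr (cE_iE he hxy)]; exact mul_mem hiQ hjQ)
      (by rw [mul_inv_eq_iff_eq_mul.mpr (cE_jE he hxy)]; exact hiQ)
  have e1 : (cE he hxy)⁻¹ * iE = jE hxy * (cE he hxy)⁻¹ := by
    rw [inv_mul_eq_iff_eq_mul, ← mul_assoc, cE_jE, mul_assoc, mul_inv_cancel, mul_one]
  have e2 : (cE he hxy)⁻¹ * jE hxy = iE * jE hxy * (cE he hxy)⁻¹ := by
    rw [inv_mul_eq_iff_eq_mul, ← mul_assoc, cE_kE, mul_assoc, mul_inv_cancel, mul_one]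
  have e3 : (cE he hxy)⁻¹ * (iE * jE hxy) = iE * (cE he hxy)⁻¹ := by
    rw [inv_mul_eq_iff_eq_mul, ← mul_assoc, cE_iE, mul_assoc, mul_inv_cancel, mul_one]
  have hcN' : ∀ g ∈ QS (jE hxy) hj, (cE he hxy)⁻¹ * g * (cE he hxy)⁻¹⁻¹ ∈ QS (jE hxy) hj :=
    conj_mem_of_gens h2 hs _
      (by rw [mul_inv_eq_iff_eq_mul.mpr e1]; exact hjQ)
      (by rw [mul_inv_eq_iff_eq_mul.mpr e2]; exact mul_mem hiQ hjQ)
  have fin : ∀ m : L2 F, (∀ g ∈ QS (jE hxy) hj, m * g * m⁻¹ ∈ QS (jE hxy) hj) → ∀ r' : L2 F,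
      RotM r'.1 → (m * n) * iE = r' * (m * n) → m * n ∈ QS (jE hxy) hj := by
    intro m hm r' hr' hmn
    apply mem_of_rot_or_ref h2
    · refine rot_or_ref_of_conj h2 rot_iE hr' ?_ hmn
      simp only [iE, k10]
      exact one_ne_zero
    · intro g hg
      have : m * n * g * (m * n)⁻¹ = m * (n * g * n⁻¹) * m⁻¹ := by group
      rw [this]
      exact hm _ (hN g hg)
  have hb : (iE : L2 F).1 1 0 ≠ 0 := by
    simp only [iE, k10]
    exact one_ne_zero
  obtain ⟨r, hr, e | e⟩ := hN iE hiQ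
  · left
    apply mem_of_rot_or_ref h2 _ hN
    exact rot_or_ref_of_conj h2 rot_iE hr.1 hb (mul_inv_eq_iff_eq_mul.mp e)
  · have e' := mul_inv_eq_iff_eq_mul.mp e
    rcases small_AS_cases h2 hs hr with h1 | h1 | h1 | h1
    · right; left
      apply fin _ hcN iE rot_iE
      rw [h1, one_mul] at e'
      calc cE he hxy * n * iE = cE he hxy * (n * iE) := by group
        _ = (cE he hxy * jE hxy) * n := by rw [e']; group
        _ = iE * (cE he hxy * n) := by rw [cE_jE]; group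
    · right; left
      apply fin _ hcN (nI * iE) (rot_mul rot_nI rot_iE)
      rw [h1] at e'
      calc cE he hxy * n * iE = cE he hxy * (n * iE) := by group
        _ = cE he hxy * nI * jE hxy * n := by rw [e']; group
        _ = nI * (cE he hxy * jE hxy) * n := by rw [← nI_comm]; group
        _ = nI * iE * (cE he hxy * n) := by rw [cE_jE]; group
    · right; right
      apply fin _ hcN' iE rot_iE
      rw [h1] at e'
      calc (cE he hxy)⁻¹ * n * iE = (cE he hxy)⁻¹ * (n * iE) := by group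
        _ = ((cE he hxy)⁻¹ * (iE * jE hxy)) * n := by rw [e']; group
        _ = iE * ((cE he hxy)⁻¹ * n) := by rw [e3]; group
    · right; right
      apply fin _ hcN' (nI * iE) (rot_mul rot_nI rot_iE)
      rw [h1] at e'
      calc (cE he hxy)⁻¹ * n * iE = (cE he hxy)⁻¹ * (n * iE) := by group
        _ = (cE he hxy)⁻¹ * nI * (iE * jE hxy) * n := by rw [e']; group
        _ = nI * ((cE he hxy)⁻¹ * (iE * jE hxy)) * n := by rw [← nI_comm]; group
        _ = nI * iE * ((cE he hxy)⁻¹ * n) := by rw [e3]; group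

end cEfacts

end Cfsg.Agent.Helper42.PS4
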