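import Cfsg.Agent.Helper42.PS4a
import Cfsg.Agent.Helper42.SpGroup

/-!
# `Sp₄(F)` as `F² ⊗ F²`: the subgroup `(SL₂ × SL₂)⟨σ⟩` and some explicit elements
-/

set_option autoImplicit false

namespace Cfsg.Agent.Helper42.PS4

open Matrix Cfsg.Agent.Helper42.SL2

variable {F : Type*} [Field F]

/-- `2 × 2` matrices -/
abbrev M2 (F : Type*) [Field F] := Matrix (Fin 2) (Fin 2) F
/-- `4 × 4` matrices in block form -/
abbrev M4 (F : Type*) [Field F] := Matrix (Fin 2 ⊕ Fin 2) (Fin 2 ⊕ Fin 2) F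
/-- `Sp₄(F)` -/
abbrev G4 (F : Type*) [Field F] := Matrix.symplecticGroup (Fin 2) F

/-- Kronecker product: outer index `inl/inr`, inner index `Fin 2` -/
def tn (a d : M2 F) : M4 F :=
  Matrix.fromBlocks (a 0 0 • d) (a 0 1 • d) (a 1 0 • d) (a 1 1 • d)

theorem tn_mul (a d a' d' : M2 F) : tn a d * tn a' d' = tn (a * a') (d * d') := by
  simp only [tn, Matrix.fromBlocks_multiply, Matrix.mul_apply, Fin.sum_univ_two, Matrix.smul_mul,
    Matrix.mul_smul, smul_smul, add_smul, mul_comm]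

theorem tn_add_left (a a' d : M2 F) : tn (a + a') d = tn a d + tn a' d := by
  simp only [tn, Matrix.fromBlocks_add, Matrix.add_apply, add_smul]

theorem tn_add_right (a d d' : M2 F) : tn a (d + d') = tn a d + tn a d' := by
  simp only [tn, Matrix.fromBlocks_add, smul_add]

theorem tn_smul_left (c : F) (a d : M2 F) : tn (c • a) d = c • tn a d := by
  simp only [tn, Matrix.fromBlocks_smul, Matrix.smul_apply, smul_eq_mul, smul_smul]

theorem tn_smul_right (c : F) (a d : M2 F) : tn a (c • d) = c • tn a d := by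
  simp only [tn, Matrix.fromBlocks_smul, smul_comm c]

theorem tn_neg_left (a d : M2 F) : tn (-a) d = - tn a d := by
  simp only [tn, Matrix.fromBlocks_neg, Matrix.neg_apply, neg_smul]

theorem tn_neg_right (a d : M2 F) : tn a (-d) = - tn a d := by
  simp only [tn, Matrix.fromBlocks_neg, smul_neg]

theorem tn_zero_left (d : M2 F) : tn 0 d = 0 := by
  simp only [tn, Matrix.zero_apply, zero_smul, Matrix.fromBlocks_zero]

theorem tn_zero_right (a : M2 F) : tn a 0 = 0 := by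
  simp only [tn, smul_zero, Matrix.fromBlocks_zero]

theorem tn_one : tn (1 : M2 F) 1 = 1 := by
  simp [tn, Matrix.fromBlocks_one]

theorem tn_transpose (a d : M2 F) : (tn a d)ᵀ = tn aᵀ dᵀ := by
  simp only [tn, Matrix.fromBlocks_transpose, Matrix.transpose_smul, Matrix.transpose_apply]

theorem tn_ll (a d : M2 F) (i j : Fin 2) : tn a d (Sum.inl i) (Sum.inl j) = a 0 0 * d i j := by
  simp [tn]

theorem tn_lr (a d : M2 F) (i j : Fin 2) : tn a d (Sum.inl i) (Sum.inr j) = a 0 1 * d i j := by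
  simp [tn]

theorem tn_rl (a d : M2 F) (i j : Fin 2) : tn a d (Sum.inr i) (Sum.inl j) = a 1 0 * d i j := by
  simp [tn]

theorem tn_rr (a d : M2 F) (i j : Fin 2) : tn a d (Sum.inr i) (Sum.inr j) = a 1 1 * d i j := by
  simp [tn]

/-- the standard symplectic form on `F²` -/
def J0 : M2 F := !![0, -1; 1, 0]

theorem J_eq : Matrix.J (Fin 2) F = tn J0 1 := by
  simp [Matrix.J, tn, J0]

theorem mul_J0 (a : M2 F) : a * J0 * aᵀ = a.det • J0 := by
  apply mat_ext <;> simp [Matrix.mul_apply, Fin.sum_univ_two, J0, Matrix.det_fin_two] <;> ring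

theorem tn_mem (a d : M2 F) (c e : F) (ha : a * J0 * aᵀ = c • J0) (hd : d * dᵀ = e • (1 : M2 F))
    (hce : c * e = 1) : tn a d ∈ Matrix.symplecticGroup (Fin 2) F := by
  rw [SymplecticGroup.mem_iff, J_eq, tn_transpose, tn_mul, tn_mul, ha, Matrix.mul_one, hd,
    tn_smul_left, tn_smul_right, smul_smul, hce, one_smul]

/-- idempotents -/
def E1 : M2 F := !![1, 0; 0, 0]
/-- idempotents -/
def E2 : M2 F := !![0, 0; 0, 1]
/-- the swap -/
def PX : M2 F := !![0, 1; 1, 0]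

theorem E1_E1 : (E1 : M2 F) * E1 = E1 := by
  apply mat_ext <;> simp [E1, Matrix.mul_apply, Fin.sum_univ_two]
theorem E2_E2 : (E2 : M2 F) * E2 = E2 := by
  apply mat_ext <;> simp [E2, Matrix.mul_apply, Fin.sum_univ_two]
theorem E1_E2 : (E1 : M2 F) * E2 = 0 := by
  apply mat_ext <;> simp [E1, E2, Matrix.mul_apply, Fin.sum_univ_two]
theorem E2_E1 : (E2 : M2 F) * E1 = 0 := by
  apply mat_ext <;> simp [E1, E2, Matrix.mul_apply, Fin.sum_univ_two]
theorem E1_add_E2 : (E1 : M2 F) + E2 = 1 := by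
  apply mat_ext <;> simp [E1, E2]
theorem E1_tr : (E1 : M2 F)ᵀ = E1 := by
  apply mat_ext <;> simp [E1]
theorem E2_tr : (E2 : M2 F)ᵀ = E2 := by
  apply mat_ext <;> simp [E2]
theorem PX_PX : (PX : M2 F) * PX = 1 := by
  apply mat_ext <;> simp [PX, Matrix.mul_apply, Fin.sum_univ_two]
theorem PX_tr : (PX : M2 F)ᵀ = PX := by
  apply mat_ext <;> simp [PX]
theorem PX_E1 : (PX : M2 F) * E1 = E2 * PX := by
  apply mat_ext <;> simp [PX, E1, E2, Matrix.mul_apply, Fin.sum_univ_two]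
theorem PX_E2 : (PX : M2 F) * E2 = E1 * PX := by
  apply mat_ext <;> simp [PX, E1, E2, Matrix.mul_apply, Fin.sum_univ_two]

/-- the block-diagonal embedding of `M₂ × M₂` -/
def emb (a b : M2 F) : M4 F := tn a E1 + tn b E2

theorem emb_mul (a b a' b' : M2 F) : emb a b * emb a' b' = emb (a * a') (b * b') := by
  simp only [emb, add_mul, mul_add, tn_mul, E1_E1, E2_E2, E1_E2, E2_E1, tn_zero_right, add_zero,
    zero_add]

theorem emb_one : emb (1 : M2 F) 1 = 1 := by
  rw [emb, ← tn_add_right, E1_add_E2, tn_one]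

theorem emb_neg (a b : M2 F) : emb (-a) (-b) = - emb a b := by
  rw [emb, emb, tn_neg_left, tn_neg_left, neg_add]

theorem emb_same (a : M2 F) : emb a a = tn a 1 := by
  rw [emb, ← tn_add_right, E1_add_E2]

theorem emb_inj {a b a' b' : M2 F} (h : emb a b = emb a' b') : a = a' ∧ b = b' := by
  have e := fun p q => congrFun (congrFun h p) q
  constructor
  · apply mat_ext
    · simpa [emb, tn_ll, E1, E2] using e (Sum.inl 0) (Sum.inl 0)
    · simpa [emb, tn_lr, E1, E2] using e (Sum.inl 0) (Sum.inr 0)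
    · simpa [emb, tn_rl, E1, E2] using e (Sum.inr 0) (Sum.inl 0)
    · simpa [emb, tn_rr, E1, E2] using e (Sum.inr 0) (Sum.inr 0)
  · apply mat_ext
    · simpa [emb, tn_ll, E1, E2] using e (Sum.inl 1) (Sum.inl 1)
    · simpa [emb, tn_lr, E1, E2] using e (Sum.inl 1) (Sum.inr 1)
    · simpa [emb, tn_rl, E1, E2] using e (Sum.inr 1) (Sum.inl 1)
    · simpa [emb, tn_rr, E1, E2] using e (Sum.inr 1) (Sum.inr 1)

theorem emb_J_emb (a b : M2 F) :
    emb a b * Matrix.J (Fin 2) F * (emb a b)ᵀ = emb (a.det • J0) (b.det • J0) := by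
  rw [J_eq]
  simp only [emb, Matrix.transpose_add, tn_transpose, E1_tr, E2_tr, add_mul, mul_add, tn_mul,
    Matrix.mul_one, E1_E1, E2_E2, E1_E2, E2_E1, tn_zero_right, add_zero, zero_add, mul_J0]

theorem J_eq_emb : Matrix.J (Fin 2) F = emb J0 J0 := by
  rw [emb_same, J_eq]

theorem emb_mem {a b : M2 F} (ha : a.det = 1) (hb : b.det = 1) :
    emb a b ∈ Matrix.symplecticGroup (Fin 2) F := by
  rw [SymplecticGroup.mem_iff, emb_J_emb, ha, hb, one_smul, J_eq_emb]

theorem det_of_emb_mem {a b : M2 F} (h : emb a b ∈ Matrix.symplecticGroup (Fin 2) F) :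
    a.det = 1 ∧ b.det = 1 := by
  rw [SymplecticGroup.mem_iff, emb_J_emb, J_eq_emb] at h
  obtain ⟨h1, h2⟩ := emb_inj h
  have e1 := congrFun (congrFun h1 1) 0
  have e2 := congrFun (congrFun h2 1) 0
  simp [J0] at e1 e2
  exact ⟨e1, e2⟩

/-! ### Group elements -/

/-- the embedding `SL₂ × SL₂ → Sp₄` -/
def embG (a b : L2 F) : G4 F := ⟨emb a.1 b.1, emb_mem a.2 b.2⟩

theorem embG_mul (a b a' b' : L2 F) : embG a b * embG a' b' = embG (a * a') (b * b') := by
  apply Subtype.ext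
  show emb a.1 b.1 * emb a'.1 b'.1 = emb (a * a').1 (b * b').1
  rw [emb_mul, Matrix.SpecialLinearGroup.coe_mul, Matrix.SpecialLinearGroup.coe_mul]

theorem embG_one : embG (1 : L2 F) 1 = 1 := by
  apply Subtype.ext
  show emb (1 : L2 F).1 (1 : L2 F).1 = 1
  rw [Matrix.SpecialLinearGroup.coe_one, emb_one]

theorem embG_inv (a b : L2 F) : (embG a b)⁻¹ = embG a⁻¹ b⁻¹ := by
  apply inv_eq_of_mul_eq_one_right
  rw [embG_mul, mul_inv_cancel, mul_inv_cancel, embG_one]

theorem embG_inj {a b a' b' : L2 F} (h : embG a b = embG a' b') : a = a' ∧ b = b' := by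
  have h1 := emb_inj (congrArg Subtype.val h)
  exact ⟨Subtype.ext h1.1, Subtype.ext h1.2⟩

/-- the swap `σ` -/
def sigG : G4 F := ⟨tn 1 PX, tn_mem 1 PX 1 1
  (by rw [Matrix.one_mul, Matrix.transpose_one, Matrix.mul_one, one_smul])
  (by rw [PX_tr, PX_PX, one_smul]) (one_mul 1)⟩

theorem sigG_emb (a b : L2 F) : sigG * embG a b = embG b a * sigG := by
  apply Subtype.ext
  show tn 1 PX * emb a.1 b.1 = emb b.1 a.1 * tn 1 PX
  simp only [emb, mul_add, add_mul, tn_mul, Matrix.one_mul, Matrix.mul_one, PX_E1, PX_E2]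
  rw [add_comm]

theorem sigG_sq : (sigG : G4 F) * sigG = 1 := by
  apply Subtype.ext
  show tn 1 PX * tn 1 PX = 1
  rw [tn_mul, Matrix.one_mul, PX_PX, tn_one]

theorem sigG_inv : (sigG : G4 F)⁻¹ = sigG := inv_eq_of_mul_eq_one_right sigG_sq

theorem embG_ne_sig (a b a' b' : L2 F) : embG a b ≠ embG a' b' * sigG := by
  intro h
  have hm : emb a.1 b.1 = emb a'.1 b'.1 * tn 1 PX := congrArg Subtype.val h
  simp only [emb, add_mul, tn_mul, Matrix.mul_one] at hm
  have e := fun p q => congrFun (congrFun hm p) q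
  have e1 : a.1 0 0 = 0 := by
    have := e (Sum.inl 0) (Sum.inl 0)
    simpa [tn_ll, E1, E2, PX, Matrix.mul_apply, Fin.sum_univ_two] using this
  have e2 : a.1 0 1 = 0 := by
    have := e (Sum.inl 0) (Sum.inr 0)
    simpa [tn_lr, E1, E2, PX, Matrix.mul_apply, Fin.sum_univ_two] using this
  have hd := det_eq a
  rw [e1, e2] at hd
  simp at hd

theorem nI_val : (nI : L2 F).1 = -1 := by
  apply mat_ext <;> simp [nI, mkSL]

/-- `-1 ∈ Sp₄` -/
def negG : G4 F := embG nI nI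
/-- the involution `t = (-1, 1)` -/
def tG : G4 F := embG nI 1

theorem negG_val : (negG : G4 F).1 = -1 := by
  show emb (nI : L2 F).1 (nI : L2 F).1 = -1
  rw [nI_val, emb_neg, emb_one]

theorem negG_comm (g : G4 F) : negG * g = g * negG := by
  apply Subtype.ext
  show (negG : G4 F).1 * g.1 = g.1 * (negG : G4 F).1
  rw [negG_val, neg_one_mul, mul_neg_one]

theorem negG_sq : (negG : G4 F) * negG = 1 := by
  rw [negG, embG_mul, nI_mul_nI, embG_one]

theorem negG_inv : (negG : G4 F)⁻¹ = negG := inv_eq_of_mul_eq_one_right negG_sq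

theorem negG_ne_one (h2 : (2 : F) ≠ 0) : (negG : G4 F) ≠ 1 := by
  intro h
  rw [← embG_one] at h
  exact nI_ne_one h2 (embG_inj h).1

theorem negG_emb (a b : L2 F) : negG * embG a b = embG (nI * a) (nI * b) := by
  rw [negG, embG_mul]

theorem tG_val : (tG : G4 F).1 = Matrix.diagonal (Sum.elim ![-1, 1] ![-1, 1]) := by
  show emb (nI : L2 F).1 (1 : L2 F).1 = _
  rw [nI_val, Matrix.SpecialLinearGroup.coe_one]
  ext p q
  rcases p with p | p <;> rcases q with q | q <;> fin_cases p <;> fin_cases q <;>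
    simp [emb, tn_ll, tn_lr, tn_rl, tn_rr, E1, E2]

theorem exists_emb_of_comm (h2 : (2 : F) ≠ 0) (g : G4 F) (hg : g * tG = tG * g) :
    ∃ a b : L2 F, g = embG a b := by
  have hm : g.1 * (tG : G4 F).1 = (tG : G4 F).1 * g.1 := congrArg Subtype.val hg
  rw [tG_val] at hm
  have hz : ∀ p q, g.1 p q * ((Sum.elim ![-1, 1] ![-1, 1] : Fin 2 ⊕ Fin 2 → F) q -
      (Sum.elim ![-1, 1] ![-1, 1] : Fin 2 ⊕ Fin 2 → F) p) = 0 := by
    intro p q
    have := congrFun (congrFun hm p) q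
    rw [Matrix.mul_diagonal, Matrix.diagonal_mul] at this
    linear_combination this
  have hp : (1 : F) - (-1) ≠ 0 := by
    intro h; apply h2; linear_combination h
  have hn : (-1 : F) - 1 ≠ 0 := by
    intro h; apply h2; linear_combination -h
  have z1 : ∀ X Y : Fin 2 → Fin 2 ⊕ Fin 2, (X = Sum.inl ∨ X = Sum.inr) →
      (Y = Sum.inl ∨ Y = Sum.inr) → g.1 (X 0) (Y 1) = 0 := by
    rintro X Y (rfl | rfl) (rfl | rfl) <;>
    · refine (mul_eq_zero.mp (hz _ _)).resolve_right ?_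
      simpa using hp
  have z2 : ∀ X Y : Fin 2 → Fin 2 ⊕ Fin 2, (X = Sum.inl ∨ X = Sum.inr) →
      (Y = Sum.inl ∨ Y = Sum.inr) → g.1 (X 1) (Y 0) = 0 := by
    rintro X Y (rfl | rfl) (rfl | rfl) <;>
    · refine (mul_eq_zero.mp (hz _ _)).resolve_right ?_
      simpa using hn
  have a1 := z1 Sum.inl Sum.inl (Or.inl rfl) (Or.inl rfl)
  have a2 := z1 Sum.inl Sum.inr (Or.inl rfl) (Or.inr rfl)
  have a3 := z1 Sum.inr Sum.inl (Or.inr rfl) (Or.inl rfl)
  have a4 := z1 Sum.inr Sum.inr (Or.inr rfl) (Or.inr rfl)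
  have b1 := z2 Sum.inl Sum.inl (Or.inl rfl) (Or.inl rfl)
  have b2 := z2 Sum.inl Sum.inr (Or.inl rfl) (Or.inr rfl)
  have b3 := z2 Sum.inr Sum.inl (Or.inr rfl) (Or.inl rfl)
  have b4 := z2 Sum.inr Sum.inr (Or.inr rfl) (Or.inr rfl)
  obtain ⟨aM, haM⟩ : ∃ aM : M2 F, aM = !![g.1 (Sum.inl 0) (Sum.inl 0), g.1 (Sum.inl 0) (Sum.inr 0);
      g.1 (Sum.inr 0) (Sum.inl 0), g.1 (Sum.inr 0) (Sum.inr 0)] := ⟨_, rfl⟩
  obtain ⟨bM, hbM⟩ : ∃ bM : M2 F, bM = !![g.1 (Sum.inl 1) (Sum.inl 1), g.1 (Sum.inl 1) (Sum.inr 1);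
      g.1 (Sum.inr 1) (Sum.inl 1), g.1 (Sum.inr 1) (Sum.inr 1)] := ⟨_, rfl⟩
  have hgm : g.1 = emb aM bM := by
    ext p q
    rcases p with p | p <;> rcases q with q | q <;> fin_cases p <;> fin_cases q <;>
      simp [emb, tn_ll, tn_lr, tn_rl, tn_rr, E1, E2, haM, hbM, a1, a2, a3, a4, b1, b2, b3, b4]
  have hmem : emb aM bM ∈ Matrix.symplecticGroup (Fin 2) F := hgm ▸ g.2
  obtain ⟨da, db⟩ := det_of_emb_mem hmem
  exact ⟨⟨aM, da⟩, ⟨bM, db⟩, Subtype.ext hgm⟩

theorem sigG_tG : (sigG : G4 F) * tG = negG * tG * sigG := by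
  rw [tG, sigG_emb, negG, embG_mul, nI_mul_nI, mul_one]

theorem exists_emb_sig_of_anticomm (h2 : (2 : F) ≠ 0) (g : G4 F) (hg : g * tG = negG * tG * g) :
    ∃ a b : L2 F, g = embG a b * sigG := by
  have h : (g * sigG) * tG = tG * (g * sigG) := by
    calc g * sigG * tG = g * (sigG * tG) := by group
      _ = (g * negG) * tG * sigG := by rw [sigG_tG]; group
      _ = negG * (g * tG) * sigG := by rw [← negG_comm g]; group
      _ = (negG * negG) * tG * g * sigG := by rw [hg]; group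
      _ = tG * (g * sigG) := by rw [negG_sq]; group
  obtain ⟨a, b, hab⟩ := exists_emb_of_comm h2 _ h
  refine ⟨a, b, ?_⟩
  rw [← hab, mul_assoc, sigG_sq, mul_one]

/-! ### The element `x = (1+i)⁻¹ ⊗ H` -/

/-- `(1 - i)/2` -/
def mX (e : F) : M2 F := !![e, e; -e, e]
/-- Hadamard matrix -/
def HX : M2 F := !![1, 1; 1, -1]
/-- `diag(-1,1)` -/
def DX : M2 F := !![-1, 0; 0, 1]
/-- `diag(1,-1)` -/
def DX' : M2 F := !![1, 0; 0, -1]

theorem mX_J0 {e : F} (he : 2 * e = 1) : mX e * J0 * (mX e)ᵀ = e • J0 := by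
  rw [mul_J0]
  congr 1
  rw [Matrix.det_fin_two]
  simp [mX]
  linear_combination e * he

theorem HX_HXt : (HX : M2 F) * HXᵀ = (2 : F) • (1 : M2 F) := by
  apply mat_ext <;> simp [HX, Matrix.mul_apply, Fin.sum_univ_two] <;> norm_num

theorem HX_HX : (HX : M2 F) * HX = (2 : F) • (1 : M2 F) := by
  apply mat_ext <;> simp [HX, Matrix.mul_apply, Fin.sum_univ_two] <;> norm_num

/-- the element `x` -/
def xG {e : F} (he : 2 * e = 1) : G4 F :=
  ⟨tn (mX e) HX, tn_mem _ _ e 2 (mX_J0 he) HX_HXt (by linear_combination he)⟩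

/-- `τ = (1, -1)` -/
def tauG : G4 F := embG 1 nI

theorem tG_val' : (tG : G4 F).1 = tn 1 DX := by
  show emb (nI : L2 F).1 (1 : L2 F).1 = tn 1 DX
  rw [nI_val, Matrix.SpecialLinearGroup.coe_one, emb, tn_neg_left, ← tn_neg_right, ← tn_add_right]
  congr 1
  apply mat_ext <;> simp [E1, E2, DX]

theorem tauG_val : (tauG : G4 F).1 = tn 1 DX' := by
  show emb (1 : L2 F).1 (nI : L2 F).1 = tn 1 DX'
  rw [nI_val, Matrix.SpecialLinearGroup.coe_one, emb, tn_neg_left, ← tn_neg_right, ← tn_add_right]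
  congr 1
  apply mat_ext <;> simp [E1, E2, DX']

section xfacts

variable {e : F} (he : 2 * e = 1)

theorem xG_tG : xG he * tG = negG * sigG * xG he := by
  apply Subtype.ext
  show tn (mX e) HX * (tG : G4 F).1 = (negG : G4 F).1 * tn 1 PX * tn (mX e) HX
  rw [tG_val', negG_val, tn_mul, neg_one_mul, neg_mul, tn_mul, ← tn_neg_right, Matrix.mul_one,
    Matrix.one_mul]
  congr 1
  apply mat_ext <;> simp [HX, DX, PX, Matrix.mul_apply, Fin.sum_univ_two]

theorem xG_tau : xG he * tauG = sigG * xG he := by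
  apply Subtype.ext
  show tn (mX e) HX * (tauG : G4 F).1 = tn 1 PX * tn (mX e) HX
  rw [tauG_val, tn_mul, tn_mul, Matrix.mul_one, Matrix.one_mul]
  congr 1
  apply mat_ext <;> simp [HX, DX', PX, Matrix.mul_apply, Fin.sum_univ_two]

theorem xG_sig : xG he * sigG = tauG * xG he := by
  apply Subtype.ext
  show tn (mX e) HX * tn 1 PX = (tauG : G4 F).1 * tn (mX e) HX
  rw [tauG_val, tn_mul, tn_mul, Matrix.mul_one, Matrix.one_mul]
  congr 1
  apply mat_ext <;> simp [HX, DX', PX, Matrix.mul_apply, Fin.sum_univ_two]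

theorem xG_sq : xG he * xG he = embG iE⁻¹ iE⁻¹ := by
  apply Subtype.ext
  show tn (mX e) HX * tn (mX e) HX = emb (iE⁻¹ : L2 F).1 (iE⁻¹ : L2 F).1
  rw [tn_mul, HX_HX, tn_smul_right, ← tn_smul_left, emb_same]
  congr 1
  apply mat_ext <;>
    simp only [Matrix.smul_apply, smul_eq_mul, Matrix.mul_apply, Fin.sum_univ_two, v00, v01, v10, v11,
      iE, k00, k01, k10, k11, mX, Matrix.of_apply, Matrix.cons_val', Matrix.cons_val_zero,
      Matrix.cons_val_one, Matrix.cons_val_fin_one]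
  · ring
  · linear_combination (2 * e + 1) * he
  · linear_combination (-(2 * e + 1)) * he
  · ring

theorem xG_pow8 : xG he ^ 2 ^ 3 = 1 := by
  have h4 : (iE⁻¹ : L2 F) ^ 4 = 1 := by
    rw [inv_pow, pow4, iE_sq, nI_mul_nI, inv_one]
  have h5 : ∀ (a : L2 F) (n : ℕ), embG a a ^ n = embG (a ^ n) (a ^ n) := by
    intro a n
    induction n with
    | zero => rw [pow_zero, pow_zero, embG_one]
    | succ n ih => rw [pow_succ, ih, embG_mul, pow_succ]
  rw [show (2 : ℕ) ^ 3 = 2 * 4 from rfl, pow_mul, pow_two, xG_sq, h5, h4, embG_one]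

theorem xG_conj {a a' : L2 F} (h : mX e * a.1 = a'.1 * mX e) :
    xG he * embG a a = embG a' a' * xG he := by
  apply Subtype.ext
  show tn (mX e) HX * emb a.1 a.1 = emb a'.1 a'.1 * tn (mX e) HX
  rw [emb_same, emb_same, tn_mul, tn_mul, Matrix.mul_one, Matrix.one_mul, h]

theorem mX_rot {a : L2 F} (ha : RotM a.1) : mX e * a.1 = a.1 * mX e := by
  obtain ⟨h1, h2⟩ := ha
  apply mat_ext <;> simp [mX, Matrix.mul_apply, Fin.sum_univ_two, h1, h2] <;> ring

theorem mX_ref {f : L2 F} (hf : RefM f.1) : mX e * f.1 = (iE⁻¹ * f).1 * mX e := by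
  obtain ⟨h1, h2⟩ := hf
  apply mat_ext <;>
    simp only [Matrix.mul_apply, Fin.sum_univ_two, m00, m01, m10, m11, v00, v01, v10, v11, iE,
      k00, k01, k10, k11, mX, Matrix.of_apply, Matrix.cons_val', Matrix.cons_val_zero,
      Matrix.cons_val_one, Matrix.cons_val_fin_one, h1, h2] <;> ring

theorem xG_h {x y : F} (hxy : x ^ 2 + y ^ 2 = -1) :
    xG he * embG (cE he hxy) (cE he hxy) * xG he =
      negG * embG (cE he hxy) (cE he hxy) * embG (cE he hxy) (cE he hxy) := by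
  apply Subtype.ext
  show tn (mX e) HX * emb (cE he hxy).1 (cE he hxy).1 * tn (mX e) HX =
    (negG : G4 F).1 * emb (cE he hxy).1 (cE he hxy).1 * emb (cE he hxy).1 (cE he hxy).1
  rw [negG_val, emb_same, tn_mul, tn_mul, Matrix.mul_one, HX_HX, tn_smul_right, ← tn_smul_left,
    neg_one_mul, neg_mul, tn_mul, ← tn_neg_left, Matrix.mul_one]
  congr 1
  apply mat_ext <;>
    simp only [Matrix.smul_apply, smul_eq_mul, Matrix.neg_apply, Matrix.mul_apply, Fin.sum_univ_two,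
      cE, k00, k01, k10, k11, mX, Matrix.of_apply, Matrix.cons_val', Matrix.cons_val_zero,
      Matrix.cons_val_one, Matrix.cons_val_fin_one]
  · linear_combination (2 * e ^ 2) * hxy + 2 * e ^ 2 * (1 + x - y) * he
  · linear_combination 2 * e ^ 2 * (-1 + y + x) * he
  · linear_combination 2 * e ^ 2 * (1 + y + x) * he
  · linear_combination (2 * e ^ 2) * hxy + 2 * e ^ 2 * (1 - x + y) * he

end xfacts

end Cfsg.Agent.Helper42.PS4
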