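import Cfsg.Agent.Helper42.PS4b

/-!
# The subgroup `(Q × Q)⟨σ⟩` of `Sp₄(F)`: normaliser and strongly closed subgroups
-/

set_option autoImplicit false

namespace Cfsg.Agent.Helper42.PS4

open Matrix Cfsg.Agent.Helper42.SL2

variable {F : Type*} [Field F]

/-- `(Q × Q)⟨σ⟩` -/
def wr (Q : Subgroup (L2 F)) : Subgroup (G4 F) where
  carrier := {g | ∃ a ∈ Q, ∃ b ∈ Q, g = embG a b ∨ g = embG a b * sigG}
  mul_mem' := by
    rintro x y ⟨a, ha, b, hb, hx | hx⟩ ⟨a', ha', b', hb', hy | hy⟩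
    · exact ⟨a * a', mul_mem ha ha', b * b', mul_mem hb hb', Or.inl (by rw [hx, hy, embG_mul])⟩
    · exact ⟨a * a', mul_mem ha ha', b * b', mul_mem hb hb',
        Or.inr (by rw [hx, hy, ← mul_assoc, embG_mul])⟩
    · refine ⟨a * b', mul_mem ha hb', b * a', mul_mem hb ha', Or.inr ?_⟩
      rw [hx, hy, mul_assoc, sigG_emb, ← mul_assoc, embG_mul]
    · refine ⟨a * b', mul_mem ha hb', b * a', mul_mem hb ha', Or.inl ?_⟩
      rw [hx, hy, mul_assoc (embG a b), ← mul_assoc sigG, sigG_emb, mul_assoc, sigG_sq, mul_one,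
        embG_mul]
  one_mem' := ⟨1, one_mem _, 1, one_mem _, Or.inl embG_one.symm⟩
  inv_mem' := by
    rintro x ⟨a, ha, b, hb, hx | hx⟩
    · exact ⟨a⁻¹, inv_mem ha, b⁻¹, inv_mem hb, Or.inl (by rw [hx, embG_inv])⟩
    · refine ⟨b⁻¹, inv_mem hb, a⁻¹, inv_mem ha, Or.inr ?_⟩
      rw [hx, _root_.mul_inv_rev, sigG_inv, embG_inv, sigG_emb]

section wrfacts

variable {Q : Subgroup (L2 F)}

theorem emb_mem_wr {a b : L2 F} (ha : a ∈ Q) (hb : b ∈ Q) : embG a b ∈ wr Q :=
  ⟨a, ha, b, hb, Or.inl rfl⟩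

theorem emb_sig_mem_wr {a b : L2 F} (ha : a ∈ Q) (hb : b ∈ Q) : embG a b * sigG ∈ wr Q :=
  ⟨a, ha, b, hb, Or.inr rfl⟩

theorem sig_mem_wr (Q : Subgroup (L2 F)) : sigG ∈ wr Q :=
  ⟨1, one_mem _, 1, one_mem _, Or.inr (by rw [embG_one, one_mul])⟩

theorem of_emb_mem_wr {a b : L2 F} (h : embG a b ∈ wr Q) : a ∈ Q ∧ b ∈ Q := by
  obtain ⟨a', ha', b', hb', e | e⟩ := h
  · obtain ⟨e1, e2⟩ := embG_inj e
    rw [e1, e2]; exact ⟨ha', hb'⟩
  · exact (embG_ne_sig _ _ _ _ e).elim

theorem of_emb_sig_mem_wr {a b : L2 F} (h : embG a b * sigG ∈ wr Q) : a ∈ Q ∧ b ∈ Q := by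
  obtain ⟨a', ha', b', hb', e | e⟩ := h
  · exact (embG_ne_sig _ _ _ _ e.symm).elim
  · obtain ⟨e1, e2⟩ := embG_inj (mul_right_cancel e)
    rw [e1, e2]; exact ⟨ha', hb'⟩

theorem wr_mono {Q Q' : Subgroup (L2 F)} (h : Q ≤ Q') : wr Q ≤ wr Q' := by
  rintro g ⟨a, ha, b, hb, e⟩
  exact ⟨a, h ha, b, h hb, e⟩

theorem negG_mem_wr (h : nI ∈ Q) : negG ∈ wr Q := emb_mem_wr h h

end wrfacts

theorem emb_conj (a b c d : L2 F) :
    embG a b * embG c d * (embG a b)⁻¹ = embG (a * c * a⁻¹) (b * d * b⁻¹) := by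
  rw [embG_inv, embG_mul, embG_mul]

theorem emb_conj_tG (a b : L2 F) : embG a b * tG * (embG a b)⁻¹ = tG := by
  rw [tG, emb_conj, conj_nI, mul_one, mul_inv_cancel]

theorem conj_emb_sig (q a b : L2 F) :
    embG q 1 * (embG a b * sigG) * (embG q 1)⁻¹ = embG (q * a) (b * q⁻¹) * sigG := by
  rw [embG_inv, inv_one, mul_assoc, mul_assoc, sigG_emb, ← mul_assoc, ← mul_assoc, embG_mul, embG_mul,
    one_mul, mul_one]

theorem tG_ne_one (h2 : (2 : F) ≠ 0) : (tG : G4 F) ≠ 1 := by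
  intro h
  rw [← embG_one] at h
  exact nI_ne_one h2 (embG_inj h).1

theorem tG_ne_negG (h2 : (2 : F) ≠ 0) : (tG : G4 F) ≠ negG := by
  intro h
  exact nI_ne_one h2 (embG_inj h).2.symm

theorem t_conj_wr (s : G4 F) (hs : s ∈ wr (⊤ : Subgroup (L2 F))) :
    s * tG * s⁻¹ = tG ∨ s * tG * s⁻¹ = negG * tG := by
  obtain ⟨a, -, b, -, e | e⟩ := hs
  · left; rw [e, emb_conj_tG]
  · right
    rw [e]
    calc embG a b * sigG * tG * (embG a b * sigG)⁻¹
        = embG a b * (sigG * tG) * sigG⁻¹ * (embG a b)⁻¹ := by group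
      _ = (embG a b * negG) * tG * (embG a b)⁻¹ := by rw [sigG_tG]; group
      _ = negG * (embG a b * tG * (embG a b)⁻¹) := by rw [← negG_comm]; group
      _ = negG * tG := by rw [emb_conj_tG]

/-- elements of `(Q × Q)⟨σ⟩` that are central modulo `±1` -/
theorem central_mod (h2 : (2 : F) ≠ 0) {j : L2 F} (hj : RefM j.1) {Q : Subgroup (L2 F)} (hi : iE ∈ Q)
    (hjQ : j ∈ Q) {y : G4 F} (hy : y ∈ wr Q)
    (hc : ∀ s ∈ wr Q, s * y * s⁻¹ = y ∨ s * y * s⁻¹ = negG * y) :
    y = 1 ∨ y = negG ∨ y = tG ∨ y = negG * tG := by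
  obtain ⟨a, ha, b, hb, e | e⟩ := hy
  · have ka : ∀ q ∈ Q, a * q = q * a := by
      intro q hq
      rcases hc (embG q 1) (emb_mem_wr hq (one_mem _)) with h | h
      · rw [e, emb_conj] at h
        have := (embG_inj h).1
        rw [mul_inv_eq_iff_eq_mul] at this
        exact this.symm
      · rw [e, emb_conj, negG_emb] at h
        have := (embG_inj h).2
        rw [one_mul, inv_one, mul_one] at this
        exfalso
        apply nI_ne_one h2
        have h3 : (1 : L2 F) * b = nI * b := by rw [one_mul]; exact this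
        exact (mul_right_cancel h3).symm
    have kb : ∀ q ∈ Q, b * q = q * b := by
      intro q hq
      rcases hc (embG 1 q) (emb_mem_wr (one_mem _) hq) with h | h
      · rw [e, emb_conj] at h
        have := (embG_inj h).2
        rw [mul_inv_eq_iff_eq_mul] at this
        exact this.symm
      · rw [e, emb_conj, negG_emb] at h
        have := (embG_inj h).1
        rw [one_mul, inv_one, mul_one] at this
        exfalso
        apply nI_ne_one h2
        have h3 : (1 : L2 F) * a = nI * a := by rw [one_mul]; exact this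
        exact (mul_right_cancel h3).symm
    rcases central_of_comm h2 hj (ka iE hi) (ka j hjQ) with h1 | h1 <;>
      rcases central_of_comm h2 hj (kb iE hi) (kb j hjQ) with h3 | h3
    · left; rw [e, h1, h3, embG_one]
    · right; right; right; rw [e, h1, h3, negG, tG, embG_mul, nI_mul_nI, mul_one]
    · right; right; left; rw [e, h1, h3, tG]
    · right; left; rw [e, h1, h3, negG]
  · exfalso
    rcases hc (embG iE 1) (emb_mem_wr hi (one_mem _)) with h | h
    · rw [e, conj_emb_sig] at h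
      have := (embG_inj (mul_right_cancel h)).1
      apply iE_ne_one (F := F)
      have h3 : iE * a = 1 * a := by rw [one_mul]; exact this
      exact mul_right_cancel h3
    · rw [e, conj_emb_sig, ← mul_assoc, negG_emb] at h
      have := (embG_inj (mul_right_cancel h)).1
      exact iE_ne_nI (mul_right_cancel this)

/-- the normaliser of `(Q × Q)⟨σ⟩` in `Sp₄(F)` -/
theorem normalizer_wr (h2 : (2 : F) ≠ 0) {j : L2 F} (hj : RefM j.1) {Q : Subgroup (L2 F)} (hi : iE ∈ Q)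
    (hjQ : j ∈ Q) (hnI : nI ∈ Q) {g : G4 F} (hg : ∀ s ∈ wr Q, g * s * g⁻¹ ∈ wr Q)
    (hg' : ∀ s ∈ wr Q, g⁻¹ * s * g ∈ wr Q) :
    ∃ n : L2 F, (∀ q ∈ Q, n * q * n⁻¹ ∈ Q) ∧ g * (embG n n)⁻¹ ∈ wr Q := by
  have htQ : tG ∈ wr Q := emb_mem_wr hnI (one_mem _)
  have hy := hg tG htQ
  have hc : ∀ s ∈ wr Q, s * (g * tG * g⁻¹) * s⁻¹ = g * tG * g⁻¹ ∨
      s * (g * tG * g⁻¹) * s⁻¹ = negG * (g * tG * g⁻¹) := by
    intro s hs
    have hs' := hg' s hs
    rcases t_conj_wr _ (wr_mono le_top hs') with h | h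
    · left
      calc s * (g * tG * g⁻¹) * s⁻¹ = g * ((g⁻¹ * s * g) * tG * (g⁻¹ * s * g)⁻¹) * g⁻¹ := by group
        _ = g * tG * g⁻¹ := by rw [h]
    · right
      calc s * (g * tG * g⁻¹) * s⁻¹ = g * ((g⁻¹ * s * g) * tG * (g⁻¹ * s * g)⁻¹) * g⁻¹ := by group
        _ = (g * negG) * tG * g⁻¹ := by rw [h]; group
        _ = negG * (g * tG * g⁻¹) := by rw [← negG_comm g]; group
  have hdec : ∃ m n : L2 F, g = embG m n ∨ g = embG m n * sigG := by
    rcases central_mod h2 hj hi hjQ hy hc with h | h | h | h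
    · exact (tG_ne_one h2 (conj_eq_one_iff.mp h)).elim
    · exfalso
      apply tG_ne_negG h2
      have h3 : g * tG = g * negG := by
        rw [← negG_comm g]
        exact mul_inv_eq_iff_eq_mul.mp h
      exact mul_left_cancel h3
    · obtain ⟨m, n, e⟩ := exists_emb_of_comm h2 g (mul_inv_eq_iff_eq_mul.mp h)
      exact ⟨m, n, Or.inl e⟩
    · obtain ⟨m, n, e⟩ := exists_emb_sig_of_anticomm h2 g (mul_inv_eq_iff_eq_mul.mp h)
      exact ⟨m, n, Or.inr e⟩
  have core : ∀ m n : L2 F, (∀ s ∈ wr Q, embG m n * s * (embG m n)⁻¹ ∈ wr Q) →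
      (∀ q ∈ Q, n * q * n⁻¹ ∈ Q) ∧ m * n⁻¹ ∈ Q := by
    intro m n hN
    constructor
    · intro q hq
      have := hN (embG 1 q) (emb_mem_wr (one_mem _) hq)
      rw [emb_conj] at this
      exact (of_emb_mem_wr this).2
    · have := hN sigG (sig_mem_wr Q)
      have e : embG m n * sigG * (embG m n)⁻¹ = embG (m * n⁻¹) (n * m⁻¹) * sigG := by
        rw [embG_inv, mul_assoc, sigG_emb, ← mul_assoc, embG_mul]
      rw [e] at this
      exact (of_emb_sig_mem_wr this).1
  obtain ⟨m, n, e | e⟩ := hdec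
  · obtain ⟨h1, h3⟩ := core m n (by rw [← e]; exact hg)
    refine ⟨n, h1, ?_⟩
    rw [e, embG_inv, embG_mul, mul_inv_cancel]
    exact emb_mem_wr h3 (one_mem _)
  · have hN : ∀ s ∈ wr Q, embG m n * s * (embG m n)⁻¹ ∈ wr Q := by
      intro s hs
      have h5 : embG m n = g * sigG := by rw [e, mul_assoc, sigG_sq, mul_one]
      rw [h5]
      have : g * sigG * s * (g * sigG)⁻¹ = g * (sigG * s * sigG⁻¹) * g⁻¹ := by group
      rw [this]
      exact hg _ (mul_mem (mul_mem (sig_mem_wr Q) hs) (inv_mem (sig_mem_wr Q)))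
    obtain ⟨h1, h3⟩ := core m n hN
    refine ⟨n, h1, ?_⟩
    rw [e, embG_inv, mul_assoc, sigG_emb, ← mul_assoc, embG_mul, mul_inv_cancel]
    exact ⟨m * n⁻¹, h3, 1, one_mem _, Or.inr rfl⟩

/-- a subgroup of `(Q × Q)⟨σ⟩` containing `-1` properly and closed under fusion in `Sp₄(F)` is everything -/
theorem strongly_closed_wr [Fintype F] (hodd : Fintype.card F % 2 = 1) {e : F} (he : 2 * e = 1)
    {j : L2 F} (hj : RefM j.1) (T : Subgroup (G4 F)) (hT : T ≤ wr (QS j hj)) (hneg : negG ∈ T)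
    (hx : ∃ x ∈ T, x ≠ 1 ∧ x ≠ negG)
    (hsc : ∀ x ∈ T, ∀ g : G4 F, g * x * g⁻¹ ∈ wr (QS j hj) → g * x * g⁻¹ ∈ T) :
    wr (QS j hj) ≤ T := by
  have h2 := two_ne_zero_of he
  have hnorm : ∀ s ∈ wr (QS j hj), ∀ x ∈ T, s * x * s⁻¹ ∈ T := fun s hs x hx' =>
    hsc x hx' s (mul_mem (mul_mem hs (hT hx')) (inv_mem hs))
  have hiQ := iE_mem_QS j hj
  have hjQ := j_mem_QS j hj
  have rotstep : ∀ k : ℕ, ∀ r : L2 F, RotM r.1 → r ^ 2 ^ k = 1 → r ≠ 1 → embG r 1 ∈ T → tG ∈ T := by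
    intro k
    induction k with
    | zero =>
      intro r _ hr1 hne _
      rw [pow_zero, pow_one] at hr1
      exact (hne hr1).elim
    | succ k ih =>
      intro r hr hrk hne hmem
      by_cases hsq : r * r = 1
      · rcases rot_sq_one h2 hr hsq with h | h
        · exact (hne h).elim
        · rw [h] at hmem; exact hmem
      · apply ih (r * r) (rot_mul hr hr) _ hsq
        · have := mul_mem hmem hmem
          rwa [embG_mul, mul_one] at this
        · rw [← pow_two, ← pow_mul, ← pow_succ']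
          exact hrk
  have step1b : ∀ a b : L2 F, a ∈ QS j hj → a ≠ 1 → a ≠ nI → embG a b ∈ T → tG ∈ T := by
    intro a b ha ha1 ha2 hmem
    obtain ⟨r, hr, e' | e'⟩ := ha
    · have hs : embG j 1 ∈ wr (QS j hj) := emb_mem_wr hjQ (one_mem _)
      have h3 := mul_mem (hnorm _ hs _ hmem) (inv_mem hmem)
      rw [emb_conj, embG_inv, embG_mul, one_mul, inv_one, mul_one, mul_inv_cancel] at h3
      have hra : RotM a.1 := by rw [e']; exact hr.1
      have e3 : j * a * j⁻¹ * a⁻¹ = a⁻¹ * a⁻¹ := by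
        rw [ref_conj hj hra, mul_inv_cancel_right]
      rw [e3] at h3
      have haA : a ∈ AS F := by rw [e']; exact hr
      obtain ⟨-, k, hk⟩ := (AS F).mul_mem (inv_mem haA) (inv_mem haA)
      apply rotstep k (a⁻¹ * a⁻¹) (rot_mul (rot_inv hra) (rot_inv hra)) hk _ h3
      intro h4
      rcases rot_sq_one h2 (rot_inv hra) h4 with h5 | h5
      · exact ha1 (inv_eq_one.mp h5)
      · apply ha2
        rw [← inv_inv a, h5, nI_inv]
    · have hs : embG iE 1 ∈ wr (QS j hj) := emb_mem_wr hiQ (one_mem _)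
      have h3 := mul_mem (hnorm _ hs _ hmem) (inv_mem hmem)
      rw [emb_conj, embG_inv, embG_mul, one_mul, inv_one, mul_one, mul_inv_cancel] at h3
      have hra : RefM a.1 := by rw [e']; exact rot_ref hr.1 hj
      have e3 : iE * a * iE⁻¹ * a⁻¹ = nI := by
        rw [ref_anticomm hra]
        group
      rw [e3] at h3
      exact h3
  have step1 : tG ∈ T := by
    obtain ⟨x, hxT, hx1, hx2⟩ := hx
    obtain ⟨a, ha, b, hb, e' | e'⟩ := hT hxT
    · by_cases hA : a = 1 ∨ a = nI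
      · by_cases hB : b = 1 ∨ b = nI
        · rcases hA with hA | hA <;> rcases hB with hB | hB
          · exfalso; apply hx1; rw [e', hA, hB, embG_one]
          · have : tG = negG * x := by
              rw [e', hA, hB, negG, tG, embG_mul, nI_mul_nI, mul_one]
            rw [this]; exact mul_mem hneg hxT
          · rw [e', hA, hB] at hxT; exact hxT
          · exfalso; apply hx2; rw [e', hA, hB, negG]
        · push Not at hB
          have h3 := hnorm sigG (sig_mem_wr _) x hxT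
          rw [e', sigG_emb, mul_assoc, sigG_inv, sigG_sq, mul_one] at h3
          exact step1b b a hb hB.1 hB.2 h3
      · push Not at hA
        rw [e'] at hxT
        exact step1b a b ha hA.1 hA.2 hxT
    · have hs : embG iE 1 ∈ wr (QS j hj) := emb_mem_wr hiQ (one_mem _)
      have h3 := mul_mem (hnorm _ hs _ hxT) (inv_mem hxT)
      rw [e', conj_emb_sig, _root_.mul_inv_rev, sigG_inv, embG_inv, mul_assoc, ← mul_assoc sigG, sigG_sq,
        one_mul, embG_mul, mul_inv_cancel_right] at h3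
      exact step1b iE _ hiQ iE_ne_one iE_ne_nI h3
  have step2 : sigG ∈ T := by
    have e3 : xG he * tG * (xG he)⁻¹ = negG * sigG := by
      rw [xG_tG, mul_inv_cancel_right]
    have h3 := hsc tG step1 (xG he)
      (by rw [e3]; exact mul_mem (negG_mem_wr (nI_mem_QS j hj)) (sig_mem_wr _))
    rw [e3] at h3
    have := mul_mem hneg h3
    rwa [← mul_assoc, negG_sq, one_mul] at this
  have step3 : ∀ a ∈ QS j hj, embG a a⁻¹ ∈ T := by
    intro a ha
    have h3 := mul_mem (hnorm _ (emb_mem_wr ha (one_mem _)) _ step2) (inv_mem step2)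
    rw [embG_inv, inv_one, sigG_inv, mul_assoc (embG a 1), sigG_emb, ← mul_assoc, embG_mul, mul_assoc,
      sigG_sq, mul_one, mul_one, one_mul] at h3
    exact h3
  have step4 : ∀ a ∈ QS j hj, ∀ b ∈ QS j hj, a * a = nI → b * b = nI → embG a b ∈ T := by
    intro a ha b hb ha2 hb2
    obtain ⟨g₁, hg₁⟩ := exists_conj_iE hodd h2 a ha2
    have hb' : b⁻¹ * b⁻¹ = nI := by rw [← _root_.mul_inv_rev, hb2, nI_inv]
    obtain ⟨g₂, hg₂⟩ := exists_conj_iE hodd h2 b⁻¹ hb'
    have hg₂' : g₂ * iE⁻¹ * g₂⁻¹ = b := by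
      rw [← inv_inv b, ← hg₂]; group
    have h3 := hsc _ (step3 iE hiQ) (embG g₁ g₂)
    rw [emb_conj, hg₁, hg₂'] at h3
    exact h3 (emb_mem_wr ha hb)
  have step5 : ∀ q ∈ QS j hj, embG q 1 ∈ T := by
    intro q hq
    obtain ⟨a, ha, a', ha', h1, h2', e'⟩ := exists_sq_decomp hq
    have h3 := mul_mem (step4 a ha iE hiQ h1 iE_sq) (inv_mem (step4 a' ha' iE hiQ h2' iE_sq))
    rw [embG_inv, embG_mul, mul_inv_cancel, ← e'] at h3
    exact h3
  have step5' : ∀ q ∈ QS j hj, embG 1 q ∈ T := by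
    intro q hq
    have h3 := mul_mem (mul_mem step2 (step5 q hq)) (inv_mem step2)
    rw [sigG_emb, mul_assoc, sigG_inv, sigG_sq, mul_one] at h3
    exact h3
  rintro g ⟨a, ha, b, hb, e' | e'⟩
  · rw [e']
    have := mul_mem (step5 a ha) (step5' b hb)
    rwa [embG_mul, mul_one, one_mul] at this
  · rw [e']
    have := mul_mem (mul_mem (step5 a ha) (step5' b hb)) step2
    rwa [embG_mul, mul_one, one_mul] at this

end Cfsg.Agent.Helper42.PS4
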