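import Cfsg.Agent.Helper42.PS4c

/-!
# The subgroup `R = Q₈ ⊗ D₈` of `(Q × Q)⟨σ⟩` and a Sylow criterion
-/

set_option autoImplicit false

namespace Cfsg.Agent.Helper42.PS4

open Matrix Cfsg.Agent.Helper42.SL2

variable {F : Type*} [Field F]

/-- the preimage of the centraliser of `σ` modulo `±1` -/
def RS (Q : Subgroup (L2 F)) : Subgroup (G4 F) where
  carrier := {g | g ∈ wr Q ∧ (g * sigG = sigG * g ∨ g * sigG = negG * sigG * g)}
  mul_mem' := by
    rintro a b ⟨ha, ha'⟩ ⟨hb, hb'⟩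
    refine ⟨mul_mem ha hb, ?_⟩
    rcases ha' with h1 | h1 <;> rcases hb' with h2 | h2
    · left
      calc a * b * sigG = a * (b * sigG) := by group
        _ = (a * sigG) * b := by rw [h2]; group
        _ = sigG * (a * b) := by rw [h1]; group
    · right
      calc a * b * sigG = a * (b * sigG) := by group
        _ = (a * negG) * sigG * b := by rw [h2]; group
        _ = negG * (a * sigG) * b := by rw [← negG_comm a]; group
        _ = negG * sigG * (a * b) := by rw [h1]; group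
    · right
      calc a * b * sigG = a * (b * sigG) := by group
        _ = (a * sigG) * b := by rw [h2]; group
        _ = negG * sigG * (a * b) := by rw [h1]; group
    · left
      calc a * b * sigG = a * (b * sigG) := by group
        _ = (a * negG) * sigG * b := by rw [h2]; group
        _ = negG * (a * sigG) * b := by rw [← negG_comm a]; group
        _ = (negG * negG) * sigG * a * b := by rw [h1]; group
        _ = sigG * (a * b) := by rw [negG_sq]; group
  one_mem' := ⟨one_mem _, Or.inl (by rw [one_mul, mul_one])⟩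
  inv_mem' := by
    rintro a ⟨ha, ha'⟩
    refine ⟨inv_mem ha, ?_⟩
    rcases ha' with h1 | h1
    · left
      calc a⁻¹ * sigG = a⁻¹ * (sigG * a) * a⁻¹ := by group
        _ = sigG * a⁻¹ := by rw [← h1]; group
    · right
      have e1 : sigG * a⁻¹ = negG * (a⁻¹ * sigG) := by
        calc sigG * a⁻¹ = a⁻¹ * (a * sigG) * a⁻¹ := by group
          _ = (a⁻¹ * negG) * sigG := by rw [h1]; group
          _ = negG * (a⁻¹ * sigG) := by rw [← negG_comm a⁻¹]; group
      calc a⁻¹ * sigG = negG * (negG * (a⁻¹ * sigG)) := by rw [← mul_assoc, negG_sq, one_mul]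
        _ = negG * sigG * a⁻¹ := by rw [← e1, mul_assoc]

section RSfacts

variable {Q : Subgroup (L2 F)}

theorem RS_le_wr (Q : Subgroup (L2 F)) : RS Q ≤ wr Q := fun _ h => h.1

theorem delta_mem_RS {a : L2 F} (ha : a ∈ Q) : embG a a ∈ RS Q :=
  ⟨emb_mem_wr ha ha, Or.inl (sigG_emb a a).symm⟩

theorem tau_mem_RS (hnI : nI ∈ Q) : tauG ∈ RS Q :=
  ⟨emb_mem_wr (one_mem _) hnI, Or.inr (by
    rw [tauG, mul_assoc, sigG_emb, ← mul_assoc, negG_emb, mul_one, nI_mul_nI])⟩

theorem sig_mem_RS (Q : Subgroup (L2 F)) : sigG ∈ RS Q := ⟨sig_mem_wr Q, Or.inl rfl⟩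

theorem RS_of_comm {s : G4 F} (hs : s ∈ wr Q)
    (h : sigG * s = s * sigG ∨ sigG * s = negG * (s * sigG)) : s ∈ RS Q := by
  refine ⟨hs, ?_⟩
  rcases h with h | h
  · exact Or.inl h.symm
  · right
    rw [mul_assoc, h, ← mul_assoc, negG_sq, one_mul]

theorem emb_tau (a : L2 F) : embG a (nI * a) = embG a a * tauG := by
  rw [tauG, embG_mul, mul_one, nI_comm]

theorem RS_forms {g : G4 F} (hg : g ∈ RS Q) :
    ∃ a ∈ Q, g = embG a a ∨ g = embG a a * tauG ∨ g = embG a a * sigG ∨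
      g = embG a a * tauG * sigG := by
  obtain ⟨⟨a, ha, b, hb, e | e⟩, hc⟩ := hg
  · refine ⟨a, ha, ?_⟩
    rcases hc with h | h
    · rw [e, sigG_emb] at h
      have := (embG_inj (mul_right_cancel h)).2
      left; rw [e, this]
    · rw [e, mul_assoc, sigG_emb, ← mul_assoc, negG_emb] at h
      have := (embG_inj (mul_right_cancel h)).2
      right; left
      rw [e, this, emb_tau]
  · refine ⟨a, ha, ?_⟩
    rcases hc with h | h
    · rw [e, ← mul_assoc, sigG_emb] at h
      have := (embG_inj (mul_right_cancel (mul_right_cancel h))).2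
      right; right; left; rw [e, this]
    · rw [e, mul_assoc negG, ← mul_assoc sigG, sigG_emb, ← mul_assoc, ← mul_assoc, negG_emb] at h
      have := (embG_inj (mul_right_cancel (mul_right_cancel h))).2
      right; right; right
      rw [e, this, emb_tau]

theorem conj_mem_RS (y : G4 F) (h1 : ∀ a ∈ Q, y * embG a a * y⁻¹ ∈ RS Q)
    (ht : y * tauG * y⁻¹ ∈ RS Q) (hsg : y * sigG * y⁻¹ ∈ RS Q) :
    ∀ r ∈ RS Q, y * r * y⁻¹ ∈ RS Q := by
  intro r hr
  obtain ⟨a, ha, e | e | e | e⟩ := RS_forms hr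
  · rw [e]; exact h1 a ha
  · rw [e, ← conj_mul]; exact mul_mem (h1 a ha) ht
  · rw [e, ← conj_mul]; exact mul_mem (h1 a ha) hsg
  · rw [e, ← conj_mul, ← conj_mul]; exact mul_mem (mul_mem (h1 a ha) ht) hsg

theorem delta_norm_RS (hnI : nI ∈ Q) {n : L2 F} (hn : ∀ q ∈ Q, n * q * n⁻¹ ∈ Q) :
    ∀ r ∈ RS Q, embG n n * r * (embG n n)⁻¹ ∈ RS Q := by
  apply conj_mem_RS
  · intro a ha
    rw [emb_conj]
    exact delta_mem_RS (hn a ha)
  · rw [tauG, emb_conj, conj_nI, mul_one, mul_inv_cancel]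
    exact tau_mem_RS hnI
  · rw [← sigG_emb, mul_inv_cancel_right]
    exact sig_mem_RS _

theorem delta_norm_wr {n : L2 F} (hn : ∀ q ∈ Q, n * q * n⁻¹ ∈ Q) :
    ∀ s ∈ wr Q, embG n n * s * (embG n n)⁻¹ ∈ wr Q := by
  rintro s ⟨a, ha, b, hb, e | e⟩
  · rw [e, emb_conj]
    exact emb_mem_wr (hn a ha) (hn b hb)
  · have : embG n n * s * (embG n n)⁻¹ = embG n n * embG a b * (embG n n)⁻¹ * sigG := by
      rw [e, embG_inv, mul_assoc, mul_assoc, sigG_emb]
      group
    rw [this, emb_conj]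
    exact emb_sig_mem_wr (hn a ha) (hn b hb)

end RSfacts

/-- in the small case, `R` is normal in `(Q × Q)⟨σ⟩` -/
theorem RS_normal (hs : Small F) {j : L2 F} {hj : RefM j.1} :
    ∀ s ∈ wr (QS j hj), ∀ r ∈ RS (QS j hj), s * r * s⁻¹ ∈ RS (QS j hj) := by
  have hnI := nI_mem_QS j hj
  have key : ∀ u ∈ QS j hj, ∀ v ∈ QS j hj, ∀ r ∈ RS (QS j hj),
      embG u v * r * (embG u v)⁻¹ ∈ RS (QS j hj) := by
    intro u hu v hv
    apply conj_mem_RS
    · intro a ha
      rw [emb_conj]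
      rcases small_conj hs hu ha with h1 | h1 <;> rcases small_conj hs hv ha with h3 | h3
      · rw [h1, h3]; exact delta_mem_RS ha
      · rw [h1, h3, emb_tau]; exact mul_mem (delta_mem_RS ha) (tau_mem_RS hnI)
      · rw [h1, h3]
        have : embG (nI * a) a = embG (nI * a) (nI * a) * tauG := by
          rw [← emb_tau, nI_mul_nI_mul]
        rw [this]; exact mul_mem (delta_mem_RS (mul_mem hnI ha)) (tau_mem_RS hnI)
      · rw [h1, h3]; exact delta_mem_RS (mul_mem hnI ha)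
    · rw [tauG, emb_conj, conj_nI, mul_one, mul_inv_cancel]
      exact tau_mem_RS hnI
    · have e : embG u v * sigG * (embG u v)⁻¹ = embG (u * v⁻¹) (v * u⁻¹) * sigG := by
        rw [embG_inv, mul_assoc, sigG_emb, ← mul_assoc, embG_mul]
      rw [e]
      have hw := mul_mem hu (inv_mem hv)
      have e2 : v * u⁻¹ = (u * v⁻¹)⁻¹ := by group
      rw [e2]
      rcases small_sq hs hw with h1 | h1
      · have : (u * v⁻¹)⁻¹ = u * v⁻¹ := inv_eq_of_mul_eq_one_right h1
        rw [this]; exact mul_mem (delta_mem_RS hw) (sig_mem_RS _)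
      · have : (u * v⁻¹)⁻¹ = nI * (u * v⁻¹) := by
          apply inv_eq_of_mul_eq_one_right
          rw [← mul_assoc, ← nI_comm, mul_assoc, h1, nI_mul_nI]
        rw [this, emb_tau]
        exact mul_mem (mul_mem (delta_mem_RS hw) (tau_mem_RS hnI)) (sig_mem_RS _)
  rintro s ⟨u, hu, v, hv, e | e⟩ r hr
  · rw [e]; exact key u hu v hv r hr
  · rw [e]
    have : embG u v * sigG * r * (embG u v * sigG)⁻¹ =
        embG u v * (sigG * r * sigG⁻¹) * (embG u v)⁻¹ := by group
    rw [this]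
    exact key u hu v hv _ (mul_mem (mul_mem (sig_mem_RS _) hr) (inv_mem (sig_mem_RS _)))

/-- `x` normalises `R` -/
theorem xG_norm_RS {e : F} (he : 2 * e = 1) {j : L2 F} {hj : RefM j.1} :
    ∀ r ∈ RS (QS j hj), xG he * r * (xG he)⁻¹ ∈ RS (QS j hj) := by
  have hnI := nI_mem_QS j hj
  apply conj_mem_RS
  · intro a ha
    obtain ⟨r, hr, e' | e'⟩ := ha
    · have hra : RotM a.1 := by rw [e']; exact hr.1
      have h := xG_conj he (mX_rot (e := e) hra)
      rw [h, mul_inv_cancel_right]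
      exact delta_mem_RS (by rw [e']; exact AS_le_QS j hj hr)
    · have hra : RefM a.1 := by rw [e']; exact rot_ref hr.1 hj
      have h := xG_conj he (mX_ref (e := e) hra)
      rw [h, mul_inv_cancel_right]
      apply delta_mem_RS
      exact mul_mem (inv_mem (iE_mem_QS j hj)) (by rw [e']; exact ⟨r, hr, Or.inr rfl⟩)
  · rw [xG_tau, mul_inv_cancel_right]; exact sig_mem_RS _
  · rw [xG_sig, mul_inv_cancel_right]; exact tau_mem_RS hnI

section cfacts

variable {e x y : F} (he : 2 * e = 1) (hxy : x ^ 2 + y ^ 2 = -1)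

theorem cE_norm (hs : Small F) :
    ∀ g ∈ QS (jE hxy) (ref_jE hxy), cE he hxy * g * (cE he hxy)⁻¹ ∈ QS (jE hxy) (ref_jE hxy) :=
  conj_mem_of_gens (two_ne_zero_of he) hs _
    (by rw [mul_inv_eq_iff_eq_mul.mpr (cE_iE he hxy)]; exact mul_mem (iE_mem_QS _ _) (j_mem_QS _ _))
    (by rw [mul_inv_eq_iff_eq_mul.mpr (cE_jE he hxy)]; exact iE_mem_QS _ _)

theorem cE_inv_norm (hs : Small F) :
    ∀ g ∈ QS (jE hxy) (ref_jE hxy),
      (cE he hxy)⁻¹ * g * (cE he hxy)⁻¹⁻¹ ∈ QS (jE hxy) (ref_jE hxy) := by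
  have e1 : (cE he hxy)⁻¹ * iE = jE hxy * (cE he hxy)⁻¹ := by
    rw [inv_mul_eq_iff_eq_mul, ← mul_assoc, cE_jE, mul_assoc, mul_inv_cancel, mul_one]
  have e2 : (cE he hxy)⁻¹ * jE hxy = iE * jE hxy * (cE he hxy)⁻¹ := by
    rw [inv_mul_eq_iff_eq_mul, ← mul_assoc, cE_kE, mul_assoc, mul_inv_cancel, mul_one]
  exact conj_mem_of_gens (two_ne_zero_of he) hs _
    (by rw [mul_inv_eq_iff_eq_mul.mpr e1]; exact j_mem_QS _ _)
    (by rw [mul_inv_eq_iff_eq_mul.mpr e2]; exact mul_mem (iE_mem_QS _ _) (j_mem_QS _ _))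

theorem hG_eq : embG (cE he hxy) (cE he hxy) = negG * xG he *
    (embG (cE he hxy) (cE he hxy) * xG he * (embG (cE he hxy) (cE he hxy))⁻¹) := by
  symm
  calc negG * xG he * (embG (cE he hxy) (cE he hxy) * xG he * (embG (cE he hxy) (cE he hxy))⁻¹)
      = negG * (xG he * embG (cE he hxy) (cE he hxy) * xG he) *
          (embG (cE he hxy) (cE he hxy))⁻¹ := by group
    _ = (negG * negG) * embG (cE he hxy) (cE he hxy) := by rw [xG_h]; group
    _ = embG (cE he hxy) (cE he hxy) := by rw [negG_sq, one_mul]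

end cfacts

/-- a `p`-subgroup is Sylow as soon as every element of a larger `p`-subgroup normalising it lies in it -/
theorem exists_sylow_of_normalizer {G : Type*} [Group G] [Finite G] {p : ℕ} [Fact p.Prime]
    (P : Subgroup G) (hP : IsPGroup p P)
    (hN : ∀ P' : Subgroup G, IsPGroup p P' → P ≤ P' → ∀ g ∈ P', (∀ y ∈ P, g * y * g⁻¹ ∈ P) → g ∈ P) :
    ∃ S : Sylow p G, (S : Subgroup G) = P := by
  obtain ⟨S, hPS⟩ := hP.exists_le_sylow
  refine ⟨S, ?_⟩
  by_contra hne
  have hH : P.subgroupOf (S : Subgroup G) < ⊤ := by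
    rw [lt_top_iff_ne_top]
    intro h
    rw [Subgroup.subgroupOf_eq_top] at h
    exact hne (le_antisymm h hPS)
  have hnil : Group.IsNilpotent ↥(S : Subgroup G) := S.isPGroup'.isNilpotent
  have hnc := Group.normalizerCondition_of_isNilpotent (P.subgroupOf (S : Subgroup G)) hH
  obtain ⟨x, hxN, hxP⟩ := SetLike.exists_of_lt hnc
  apply hxP
  rw [Subgroup.mem_subgroupOf]
  apply hN S S.isPGroup' hPS x.1 x.2
  intro y hy
  have h3 := (Subgroup.mem_normalizer_iff.mp hxN ⟨y, hPS hy⟩).mp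
    (by rw [Subgroup.mem_subgroupOf]; exact hy)
  rw [Subgroup.mem_subgroupOf] at h3
  exact h3

end Cfsg.Agent.Helper42.PS4
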