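import Cfsg.Agent.Helper42.PS4d
import Cfsg.Agent.Helper88.SimpleCrit3
import Cfsg.Prelude.Def_Classical

/-!
# The 2-fusion system of `PSp₄(q)`, `q` odd, satisfies the simplicity criterion
-/

set_option autoImplicit false

namespace Cfsg.Agent.Helper42.PS4

open Matrix Cfsg.Agent.Helper42.SL2

variable {F : Type*} [Field F]

/-- the quotient map `Sp₄ → PSp₄` -/
abbrev piG (F : Type*) [Field F] : G4 F →* Cfsg.PSp 2 F :=
  QuotientGroup.mk' (Subgroup.center (G4 F))

theorem mem_center_iff' (g : G4 F) : g ∈ Subgroup.center (G4 F) ↔ g = 1 ∨ g = negG := by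
  have hneg : SpGroup.toEnd (negG : G4 F) = -1 := by
    show Matrix.toLin' (negG : G4 F).1 = -1
    rw [negG_val, map_neg, Matrix.toLin'_one]
    rfl
  rw [SpGroup.mem_center_iff]
  constructor
  · rintro (h | h)
    · left; apply SpGroup.toEnd_injective; rw [h, SpGroup.toEnd_one]
    · right; apply SpGroup.toEnd_injective; rw [h, hneg]
  · rintro (rfl | rfl)
    · left; exact SpGroup.toEnd_one
    · right; exact hneg

theorem piG_eq_one_iff (g : G4 F) : piG F g = 1 ↔ g = 1 ∨ g = negG := by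
  rw [← mem_center_iff']
  exact QuotientGroup.eq_one_iff g

theorem piG_negG : piG F negG = 1 := (piG_eq_one_iff negG).mpr (Or.inr rfl)

theorem piG_eq_iff (a b : G4 F) : piG F a = piG F b ↔ b = a ∨ b = negG * a := by
  have : piG F a = piG F b ↔ piG F (a⁻¹ * b) = 1 := by
    rw [map_mul, map_inv, inv_mul_eq_one]
  rw [this, piG_eq_one_iff]
  constructor
  · rintro (h | h)
    · left; exact (inv_mul_eq_one.mp h).symm
    · right; rw [negG_comm, ← h]; group
  · rintro (h | h)
    · left; rw [h]; group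
    · right; rw [h, negG_comm, inv_mul_cancel_left]

theorem piG_surj : Function.Surjective (piG F) := QuotientGroup.mk'_surjective _

theorem mem_of_map {H : Subgroup (G4 F)} (hH : negG ∈ H) {g : G4 F}
    (h : piG F g ∈ H.map (piG F)) : g ∈ H := by
  obtain ⟨s, hs, e⟩ := h
  rcases (piG_eq_iff s g).mp e with h | h
  · rw [h]; exact hs
  · rw [h]; exact mul_mem hH hs

theorem embG_pow (a b : L2 F) (n : ℕ) : embG a b ^ n = embG (a ^ n) (b ^ n) := by
  induction n with
  | zero => rw [pow_zero, pow_zero, pow_zero, embG_one]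
  | succ n ih => rw [pow_succ, ih, embG_mul, pow_succ, pow_succ]

theorem wr_pow {j : L2 F} {hj : RefM j.1} {s : G4 F} (hs : s ∈ wr (QS j hj)) :
    ∃ k : ℕ, s ^ 2 ^ k = 1 := by
  have key : ∀ a ∈ QS j hj, ∀ b ∈ QS j hj, ∃ k : ℕ, embG a b ^ 2 ^ k = 1 := by
    intro a ha b hb
    obtain ⟨k, hk⟩ := pow_of_mem_QS ha
    obtain ⟨l, hl⟩ := pow_of_mem_QS hb
    refine ⟨k + l, ?_⟩
    rw [embG_pow, pow_add, pow_mul, hk, one_pow, mul_comm (2 ^ k), pow_mul, hl, one_pow, embG_one]
  obtain ⟨a, ha, b, hb, e | e⟩ := hs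
  · rw [e]; exact key a ha b hb
  · have e2 : s * s = embG (a * b) (b * a) := by
      rw [e, mul_assoc (embG a b), ← mul_assoc sigG, sigG_emb, mul_assoc, sigG_sq, mul_one, embG_mul]
    obtain ⟨k, hk⟩ := key _ (mul_mem ha hb) _ (mul_mem hb ha)
    refine ⟨k + 1, ?_⟩
    rw [pow_succ', pow_mul, pow_two, e2]
    exact hk

theorem isPGroup_map {j : L2 F} {hj : RefM j.1} :
    IsPGroup 2 ((wr (QS j hj)).map (piG F)) := by
  rintro ⟨y, hy⟩
  obtain ⟨s, hs, rfl⟩ := hy
  obtain ⟨k, hk⟩ := wr_pow hs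
  refine ⟨k, Subtype.ext ?_⟩
  show (piG F s) ^ 2 ^ k = 1
  rw [← map_pow, hk, map_one]

theorem conj_inv_mem {G : Type*} [Group G] (H : Subgroup G) [Finite H] (g : G)
    (h : ∀ x ∈ H, g * x * g⁻¹ ∈ H) : ∀ x ∈ H, g⁻¹ * x * g ∈ H := by
  intro x hx
  let f : H → H := fun z => ⟨g * z * g⁻¹, h z z.2⟩
  have hf : Function.Injective f := by
    intro a b hab
    have h1 : g * (a : G) * g⁻¹ = g * b * g⁻¹ := congrArg Subtype.val hab
    exact Subtype.ext (mul_left_cancel (mul_right_cancel h1))
  obtain ⟨z, hz⟩ := Finite.surjective_of_injective hf ⟨x, hx⟩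
  have h1 : g * (z : G) * g⁻¹ = x := congrArg Subtype.val hz
  have : g⁻¹ * x * g = z := by rw [← h1]; group
  rw [this]; exact z.2

theorem two_ne_zero_of_card [Fintype F] (hodd : Fintype.card F % 2 = 1) : (2 : F) ≠ 0 := by
  have hchar : ringChar F ≠ 2 := by
    intro h
    have h1 := FiniteField.even_card_iff_char_two.mp h
    omega
  exact Ring.two_ne_zero hchar

section main

variable [Fintype F] {e x y : F} (he : 2 * e = 1) (hxy : x ^ 2 + y ^ 2 = -1)

/-- elements of `Sp₄` normalising the image of `(Q × Q)⟨σ⟩` in `PSp₄` -/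
theorem norm_cases {g : G4 F}
    (hg : ∀ z ∈ (wr (QS (jE hxy) (ref_jE hxy))).map (piG F),
      piG F g * z * (piG F g)⁻¹ ∈ (wr (QS (jE hxy) (ref_jE hxy))).map (piG F)) :
    g ∈ wr (QS (jE hxy) (ref_jE hxy)) ∨ (Small F ∧ ∃ w ∈ wr (QS (jE hxy) (ref_jE hxy)),
      ∃ w' ∈ wr (QS (jE hxy) (ref_jE hxy)),
        (g = w * embG (cE he hxy) (cE he hxy) * w' ∨
          g = w * (embG (cE he hxy) (cE he hxy))⁻¹ * w')) := by
  have h2 := two_ne_zero_of he
  have hj := ref_jE hxy
  have hnI := nI_mem_QS (jE hxy) hj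
  have hgw : ∀ s ∈ wr (QS (jE hxy) hj), g * s * g⁻¹ ∈ wr (QS (jE hxy) hj) := by
    intro s hs
    apply mem_of_map (negG_mem_wr hnI)
    have := hg _ (Subgroup.mem_map_of_mem _ hs)
    rwa [← map_inv, ← map_mul, ← map_mul] at this
  have hgw' := conj_inv_mem _ g hgw
  obtain ⟨n, hn, hw⟩ := normalizer_wr h2 hj (iE_mem_QS _ hj) (j_mem_QS _ hj) hnI hgw hgw'
  have hA : n ∈ QS (jE hxy) hj → g ∈ wr (QS (jE hxy) hj) := by
    intro hnQ
    have := mul_mem hw (emb_mem_wr hnQ hnQ)
    rwa [inv_mul_cancel_right] at this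
  by_cases hbig : ∃ r₀ ∈ AS F, r₀ ^ 4 ≠ 1
  · obtain ⟨r₀, hr₀, h4⟩ := hbig
    exact Or.inl (hA (normalizer_big h2 hr₀ h4 hn))
  · push Not at hbig
    have hs : Small F := small_of_pow_four h2 hbig
    rcases normalizer_small he hxy hs hn with h | h | h
    · exact Or.inl (hA h)
    · right
      refine ⟨hs, _, hw, _, emb_mem_wr h h, Or.inr ?_⟩
      rw [embG_inv (cE he hxy), mul_assoc, embG_mul, inv_mul_cancel_left, inv_mul_cancel_right]
    · right
      refine ⟨hs, _, hw, _, emb_mem_wr h h, Or.inl ?_⟩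
      rw [mul_assoc, embG_mul, mul_inv_cancel_left, inv_mul_cancel_right]

include he in
theorem exists_sylow :
    ∃ S : Sylow 2 (Cfsg.PSp 2 F), (S : Subgroup (Cfsg.PSp 2 F)) =
      (wr (QS (jE hxy) (ref_jE hxy))).map (piG F) := by
  have : Fact (Nat.Prime 2) := ⟨Nat.prime_two⟩
  apply exists_sylow_of_normalizer _ isPGroup_map
  intro P' hP' hle gb hgb hnorm
  obtain ⟨g, rfl⟩ := piG_surj gb
  rcases norm_cases he hxy hnorm with h | ⟨hs, w, hw, w', hw', h⟩
  · exact Subgroup.mem_map_of_mem _ h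
  · exfalso
    have hh : piG F (embG (cE he hxy) (cE he hxy)) ∈ P' := by
      have h1 : piG F w ∈ P' := hle (Subgroup.mem_map_of_mem _ hw)
      have h2 : piG F w' ∈ P' := hle (Subgroup.mem_map_of_mem _ hw')
      rcases h with h | h
      · have : piG F (embG (cE he hxy) (cE he hxy)) =
            (piG F w)⁻¹ * piG F g * (piG F w')⁻¹ := by
          rw [h, map_mul, map_mul]; group
        rw [this]; exact mul_mem (mul_mem (inv_mem h1) hgb) (inv_mem h2)
      · have : piG F (embG (cE he hxy) (cE he hxy)) =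
            ((piG F w)⁻¹ * piG F g * (piG F w')⁻¹)⁻¹ := by
          rw [h, map_mul, map_mul, map_inv]; group
        rw [this]; exact inv_mem (mul_mem (mul_mem (inv_mem h1) hgb) (inv_mem h2))
    obtain ⟨k, hk⟩ := hP' ⟨_, hh⟩
    have hk' : piG F (embG (cE he hxy) (cE he hxy) ^ 2 ^ k) = 1 := by
      rw [map_pow]; exact congrArg Subtype.val hk
    rw [piG_eq_one_iff, embG_pow] at hk'
    rcases hk' with h3 | h3
    · rw [← embG_one] at h3
      exact cE_not_two he hxy k (embG_inj h3).1
    · apply cE_not_two he hxy (k + 1)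
      have h4 : cE he hxy ^ 2 ^ k = nI := (embG_inj h3).1
      rw [pow_succ, pow_mul, h4, pow_two, nI_mul_nI]

include he in
theorem simpleHyp2 (hodd : Fintype.card F % 2 = 1) (S : Sylow 2 (Cfsg.PSp 2 F))
    (hS : (S : Subgroup (Cfsg.PSp 2 F)) = (wr (QS (jE hxy) (ref_jE hxy))).map (piG F)) :
    Helper88.SimpleHyp2 2 S := by
  have h2 := two_ne_zero_of he
  have hj := ref_jE hxy
  have hnI := nI_mem_QS (jE hxy) hj
  unfold Helper88.SimpleHyp2
  rw [hS]
  refine ⟨?_, ?_, ?_⟩
  · intro h
    have : piG F tG ∈ (wr (QS (jE hxy) hj)).map (piG F) :=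
      Subgroup.mem_map_of_mem _ (emb_mem_wr hnI (one_mem _))
    rw [h, Subgroup.mem_bot, piG_eq_one_iff] at this
    rcases this with h3 | h3
    · exact tG_ne_one h2 h3
    · exact tG_ne_negG h2 h3
  · intro T hT hsc
    have hT' : T.comap (piG F) ≤ wr (QS (jE hxy) hj) :=
      fun x hx => mem_of_map (negG_mem_wr hnI) (hT hx)
    have hneg : negG ∈ T.comap (piG F) := by
      show piG F negG ∈ T
      rw [piG_negG]; exact one_mem T
    have hsc' : ∀ x ∈ T.comap (piG F), ∀ g : G4 F, g * x * g⁻¹ ∈ wr (QS (jE hxy) hj) →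
        g * x * g⁻¹ ∈ T.comap (piG F) := by
      intro x hx g hg
      show piG F (g * x * g⁻¹) ∈ T
      rw [map_mul, map_mul, map_inv]
      apply hsc (piG F x) hx (piG F g)
      rw [← map_inv, ← map_mul, ← map_mul]
      exact Subgroup.mem_map_of_mem _ hg
    by_cases hex : ∃ x ∈ T.comap (piG F), x ≠ 1 ∧ x ≠ negG
    · right
      apply le_antisymm hT
      have h3 := strongly_closed_wr hodd he hj _ hT' hneg hex hsc'
      rintro _ ⟨s, hs, rfl⟩
      exact h3 hs
    · left
      push Not at hex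
      rw [Subgroup.eq_bot_iff_forall]
      intro t ht
      obtain ⟨x, rfl⟩ := piG_surj t
      rw [piG_eq_one_iff]
      by_cases h1 : x = 1
      · exact Or.inl h1
      · exact Or.inr (hex x ht h1)
  · intro gb hgb
    obtain ⟨g, rfl⟩ := piG_surj gb
    rcases norm_cases he hxy hgb with h | ⟨hs, w, hw, w', hw', h⟩
    · exact Subgroup.subset_closure (Or.inl (Subgroup.mem_map_of_mem _ h))
    · have hgood : Helper88.GoodElt 2 ((wr (QS (jE hxy) hj)).map (piG F))
          (piG F (embG (cE he hxy) (cE he hxy))) := by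
        refine ⟨?_, (RS (QS (jE hxy) hj)).map (piG F), Subgroup.map_mono (RS_le_wr _), ?_, ?_, ?_⟩
        · rintro _ ⟨s, hs', rfl⟩
          rw [← map_inv, ← map_mul, ← map_mul]
          exact Subgroup.mem_map_of_mem _ (delta_norm_wr (cE_norm he hxy hs) s hs')
        · rintro _ ⟨s, hs', rfl⟩ _ ⟨r, hr, rfl⟩
          rw [← map_inv, ← map_mul, ← map_mul]
          exact Subgroup.mem_map_of_mem _ (RS_normal hs s hs' r hr)
        · rintro _ ⟨s, hs', rfl⟩ hc
          have h3 := hc (piG F sigG) (Subgroup.mem_map_of_mem _ (sig_mem_RS _))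
          rw [← map_mul, ← map_mul, piG_eq_iff] at h3
          exact Subgroup.mem_map_of_mem _ (RS_of_comm hs' h3)
        · have hx8 := xG_pow8 he
          have e1 : piG F (embG (cE he hxy) (cE he hxy)) = piG F (xG he) *
              piG F (embG (cE he hxy) (cE he hxy) * xG he * (embG (cE he hxy) (cE he hxy))⁻¹) := by
            conv_lhs => rw [hG_eq he hxy]
            rw [map_mul, map_mul, piG_negG, one_mul]
          rw [e1]
          apply mul_mem
          · apply Subgroup.subset_closure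
            refine ⟨⟨3, by rw [← map_pow, hx8, map_one]⟩, ?_⟩
            rintro _ ⟨r, hr, rfl⟩
            rw [← map_inv, ← map_mul, ← map_mul]
            exact Subgroup.mem_map_of_mem _ (xG_norm_RS he r hr)
          · apply Subgroup.subset_closure
            refine ⟨⟨3, by rw [← map_pow, conj_pow, hx8, mul_one, mul_inv_cancel, map_one]⟩, ?_⟩
            rintro _ ⟨r, hr, rfl⟩
            rw [← map_inv, ← map_mul, ← map_mul]
            apply Subgroup.mem_map_of_mem
            have h1 := delta_norm_RS hnI (cE_inv_norm he hxy hs) r hr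
            have h2' := xG_norm_RS he _ h1
            have h3 := delta_norm_RS hnI (cE_norm he hxy hs) _ h2'
            have e2 : embG (cE he hxy) (cE he hxy) * xG he * (embG (cE he hxy) (cE he hxy))⁻¹ * r *
                (embG (cE he hxy) (cE he hxy) * xG he * (embG (cE he hxy) (cE he hxy))⁻¹)⁻¹ =
                embG (cE he hxy) (cE he hxy) * (xG he * (embG (cE he hxy)⁻¹ (cE he hxy)⁻¹ * r *
                  (embG (cE he hxy)⁻¹ (cE he hxy)⁻¹)⁻¹) * (xG he)⁻¹) *
                  (embG (cE he hxy) (cE he hxy))⁻¹ := by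
              rw [← embG_inv]; group
            rw [e2]; exact h3
      rcases h with h | h
      · rw [h, map_mul, map_mul]
        exact mul_mem (mul_mem
          (Subgroup.subset_closure (Or.inl (Subgroup.mem_map_of_mem _ hw)))
          (Subgroup.subset_closure (Or.inr hgood)))
          (Subgroup.subset_closure (Or.inl (Subgroup.mem_map_of_mem _ hw')))
      · rw [h, map_mul, map_mul, map_inv]
        exact mul_mem (mul_mem
          (Subgroup.subset_closure (Or.inl (Subgroup.mem_map_of_mem _ hw)))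
          (inv_mem (Subgroup.subset_closure (Or.inr hgood))))
          (Subgroup.subset_closure (Or.inl (Subgroup.mem_map_of_mem _ hw')))

end main

end Cfsg.Agent.Helper42.PS4
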