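import Mathlib
import Cfsg.Agent.Helper90.MDDefs
import Cfsg.Agent.Helper58.MDCORE
import Cfsg.Agent.Helper91.MDAVG

/-!
# Helper42: piece MULT of CALL S2343 (helper6)

The multiplicity of a linear character of a subgroup in a representation is a natural number.
-/

set_option autoImplicit false

namespace Cfsg.Agent.Helper42

open Cfsg.Agent.Helper90.MD

/-- PIECE MULT -/
theorem rmd43_mult {G : Type*} [Group G] [Finite G] {V : Type*} [AddCommGroup V] [Module ℂ V]
    [FiniteDimensional ℂ V] (ρ : Representation ℂ G V) (A : Subgroup G) [Fintype A]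
    (lam : G → ℂ) (hl : IsCharOn A lam) :
    ∃ n : ℕ, ∑ a : A, lam ((a : G)⁻¹) * LinearMap.trace ℂ V (ρ (a : G)) =
      (Nat.card A : ℂ) * (n : ℂ) := by
  classical
  have hn : (Nat.card A : ℂ) ≠ 0 := Nat.cast_ne_zero.2 Nat.card_pos.ne'
  have hid : IsIdempotentElem (Cfsg.Agent.Helper58.MDCore.eL ρ A lam) := by
    ext v
    exact Cfsg.Agent.Helper58.MDCore.eL_idem ρ A lam hl v
  have htr := (LinearMap.IsIdempotentElem.isProj_range _ hid).trace
  refine ⟨Module.finrank ℂ (LinearMap.range (Cfsg.Agent.Helper58.MDCore.eL ρ A lam)), ?_⟩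
  rw [← htr]
  have h1 : Cfsg.Agent.Helper58.MDCore.eL ρ A lam
      = (Nat.card A : ℂ)⁻¹ • ∑ x : A, lam ((x : G)⁻¹) • ρ (x : G) := by
    rw [Cfsg.Agent.Helper58.MDCore.eL, finsum_eq_sum_of_fintype]
  rw [h1, map_smul, map_sum, smul_eq_mul, ← mul_assoc, mul_inv_cancel₀ hn, one_mul]
  refine Finset.sum_congr rfl fun x _ => ?_
  rw [map_smul, smul_eq_mul]

end Cfsg.Agent.Helper42
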