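import Cfsg.Agent.Helper99.RuDefs

/-! Piece SEL of CALL S2522 (helper42): choice of the point (four points on a line, pigeonhole). -/

set_option autoImplicit false

namespace Cfsg.Agent.Helper42

open Cfsg.Agent.Helper99 Module

universe u v

/-- four distinct points, three kinds of defect, no defect shared by two points -/
theorem ru_pigeon4 {K : Type*} (B1 B2 B3 : K → Prop) (a b c d : K) (hab : a ≠ b) (hac : a ≠ c)
    (had : a ≠ d) (hbc : b ≠ c) (hbd : b ≠ d) (hcd : c ≠ d)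
    (h1 : ∀ s t, s ≠ t → B1 s → B1 t → False) (h2 : ∀ s t, s ≠ t → B2 s → B2 t → False)
    (h3 : ∀ s t, s ≠ t → B3 s → B3 t → False) (hall : ∀ t, B1 t ∨ B2 t ∨ B3 t) : False := by
  rcases hall a with x | x | x <;> rcases hall b with y | y | y <;>
    rcases hall c with z | z | z <;> rcases hall d with w | w | w <;>
  first
  | exact h1 a b hab x y | exact h1 a c hac x z | exact h1 a d had x w
  | exact h1 b c hbc y z | exact h1 b d hbd y w | exact h1 c d hcd z w
  | exact h2 a b hab x y | exact h2 a c hac x z | exact h2 a d had x w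
  | exact h2 b c hbc y z | exact h2 b d hbd y w | exact h2 c d hcd z w
  | exact h3 a b hab x y | exact h3 a c hac x z | exact h3 a d had x w
  | exact h3 b c hbc y z | exact h3 b d hbd y w | exact h3 c d hcd z w

section
variable {K : Type u} [Field K] {X : Type v} [AddCommGroup X] [Module K X]

/-- a functional vanishing on the kernel of another one is a multiple of it -/
theorem ru_dual_of_ker_le (χ ψ : Dual K X) (h : ∀ v, χ v = 0 → ψ v = 0) :
    ∃ t : K, ψ = t • χ := by
  by_cases hχ : χ = 0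
  · refine ⟨0, ?_⟩
    ext v
    rw [h v (by rw [hχ]; rfl)]
    simp
  · obtain ⟨a, ha⟩ : ∃ a, χ a ≠ 0 := by
      by_contra hcon
      simp only [not_exists, not_not] at hcon
      exact hχ (LinearMap.ext hcon)
    refine ⟨ψ a / χ a, ?_⟩
    ext v
    have h0 : χ (v - (χ v / χ a) • a) = 0 := by
      rw [map_sub, map_smul, smul_eq_mul, div_mul_cancel₀ _ ha, sub_self]
    have h1 := h _ h0
    rw [map_sub, map_smul, smul_eq_mul, sub_eq_zero] at h1
    rw [LinearMap.smul_apply, smul_eq_mul, h1]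
    field_simp

/-- PIECE SEL. -/
theorem ru_sel [FiniteDimensional K X] (hK : 4 ≤ Cardinal.mk K) (hm : 3 ≤ finrank K X)
    (g : X →ₗ[K] X) (hdet : LinearMap.det g = 1) (hg : RuGood g) (ψ : Dual K X) (φ : Dual K X)
    (hb : ∀ t : K, φ ∘ₗ g ≠ t • φ) (hc : ∀ t : K, ψ ≠ t • (φ ∘ₗ g - φ))
    (hd : (∃ k : X, k ≠ 0 ∧ g k = k) → ∃ k : X, g k = k ∧ φ k ≠ 0)
    (hpair : ∀ (p p' : X) (_h1 : φ p = 1) (h2 : φ (g p) = 1) (_h1' : φ p' = 1)
      (h2' : φ (g p') = 1), g (p' - p) ≠ p' - p → ¬ RuGood (ruSchur g p φ h2) →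
      ¬ RuGood (ruSchur g p' φ h2') → False) :
    ∃ (x : X) (_h1 : φ x = 1) (h2 : φ (g x) = 1), ψ x ≠ 0 ∧ g x ≠ x ∧ ruC g φ ≠ 0 ∧
      RuGood (ruSchur g x φ h2) := by
  have hφ0 : φ ≠ 0 := by
    rintro rfl
    exact hb 0 (by simp)
  obtain ⟨a₀, ha₀⟩ : ∃ a, φ a ≠ 0 := by
    by_contra hcon
    simp only [not_exists, not_not] at hcon
    exact hφ0 (LinearMap.ext hcon)
  obtain ⟨a, ha⟩ : ∃ a, φ a = 1 :=
    ⟨(φ a₀)⁻¹ • a₀, by rw [map_smul, smul_eq_mul, inv_mul_cancel₀ ha₀]⟩
  -- (1)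
  obtain ⟨w1, hw1, hgw1⟩ : ∃ w1, φ w1 = 0 ∧ φ (g w1) ≠ 0 := by
    by_contra hcon
    simp only [not_exists, not_and, not_not] at hcon
    obtain ⟨t, ht⟩ := ru_dual_of_ker_le φ (φ ∘ₗ g) (fun v hv => hcon v hv)
    exact hb t ht
  have hC : ruC g φ ≠ 0 := by
    intro h0
    have := congrArg (fun f : Dual K ↥(LinearMap.ker φ) => f ⟨w1, LinearMap.mem_ker.mpr hw1⟩) h0
    simp only [ruC_apply, LinearMap.zero_apply] at this
    exact hgw1 this
  -- (2) a point of `A`
  obtain ⟨xA, hxA1, hxA2⟩ : ∃ x, φ x = 1 ∧ φ (g x) = 1 := by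
    refine ⟨a + ((1 - φ (g a)) / φ (g w1)) • w1, ?_, ?_⟩
    · rw [map_add, map_smul, hw1, smul_eq_mul, mul_zero, add_zero, ha]
    · simp only [map_add, map_smul, smul_eq_mul]
      rw [div_mul_cancel₀ _ hgw1]
      ring
  -- (3) a point of `A` off `ker ψ`
  obtain ⟨x0, hx01, hx02, hψx0⟩ : ∃ x, φ x = 1 ∧ φ (g x) = 1 ∧ ψ x ≠ 0 := by
    by_contra hcon
    simp only [not_exists, not_and, not_not] at hcon
    obtain ⟨t, ht⟩ := ru_dual_of_ker_le (φ ∘ₗ g - φ) ψ (fun v hv => by
      have hv' : φ (g v) = φ v := by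
        have h := hv
        simp only [LinearMap.sub_apply, LinearMap.comp_apply] at h
        exact sub_eq_zero.mp h
      by_cases hs : φ v = 0
      · have h1 := hcon (xA + v) (by rw [map_add, hxA1, hs, add_zero])
          (by rw [map_add, map_add, hxA2, hv', hs, add_zero])
        have h2 := hcon xA hxA1 hxA2
        rw [map_add, h2, zero_add] at h1
        exact h1
      · have h1 := hcon ((φ v)⁻¹ • v) (by rw [map_smul, smul_eq_mul, inv_mul_cancel₀ hs])
          (by rw [map_smul, map_smul, hv', smul_eq_mul, inv_mul_cancel₀ hs])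
        rw [map_smul, smul_eq_mul] at h1
        rcases mul_eq_zero.mp h1 with h | h
        · exact absurd h (inv_ne_zero hs)
        · exact h)
    exact hc t ht
  -- (4) a non-fixed vector of `D`
  obtain ⟨d1, hd11, hd12, hd13⟩ : ∃ d, φ d = 0 ∧ φ (g d) = 0 ∧ g d ≠ d := by
    by_contra hcon
    simp only [not_exists, not_and, not_not] at hcon
    have hker : LinearMap.ker (φ.prod (φ ∘ₗ g)) ≠ ⊥ := by
      apply LinearMap.ker_ne_bot_of_finrank_lt
      rw [Module.finrank_prod, Module.finrank_self]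
      omega
    obtain ⟨d, hdker, hd0⟩ := (Submodule.ne_bot_iff _).mp hker
    have hdφ : φ d = 0 ∧ φ (g d) = 0 := by
      have h := LinearMap.mem_ker.mp hdker
      simpa [Prod.ext_iff] using h
    obtain ⟨k, hk1, hk2⟩ := hd ⟨d, hd0, hcon d hdφ.1 hdφ.2⟩
    apply hg.2 (g w1 - w1)
      ((φ (g w1))⁻¹ • ((φ ∘ₗ g) ∘ₗ (LinearMap.id - φ.smulRight ((φ k)⁻¹ • k))))
    ext v
    simp only [LinearMap.add_apply, Module.End.one_apply, LinearMap.smulRight_apply,
      LinearMap.smul_apply, LinearMap.comp_apply, LinearMap.sub_apply, LinearMap.id_apply,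
      smul_eq_mul]
    obtain ⟨w, hw⟩ : ∃ w, w = v - φ v • (φ k)⁻¹ • k := ⟨_, rfl⟩
    rw [← hw]
    obtain ⟨c, hcdef⟩ : ∃ c, c = (φ (g w1))⁻¹ * φ (g w) := ⟨_, rfl⟩
    rw [← hcdef]
    have hφw : φ w = 0 := by
      rw [hw, map_sub, map_smul, map_smul, smul_eq_mul, smul_eq_mul, inv_mul_cancel₀ hk2,
        mul_one, sub_self]
    have hfix : g (w - c • w1) = w - c • w1 := by
      apply hcon
      · rw [map_sub, map_smul, hφw, hw1, smul_eq_mul, mul_zero, sub_zero]
      · rw [map_sub, map_smul, map_sub, map_smul, smul_eq_mul, hcdef,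
          mul_comm (φ (g w1))⁻¹, mul_assoc, inv_mul_cancel₀ hgw1, mul_one, sub_self]
    have hgw : g w = w - c • w1 + c • g w1 := by
      have h : g w = g (w - c • w1) + c • g w1 := by
        rw [map_sub, map_smul]
        abel
      rw [h, hfix]
    have hv : v = w + φ v • (φ k)⁻¹ • k := by
      rw [hw]
      abel
    calc g v = g (w + φ v • (φ k)⁻¹ • k) := by rw [← hv]
      _ = g w + φ v • (φ k)⁻¹ • g k := by rw [map_add, map_smul, map_smul]
      _ = w - c • w1 + c • g w1 + φ v • (φ k)⁻¹ • k := by rw [hgw, hk1]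
      _ = v + c • (g w1 - w1) := by
        rw [hw]
        module
  -- (5) four points on a line
  obtain ⟨t1, t2, t3, t4, h12, h13, h14, h23, h24, h34⟩ := ru_four hK
  have hpA1 : ∀ t : K, φ (x0 + t • d1) = 1 := fun t => by
    rw [map_add, map_smul, hd11, smul_zero, add_zero, hx01]
  have hpA2 : ∀ t : K, φ (g (x0 + t • d1)) = 1 := fun t => by
    rw [map_add, map_smul, map_add, map_smul, hd12, smul_zero, add_zero, hx02]
  have hN : ∀ s t : K, s ≠ t →
      g ((x0 + t • d1) - (x0 + s • d1)) ≠ (x0 + t • d1) - (x0 + s • d1) := by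
    intro s t hst h
    have e : (x0 + t • d1) - (x0 + s • d1) = (t - s) • d1 := by module
    rw [e, map_smul] at h
    have hts : t - s ≠ 0 := sub_ne_zero.mpr (Ne.symm hst)
    exact hd13 (smul_right_injective X hts h)
  by_contra hall
  have hbad : ∀ t : K, (¬ RuGood (ruSchur g (x0 + t • d1) φ (hpA2 t))) ∨
      ψ (x0 + t • d1) = 0 ∨ g (x0 + t • d1) = x0 + t • d1 := by
    intro t
    by_contra hno
    simp only [not_or, not_not] at hno
    exact hall ⟨x0 + t • d1, hpA1 t, hpA2 t, hno.2.1, hno.2.2, hC, hno.1⟩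
  exact ru_pigeon4 (fun t => ¬ RuGood (ruSchur g (x0 + t • d1) φ (hpA2 t)))
    (fun t => ψ (x0 + t • d1) = 0) (fun t => g (x0 + t • d1) = x0 + t • d1)
    t1 t2 t3 t4 h12 h13 h14 h23 h24 h34
    (fun s t hst b1 b2 => hpair _ _ (hpA1 s) (hpA2 s) (hpA1 t) (hpA2 t) (hN s t hst) b1 b2)
    (fun s t hst b1 b2 => by
      simp only [map_add, map_smul, smul_eq_mul] at b1 b2
      have hts : t - s ≠ 0 := sub_ne_zero.mpr (Ne.symm hst)
      have h1 : (t - s) * ψ d1 = 0 := by linear_combination b2 - b1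
      have h2 : ψ d1 = 0 := by
        rcases mul_eq_zero.mp h1 with h | h
        · exact absurd h hts
        · exact h
      rw [h2, mul_zero, add_zero] at b1
      exact hψx0 b1)
    (fun s t hst b1 b2 => by
      apply hN s t hst
      rw [map_sub, b1, b2])
    hbad

end

end Cfsg.Agent.Helper42
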