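import Cfsg.Agent.Helper99.RuDefs

/-! Piece STEP of CALL S2522 (helper42): lifting a factorisation of the Schur complement. -/

set_option autoImplicit false

namespace Cfsg.Agent.Helper42

open Cfsg.Agent.Helper99 Module

universe u v

section
variable {K : Type u} [Field K] {X : Type v} [AddCommGroup X] [Module K X]

/-- PIECE STEP. -/
theorem ru_step [FiniteDimensional K X] (g : X →ₗ[K] X) (x : X) (φ : Dual K X)
    (h1 : φ x = 1) (h2 : φ (g x) = 1) (Y : X) (ψ : Dual K X) (hY : φ Y ≠ 0) (hψ : ψ x ≠ 0)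
    (hfac : RuFac (ruSchur g x φ h2) (ruY g x φ h1 h2) (ruC g φ)) : RuFac g Y ψ := by
  have hφ0 : φ ≠ 0 := by
    rintro rfl
    simp at h1
  have hfr : finrank K X = finrank K ↥(LinearMap.ker φ) + 1 :=
    (Module.Dual.finrank_ker_add_one_of_ne_zero hφ0).symm
  obtain ⟨u1', u2', hS, hn1, hn2, hy, z', hz⟩ := hfac
  obtain ⟨e, he⟩ : ∃ e, finrank K ↥(LinearMap.ker φ) = e + 1 := by
    by_contra hcon
    have h0 : finrank K ↥(LinearMap.ker φ) = 0 := by
      by_contra h0'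
      exact hcon ⟨finrank K ↥(LinearMap.ker φ) - 1, by omega⟩
    haveI : Subsingleton ↥(LinearMap.ker φ) := Module.finrank_zero_iff.mp h0
    exact hy (Subsingleton.elim _ _)
  rw [he] at hn1 hn2 hy hz hfr
  simp only [Nat.add_sub_cancel] at hy hz
  -- the projection onto `ker φ` along `x`
  obtain ⟨P, hPc⟩ : ∃ P : X →ₗ[K] ↥(LinearMap.ker φ),
      ∀ v, ((P v : ↥(LinearMap.ker φ)) : X) = v - φ v • x := by
    refine ⟨LinearMap.codRestrict (LinearMap.ker φ) (LinearMap.id - φ.smulRight x)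
      (fun v => ?_), fun v => rfl⟩
    simp [LinearMap.mem_ker, h1]
  have hφw : ∀ w : ↥(LinearMap.ker φ), φ (w : X) = 0 := fun w => LinearMap.mem_ker.mp w.2
  have hPw : ∀ w : ↥(LinearMap.ker φ), P (w : X) = w := by
    intro w
    apply Subtype.ext
    rw [hPc, hφw, zero_smul, sub_zero]
  have hPx : P x = 0 := by
    apply Subtype.ext
    rw [hPc, h1, one_smul, sub_self]
    rfl
  obtain ⟨u1, hu1⟩ : ∃ u1 : X →ₗ[K] X,
      ∀ v, u1 v = ((u1' (P v) : ↥(LinearMap.ker φ)) : X) + φ v • g x :=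
    ⟨(LinearMap.ker φ).subtype ∘ₗ u1' ∘ₗ P + φ.smulRight (g x), fun v => rfl⟩
  obtain ⟨u2, hu2⟩ : ∃ u2 : X →ₗ[K] X,
      ∀ v, u2 v = ((u2' (P v) : ↥(LinearMap.ker φ)) : X) +
        (φ v + φ (g ((P v : ↥(LinearMap.ker φ)) : X))) • x :=
    ⟨(LinearMap.ker φ).subtype ∘ₗ u2' ∘ₗ P +
      (φ + (φ ∘ₗ g) ∘ₗ (LinearMap.ker φ).subtype ∘ₗ P).smulRight x, fun v => rfl⟩
  -- `u1 - 1`
  have hA1 : ∀ v, (u1 - 1) v =
      (((u1' - 1) (P v) + φ v • ruY g x φ h1 h2 : ↥(LinearMap.ker φ)) : X) := by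
    intro v
    rw [LinearMap.sub_apply, Module.End.one_apply, hu1, Submodule.coe_add, LinearMap.sub_apply,
      Module.End.one_apply, Submodule.coe_sub, Submodule.coe_smul, ruY_coe, hPc]
    module
  have hA1w : ∀ w : ↥(LinearMap.ker φ),
      (u1 - 1) (w : X) = (((u1' - 1) w : ↥(LinearMap.ker φ)) : X) := by
    intro w
    rw [hA1, hPw, hφw, zero_smul, add_zero]
  have hA1k : ∀ (k : ℕ) (w : ↥(LinearMap.ker φ)),
      ((u1 - 1) ^ k) (w : X) = ((((u1' - 1) ^ k) w : ↥(LinearMap.ker φ)) : X) := by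
    intro k
    induction k with
    | zero => intro w; simp
    | succ k ih =>
      intro w
      rw [pow_succ, pow_succ, Module.End.mul_apply, Module.End.mul_apply, hA1w, ih]
  -- `u2 - 1`
  have hB : ∀ v, (u2 - 1) v = (((u2' - 1) (P v) : ↥(LinearMap.ker φ)) : X) +
      φ (g ((P v : ↥(LinearMap.ker φ)) : X)) • x := by
    intro v
    have e' := hPc v
    rw [LinearMap.sub_apply, Module.End.one_apply, hu2, LinearMap.sub_apply,
      Module.End.one_apply, Submodule.coe_sub]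
    generalize φ (g ((P v : ↥(LinearMap.ker φ)) : X)) = c
    rw [e']
    module
  have hBx : (u2 - 1) x = 0 := by
    rw [hB, hPx]
    simp
  have hBw : ∀ w : ↥(LinearMap.ker φ), (u2 - 1) (w : X) =
      (((u2' - 1) w : ↥(LinearMap.ker φ)) : X) + ruC g φ w • x := by
    intro w
    rw [hB, hPw, ruC_apply]
  have hBxk : ∀ k : ℕ, ((u2 - 1) ^ (k + 1)) x = 0 := by
    intro k
    rw [pow_succ, Module.End.mul_apply, hBx, map_zero]
  have hBk : ∀ (k : ℕ) (w : ↥(LinearMap.ker φ)), ((u2 - 1) ^ (k + 1)) (w : X) =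
      ((((u2' - 1) ^ (k + 1)) w : ↥(LinearMap.ker φ)) : X) +
        ruC g φ (((u2' - 1) ^ k) w) • x := by
    intro k
    induction k with
    | zero =>
      intro w
      simp only [zero_add, pow_one, pow_zero, Module.End.one_apply]
      exact hBw w
    | succ k ih =>
      intro w
      rw [pow_succ' (u2 - 1), Module.End.mul_apply, ih, map_add, map_smul, hBx, smul_zero,
        add_zero, hBw, pow_succ' (u2' - 1) (k + 1), Module.End.mul_apply]
  have hd2 : (u2' - 1) ^ (e + 1 + 1) = 0 := by rw [pow_succ, hn2, zero_mul]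
  refine ⟨u1, u2, ?_, ?_, ?_, ?_, ?_⟩
  · -- `g = u1 ∘ u2`
    ext v
    have hP2 : P (u2 v) = u2' (P v) := by
      rw [hu2, map_add, map_smul, hPw, hPx, smul_zero, add_zero]
    have hφ2 : φ (u2 v) = φ v + φ (g ((P v : ↥(LinearMap.ker φ)) : X)) := by
      rw [hu2, map_add, map_smul, hφw, h1, zero_add, smul_eq_mul, mul_one]
    have hSw : ((u1' (u2' (P v)) : ↥(LinearMap.ker φ)) : X) =
        g ((P v : ↥(LinearMap.ker φ)) : X) - φ (g ((P v : ↥(LinearMap.ker φ)) : X)) • g x := by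
      rw [← ruSchur_coe g x φ h2 (P v), hS]
      rfl
    rw [LinearMap.comp_apply, hu1, hP2, hφ2, hSw]
    have e' := hPc v
    generalize φ (g ((P v : ↥(LinearMap.ker φ)) : X)) = c
    rw [e', map_sub, map_smul]
    module
  · -- `(u1 - 1) ^ d = 0`
    rw [hfr]
    ext v
    rw [pow_succ, Module.End.mul_apply, hA1, hA1k, hn1]
    simp
  · -- `(u2 - 1) ^ d = 0`
    rw [hfr]
    ext v
    have hv : v = ((P v : ↥(LinearMap.ker φ)) : X) + φ v • x := by
      rw [hPc]
      module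
    rw [LinearMap.zero_apply]
    calc ((u2 - 1) ^ (e + 1 + 1)) v
        = ((u2 - 1) ^ (e + 1 + 1)) (((P v : ↥(LinearMap.ker φ)) : X) + φ v • x) := by rw [← hv]
      _ = 0 := by
        rw [map_add, map_smul, hBxk, smul_zero, add_zero, hBk, hd2, hn2]
        simp
  · -- `(u1 - 1) ^ (d - 1) Y ≠ 0`
    rw [hfr, Nat.add_sub_cancel, pow_succ, Module.End.mul_apply, hA1, hA1k, map_add, map_smul]
    have h0 : ((u1' - 1) ^ e) ((u1' - 1) (P Y)) = 0 := by
      rw [← Module.End.mul_apply, ← pow_succ, hn1]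
      rfl
    rw [h0, zero_add]
    intro hcon
    have hcon' : φ Y • ((u1' - 1) ^ e) (ruY g x φ h1 h2) = 0 := Subtype.ext hcon
    rcases smul_eq_zero.mp hcon' with h | h
    · exact hY h
    · exact hy h
  · -- `ψ ((u2 - 1) ^ (d - 1) z) ≠ 0`
    refine ⟨(z' : X), ?_⟩
    rw [hfr, Nat.add_sub_cancel, hBk, hn2]
    simp only [LinearMap.zero_apply, Submodule.coe_zero, zero_add, map_smul, smul_eq_mul]
    exact mul_ne_zero hz hψ

end

end Cfsg.Agent.Helper42
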