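import Mathlib
import Cfsg.Agent.Helper42.OrdQmU
import Cfsg.Agent.Helper5.UnitSU

set_option autoImplicit false

/-!
# Centralisers of elements of order `p` in `PSU_m(q)` (helper42)

If `a, b ∈ PSU_m(q)` commute and `a` has order `p`, then every prime divisor of `|b|` divides
`|SU_{m-2}(q)|`.
-/

namespace Cfsg.Agent.Helper42.UCommP

open Polynomial UForm UGroup UStruct UModels UTorus ProjOrd PGraphL PGraphL2 OrdQmU

universe u

variable {F : Type u} [Field F] [Fintype F] (p a : ℕ) [Fact p.Prime] [CharP F p]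

/-- A self-dual irreducible factor of `X^r - 1` of degree `d ≥ 2`: `d` is odd and `r ∣ q^d + 1`. -/
theorem selfdual_dvd (hF : Fintype.card F = (p ^ a) ^ 2) (σ : F →+* F)
    (hσ : ∀ c, σ c = c ^ (p ^ a)) (f : F[X]) (hf : Irreducible f) (r : ℕ) (hr : r.Prime)
    (h1 : f ∣ X ^ r - 1) (h2 : f ∣ (f.map σ).comp (X ^ (r - 1))) (hdeg : 2 ≤ f.natDegree) :
    Odd f.natDegree ∧ r ∣ (p ^ a) ^ f.natDegree + 1 := by
  have hodd := galois_odd p a hF σ hσ f hf r hr.pos h1 h2
  refine ⟨hodd, ?_⟩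
  haveI : Fact (Irreducible f) := ⟨hf⟩
  haveI : Fact r.Prime := ⟨hr⟩
  have hfin : Module.finrank F (AdjoinRoot f) = f.natDegree := finrank_quotient_span_eq_natDegree
  have hdpos : 0 < f.natDegree := hf.natDegree_pos
  haveI : Module.Finite F (AdjoinRoot f) := Module.finite_of_finrank_pos (by rw [hfin]; exact hdpos)
  haveI : Finite (AdjoinRoot f) := Module.finite_of_finite F
  obtain ⟨k, hk⟩ : ∃ k, k = AdjoinRoot.root f := ⟨_, rfl⟩
  have hfk : aeval k f = 0 := by rw [hk, AdjoinRoot.aeval_eq, AdjoinRoot.mk_self]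
  have hkM : k ^ r = 1 := by
    obtain ⟨g, hg⟩ := h1
    have h3 := congrArg (aeval k) hg
    rw [map_mul, hfk, zero_mul, map_sub, map_pow, aeval_X, map_one] at h3
    exact sub_eq_zero.mp h3
  have hk0 : k ≠ 0 := by
    rintro rfl
    rw [zero_pow hr.ne_zero] at hkM
    exact zero_ne_one hkM
  have hkinv : k⁻¹ = k ^ (r - 1) := by
    apply inv_eq_of_mul_eq_one_right
    rw [← pow_succ', Nat.sub_add_cancel hr.pos, hkM]
  have hfk' : aeval k⁻¹ (f.map σ) = 0 := by
    obtain ⟨g, hg⟩ := h2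
    have h3 := congrArg (aeval k) hg
    rw [map_mul, hfk, zero_mul, aeval_comp, map_pow, aeval_X, ← hkinv] at h3
    exact h3
  have hK : ∀ x : AdjoinRoot f, x ^ ((p ^ a) ^ (2 * f.natDegree)) = x := by
    intro x
    have := Fintype.ofFinite (AdjoinRoot f)
    have h3 := FiniteField.pow_card x
    rwa [Fintype.card_eq_nat_card, Module.natCard_eq_pow_finrank (K := F), hfin,
      Nat.card_eq_fintype_card, hF, ← pow_mul] at h3
  obtain ⟨j, hjodd, hj⟩ := galois_core p a hF σ hσ f.natDegree hdpos hK k f hf hfk hfk'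
  have h3 := pow_q_odd_inv (p ^ a) k f.natDegree j hodd hjodd hj (hK k)
  have hk1 : k ≠ 1 := by
    intro h
    have h4 : AdjoinRoot.mk f (X - C 1) = 0 := by
      rw [map_sub, AdjoinRoot.mk_X, AdjoinRoot.mk_C, map_one, ← hk, h, sub_self]
    have h5 := AdjoinRoot.mk_eq_zero.mp h4
    have h6 := Polynomial.natDegree_le_of_dvd h5 (X_sub_C_ne_zero 1)
    rw [natDegree_X_sub_C] at h6
    omega
  have hord : orderOf k = r := orderOf_eq_prime hkM hk1
  rw [← hord]
  apply orderOf_dvd_of_pow_eq_one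
  rw [pow_succ, h3, inv_mul_cancel₀ hk0]

omit [Fintype F] in
/-- A unipotent map is trivial on an invariant subspace of dimension at most one. -/
theorem unip_one_dim {V : Type u} [AddCommGroup V] [Module F V]
    (A : Module.End F V) (hAp : A ^ p = 1) (W : Submodule F V) (hAW : ∀ v ∈ W, A v ∈ W)
    (hdim : Module.finrank F W ≤ 1) [FiniteDimensional F W] : ∀ v ∈ W, A v = v := by
  have hp : p.Prime := Fact.out
  obtain ⟨v₀, hv₀⟩ := finrank_le_one_iff.mp hdim
  obtain ⟨c₀, hc₀⟩ := hv₀ ⟨A v₀.1, hAW v₀.1 v₀.2⟩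
  have hc₀' : A v₀.1 = c₀ • v₀.1 := by
    have := congrArg Subtype.val hc₀
    simpa using this.symm
  intro v hv
  obtain ⟨c, hc⟩ := hv₀ ⟨v, hv⟩
  have hc' : v = c • v₀.1 := by
    have := congrArg Subtype.val hc
    simpa using this.symm
  by_cases h0 : v₀.1 = 0
  · rw [hc', h0, smul_zero, map_zero]
  · have h1 := pow_apply_eigen A c₀ v₀.1 hc₀' p
    rw [hAp, Module.End.one_apply] at h1
    have h2 : (c₀ ^ p - 1) • v₀.1 = 0 := by rw [sub_smul, one_smul, ← h1, sub_self]
    have h3 : c₀ ^ p = 1 := by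
      rcases smul_eq_zero.mp h2 with h | h
      · exact sub_eq_zero.mp h
      · exact absurd h h0
    have h4 : c₀ = 1 := eq_one_of_pow_char_pow p c₀ 1 (by rw [pow_one]; exact h3)
    rw [hc', map_smul, hc₀', h4, one_smul]

/-- **Core**: a unitary element of order `p` commuting with a unitary element `s ≠ 1` of prime
order `r`, `r` not dividing `|SU_{m-2}(q)|`, is trivial (in dimension at most `m`). -/
theorem core (ha : 1 ≤ a) (hF : Fintype.card F = (p ^ a) ^ 2) (σ : F →+* F)
    (hσ : ∀ c, σ c = c ^ (p ^ a)) (m : ℕ) (hm : 4 ≤ m) (r : ℕ) (hr : r.Prime) (hrp : r ≠ p)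
    (hR : ∀ i : ℕ, i + 3 ≤ m →
      ¬ r ∣ (if Even i then (p ^ a) ^ (i + 1) + 1 else (p ^ a) ^ (i + 1) - 1)) :
    ∀ (d : ℕ), d ≤ m → ∀ (V : Type u) [AddCommGroup V] [Module F V] [FiniteDimensional F V]
      (H : V → V → F), IsHerm σ H → (∀ v, (∀ w, H v w = 0) → v = 0) → Module.finrank F V = d →
      ∀ (s A : Module.End F V), UPres H s → UPres H A → Commute A s → s ^ r = 1 → s ≠ 1 →
        A ^ p = 1 → A = 1 := by
  classical
  have hp : p.Prime := Fact.out
  have hq2 : 2 ≤ p ^ a := SpecPSU.two_le_q p a ha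
  have hinv : IsInvol σ := isInvol_frob (p ^ a) hq2 hF σ hσ
  have hσσ := hinv.invol
  have hrq : ¬ r ∣ p ^ a :=
    fun h => hrp ((Nat.prime_dvd_prime_iff_eq hr hp).mp (hr.dvd_of_dvd_pow h))
  have hrq2 : ¬ r ∣ (p ^ a) ^ 2 - 1 := by
    have h1 := hR 1 (by omega)
    simpa using h1
  have hrF : (r : F) ≠ 0 := by
    intro h
    rw [CharP.cast_eq_zero_iff F p r] at h
    exact hrp ((Nat.prime_dvd_prime_iff_eq hp hr).mp h).symm
  have hcop : Nat.Coprime p r := (Nat.coprime_primes hp hr).mpr (Ne.symm hrp)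
  intro d
  induction d using Nat.strong_induction_on with
  | _ d ih =>
  intro hd V _ _ _ H hH hnd hdim s A hs hA hAs hsr hs1 hAp
  haveI : Nontrivial V := by
    by_contra h
    rw [not_nontrivial_iff_subsingleton] at h
    exact hs1 (LinearMap.ext fun x => Subsingleton.elim _ _)
  haveI := SpStruct.charP_end' (F := F) (V := V) p
  obtain ⟨T, hT⟩ : ∃ T : Module.End F V, T = A * s := ⟨_, rfl⟩
  have hTs : ∃ k, s = T ^ k := by
    obtain ⟨u, -, hu⟩ := Nat.exists_mul_mod_eq_one_of_coprime hcop hr.one_lt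
    have hpu : p * u = r * (p * u / r) + 1 := by
      have := Nat.div_add_mod (p * u) r
      rw [hu] at this
      exact this.symm
    refine ⟨p * u, ?_⟩
    rw [hT, hAs.mul_pow, pow_mul A, hAp, one_pow, one_mul, hpu, pow_succ, pow_mul, hsr, one_pow,
      one_mul]
  have hTA : ∃ k, A = T ^ k := by
    obtain ⟨v, -, hv⟩ := Nat.exists_mul_mod_eq_one_of_coprime hcop.symm hp.one_lt
    have hrv : r * v = p * (r * v / p) + 1 := by
      have := Nat.div_add_mod (r * v) p
      rw [hv] at this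
      exact this.symm
    refine ⟨r * v, ?_⟩
    rw [hT, hAs.mul_pow, pow_mul s, hsr, one_pow, mul_one, hrv, pow_succ, pow_mul, hAp, one_pow,
      one_mul]
  have hpwinv : ∀ (W : Submodule F V), (∀ v ∈ W, T v ∈ W) →
      ∀ (k : ℕ), ∀ v ∈ W, (T ^ k) v ∈ W := by
    intro W hW k
    induction k with
    | zero => intro v hv; simpa using hv
    | succ k ihk =>
      intro v hv
      rw [pow_succ, Module.End.mul_apply]
      exact ihk _ (hW v hv)
  have hinvs : ∀ (W : Submodule F V), (∀ v ∈ W, T v ∈ W) → ∀ v ∈ W, s v ∈ W := by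
    intro W hW v hv
    obtain ⟨k, hk⟩ := hTs
    rw [hk]
    exact hpwinv W hW k v hv
  have hinvA : ∀ (W : Submodule F V), (∀ v ∈ W, T v ∈ W) → ∀ v ∈ W, A v ∈ W := by
    intro W hW v hv
    obtain ⟨k, hk⟩ := hTA
    rw [hk]
    exact hpwinv W hW k v hv
  have hAsv : ∀ v, A (s v) = s (A v) := fun v => by
    have := congrArg (fun g : Module.End F V => g v) hAs.eq
    simpa [Module.End.mul_apply] using this
  suffices hmain : ∀ v, A v = v from LinearMap.ext hmain
  by_cases hdec : UOrthDec H T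
  · obtain ⟨V₁, V₂, hcompl, hV₁, hV₂, hT₁, hT₂, horth⟩ := hdec
    have hsum := Submodule.finrank_add_eq_of_isCompl hcompl
    rw [hdim] at hsum
    have hd₁ : 0 < Module.finrank F V₁ :=
      Nat.pos_of_ne_zero (fun h => hV₁ (Submodule.finrank_eq_zero.mp h))
    have hd₂ : 0 < Module.finrank F V₂ :=
      Nat.pos_of_ne_zero (fun h => hV₂ (Submodule.finrank_eq_zero.mp h))
    have horth' : ∀ x ∈ V₂, ∀ y ∈ V₁, H x y = 0 :=
      fun x hx y hy => by rw [hH.conj y x, horth y hy x hx, map_zero]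
    have key : ∀ (W W' : Submodule F V), IsCompl W W' → (∀ x ∈ W, ∀ y ∈ W', H x y = 0) →
        ∀ (hsW : ∀ v ∈ W, s v ∈ W) (hAW : ∀ v ∈ W, A v ∈ W), Module.finrank F W < d →
        (¬ ∀ v ∈ W, s v = v) → ∀ v ∈ W, A v = v := by
      intro W W' hc ho hsW hAW hdW hsne
      obtain ⟨H', hH'⟩ : ∃ H' : W → W → F, H' = fun x y => H x.1 y.1 := ⟨_, rfl⟩
      have hHerm : IsHerm σ H' := by
        rw [hH']
        exact ⟨fun x y z => hH.add_left _ _ _, fun c x y => hH.smul_left _ _ _,
          fun x y => hH.conj _ _⟩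
      have hnd' : ∀ v : W, (∀ w : W, H' v w = 0) → v = 0 := by
        intro v hv
        apply Subtype.ext
        apply hnd
        intro y
        have hy : y ∈ W ⊔ W' := by rw [hc.sup_eq_top]; exact Submodule.mem_top
        obtain ⟨y₁, hy₁, y₂, hy₂, rfl⟩ := Submodule.mem_sup.mp hy
        rw [hH.add_right, ho v v.2 y₂ hy₂, add_zero]
        have := hv ⟨y₁, hy₁⟩
        rw [hH'] at this
        exact this
      have hs' : UPres H' (s.restrict hsW) := by
        intro x y
        rw [hH']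
        simp only [LinearMap.restrict_apply]
        exact hs x y
      have hA' : UPres H' (A.restrict hAW) := by
        intro x y
        rw [hH']
        simp only [LinearMap.restrict_apply]
        exact hA x y
      have hcomm' : Commute (A.restrict hAW) (s.restrict hsW) := by
        apply LinearMap.ext
        intro x
        apply Subtype.ext
        simp only [Module.End.mul_apply, LinearMap.restrict_coe_apply]
        exact hAsv x.1
      have hs'r : (s.restrict hsW) ^ r = 1 := by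
        apply LinearMap.ext
        intro x
        apply Subtype.ext
        rw [Module.End.pow_restrict, LinearMap.restrict_apply]
        simp only [hsr]
        rfl
      have hA'p : (A.restrict hAW) ^ p = 1 := by
        apply LinearMap.ext
        intro x
        apply Subtype.ext
        rw [Module.End.pow_restrict, LinearMap.restrict_apply]
        simp only [hAp]
        rfl
      have hs'1 : s.restrict hsW ≠ 1 := by
        intro h
        apply hsne
        intro v hv
        have h1 := congrArg (fun f : Module.End F W => ((f ⟨v, hv⟩ : W) : V)) h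
        simpa using h1
      have h1 := ih (Module.finrank F W) hdW (by omega) W H' hHerm hnd' rfl (s.restrict hsW)
        (A.restrict hAW) hs' hA' hcomm' hs'r hs'1 hA'p
      intro v hv
      have h2 := congrArg (fun f : Module.End F W => ((f ⟨v, hv⟩ : W) : V)) h1
      simpa using h2
    have lag : ∀ (W W' : Submodule F V), IsCompl W W' → (∀ x ∈ W, ∀ y ∈ W', H x y = 0) →
        (∀ v ∈ W, s v ∈ W) → Module.finrank F W + 2 ≤ m → ∀ v ∈ W, s v = v := by
      intro W W' hc ho hsW hdW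
      exact trivial_on_summand (p ^ a) hq2 hF σ hσ H hH hnd (m - 1) s hs r hr hsr hrq
        (fun i hi => hR i (by omega)) W W' hc ho hsW (by omega)
    have hdecomp : ∀ y : V, ∃ y₁ ∈ V₁, ∃ y₂ ∈ V₂, y = y₁ + y₂ := by
      intro y
      have hy : y ∈ V₁ ⊔ V₂ := by rw [hcompl.sup_eq_top]; exact Submodule.mem_top
      obtain ⟨y₁, hy₁, y₂, hy₂, rfl⟩ := Submodule.mem_sup.mp hy
      exact ⟨y₁, hy₁, y₂, hy₂, rfl⟩
    by_cases hs₁ : ∀ v ∈ V₁, s v = v
    · have hs₂ : ¬ ∀ v ∈ V₂, s v = v := by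
        intro h
        apply hs1
        apply LinearMap.ext
        intro y
        obtain ⟨y₁, hy₁, y₂, hy₂, rfl⟩ := hdecomp y
        rw [map_add, hs₁ y₁ hy₁, h y₂ hy₂]
        rfl
      have hbig : m < Module.finrank F V₂ + 2 := by
        by_contra hle
        exact hs₂ (lag V₂ V₁ hcompl.symm horth' (hinvs V₂ hT₂) (by omega))
      have hA₂ := key V₂ V₁ hcompl.symm horth' (hinvs V₂ hT₂) (hinvA V₂ hT₂) (by omega) hs₂
      have hA₁ := unip_one_dim p A hAp V₁ (hinvA V₁ hT₁) (by omega)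
      intro y
      obtain ⟨y₁, hy₁, y₂, hy₂, rfl⟩ := hdecomp y
      rw [map_add, hA₁ y₁ hy₁, hA₂ y₂ hy₂]
    · have hbig : m < Module.finrank F V₁ + 2 := by
        by_contra hle
        exact hs₁ (lag V₁ V₂ hcompl horth (hinvs V₁ hT₁) (by omega))
      have hA₁ := key V₁ V₂ hcompl horth (hinvs V₁ hT₁) (hinvA V₁ hT₁) (by omega) hs₁
      have hA₂ := unip_one_dim p A hAp V₂ (hinvA V₂ hT₂) (by omega)
      intro y
      obtain ⟨y₁, hy₁, y₂, hy₂, rfl⟩ := hdecomp y
      rw [map_add, hA₁ y₁ hy₁, hA₂ y₂ hy₂]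
  · have hss : s.IsSemisimple := by
      have hsep : (X ^ r - C (1 : F) : F[X]).Separable := separable_X_pow_sub_C 1 hrF one_ne_zero
      apply Module.End.isSemisimple_of_squarefree_aeval_eq_zero hsep.squarefree
      rw [map_sub, map_pow, aeval_X, aeval_C, hsr, map_one, sub_self]
    have hsT : Commute s T := by
      rw [hT]
      exact Commute.mul_right hAs.symm (Commute.refl s)
    obtain ⟨f, hf, hfM, hcase⟩ := ustruct hσσ hH hnd T hdec s hsT hs r hr.pos hsr hss
    obtain ⟨N, hN⟩ : ∃ N : Module.End F V, N = A - 1 := ⟨_, rfl⟩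
    have hNnil : IsNilpotent N :=
      ⟨p, by rw [hN, sub_pow_char_of_commute p (Commute.one_right A), hAp, one_pow, sub_self]⟩
    have hNs : Commute N s := by
      rw [hN]
      exact hAs.sub_left (Commute.one_left s)
    suffices hN0 : ∀ v, N v = 0 by
      intro v
      have h1 := hN0 v
      rw [hN, LinearMap.sub_apply, Module.End.one_apply] at h1
      exact sub_eq_zero.mp h1
    have hfC : f ∣ X ^ r - C (1 : F) := by
      rw [map_one]
      exact hfM
    have hdpos : 0 < f.natDegree := hf.natDegree_pos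
    have heig : ∀ (S : Module.End F V) (α : F) (w : V), w ≠ 0 → S ^ r = 1 → S w = α • w →
        α = 1 := by
      intro S α w hw0 hSr hSw
      have h1 := pow_apply_eigen S α w hSw r
      rw [hSr, Module.End.one_apply] at h1
      have h2 : (α ^ r - 1) • w = 0 := by rw [sub_smul, one_smul, ← h1, sub_self]
      have h3 : α ^ r = 1 := by
        rcases smul_eq_zero.mp h2 with h | h
        · exact sub_eq_zero.mp h
        · exact absurd h hw0
      have hα0 : α ≠ 0 := by
        rintro rfl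
        rw [zero_pow hr.ne_zero] at h3
        exact zero_ne_one h3
      have h4 : α ^ ((p ^ a) ^ 2 - 1) = 1 := by
        rw [← hF]
        exact FiniteField.pow_card_sub_one_eq_one α hα0
      have h5 : α ^ Nat.gcd r ((p ^ a) ^ 2 - 1) = 1 := pow_gcd_eq_one.mpr ⟨h3, h4⟩
      rw [((Nat.Prime.coprime_iff_not_dvd hr).mpr hrq2).gcd_eq_one, pow_one] at h5
      exact h5
    rcases hcase with ⟨h0, h2⟩ | ⟨W, W', hcompl, hsW, hsW', hsW'inv, hfW, hfW', hdimeq⟩
    · have hdeg2 : 2 ≤ f.natDegree := by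
        by_contra hlt
        have hdeg1 : f.natDegree = 1 := by omega
        obtain ⟨α, hα⟩ := eigen_of_deg_one s f hdeg1
        apply hs1
        apply LinearMap.ext
        intro w
        by_cases hw0 : w = 0
        · rw [hw0, map_zero, map_zero]
        · have hsw := hα w (by rw [h0]; rfl)
          rw [hsw, heig s α w hw0 hsr hsw, one_smul]
          rfl
      obtain ⟨hodd, hdvd⟩ := selfdual_dvd p a hF σ hσ f hf r hr hfM h2 hdeg2
      have hbig : m < f.natDegree + 2 := by
        by_contra hle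
        have h3 := hR (f.natDegree - 1) (by omega)
        have h4 : Even (f.natDegree - 1) := by
          rcases hodd with ⟨c, hc⟩
          exact ⟨c, by omega⟩
        rw [if_pos h4, Nat.sub_add_cancel (by omega)] at h3
        exact h3 hdvd
      obtain ⟨hdiv, hnil⟩ := SpStruct.kmod s f hf h0
      have hfin : Module.finrank F V ≤ 1 * f.natDegree := by
        rw [hdim, one_mul]
        obtain ⟨c, hc⟩ := hdiv
        rw [hdim] at hc
        have hc1 : c ≤ 1 := by
          by_contra hc2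
          have : f.natDegree * 2 ≤ f.natDegree * c := Nat.mul_le_mul_left _ (by omega)
          omega
        calc d = f.natDegree * c := hc
          _ ≤ f.natDegree * 1 := Nat.mul_le_mul_left _ hc1
          _ = f.natDegree := mul_one _
      have h5 := hnil N hNs hNnil 1 hfin
      rw [pow_one] at h5
      intro v
      rw [h5]
      rfl
    · have hsum := Submodule.finrank_add_eq_of_isCompl hcompl
      rw [hdim] at hsum
      have hVpos : 0 < Module.finrank F V := Module.finrank_pos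
      rw [hdim] at hVpos
      have hdeg2 : 2 ≤ f.natDegree := by
        by_contra hlt
        have hdeg1 : f.natDegree = 1 := by omega
        obtain ⟨α, hα⟩ := eigen_of_deg_one s f hdeg1
        have hdeg1' : (f.map σ).natDegree = 1 := by rw [Polynomial.natDegree_map]; exact hdeg1
        obtain ⟨α', hα'⟩ := eigen_of_deg_one (s ^ (r - 1)) (f.map σ) hdeg1'
        have hsinvr : (s ^ (r - 1)) ^ r = 1 := by rw [← pow_mul, mul_comm, pow_mul, hsr, one_pow]
        apply hs1
        apply LinearMap.ext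
        intro y
        have hy : y ∈ W ⊔ W' := by rw [hcompl.sup_eq_top]; exact Submodule.mem_top
        obtain ⟨y₁, hy₁, y₂, hy₂, rfl⟩ := Submodule.mem_sup.mp hy
        have e1 : s y₁ = y₁ := by
          by_cases hw0 : y₁ = 0
          · rw [hw0, map_zero]
          · have hsw := hα y₁ (hfW y₁ hy₁)
            rw [hsw, heig s α y₁ hw0 hsr hsw, one_smul]
        have e2 : s y₂ = y₂ := by
          by_cases hw0 : y₂ = 0
          · rw [hw0, map_zero]
          · have hsw := hα' y₂ (hfW' y₂ hy₂)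
            have h3 : (s ^ (r - 1)) y₂ = y₂ := by
              rw [hsw, heig (s ^ (r - 1)) α' y₂ hw0 hsinvr hsw, one_smul]
            have h4 : s ((s ^ (r - 1)) y₂) = y₂ := by
              rw [← Module.End.mul_apply, ← pow_succ', Nat.sub_add_cancel hr.pos, hsr]
              rfl
            rw [h3] at h4
            exact h4
        rw [map_add, e1, e2]
        rfl
      have hdvd := dvd_of_irreducible r hr (1 : F) one_ne_zero f hf hfC hdeg2
      rw [hF, ← pow_mul] at hdvd
      have hbig : m < 2 * f.natDegree + 2 := by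
        by_contra hle
        have h3 := hR (2 * f.natDegree - 1) (by omega)
        have h4 : ¬ Even (2 * f.natDegree - 1) := by
          rw [Nat.not_even_iff_odd, Nat.odd_iff]
          omega
        rw [if_neg h4, Nat.sub_add_cancel (by omega)] at h3
        exact h3 hdvd
      obtain ⟨hdivW, hnilW⟩ := SpStruct.kmod_sub s f hf W hsW hfW
      have hδ : Module.finrank F W = f.natDegree := by
        obtain ⟨c, hc⟩ := hdivW
        have hc1 : c = 1 := by
          rcases Nat.lt_or_ge c 2 with hc2 | hc2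
          · rcases Nat.eq_zero_or_pos c with hc0 | hc0
            · rw [hc0, mul_zero] at hc
              omega
            · omega
          · have : f.natDegree * 2 ≤ f.natDegree * c := Nat.mul_le_mul_left _ hc2
            omega
        rw [hc, hc1, mul_one]
      have hmeet : ∀ w : V, aeval s f w = 0 → aeval (s ^ (r - 1)) (f.map σ) w = 0 → w = 0 := by
        intro w hw1 hw2
        by_contra hw0
        have h3 : f ∣ (f.map σ).comp (X ^ (r - 1)) := by
          apply OrdQm.dvd_of_kill s f hf w hw0 hw1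
          rw [aeval_comp, map_pow, aeval_X]
          exact hw2
        obtain ⟨hodd, hdvd'⟩ := selfdual_dvd p a hF σ hσ f hf r hr hfM h3 hdeg2
        have h4 := hR (f.natDegree - 1) (by omega)
        have h5 : Even (f.natDegree - 1) := by
          rcases hodd with ⟨c, hc⟩
          exact ⟨c, by omega⟩
        rw [if_pos h5, Nat.sub_add_cancel (by omega)] at h4
        exact h4 hdvd'
      have hNW : ∀ w ∈ W, N w ∈ W := by
        intro w hw
        have h3 : aeval s f (N w) = 0 :=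
          LinearMap.mem_ker.mp (ker_invariant s f N hNs w (LinearMap.mem_ker.mpr (hfW w hw)))
        have hy : N w ∈ W ⊔ W' := by rw [hcompl.sup_eq_top]; exact Submodule.mem_top
        obtain ⟨y₁, hy₁, y₂, hy₂, hsum'⟩ := Submodule.mem_sup.mp hy
        have h4 : y₂ = 0 := by
          apply hmeet
          · have h5 : y₂ = N w - y₁ := by rw [← hsum']; simp
            rw [h5, map_sub, h3, hfW y₁ hy₁, sub_zero]
          · exact hfW' y₂ hy₂
        rw [← hsum', h4, add_zero]
        exact hy₁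
      have hNs' : Commute N (s ^ (r - 1)) := hNs.pow_right _
      have hNW' : ∀ w ∈ W', N w ∈ W' := by
        intro w hw
        have h3 : aeval (s ^ (r - 1)) (f.map σ) (N w) = 0 :=
          LinearMap.mem_ker.mp (ker_invariant (s ^ (r - 1)) (f.map σ) N hNs' w
            (LinearMap.mem_ker.mpr (hfW' w hw)))
        have hy : N w ∈ W ⊔ W' := by rw [hcompl.sup_eq_top]; exact Submodule.mem_top
        obtain ⟨y₁, hy₁, y₂, hy₂, hsum'⟩ := Submodule.mem_sup.mp hy
        have h4 : y₁ = 0 := by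
          apply hmeet
          · exact hfW y₁ hy₁
          · have h5 : y₁ = N w - y₂ := by rw [← hsum']; simp
            rw [h5, map_sub, h3, hfW' y₂ hy₂, sub_zero]
        rw [← hsum', h4, zero_add]
        exact hy₂
      have hN1 : ∀ w ∈ W, N w = 0 := by
        intro w hw
        have h3 := hnilW N hNs hNnil hNW 1 (by rw [hδ, one_mul]) w hw
        rwa [pow_one] at h3
      obtain ⟨hdivW', hnilW'⟩ := SpStruct.kmod_sub (s ^ (r - 1)) (f.map σ)
        (irreducible_map σ hσσ f hf) W' hsW'inv hfW'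
      have hN2 : ∀ w ∈ W', N w = 0 := by
        intro w hw
        have h3 := hnilW' N hNs' hNnil hNW' 1
          (by rw [Polynomial.natDegree_map, ← hdimeq, hδ, one_mul]) w hw
        rwa [pow_one] at h3
      intro y
      have hy : y ∈ W ⊔ W' := by rw [hcompl.sup_eq_top]; exact Submodule.mem_top
      obtain ⟨y₁, hy₁, y₂, hy₂, rfl⟩ := Submodule.mem_sup.mp hy
      rw [map_add, hN1 y₁ hy₁, hN2 y₂ hy₂, add_zero]

/-- Arithmetic consequences of `r ∤ |SU_{m-2}(q)|`. -/
theorem not_dvd_facts (ha : 1 ≤ a) (hF : Fintype.card F = (p ^ a) ^ 2) (m : ℕ) (hm : 4 ≤ m)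
    (r : ℕ) (hr : r.Prime) (hnd : ¬ r ∣ Nat.card (Cfsg.SU (m - 2) F (p ^ a))) :
    r ≠ p ∧ ∀ i : ℕ, i + 3 ≤ m →
      ¬ r ∣ (if Even i then (p ^ a) ^ (i + 1) + 1 else (p ^ a) ^ (i + 1) - 1) := by
  have hp : p.Prime := Fact.out
  have hq2 : 2 ≤ p ^ a := SpecPSU.two_le_q p a ha
  obtain ⟨n', hn'⟩ : ∃ n', m - 2 = n' + 1 := ⟨m - 3, by omega⟩
  obtain ⟨c, hc⟩ : ∃ c, c = Nat.card (Cfsg.SU (m - 2) F (p ^ a)) := ⟨_, rfl⟩
  rw [← hc] at hnd
  have h1 := Cfsg.Agent.Helper5.card_SU_mul (n := m - 2) hF (by omega)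
  rw [← hc, Cfsg.Agent.Helper5.card_GU hF (m - 2)] at h1
  obtain ⟨E, hE⟩ : ∃ E, E = (m - 2) * (m - 2 - 1) / 2 := ⟨_, rfl⟩
  have hE1 : 1 ≤ E := by
    rw [hE]
    have : 2 * 1 ≤ (m - 2) * (m - 2 - 1) := Nat.mul_le_mul (by omega) (by omega)
    omega
  rw [← hE] at h1
  obtain ⟨f, hf⟩ : ∃ f : ℕ → ℕ,
      f = fun i => if Even i then (p ^ a) ^ (i + 1) + 1 else (p ^ a) ^ (i + 1) - 1 := ⟨_, rfl⟩
  have h1' : (p ^ a + 1) * c = (p ^ a) ^ E * ∏ i ∈ Finset.range (m - 2), f i := by
    rw [hf]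
    exact h1
  rw [hn', Finset.prod_range_succ'] at h1'
  have hf0 : f 0 = p ^ a + 1 := by
    rw [hf]
    simp
  rw [hf0] at h1'
  have h2 : c = (p ^ a) ^ E * ∏ k ∈ Finset.range n', f (k + 1) := by
    have h3 : (p ^ a + 1) * c =
        (p ^ a + 1) * ((p ^ a) ^ E * ∏ k ∈ Finset.range n', f (k + 1)) := by
      rw [h1']
      ring
    exact Nat.eq_of_mul_eq_mul_left (by omega) h3
  have hterm : ∀ i, 1 ≤ i → i + 3 ≤ m → f i ∣ c := by
    intro i hi1 hi
    rw [h2]
    apply Dvd.dvd.mul_left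
    have h4 : f i = f ((i - 1) + 1) := by rw [Nat.sub_add_cancel hi1]
    rw [h4]
    exact Finset.dvd_prod_of_mem (fun k => f (k + 1)) (Finset.mem_range.mpr (by omega))
  refine ⟨?_, ?_⟩
  · rintro rfl
    apply hnd
    rw [h2]
    apply Dvd.dvd.mul_right
    exact dvd_pow (dvd_pow_self r (by omega)) (by omega)
  · intro i hi hdvd
    have hfi : f i = if Even i then (p ^ a) ^ (i + 1) + 1 else (p ^ a) ^ (i + 1) - 1 := by
      rw [hf]
    rw [← hfi] at hdvd
    rcases Nat.eq_zero_or_pos i with h0 | h0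
    · rw [h0, hf0] at hdvd
      apply hnd
      have h5 := hterm 1 le_rfl (by omega)
      have h6 : f 1 = (p ^ a) ^ 2 - 1 := by
        rw [hf]
        simp
      rw [h6, sq_sub_one (p ^ a) (by omega)] at h5
      exact (hdvd.mul_right _).trans h5
    · exact hnd (hdvd.trans (hterm i h0 hi))

omit [Fintype F] [CharP F p] [Fact p.Prime] in
/-- Extracting roots in the group of `N`-th roots of unity. -/
theorem exists_root_of_coprime (N : ℕ) (hN : 1 < N) (e : ℕ) (hcop : Nat.Coprime e N) (c : F)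
    (hc : c ^ N = 1) : ∃ c₀ : F, c₀ ^ e = c ∧ c₀ ^ N = 1 := by
  obtain ⟨s', -, hs'⟩ := Nat.exists_mul_mod_eq_one_of_coprime hcop hN
  have hrs : e * s' = N * (e * s' / N) + 1 := by
    have := Nat.div_add_mod (e * s') N
    rw [hs'] at this
    exact this.symm
  refine ⟨c ^ s', ?_, ?_⟩
  · rw [← pow_mul, mul_comm s' e, hrs, pow_succ, pow_mul, hc, one_pow, one_mul]
  · rw [← pow_mul, mul_comm, pow_mul, hc, one_pow]

omit [Fintype F] [CharP F p] [Fact p.Prime] in
theorem scalar_comm_pow_right {R : Type*} [Ring R] [Algebra F R] (x y : R) (γ : F)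
    (h : x * y = γ • (y * x)) (k : ℕ) : x * y ^ k = γ ^ k • (y ^ k * x) := by
  induction k with
  | zero => simp
  | succ k ih =>
    rw [pow_succ, ← mul_assoc, ih, smul_mul_assoc, mul_assoc, h, mul_smul_comm, smul_smul,
      ← mul_assoc, ← pow_succ, ← pow_succ]

omit [Fintype F] [CharP F p] [Fact p.Prime] in
theorem scalar_comm_pow_left {R : Type*} [Ring R] [Algebra F R] (x y : R) (γ : F)
    (h : x * y = γ • (y * x)) (k : ℕ) : x ^ k * y = γ ^ k • (y * x ^ k) := by
  induction k with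
  | zero => simp
  | succ k ih =>
    rw [pow_succ, mul_assoc, h, mul_smul_comm, ← mul_assoc, ih, smul_mul_assoc, smul_smul,
      mul_assoc, ← pow_succ, ← pow_succ']

/-- **Main**: commuting `x, y ∈ PSU_m(q)`, `x` of order `p`: every prime divisor of `|y|` divides
`|SU_{m-2}(q)|`. -/
theorem main (ha : 1 ≤ a) (hF : Fintype.card F = (p ^ a) ^ 2) (m : ℕ) (hm : 4 ≤ m)
    (x y : Cfsg.PSU m F (p ^ a)) (hx : orderOf x = p) (hxy : Commute x y) (r : ℕ) (hr : r.Prime)
    (hry : r ∣ orderOf y) : r ∣ Nat.card (Cfsg.SU (m - 2) F (p ^ a)) := by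
  classical
  by_contra hnd
  obtain ⟨hrp, hR⟩ := not_dvd_facts p a ha hF m hm r hr hnd
  have hp : p.Prime := Fact.out
  have hq2 : 2 ≤ p ^ a := SpecPSU.two_le_q p a ha
  obtain ⟨σ, hσ⟩ : ∃ σ : F →+* F, ∀ c, σ c = c ^ (p ^ a) :=
    ⟨iterateFrobenius F p a, fun c => by rw [iterateFrobenius_def]⟩
  have hinv : IsInvol σ := isInvol_frob (p ^ a) hq2 hF σ hσ
  have hσσ := hinv.invol
  have hH := isHerm_hermStd σ hσσ m
  have hy0 : orderOf y ≠ 0 := (orderOf_pos y).ne'
  obtain ⟨y', hy'⟩ : ∃ y', y' = y ^ (orderOf y / r) := ⟨_, rfl⟩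
  have hy'ord : orderOf y' = r := by
    rw [hy']
    exact orderOf_pow_orderOf_div hy0 hry
  have hxy' : Commute x y' := by
    rw [hy']
    exact hxy.pow_right _
  obtain ⟨A, hA⟩ := QuotientGroup.mk_surjective x
  obtain ⟨B, hB⟩ := QuotientGroup.mk_surjective y'
  obtain ⟨TA, hTA⟩ : ∃ T : Module.End F (Fin m → F), T = toEnd A.1 := ⟨_, rfl⟩
  obtain ⟨TB, hTB⟩ : ∃ T : Module.End F (Fin m → F), T = toEnd B.1 := ⟨_, rfl⟩
  have hTAU : UPres (hermStd σ m) TA := by rw [hTA]; exact upres_toEnd σ (p ^ a) hσ A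
  have hTBU : UPres (hermStd σ m) TB := by rw [hTB]; exact upres_toEnd σ (p ^ a) hσ B
  have hxp : x ^ p = 1 := by
    have := pow_orderOf_eq_one x
    rwa [hx] at this
  have hyr : y' ^ r = 1 := by
    have := pow_orderOf_eq_one y'
    rwa [hy'ord] at this
  obtain ⟨α, hα⟩ : ∃ α : F, TA ^ p = α • (1 : Module.End F (Fin m → F)) := by
    rw [hTA]
    apply (mk_pow_eq_one_iff (p ^ a) hq2 hF (by omega) A p).mp
    rw [hA]
    exact hxp
  obtain ⟨β, hβ⟩ : ∃ β : F, TB ^ r = β • (1 : Module.End F (Fin m → F)) := by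
    rw [hTB]
    apply (mk_pow_eq_one_iff (p ^ a) hq2 hF (by omega) B r).mp
    rw [hB]
    exact hyr
  have hTA1 : ¬ ∃ c : F, TA = c • (1 : Module.End F (Fin m → F)) := by
    rintro ⟨c, hc⟩
    have h1 : (QuotientGroup.mk A : Cfsg.PSU m F (p ^ a)) ^ 1 = 1 :=
      (mk_pow_eq_one_iff (p ^ a) hq2 hF (by omega) A 1).mpr
        ⟨c, by rw [pow_one, ← hTA]; exact hc⟩
    rw [pow_one, hA] at h1
    rw [h1, orderOf_one] at hx
    exact hp.one_lt.ne hx
  have hTB1 : ¬ ∃ c : F, TB = c • (1 : Module.End F (Fin m → F)) := by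
    rintro ⟨c, hc⟩
    have h1 : (QuotientGroup.mk B : Cfsg.PSU m F (p ^ a)) ^ 1 = 1 :=
      (mk_pow_eq_one_iff (p ^ a) hq2 hF (by omega) B 1).mpr
        ⟨c, by rw [pow_one, ← hTB]; exact hc⟩
    rw [pow_one, hB] at h1
    rw [h1, orderOf_one] at hy'ord
    exact hr.one_lt.ne hy'ord
  obtain ⟨γ, hγ⟩ : ∃ γ : F, TA * TB = γ • (TB * TA) := by
    have h1 : (QuotientGroup.mk ((B * A)⁻¹ * (A * B)) : Cfsg.PSU m F (p ^ a)) ^ 1 = 1 := by
      rw [pow_one, QuotientGroup.mk_mul, QuotientGroup.mk_inv, QuotientGroup.mk_mul,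
        QuotientGroup.mk_mul, hB, hA, hxy'.eq]
      exact inv_mul_cancel _
    obtain ⟨c, hc⟩ := (mk_pow_eq_one_iff (p ^ a) hq2 hF (by omega) ((B * A)⁻¹ * (A * B)) 1).mp h1
    rw [pow_one] at hc
    refine ⟨c, ?_⟩
    have h3 : toEnd (A * B).1 = toEnd (B * A).1 * toEnd ((B * A)⁻¹ * (A * B)).1 := by
      rw [← toEnd_coe_mul, mul_inv_cancel_left]
    rw [hc, toEnd_coe_mul, toEnd_coe_mul, ← hTA, ← hTB] at h3
    rw [h3, mul_smul_comm, mul_one]
  have hscal : ∀ (T : Module.End F (Fin m → F)) (c : F), UPres (hermStd σ m) T →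
      T = c • (1 : Module.End F (Fin m → F)) → c ^ (p ^ a + 1) = 1 := by
    intro T c hTU hT
    have h1 := hTU (Pi.single ⟨0, by omega⟩ 1) (Pi.single ⟨0, by omega⟩ 1)
    rw [hT] at h1
    simp only [LinearMap.smul_apply, Module.End.one_apply] at h1
    rw [hH.smul_left, hH.smul_right, hσ] at h1
    have h2 : hermStd σ m (Pi.single ⟨0, by omega⟩ 1) (Pi.single ⟨0, by omega⟩ 1) = 1 := by
      simp [hermStd, Pi.single_apply, apply_ite σ]
    rw [h2, mul_one, mul_comm] at h1
    rw [pow_succ]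
    exact h1
  have hone : ∀ c : F, (1 : Module.End F (Fin m → F)) = c • (1 : Module.End F (Fin m → F)) →
      c = 1 := by
    intro c hc
    have h1 := congrArg (fun f : Module.End F (Fin m → F) =>
      f (Pi.single ⟨0, by omega⟩ 1) ⟨0, by omega⟩) hc
    simp only [LinearMap.smul_apply, Module.End.one_apply, Pi.smul_apply, Pi.single_eq_same,
      smul_eq_mul, mul_one] at h1
    exact h1.symm
  have hαq := hscal (TA ^ p) α (hTAU.pow p) hα
  have hβq := hscal (TB ^ r) β (hTBU.pow r) hβ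
  have hpq1 : Nat.Coprime p (p ^ a + 1) := by
    rw [Nat.Prime.coprime_iff_not_dvd hp]
    intro h
    have h1 : p ∣ p ^ a := dvd_pow_self p (by omega)
    exact hp.one_lt.ne' (Nat.dvd_one.mp ((Nat.dvd_add_right h1).mp h))
  have hrq1 : Nat.Coprime r (p ^ a + 1) := by
    rw [Nat.Prime.coprime_iff_not_dvd hr]
    have h1 := hR 0 (by omega)
    simpa using h1
  obtain ⟨a₀, ha₀, ha₀q⟩ := exists_root_of_coprime (p ^ a + 1) (by omega) p hpq1 α hαq
  obtain ⟨b₀, hb₀, hb₀q⟩ := exists_root_of_coprime (p ^ a + 1) (by omega) r hrq1 β hβq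
  have ha₀0 : a₀ ≠ 0 := by
    rintro rfl
    rw [zero_pow (by omega)] at ha₀q
    exact zero_ne_one ha₀q
  have hb₀0 : b₀ ≠ 0 := by
    rintro rfl
    rw [zero_pow (by omega)] at hb₀q
    exact zero_ne_one hb₀q
  obtain ⟨A₁, hA₁⟩ : ∃ A₁ : Module.End F (Fin m → F), A₁ = a₀⁻¹ • TA := ⟨_, rfl⟩
  obtain ⟨s, hs⟩ : ∃ s : Module.End F (Fin m → F), s = b₀⁻¹ • TB := ⟨_, rfl⟩
  have hA₁U : UPres (hermStd σ m) A₁ := by
    rw [hA₁]
    apply UPres.smul hH hTAU a₀⁻¹
    rw [hσ, inv_pow, ← mul_inv, ← pow_succ', ha₀q, inv_one]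
  have hsU : UPres (hermStd σ m) s := by
    rw [hs]
    apply UPres.smul hH hTBU b₀⁻¹
    rw [hσ, inv_pow, ← mul_inv, ← pow_succ', hb₀q, inv_one]
  have hA₁p : A₁ ^ p = 1 := by
    rw [hA₁, _root_.smul_pow, hα, smul_smul, inv_pow, ha₀, inv_mul_cancel₀, one_smul]
    rw [← ha₀]
    exact pow_ne_zero _ ha₀0
  have hsr : s ^ r = 1 := by
    rw [hs, _root_.smul_pow, hβ, smul_smul, inv_pow, hb₀, inv_mul_cancel₀, one_smul]
    rw [← hb₀]
    exact pow_ne_zero _ hb₀0
  have hA₁1 : A₁ ≠ 1 := by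
    intro h
    apply hTA1
    refine ⟨a₀, ?_⟩
    rw [hA₁] at h
    have h2 := congrArg (fun f : Module.End F (Fin m → F) => a₀ • f) h
    simp only [smul_smul, mul_inv_cancel₀ ha₀0, one_smul] at h2
    exact h2
  have hs1 : s ≠ 1 := by
    intro h
    apply hTB1
    refine ⟨b₀, ?_⟩
    rw [hs] at h
    have h2 := congrArg (fun f : Module.End F (Fin m → F) => b₀ • f) h
    simp only [smul_smul, mul_inv_cancel₀ hb₀0, one_smul] at h2
    exact h2
  have hcomm : A₁ * s = γ • (s * A₁) := by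
    rw [hA₁, hs, smul_mul_assoc, mul_smul_comm, hγ, smul_mul_assoc, mul_smul_comm, smul_smul,
      smul_smul, smul_smul, smul_smul]
    congr 1
    ring
  have hγr : γ ^ r = 1 := by
    have h1 := scalar_comm_pow_right A₁ s γ hcomm r
    rw [hsr, mul_one, one_mul] at h1
    have h2 := congrArg (fun f : Module.End F (Fin m → F) => f * A₁ ^ (p - 1)) h1
    simp only [smul_mul_assoc] at h2
    rw [← pow_succ', Nat.sub_add_cancel hp.pos, hA₁p] at h2
    exact hone _ h2
  have hγp : γ ^ p = 1 := by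
    have h1 := scalar_comm_pow_left A₁ s γ hcomm p
    rw [hA₁p, mul_one, one_mul] at h1
    have h2 := congrArg (fun f : Module.End F (Fin m → F) => f * s ^ (r - 1)) h1
    simp only [smul_mul_assoc] at h2
    rw [← pow_succ', Nat.sub_add_cancel hr.pos, hsr] at h2
    exact hone _ h2
  have hγ1 : γ = 1 := by
    have h5 : γ ^ Nat.gcd r p = 1 := pow_gcd_eq_one.mpr ⟨hγr, hγp⟩
    rw [((Nat.coprime_primes hr hp).mpr hrp).gcd_eq_one, pow_one] at h5
    exact h5
  have hcomm' : Commute A₁ s := by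
    rw [hγ1, one_smul] at hcomm
    exact hcomm
  exact hA₁1 (core p a ha hF σ hσ m hm r hr hrp hR m le_rfl (Fin m → F) (hermStd σ m) hH
    (hermStd_nondeg σ m) (Module.finrank_fin_fun F) s A₁ hsU hA₁U hcomm' hsr hs1 hA₁p)

end Cfsg.Agent.Helper42.UCommP
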